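import Cfsg.Agent.H20.Pw0

/-! Pieces `P5`, `P6` of S5767 (overgroups of product action wreath products): `p5`, `p6`. -/

set_option autoImplicit false
set_option linter.unusedSectionVars false

namespace H3.Pw5
open Equiv Function H20.Pw

theorem ai {X : Type} (x : Perm X) (f : X) : x (x⁻¹ f) = f := by simp
theorem ia {X : Type} (x : Perm X) (f : X) : x⁻¹ (x f) = f := by simp

section
variable {U : Type} [Fintype U] [DecidableEq U]

theorem ex_not (s : Finset U) (h : s.card < Fintype.card U) : ∃ x, x ∉ s := by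
  by_contra! c
  have := Finset.card_le_card (show Finset.univ ⊆ s from fun x _ => c x)
  rw [Finset.card_univ] at this
  omega

theorem ex4 (h : 5 ≤ Fintype.card U) (a b c d : U) : ∃ x, x ≠ a ∧ x ≠ b ∧ x ≠ c ∧ x ≠ d := by
  obtain ⟨x, hx⟩ := ex_not ({a, b, c, d} : Finset U) (Finset.card_le_four.trans_lt (by omega))
  exact ⟨x, by simpa [not_or] using hx⟩

theorem sw2 {a b c d : U} (h1 : a ≠ b) (h2 : c ≠ d) : swap a b * swap c d ∈ alternatingGroup U := by
  simp [Perm.mem_alternatingGroup, Perm.sign_swap h1, Perm.sign_swap h2]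

theorem cyc {d a b : U} (h1 : a ≠ d) (h2 : b ≠ d) (h3 : a ≠ b) : ∃ σ ∈ alternatingGroup U,
    σ d = a ∧ σ a = b ∧ σ b = d ∧ ∀ u, u ≠ d → u ≠ a → u ≠ b → σ u = u :=
  ⟨swap d b * swap d a, sw2 h2.symm h1.symm, by simp [swap_apply_of_ne_of_ne h1 h3],
    by simp, by simp [swap_apply_of_ne_of_ne h2 h3.symm],
    fun u a b c => by simp [swap_apply_of_ne_of_ne a b, swap_apply_of_ne_of_ne a c]⟩

end

variable {ι U : Type} [Fintype ι] [DecidableEq ι] [Fintype U] [DecidableEq U]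
  {H : Subgroup (Perm (ι → U))} {i : ι} {a b c : U}

/-- slice-preserving elements supported on three slices -/
def Gm (H : Subgroup (Perm (ι → U))) (i : ι) (a b c : U) : Subgroup (Perm (ι → U)) where
  carrier := {z | z ∈ H ∧ (∀ f, z f i = f i) ∧ ∀ f, f i ≠ a → f i ≠ b → f i ≠ c → z f = f}
  one_mem' := ⟨one_mem _, fun _ => rfl, fun _ _ _ _ => rfl⟩
  mul_mem' := fun {x y} hx hy => ⟨mul_mem hx.1 hy.1, fun f => by rw [Perm.mul_apply, hx.2.1, hy.2.1],
    fun f h1 h2 h3 => by rw [Perm.mul_apply, hy.2.2 f h1 h2 h3, hx.2.2 f h1 h2 h3]⟩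
  inv_mem' := fun {x} hx => ⟨inv_mem hx.1, fun f => by
    have := hx.2.1 (x⁻¹ f)
    rw [ai] at this
    exact this.symm, fun f h1 h2 h3 => by rw [Perm.inv_eq_iff_eq, hx.2.2 f h1 h2 h3]⟩

theorem inv_pres {x : Perm (ι → U)} (h : ∀ f, x f i = f i) (f : ι → U) : x⁻¹ f i = f i := by
  have := h (x⁻¹ f)
  rw [ai] at this
  exact this.symm

theorem conj_Gm {x y : Perm (ι → U)} (hx : x ∈ H) (h : ∀ f, x f i = f i) (hy : y ∈ Gm H i a b c) :
    x * y * x⁻¹ ∈ Gm H i a b c :=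
  ⟨mul_mem (mul_mem hx hy.1) (inv_mem hx), fun f => by
    rw [Perm.mul_apply, Perm.mul_apply, h, hy.2.1, inv_pres h], fun f h1 h2 h3 => by
    rw [Perm.mul_apply, Perm.mul_apply, hy.2.2 _ (by rwa [inv_pres h]) (by rwa [inv_pres h])
      (by rwa [inv_pres h]), ai]⟩

theorem comm_fix {x y : Perm (ι → U)} (hy : ∀ f, y f i = f i) {u : U} (hx : ∀ f, f i = u → x f = f)
    {f : ι → U} (hf : f i = u) : x (y f) = y (x f) := by
  rw [hx f hf, hx _ (by rw [hy, hf])]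

theorem Gm_comm (h4 : P4) (hH : Hy H) (hb : b ≠ a) (hc : c ≠ a) (bc : b ≠ c) {y y' : Perm (ι → U)}
    (hy : y ∈ Gm H i a b c) (hy' : y' ∈ Gm H i a b c) {f : ι → U} (hf : f i = a) : y (y' f) = y' (y f) := by
  obtain ⟨d, d1, d2, d3, -⟩ := ex4 hH.five a b c c
  obtain ⟨e, e1, e2, e3, e4⟩ := ex4 hH.five a b c d
  set τ : Perm U := swap b d * swap c e with hτ
  have tH : co i τ ∈ H := hH.ev i τ (sw2 d2.symm e3.symm)
  have ta : τ a = a := by simp [hτ, swap_apply_of_ne_of_ne hc.symm e1.symm, swap_apply_of_ne_of_ne hb.symm d1.symm]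
  have tb : τ b = d := by simp [hτ, swap_apply_of_ne_of_ne bc e2.symm]
  have tc : τ c = e := by simp [hτ, swap_apply_of_ne_of_ne e2 e4]
  set w := (co i τ)⁻¹ * y' * co i τ with hw
  have wp : ∀ f, w f i = f i := fun f => by
    rw [hw, Perm.mul_apply, Perm.mul_apply, ← map_inv, co_same, hy'.2.1, co_same, ia]
  have wa : ∀ f, f i = a → w f = y' f := fun f hf => by
    rw [hw, Perm.mul_apply, Perm.mul_apply, co_fix.2 (by rw [hf, ta]), Perm.inv_eq_iff_eq,
      co_fix.2 (by rw [hy'.2.1, hf, ta])]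
  have wf : ∀ f, f i = b ∨ f i = c → w f = f := fun f hf => by
    have : τ (f i) ≠ a ∧ τ (f i) ≠ b ∧ τ (f i) ≠ c := by
      rcases hf with hf | hf <;> rw [hf]
      · rw [tb]; exact ⟨d1, d2, d3⟩
      · rw [tc]; exact ⟨e1, e2, e3⟩
    rw [hw, Perm.mul_apply, Perm.mul_apply, hy'.2.2 _ (by simpa using this.1) (by simpa using this.2.1)
      (by simpa using this.2.2), ia]
  have wH : w ∈ H := mul_mem (mul_mem (inv_mem tH) hy'.1) tH
  have k := h4 ι U H hH i a ((w * y)⁻¹ * (y * w)) (mul_mem (inv_mem (mul_mem wH hy.1)) (mul_mem hy.1 wH))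
    fun g hg => by
      rw [Perm.mul_apply, Perm.inv_eq_iff_eq, Perm.mul_apply, Perm.mul_apply]
      by_cases h1 : g i = b ∨ g i = c
      · refine (comm_fix hy.2.1 (u := g i) (fun f hf => wf f (hf ▸ h1)) rfl).symm
      · rw [not_or] at h1
        exact comm_fix wp (u := g i) (fun f hf => hy.2.2 f (hf ▸ hg) (hf ▸ h1.1) (hf ▸ h1.2)) rfl
  have := congrArg (fun x : Perm (ι → U) => x f) (inv_mul_eq_one.1 k)
  simp only [Perm.mul_apply] at this
  rw [wa f hf, wa _ (by rw [hy.2.1, hf])] at this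
  exact this.symm

theorem triv (hR : PRel) (h4 : P4) (hH : Hy H) (hb : b ≠ a) (hc : c ≠ a) (bc : b ≠ c) {z : Perm (ι → U)}
    (hz : z ∈ Gm H i a b c) {p : ι → U} (hp : p i = a) : z p = p := by
  by_contra ne
  obtain ⟨j, hj⟩ := Function.ne_iff.1 (Ne.symm ne)
  have ji : j ≠ i := fun e => hj (by rw [e, hz.2.1])
  have tr : ∀ f g : ι → U, f i = a → g i = a → ∃ y ∈ Gm H i a b c, y f = g := fun f g hf hg =>
    hR ι U H hH i j (fun f g => ∃ y ∈ Gm H i a b c, y f = g)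
      ⟨fun f => ⟨1, one_mem _, rfl⟩, fun ⟨y, hy, e⟩ => ⟨y⁻¹, inv_mem hy, Perm.inv_eq_iff_eq.2 e.symm⟩,
        fun ⟨y, hy, e⟩ ⟨y', hy', e'⟩ => ⟨y' * y, mul_mem hy' hy, by rw [Perm.mul_apply, e, e']⟩⟩
      (fun x hx f g ⟨y, hy, e⟩ => ⟨_, conj_Gm hx.1 hx.2.1 hy, by simp [e]⟩) p (z p) ⟨z, hz, rfl⟩ ji hj f g
      (by rw [hz.2.1, hf, hp]) (by rw [hz.2.1, hg, hp])
  have cm := fun {y y' : Perm (ι → U)} (hy : y ∈ Gm H i a b c) (hy' : y' ∈ Gm H i a b c) {f : ι → U}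
    (hf : f i = a) => Gm_comm h4 hH hb hc bc hy hy' hf
  -- regularity
  have reg : ∀ σ ∈ alternatingGroup U, σ (p j) = p j → ∀ y ∈ Gm H i a b c, ∀ y' ∈ Gm H i a b c,
      co j σ (y p) = y' p → ∀ f, f i = a → co j σ (y f) = y' (co j σ f) := fun σ hσ fx y hy y' hy' e f hf => by
    have pr : ∀ f : ι → U, co j σ f i = f i := fun f => co_ne ji.symm σ f
    have m := conj_Gm (hH.ev j σ hσ) pr hy
    have fp : co j σ p = p := co_fix.2 fx
    have e1 : (co j σ * y * (co j σ)⁻¹) p = y' p := by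
      rw [Perm.mul_apply, Perm.mul_apply, Perm.inv_eq_iff_eq.2 fp.symm, e]
    obtain ⟨v, hv, ev⟩ := tr p (co j σ f) hp (by rw [pr, hf])
    have e2 : (co j σ * y * (co j σ)⁻¹) (co j σ f) = y' (co j σ f) := by
      rw [← ev, cm m hv hp, cm hy' hv hp, e1]
    simpa using e2
  obtain ⟨a1, n1, -⟩ := ex4 hH.five (p j) (p j) (p j) (p j)
  obtain ⟨u, u1, u2, -⟩ := ex4 hH.five (p j) a1 a1 a1
  obtain ⟨b1, v1, v2, v3, -⟩ := ex4 hH.five (p j) a1 u u
  obtain ⟨e1, w1, w2, w3, w4⟩ := ex4 hH.five (p j) a1 u b1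
  have up : ∀ x : U, update p j x i = a := fun x => by rw [update_of_ne ji.symm, hp]
  obtain ⟨δ, hδ, eδ⟩ := tr p (update p j a1) hp (up _)
  obtain ⟨ε, hε, eε⟩ := tr p (update p j u) hp (up _)
  set κ : Perm U := swap a1 u * swap b1 e1 with hκ
  have kA : κ ∈ alternatingGroup U := sw2 u2.symm w4.symm
  have k0 : κ (p j) = p j := by
    simp [hκ, swap_apply_of_ne_of_ne v1.symm w1.symm, swap_apply_of_ne_of_ne n1.symm u1.symm]
  have k1 : κ a1 = u := by simp [hκ, swap_apply_of_ne_of_ne v2.symm w2.symm]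
  have k2 : κ u = a1 := by simp [hκ, swap_apply_of_ne_of_ne v3.symm w3.symm]
  have k3 : κ b1 = e1 := by simp [hκ, swap_apply_of_ne_of_ne w2 w3]
  have k4 : κ e1 = b1 := by simp [hκ, swap_apply_of_ne_of_ne v2 v3]
  have c1 : co j κ (δ p) = ε p := by rw [eδ, eε, co_apply]; simp [k1]
  have c2 : co j κ (ε p) = δ p := by rw [eδ, eε, co_apply]; simp [k2]
  have c3 : co j κ (δ (ε p)) = δ (ε p) := by
    rw [reg κ kA k0 δ hδ ε hε c1 _ (by rw [hε.2.1, hp]), c2, cm hε hδ hp]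
  have c4 := co_fix.1 c3
  set w := δ (ε p) j with hw
  have wu : w ≠ u := fun e => by rw [e, k2] at c4; exact u2 c4.symm
  have wb : w ≠ b1 := fun e => by rw [e, k3] at c4; exact w4 c4
  have we : w ≠ e1 := fun e => by rw [e, k4] at c4; exact w4 c4.symm
  obtain ⟨t, tA, t1, -, -, t4⟩ := cyc (d := u) (a := b1) (b := e1) v3 w3 w4.symm
  have s1 : co j t (δ p) = δ p := co_fix.2 (by rw [eδ, update_self]; exact t4 _ u2.symm v2.symm w2.symm)
  have s2 := reg t tA (t4 _ u1.symm v1.symm w1.symm) δ hδ δ hδ s1 (ε p) (by rw [hε.2.1, hp])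
  have s4 : co j t (δ (ε p)) = δ (ε p) := co_fix.2 (t4 _ wu wb we)
  rw [s4] at s2
  have s3 := co_fix.1 (δ.injective s2).symm
  rw [eε, update_self, t1] at s3
  exact v3 s3

theorem triv' (hR : PRel) (h4 : P4) (hH : Hy H) {z : Perm (ι → U)}
    (hz : z ∈ Gm H i a b c) {p : ι → U} (hp : p i = a) : z p = p := by
  obtain ⟨b', c', h1, h2, h3, h⟩ : ∃ b' c' : U, b' ≠ a ∧ c' ≠ a ∧ b' ≠ c' ∧
      ∀ u, u ≠ a → u ≠ b' → u ≠ c' → u ≠ b ∧ u ≠ c := by
    obtain ⟨x, x1, x2, x3, -⟩ := ex4 hH.five a b c c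
    obtain ⟨y, y1, y2, y3, y4⟩ := ex4 hH.five a b c x
    by_cases e1 : b = a <;> by_cases e2 : c = a
    · exact ⟨x, y, x1, y1, y4.symm, fun u h _ _ => ⟨e1 ▸ h, e2 ▸ h⟩⟩
    · exact ⟨x, c, x1, e2, x3, fun u h _ h' => ⟨e1 ▸ h, h'⟩⟩
    · exact ⟨b, x, e1, x1, x2.symm, fun u h h' _ => ⟨h', e2 ▸ h⟩⟩
    · by_cases e3 : b = c
      · exact ⟨b, x, e1, x1, x2.symm, fun u _ h' _ => ⟨h', e3 ▸ h'⟩⟩
      · exact ⟨b, c, e1, e2, e3, fun u _ h h' => ⟨h, h'⟩⟩
  exact triv hR h4 hH h1 h2 h3 ⟨hz.1, hz.2.1, fun f k1 k2 k3 =>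
    hz.2.2 f k1 (h _ k1 k2 k3).1 (h _ k1 k2 k3).2⟩ hp

theorem p5 (hR : PRel) (h4 : P4) : P5 := by
  intro ι U _ _ _ _ H hH i a b c z zH h1 h2
  refine Equiv.ext fun f => ?_
  change z f = f
  by_cases e1 : f i = a
  · exact triv' hR h4 hH (b := b) (c := c) ⟨zH, h1, h2⟩ e1
  by_cases e2 : f i = b
  · exact triv' hR h4 hH (b := a) (c := c) ⟨zH, h1, fun f x y w => h2 f y x w⟩ e2
  by_cases e3 : f i = c
  · exact triv' hR h4 hH (b := a) (c := b) ⟨zH, h1, fun f x y w => h2 f y w x⟩ e3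
  exact h2 f e1 e2 e3

theorem back {g : Perm (ι → U)} {a a' : U} (h : ∀ f, f i = a → g f i = a') {f : ι → U} (hf : f i = a') :
    g⁻¹ f i = a := by
  let φ : {f : ι → U // f i = a} → {f : ι → U // f i = a} := fun f => ⟨update (g f.1) i a, update_self ..⟩
  have key : ∀ x y : ι → U, x i = a' → y i = a' → update x i a = update y i a → x = y := fun x y hx hy e => by
    funext j
    by_cases hj : j = i
    · rw [hj, hx, hy]
    · simpa [hj] using congrFun e j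
  have inj : Injective φ := fun x y e =>
    Subtype.ext (g.injective (key _ _ (h _ x.2) (h _ y.2) (congrArg Subtype.val e)))
  obtain ⟨x, e⟩ := Finite.surjective_of_injective inj ⟨update f i a, update_self ..⟩
  rw [← key _ _ (h _ x.2) hf (congrArg Subtype.val e), ia, x.2]

theorem p6 (h5 : P5) : P6 := by
  intro ι U _ _ _ _ H hH i d a b a' b' ad bd ab ab' g gH gd ga gb f hf
  have nd : ∀ u u', u ≠ d → (∀ f, f i = u → g f i = u') → u' ≠ d := fun u u' h k e => by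
    have e1 := k (update f i u) (update_self ..)
    have e2 := g.injective (gd _ (e1.trans e))
    rw [e2, update_self] at e1
    exact h (e1.trans e)
  have ad' := nd a a' ad ga
  have bd' := nd b b' bd gb
  obtain ⟨σ, sA, s1, s2, s3, s4⟩ := cyc ad bd ab
  obtain ⟨τ, tA, t1, t2, t3, t4⟩ := cyc ad' bd' ab'
  have gi : ∀ f, f i = d → g⁻¹ f = f := fun f hf => Perm.inv_eq_iff_eq.2 (gd f hf).symm
  have out : ∀ f : ι → U, f i ≠ d → f i ≠ a' → f i ≠ b' → ((co i τ)⁻¹ * g * co i σ * g⁻¹) f = f :=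
    fun f k1 k2 k3 => by
      have m1 : g⁻¹ f i ≠ d := fun e => k1 (by
        have := gd _ e
        rw [ai] at this
        rw [this, e])
      have m2 : g⁻¹ f i ≠ a := fun e => k2 (by simpa using ga _ e)
      have m3 : g⁻¹ f i ≠ b := fun e => k3 (by simpa using gb _ e)
      rw [Perm.mul_apply, Perm.mul_apply, Perm.mul_apply, co_fix.2 (s4 _ m1 m2 m3), ai,
        Perm.inv_eq_iff_eq, co_fix.2 (t4 _ k1 k2 k3)]
  have z1 := h5 ι U H hH i d a' b' ((co i τ)⁻¹ * g * co i σ * g⁻¹)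
    (mul_mem (mul_mem (mul_mem (inv_mem (hH.ev i τ tA)) gH) (hH.ev i σ sA)) (inv_mem gH)) (fun f => by
      by_cases k1 : f i = d
      · rw [Perm.mul_apply, Perm.mul_apply, Perm.mul_apply, ← map_inv, co_same, Perm.inv_eq_iff_eq, k1, t1,
          gi f k1]
        exact ga _ (by rw [co_same, k1, s1])
      by_cases k2 : f i = a'
      · rw [Perm.mul_apply, Perm.mul_apply, Perm.mul_apply, ← map_inv, co_same, Perm.inv_eq_iff_eq, k2, t2]
        exact gb _ (by rw [co_same, back ga k2, s2])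
      by_cases k3 : f i = b'
      · have : co i σ (g⁻¹ f) i = d := by rw [co_same, back gb k3, s3]
        rw [Perm.mul_apply, Perm.mul_apply, Perm.mul_apply, ← map_inv, co_same, Perm.inv_eq_iff_eq, k3, t3,
          gd _ this, this]
      rw [out f k1 k2 k3]) out
  have z2 : g * co i σ = co i τ * g := by
    rw [mul_inv_eq_one, mul_assoc, inv_mul_eq_iff_eq_mul] at z1
    exact z1
  have z3 := congrArg (fun x : Perm (ι → U) => x (update f i d)) z2
  simp only [Perm.mul_apply] at z3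
  rw [gd _ (update_self ..), co_apply, co_apply, update_self, s1, t1, update_idem, update_idem, ← hf,
    update_eq_self] at z3
  exact z3

end H3.Pw5
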