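import Cfsg.Agent.H23.Zass3
import Cfsg.Agent.S1230
import Cfsg.Agent.H10.PSL2Sub
import Cfsg.Agent.H9.Dihedral

/-! Counting involutions (Bender; Aschbacher-Meierfrankenfeld-Stellmacher): `AMS M z` = TI-subgroup `M` inverted by
`z` central modulo `M` in `N(M)`; `Star` (every coset outside `N(M)` holds an involution), `caseA` (Zassenhaus
group). -/

set_option autoImplicit false
set_option linter.unusedSectionVars false

namespace H3
open Subgroup Cfsg H18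
open scoped commutatorElement MatrixGroups

variable {G : Type*} [Group G] [Finite G]

structure AMS (M : Subgroup G) (z : G) : Prop where
  ne : M ≠ ⊥
  ti : ∀ {g x : G}, x ∈ M → x ≠ 1 → g * x * g⁻¹ ∈ M → g ∈ N(M)
  z2 : z * z = 1
  z1 : z ≠ 1
  zN : z ∈ N(M)
  cen : ∀ h ∈ N(M), h * z * h⁻¹ * z ∈ M
  odd : ∀ x ∈ M, x ≠ 1 → Odd (Nat.card C1(x))

/-- every coset of `M` outside `N(M)` contains an involution -/
def Star (M : Subgroup G) : Prop := ∀ g, g ∉ N(M) → ∃ v x, v * v = 1 ∧ x ∈ M ∧ g = v * x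

namespace AMS
variable {M : Subgroup G} {z s t u v w x y g d : G} (h : AMS M z)
include h

theorem oddc (hx : x ∈ M) (x1 : x ≠ 1) (e : g * x = x * g) : Odd (orderOf g) :=
  (h.odd x hx x1).of_dvd_nat (orderOf_dvd_natCard _ (mem_C1.2 e))

theorem nc (s2 : s * s = 1) (s1 : s ≠ 1) (hx : x ∈ M) (e : s * x = x * s) : x = 1 := by
  by_contra x1
  have := h.oddc hx x1 e
  rw [H9.orderOf_eq_two.2 ⟨s2, s1⟩] at this
  exact absurd this (by decide)

theorem reg (s2 : s * s = 1) (s1 : s ≠ 1) : M ⊓ C1(s) = ⊥ :=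
  (eq_bot_iff_forall _).2 fun _ hx => h.nc s2 s1 hx.1 (mem_C1.1 hx.2).symm

theorem inv (hs : s ∈ N(M)) (s2 : s * s = 1) (s1 : s ≠ 1) (hx : x ∈ M) : s * x * s = x⁻¹ := by
  simpa [H9.inv_eq_of_mul_self s2] using H23.inverts_of_reg hs (h.reg s2 s1) s2 hx

theorem abel : Abel M := H23.abel_of_reg_invol h.zN (h.reg h.z2 h.z1) h.z2

theorem sq (hx : x ∈ M) (e : x * x = 1) : x = 1 := by
  by_contra x1
  exact x1 (h.nc e x1 hx rfl)

theorem exM : ∃ x ∈ M, x ≠ 1 := by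
  by_contra! e
  exact h.ne ((eq_bot_iff_forall _).2 e)

theorem oddM : Odd (Nat.card M) := by
  obtain ⟨x, hx, x1⟩ := h.exM
  exact (h.odd x hx x1).of_dvd_nat (card_dvd_of_le (h.abel.trans (C_le_C1 hx)))

theorem ordM (hx : x ∈ M) : Odd (orderOf x) := h.oddM.of_dvd_nat (orderOf_dvd_natCard _ hx)

theorem nM (s2 : s * s = 1) (s1 : s ≠ 1) : s ∉ M := fun e => s1 (h.sq e s2)

theorem mulz (hs : s ∈ N(M)) (s2 : s * s = 1) (s1 : s ≠ 1) : s * z ∈ M := by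
  obtain ⟨x, hx, x1⟩ := h.exM
  have c : s * z * x = x * (s * z) := by
    have e1 := h.inv h.zN h.z2 h.z1 hx
    have e2 := h.inv hs s2 s1 (inv_mem hx)
    calc s * z * x = s * (z * x * z) * s * (s * z) := by simp [mul_assoc, ← mul_assoc s s, s2, h.z2]
      _ = _ := by rw [e1, e2, inv_inv]
  obtain ⟨k, hk⟩ := exists_pow_eq_self_of_coprime (x := s * z) (n := 2) (Nat.coprime_two_left.2 (h.oddc hx x1 c))
  rw [← hk]
  refine pow_mem ?_ k
  have := h.cen s hs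
  rwa [H9.inv_eq_of_mul_self s2, mul_assoc, mul_assoc, ← mul_assoc s z, ← pow_two] at this

theorem mulM (hs : s ∈ N(M)) (s2 : s * s = 1) (s1 : s ≠ 1) (ht : t ∈ N(M)) (t2 : t * t = 1) (t1 : t ≠ 1) :
    s * t ∈ M := by
  have := mul_mem (h.mulz hs s2 s1) (inv_mem (h.mulz ht t2 t1))
  rwa [mul_inv_rev, mul_assoc, mul_inv_cancel_left, H9.inv_eq_of_mul_self t2] at this

theorem conjM (hs : s ∈ N(M)) (s2 : s * s = 1) (s1 : s ≠ 1) (ht : t ∈ N(M)) (t2 : t * t = 1) (t1 : t ≠ 1) :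
    ∃ y ∈ M, y * s * y⁻¹ = t := by
  have m := h.mulM hs s2 s1 ht t2 t1
  obtain ⟨k, hk⟩ := H9.conj_of_odd s2 t2 (h.ordM m)
  exact ⟨_, pow_mem m k, hk⟩

theorem eq_of_comm (hs : s ∈ N(M)) (s2 : s * s = 1) (s1 : s ≠ 1) (ht : t ∈ N(M)) (t2 : t * t = 1) (t1 : t ≠ 1)
    (e : s * t = t * s) : s = t := by
  have := h.nc s2 s1 (h.mulM hs s2 s1 ht t2 t1) (by rw [mul_assoc, ← e])
  rw [eq_inv_of_mul_eq_one_left this, H9.inv_eq_of_mul_self t2]

theorem uniq (v2 : v * v = 1) (w2 : w * w = 1) (hv : v ∉ N(M)) (e : v * w ∈ M) : v = w := by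
  by_contra n
  refine hv (h.ti e (fun e => n ?_) ?_)
  · rw [eq_inv_of_mul_eq_one_left e, H9.inv_eq_of_mul_self w2]
  · rw [H9.left_inverts v2 w2]; exact inv_mem e

theorem star (hI : ¬ Nat.card {g : G // orderOf g = 2} ≤ M.index) : Star M := by
  by_contra e
  simp only [Star, not_forall, not_exists, not_and] at e
  obtain ⟨g, hg, e⟩ := e
  refine hI (Nat.le_of_mul_le_mul_right ?_ (Nat.card_pos (α := M)))
  rw [index_mul_card, ← Nat.card_prod]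
  classical
  have two := fun (v : {g : G // orderOf g = 2}) => H9.orderOf_eq_two.1 v.2
  refine Nat.card_le_card_of_injective
    (fun p => if p.1.1 ∈ N(M) then p.1.1 * z * g * p.2 else p.1.1 * p.2) ?_
  have k : ∀ p q : {g : G // orderOf g = 2} × M, p.1.1 ∈ N(M) → p.1.1 * z * g * p.2 ≠ q.1.1 * q.2 := fun p q hp c => by
    have m := h.mulz hp (two _).1 (two _).2
    refine e ((p.1.1 * z)⁻¹ * q.1.1 * (p.1.1 * z)) ((p.1.1 * z)⁻¹ * (q.2 * (p.2 : G)⁻¹)) ?_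
      (mul_mem (inv_mem m) (mul_mem q.2.2 (inv_mem p.2.2))) ?_
    · simpa only [inv_inv] using H23.conj_mul_self (g := (p.1.1 * z)⁻¹) (two q.1).1
    · calc g = (p.1.1 * z)⁻¹ * (p.1.1 * z * g * p.2) * (p.2 : G)⁻¹ := by group
        _ = _ := by rw [c]; group
  intro p q c
  by_cases hp : p.1.1 ∈ N(M) <;> by_cases hq : q.1.1 ∈ N(M) <;> simp only [hp, hq, if_true, if_false] at c
  · have m := mul_mem (inv_mem (h.mulz hq (two _).1 (two _).2)) (h.mulz hp (two _).1 (two _).2)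
    have e1 : (q.1.1 * z)⁻¹ * (p.1.1 * z) = 1 := by
      by_contra n
      refine hg (inv_mem_iff.1 (h.ti m n ?_))
      have : g⁻¹ * ((q.1.1 * z)⁻¹ * (p.1.1 * z)) * g⁻¹⁻¹ = q.2 * (p.2 : G)⁻¹ := by
        calc _ = g⁻¹ * (q.1.1 * z)⁻¹ * (p.1.1 * z * g * p.2) * (p.2 : G)⁻¹ := by group
          _ = _ := by rw [c]; group
      rw [this]; exact mul_mem q.2.2 (inv_mem p.2.2)
    have e2 : p.1.1 = q.1.1 := mul_right_cancel (inv_mul_eq_one.1 e1).symm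
    rw [e2] at c
    exact Prod.ext (Subtype.ext e2) (Subtype.ext (mul_left_cancel c))
  · exact absurd c (k p q hp)
  · exact absurd c.symm (k q p hq)
  · have e2 : p.1.1 = q.1.1 := h.uniq (two _).1 (two _).1 hp (by
      have : p.1.1 * q.1.1 = p.2 * (q.2 : G)⁻¹ := by
        calc _ = p.1.1 * (q.1.1 * q.2) * (q.2 : G)⁻¹ := by group
          _ = _ := by rw [← c, ← mul_assoc, (two _).1, one_mul]
      rw [this]; exact mul_mem p.2.2 (inv_mem q.2.2))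
    rw [e2] at c
    exact Prod.ext (Subtype.ext e2) (Subtype.ext (mul_left_cancel c))

variable (S : Star M)
include S

theorem d1 (hv : v ∉ N(M)) (hd : d ∈ N(M)) : ∃ j x, x ∈ M ∧ d = j * x ∧ v * j * v = j⁻¹ := by
  obtain ⟨w, x, w2, hx, e⟩ := S (v * d) fun c => hv ((mul_mem_cancel_right hd).1 c)
  refine ⟨d * x⁻¹, x, hx, by group, eq_inv_of_mul_eq_one_left ?_⟩
  rw [← w2, ← mul_inv_eq_iff_eq_mul.2 e]; group

theorem d2 (v2 : v * v = 1) (hv : v ∉ N(M)) : ∃ t ∈ N(M), t * t = 1 ∧ t ≠ 1 ∧ v * t = t * v := by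
  obtain ⟨j, x, hx, e, hj⟩ := h.d1 S hv h.zN
  obtain rfl : j = z * x⁻¹ := by rw [e]; group
  have j2 : z * x⁻¹ * (z * x⁻¹) = 1 := by rw [← mul_assoc, h.inv h.zN h.z2 h.z1 (inv_mem hx)]; group
  refine ⟨_, mul_mem h.zN (le_N (inv_mem hx)), j2, fun c => h.nM h.z2 h.z1 (mul_inv_eq_one.1 c ▸ hx), ?_⟩
  rw [H9.inv_eq_of_mul_self j2] at hj
  rw [← hj, mul_assoc _ v v, v2, mul_one, hj]

theorem d3 (v2 : v * v = 1) (hv : v ∉ N(M)) (hx : x ∈ M) (e : v * x * v ∈ N(M)) : x = 1 := by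
  obtain ⟨t, ht, t2, t1, c⟩ := h.d2 S v2 hv
  have vi := H9.inv_eq_of_mul_self v2
  have m := h.mulM (s := v * x * v * t * (v * x * v)⁻¹) (mul_mem (mul_mem e ht) (inv_mem e))
    (H23.conj_mul_self t2) (H23.conj_ne_one t1) ht t2 t1
  have : v * x * v * t * (v * x * v)⁻¹ * t = v * (x * x) * v⁻¹ := by
    calc _ = v * x * (v * t * v⁻¹) * x⁻¹ * (v⁻¹ * t * v) * v⁻¹ := by group
      _ = v * x * (t * x⁻¹ * t) * v⁻¹ := by rw [mul_assoc v⁻¹, ← c, inv_mul_cancel_left, c]; group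
      _ = _ := by rw [h.inv ht t2 t1 (inv_mem hx)]; group
  rw [this] at m
  by_contra x1
  exact hv (h.ti (mul_mem hx hx) (fun c => x1 (h.sq hx c)) m)

theorem d4 (v2 : v * v = 1) (hv : v ∉ N(M)) (hd : d ∈ N(M)) (e : v * d * v ∈ N(M)) : v * d * v = d⁻¹ := by
  obtain ⟨j, x, hx, rfl, hj⟩ := h.d1 S hv hd
  have jN : j ∈ N(M) := (mul_mem_cancel_right (le_N hx)).1 hd
  have : v * (j * x) * v = j⁻¹ * (v * x * v) := by rw [← hj]; simp [mul_assoc, ← mul_assoc v v, v2]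
  rw [this, mul_mem_cancel_left (inv_mem jN)] at e
  obtain rfl := h.d3 S v2 hv hx e
  rw [mul_one, hj]

theorem dcomm (v2 : v * v = 1) (hv : v ∉ N(M)) (hd : d ∈ N(M)) (e : v * d * v ∈ N(M)) (hs : s ∈ N(M))
    (e' : v * s * v ∈ N(M)) : d * s = s * d := by
  have k : v * (d * s) * v = v * d * v * (v * s * v) := by simp [mul_assoc, ← mul_assoc v v, v2]
  have := h.d4 S v2 hv (mul_mem hd hs) (k ▸ mul_mem e e')
  rw [k, h.d4 S v2 hv hd e, h.d4 S v2 hv hs e', ← mul_inv_rev, inv_inj] at this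
  exact this.symm

theorem d5 (hd : d ∈ N(M)) (hg : g ∉ N(M)) (e : g * d = d * g) : d * d ∈ M := by
  obtain ⟨v, x, v2, hx, rfl⟩ := S g hg
  have hv : v ∉ N(M) := fun c => hg (mul_mem c (le_N hx))
  have k : v * d * v = x * d * x⁻¹ := by
    calc _ = v * (d * (v * x)) * x⁻¹ := by group
      _ = _ := by rw [← e]; simp [← mul_assoc, v2]
  have := h.d4 S v2 hv hd (k ▸ mul_mem (mul_mem (le_N hx) hd) (le_N (inv_mem hx)))
  rw [k] at this
  have k2 : d * d = d * x * d⁻¹ * x⁻¹ := by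
    calc d * d = d * (x * d * x⁻¹)⁻¹ := by rw [this, inv_inv]
      _ = _ := by group
  rw [k2]; exact mul_mem (conj_mem_N hd hx) (inv_mem hx)

theorem d6 (ht : t ∈ N(M)) (t2 : t * t = 1) (t1 : t ≠ 1) (hg : g ∉ N(M)) (e : g * t = t * g) :
    g * g = 1 ∧ ∀ d ∈ N(M), d * t = t * d → g * d * g = d⁻¹ := by
  obtain ⟨v, x, v2, hx, rfl⟩ := S g hg
  have hv : v ∉ N(M) := fun c => hg (mul_mem c (le_N hx))
  have k : v * t * v = x * t * x⁻¹ := by
    calc _ = v * (t * (v * x)) * x⁻¹ := by group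
      _ = _ := by rw [← e]; simp [← mul_assoc, v2]
  have m : v * t * v ∈ N(M) := k ▸ mul_mem (mul_mem (le_N hx) ht) (le_N (inv_mem hx))
  have := h.d4 S v2 hv ht m
  rw [k, H9.inv_eq_of_mul_self t2] at this
  obtain rfl := h.nc t2 t1 hx (mul_inv_eq_iff_eq_mul.1 this).symm
  rw [mul_one]
  refine ⟨v2, fun d hd c => ?_⟩
  obtain ⟨j, x, hx, rfl, hj⟩ := h.d1 S hv hd
  have jN : j ∈ N(M) := (mul_mem_cancel_right (le_N hx)).1 hd
  have c2 := h.dcomm S v2 hv jN (hj ▸ inv_mem jN) ht m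
  obtain rfl := h.nc t2 t1 hx (mul_left_cancel (a := j) (by rw [← mul_assoc, c2, mul_assoc, ← c, mul_assoc]))
  rw [mul_one, hj]

theorem d7 (ht : t ∈ N(M)) (t2 : t * t = 1) (t1 : t ≠ 1) (v2 : v * v = 1) (hv : v ∉ N(M)) :
    ∃ y ∈ M, y⁻¹ * v * y * t = t * (y⁻¹ * v * y) := by
  obtain ⟨s, hs, s2, s1, c⟩ := h.d2 S v2 hv
  obtain ⟨y, hy, rfl⟩ := h.conjM ht t2 t1 hs s2 s1
  refine ⟨y, hy, ?_⟩
  calc _ = y⁻¹ * (v * (y * t * y⁻¹)) * y := by group
    _ = _ := by rw [c]; group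

omit h S in
theorem fix_iff {N : Subgroup G} {a b : G} : g • (a : G ⧸ N) = (b : G ⧸ N) ↔ b⁻¹ * g * a ∈ N := by
  rw [MulAction.Quotient.smul_mk, smul_eq_mul, eq_comm, QuotientGroup.eq, mul_assoc]

theorem caseA (ht : t ∈ N(M)) (t2 : t * t = 1) (t1 : t ≠ 1) (hu : u ∉ N(M)) (c : u * t = t * u)
    (hA : ∀ g, g ∉ N(M) → g * t = t * g → u * g ∈ N(M)) :
    ∃ (F : Type) (_ : Field F) (_ : Fintype F) (p : ℕ) (_ : Fact p.Prime) (_ : CharP F p),
      Fintype.card F = Nat.card M ∧ IsElementaryAbelian p M ∧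
      (Nonempty (G ≃* PGL(2, F)) ∨ (Fintype.card F % 4 = 1 ∧ Nonempty (G ≃* PSL(2, F)))) := by
  have u2 := (h.d6 S ht t2 t1 hu c).1
  have ui := H9.inv_eq_of_mul_self u2
  set a : G ⧸ N(M) := ((1 : G) : G ⧸ N(M))
  set b : G ⧸ N(M) := (u : G ⧸ N(M))
  have fa : ∀ {g : G}, g • a = a ↔ g ∈ N(M) := by intro g; rw [fix_iff, inv_one, one_mul, mul_one]
  have fb : ∀ {g y : G}, g • y • b = y • b ↔ u * (y⁻¹ * g * y) * u ∈ N(M) := by
    intro g y
    rw [← H23.conj_fix_iff', fix_iff, ui]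
  have hab : a ≠ b := fun e => hu (by simpa using QuotientGroup.eq.1 e)
  have tr : ∀ p, p ≠ a → ∃ y ∈ M, y • b = p := fun p hp => by
    obtain ⟨g, rfl⟩ := QuotientGroup.mk_surjective p
    have hg : g ∉ N(M) := fun e => hp (QuotientGroup.eq.2 (by simpa using e))
    obtain ⟨v, x, v2, hx, rfl⟩ := S g hg
    have hv : v ∉ N(M) := fun c => hg (mul_mem c (le_N hx))
    obtain ⟨y, hy, e⟩ := h.d7 S ht t2 t1 v2 hv
    have := hA _ (fun c => hv ((mul_mem_cancel_left (inv_mem (le_N hy))).1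
      ((mul_mem_cancel_right (le_N hy)).1 c))) e
    refine ⟨y, hy, fix_iff.2 ?_⟩
    have := mul_mem (inv_mem (mul_mem (inv_mem (le_N hy)) (le_N hx))) (inv_mem this)
    convert this using 1
    rw [mul_inv_rev u, ui]; group
  have tr1 : ∀ p : G ⧸ N(M), ∃ g : G, g • a = p := fun p => MulAction.exists_smul_eq G a p
  have one : ∀ p q : G ⧸ N(M), p ≠ q → ∃ g : G, g • a = p ∧ g • b = q := fun p q n => by
    obtain ⟨g, rfl⟩ := tr1 p
    obtain ⟨y, hy, e⟩ := tr (g⁻¹ • q) fun e => n (by rw [← e, smul_inv_smul])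
    exact ⟨g * y, by rw [mul_smul, fa.2 (le_N hy)], by rw [mul_smul, e, smul_inv_smul]⟩
  have two : ∀ p q p' q' : G ⧸ N(M), p ≠ q → p' ≠ q' → ∃ g : G, g • p = p' ∧ g • q = q' := fun p q p' q' n n' => by
    obtain ⟨g, rfl, rfl⟩ := one p q n
    obtain ⟨g', rfl, rfl⟩ := one p' q' n'
    exact ⟨g' * g⁻¹, by simp [mul_smul], by simp [mul_smul]⟩
  have fb1 : ∀ {g : G}, g • b = b ↔ u * g * u ∈ N(M) := by intro g; simpa using fb (g := g) (y := 1)
  have tb : t • b = b := fb1.2 (by rw [c, mul_assoc, u2, mul_one]; exact ht)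
  have F2 : ∀ {s : G} {p q r : G ⧸ N(M)}, s * s = 1 → p ≠ q → q ≠ r → p ≠ r → s • p = p → s • q = q → s • r = r →
      s = 1 := by
    intro s p q r s2 n1 n2 n3 e1 e2 e3
    obtain ⟨g, rfl, rfl⟩ := one p q n1
    obtain ⟨y, hy, e⟩ := tr (g⁻¹ • r) fun e => n3 (by rw [← e, smul_inv_smul])
    by_contra s1
    have k : ∀ {s : G}, s * s = 1 → s ≠ 1 → s • a = a → s • b = b → s = t := fun s2 s1 e1 e2 =>
      h.eq_of_comm (fa.1 e1) s2 s1 ht t2 t1 (h.dcomm S u2 hu (fa.1 e1) (fb1.1 e2) ht (fb1.1 tb))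
    have s2' : g⁻¹ * s * g * (g⁻¹ * s * g) = 1 := by simpa using H23.conj_mul_self (g := g⁻¹) s2
    have k1 := k s2' (H23.conj_ne_one' s1) (H23.conj_fix_iff'.2 e1) (H23.conj_fix_iff'.2 e2)
    have e4 : t • y • b = y • b := by rw [← k1, e, H23.conj_fix_iff', smul_inv_smul, e3]
    have k2 := k (s := y⁻¹ * t * y) (by simpa using H23.conj_mul_self (g := y⁻¹) t2) (H23.conj_ne_one' t1)
      (fa.2 (mul_mem (mul_mem (le_N (inv_mem hy)) ht) (le_N hy))) (H23.conj_fix_iff'.2 e4)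
    obtain rfl := h.nc t2 t1 hy (by rw [mul_assoc, inv_mul_eq_iff_eq_mul] at k2; exact k2)
    exact n2 (by rw [← smul_inv_smul g r, ← e, one_smul])
  have three : ∀ {d : G} {p q r : G ⧸ N(M)}, p ≠ q → q ≠ r → p ≠ r → d • p = p → d • q = q → d • r = r → d = 1 := by
    intro d p q r n1 n2 n3 e1 e2 e3
    refine F2 ?_ n1 n2 n3 e1 e2 e3
    obtain ⟨g, rfl, rfl⟩ := one q r n2
    have e2' := H23.conj_fix_iff'.2 e2
    have e3' := H23.conj_fix_iff'.2 e3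
    have cm := h.dcomm S u2 hu (fa.1 e2') (fb1.1 e3') ht (fb1.1 tb)
    obtain ⟨k, rfl, hk⟩ := one p _ n1
    have m : k⁻¹ * (g * t * g⁻¹) * k ∉ N(M) := fun e => t1 (by
      have := F2 (H23.conj_mul_self (g := g) t2) n1 n2 n3 (H23.conj_fix_iff'.1 (fa.2 e))
        (by rw [H23.conj_smul_fix, fa.2 ht]) (by rw [H23.conj_smul_fix, tb])
      simpa using this)
    have dN := fa.1 (H23.conj_fix_iff'.2 e1)
    have := h.d5 S dN m (by
      calc _ = k⁻¹ * g * (t * (g⁻¹ * d * g)) * g⁻¹ * k := by group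
        _ = _ := by rw [← cm]; group)
    have e5 : (k⁻¹ * d * k) • b = b := H23.conj_fix_iff'.2 (hk ▸ e2)
    have := h.d3 S u2 hu this (fb1.1 (by rw [mul_smul, e5, e5]))
    calc d * d = k * (k⁻¹ * d * k * (k⁻¹ * d * k)) * k⁻¹ := by group
      _ = 1 := by rw [this]; group
  obtain ⟨x, hx, x1⟩ := h.exM
  have fr : ∀ y ∈ M, y • b = b → y = 1 := fun y hy e => h.d3 S u2 hu hy (fb1.1 e)
  have tK : t ∈ MulAction.stabilizer G a ⊓ MulAction.stabilizer G b := ⟨fa.2 ht, tb⟩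
  obtain ⟨Q, Z⟩ := H23.exists_ZS' hab two three (fun e => t1 ((eq_bot_iff_forall _).1 e t tK))
    ⟨x • b, fun e => hab (by rw [← inv_smul_smul x b, e, fa.2 (le_N (inv_mem hx))]), fun e => x1 (fr x hx e)⟩
  obtain rfl : M = Q := Z.eq_Q' (fun y hy => fa.2 (le_N hy)) fun p q hp hq => by
    obtain ⟨y, hy, rfl⟩ := tr p hp
    obtain ⟨y', hy', rfl⟩ := tr q hq
    refine ⟨⟨y' * y⁻¹, mul_mem hy' (inv_mem hy)⟩, by simp [mul_smul], fun w hw => Subtype.ext ?_⟩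
    have := fr (y'⁻¹ * w * y) (mul_mem (mul_mem (inv_mem hy') w.2) hy) (by rw [mul_smul, mul_smul, hw, inv_smul_smul])
    rw [mul_assoc, inv_mul_eq_one] at this
    simp [this]
  have he : Even (Nat.card ↥(MulAction.stabilizer G a ⊓ MulAction.stabilizer G b)) :=
    even_iff_two_dvd.2 (H9.orderOf_eq_two.2 ⟨t2, t1⟩ ▸ orderOf_dvd_natCard _ tK)
  have hle := Z.le_of_even he
  obtain ⟨F, _, _, hF, hG⟩ := Z.psl_of_inv hle (t := u) (by simp [a, b]) u2 fun k hk => by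
    rw [ui]; exact h.d4 S u2 hu (fa.1 hk.1) (fb1.1 hk.2)
  obtain ⟨-, p, hp, hd, hE⟩ := Z.elem_of_le hle
  obtain ⟨n, hq, hn⟩ := FiniteField.card F (ringChar F)
  obtain rfl : p = ringChar F := (Nat.prime_dvd_prime_iff_eq hp hq).1 (hp.dvd_of_dvd_pow (hn ▸ hF ▸ hd))
  refine ⟨F, _, _, _, ⟨hp⟩, inferInstance, hF, hE.isElem, hG.imp And.right fun e => ⟨?_, e.2⟩⟩
  obtain ⟨k, hk⟩ := he
  omega

end AMS
end H3
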