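import Cfsg.Agent.H3.AMS
import Cfsg.Agent.H3.SylowIn

/-! Counting involutions, the case `|N(M) : M| = 2` (`AMS.B`): `G ≅ L₂(2^e)` or `G = 2^(2d) ⋊ D`. -/

set_option autoImplicit false
set_option linter.unusedSectionVars false

namespace H3
open Subgroup Cfsg H18
open scoped commutatorElement MatrixGroups

variable {G : Type*} [Group G] [Finite G]

structure AMS.B (M : Subgroup G) (z t u : G) : Prop extends AMS M z where
  S : Star M
  ht : t ∈ N(M)
  t2 : t * t = 1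
  t1 : t ≠ 1
  hu : u ∉ N(M)
  c : u * t = t * u
  b1 : ∀ d ∈ N(M), d * t = t * d → d = 1 ∨ d = t

namespace AMS
variable {M : Subgroup G} {z s t u v w x y g d : G}

theorem mkB (h : AMS M z) (S : Star M) (ht : t ∈ N(M)) (t2 : t * t = 1) (t1 : t ≠ 1) (hu : u ∉ N(M))
    (c : u * t = t * u) (hg : g ∉ N(M)) (c' : g * t = t * g) (hug : u * g ∉ N(M)) : B M z t u := by
  refine ⟨h, S, ht, t2, t1, hu, c, fun d hd e => or_iff_not_imp_left.2 fun d1 => h.eq_of_comm hd ?_ d1 ht t2 t1 e⟩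
  obtain ⟨u2, e1⟩ := h.d6 S ht t2 t1 hu c
  obtain ⟨g2, e2⟩ := h.d6 S ht t2 t1 hg c'
  obtain ⟨k2, e3⟩ := h.d6 S ht t2 t1 hug (by rw [mul_assoc, c', ← mul_assoc, c, mul_assoc])
  have k : u * g = g * u := by
    rw [← H9.inv_eq_of_mul_self k2, mul_inv_rev, H9.inv_eq_of_mul_self u2, H9.inv_eq_of_mul_self g2]
  have e4 := e3 d hd e
  have e5 := e1 d⁻¹ (inv_mem hd) (by rw [inv_mul_eq_iff_eq_mul, ← mul_assoc, e, mul_inv_cancel_right])
  rw [← e2 d hd e, inv_eq_of_mul_eq_one_right (a := g * d * g) (b := d) (by rw [e2 d hd e, inv_mul_cancel])] at e5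
  refine mul_eq_one_iff_eq_inv.2 ?_
  calc d = u * g * d * (g * u) := e5.symm.trans (by simp only [mul_assoc])
    _ = _ := by rw [← k, e4]

namespace B
variable (h : B M z t u)
include h

theorem b2 (e : g * t = t * g) : g * g = 1 := by
  by_cases hg : g ∈ N(M)
  · rcases h.b1 g hg e with rfl | rfl
    exacts [mul_one _, h.t2]
  · exact (h.d6 h.S h.ht h.t2 h.t1 hg e).1

theorem b3 (hg : g ∈ N(M)) : g ∈ M ∨ t * g ∈ M := by
  obtain ⟨j, x, hx, rfl, hj⟩ := h.d1 h.S h.hu hg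
  have jN : j ∈ N(M) := (mul_mem_cancel_right (le_N hx)).1 hg
  have u2 := h.b2 h.c
  rcases h.b1 j jN (h.dcomm h.S u2 h.hu jN (hj ▸ inv_mem jN) h.ht
    (by rw [h.c, mul_assoc, u2, mul_one]; exact h.ht)) with rfl | rfl
  · exact Or.inl (by simpa using hx)
  · exact Or.inr (by rwa [← mul_assoc, h.t2, one_mul])

theorem sqt (hx : x ∈ M) : t * x * (t * x) = 1 := by rw [← mul_assoc, h.inv h.ht h.t2 h.t1 hx, inv_mul_cancel]

theorem tM : t ∉ M := h.nM h.t2 h.t1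

theorem cent (hx : x ∈ M) (x1 : x ≠ 1) (e : g * x = x * g) : g ∈ M := by
  refine (h.b3 (h.ti hx x1 (by rwa [e, mul_inv_cancel_right]))).resolve_right fun m => x1 ?_
  refine h.nc ?_ (fun e => h.tM (by simpa [e] using m)) hx e
  simpa [← mul_assoc, h.t2] using h.sqt m

theorem not_mem {E : Subgroup G} [hE : E.Normal] (h2 : IsPGroup 2 E) : t ∉ E := fun m => by
  obtain ⟨x, hx, x1⟩ := h.exM
  have := mul_mem (hE.conj_mem t m x) m
  rw [mul_assoc, mul_assoc, ← mul_assoc t, h.inv h.ht h.t2 h.t1 (inv_mem hx), inv_inv] at this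
  have : Fact (Nat.Prime 2) := ⟨Nat.prime_two⟩
  obtain ⟨k, hk⟩ := IsPGroup.iff_orderOf.1 h2 ⟨_, ‹x * x ∈ E›⟩
  have o := h.ordM (mul_mem hx hx)
  rw [orderOf_mk] at hk
  exact x1 (h.sq hx (orderOf_eq_one_iff.1 (Nat.Coprime.eq_one_of_dvd
    ((Nat.coprime_two_right.2 o).pow_right k) (hk ▸ dvd_rfl))))

theorem tM_card : ((fun x => t * x) '' (M : Set G)).ncard = Nat.card M :=
  Set.ncard_image_of_injective _ (mul_right_injective t)

theorem cardN : Nat.card N(M) = 2 * Nat.card M := by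
  have : (N(M) : Set G) = (M : Set G) ∪ (fun x => t * x) '' (M : Set G) := by
    ext g
    refine ⟨fun hg => (h.b3 hg).imp_right fun m => ⟨_, m, by simp [← mul_assoc, h.t2]⟩, ?_⟩
    rintro (m | ⟨x, hx, rfl⟩)
    exacts [le_N m, mul_mem h.ht (le_N hx)]
  change (N(M) : Set G).ncard = _
  rw [this, Set.ncard_union_eq, h.tM_card, two_mul]
  · rfl
  · rw [Set.disjoint_right]
    rintro _ ⟨x, hx, rfl⟩ m
    exact h.tM ((mul_mem_cancel_right hx).1 m)

theorem count : ∃ k, 0 < k ∧ Nat.card C1(t) = k + 2 ∧ M.index = Nat.card M * k + 2 ∧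
    {v : G | v * v = 1}.ncard = Nat.card M * k + Nat.card M + 1 := by
  set W : Set G := {w | w ∈ C1(t) ∧ w ∉ N(M)}
  set I : Set G := {v | v * v = 1 ∧ v ∉ N(M)}
  have c1 : Nat.card I * Nat.card M = ((N(M) : Set G)ᶜ).ncard := by
    rw [← Nat.card_prod]
    refine Nat.card_congr (Equiv.ofBijective (fun p => ⟨p.1.1 * p.2, fun m => p.1.2.2
      ((mul_mem_cancel_right (le_N p.2.2)).1 m)⟩) ⟨fun p q c => ?_, fun g => ?_⟩)
    · have c : p.1.1 * p.2 = q.1.1 * q.2 := congrArg Subtype.val c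
      have e2 : p.1.1 = q.1.1 := h.uniq p.1.2.1 q.1.2.1 p.1.2.2 (by
        have : p.1.1 * q.1.1 = p.2 * (q.2 : G)⁻¹ := by
          calc _ = p.1.1 * (q.1.1 * q.2) * (q.2 : G)⁻¹ := by group
            _ = _ := by rw [← c, ← mul_assoc, p.1.2.1, one_mul]
        rw [this]; exact mul_mem p.2.2 (inv_mem q.2.2))
      rw [e2] at c
      exact Prod.ext (Subtype.ext e2) (Subtype.ext (mul_left_cancel c))
    · obtain ⟨v, x, v2, hx, e⟩ := h.S g g.2
      exact ⟨(⟨v, v2, fun m => g.2 (e ▸ mul_mem m (le_N hx))⟩, ⟨x, hx⟩), Subtype.ext e.symm⟩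
  have c2 : Nat.card M * Nat.card W = Nat.card I := by
    rw [← Nat.card_prod]
    refine Nat.card_congr (Equiv.ofBijective (fun p => ⟨p.1 * p.2.1 * (p.1 : G)⁻¹,
      H23.conj_mul_self (h.b2 (mem_C1.1 p.2.2.1)), fun m => p.2.2.2
      ((mul_mem_cancel_left (le_N p.1.2)).1 ((mul_mem_cancel_right (le_N (inv_mem p.1.2))).1 m))⟩)
      ⟨fun p q c => ?_, fun v => ?_⟩)
    · have c : p.1 * p.2.1 * (p.1 : G)⁻¹ = q.1 * q.2.1 * (q.1 : G)⁻¹ := congrArg Subtype.val c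
      set y : G := (q.1 : G)⁻¹ * p.1
      have hy : y ∈ M := mul_mem (inv_mem q.1.2) p.1.2
      have e : q.2.1 = y * p.2.1 * y⁻¹ := by
        calc q.2.1 = (q.1 : G)⁻¹ * (q.1 * q.2.1 * (q.1 : G)⁻¹) * q.1 := by group
          _ = _ := by rw [← c]; simp [y, mul_assoc]
      have m : y * t * y⁻¹ ∈ N(M) := mul_mem (mul_mem (le_N hy) h.ht) (le_N (inv_mem hy))
      have v2 := h.b2 (mem_C1.1 q.2.2.1)
      have k : ∀ s, q.2.1 * s = s * q.2.1 → s ∈ N(M) → q.2.1 * s * q.2.1 ∈ N(M) := fun s e hs => by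
        rwa [e, mul_assoc, v2, mul_one]
      have := h.eq_of_comm m (H23.conj_mul_self h.t2) (H23.conj_ne_one h.t1) h.ht h.t2 h.t1
        (h.dcomm h.S v2 q.2.2.2 m (k _ (by
          rw [e]
          calc _ = y * (p.2.1 * t) * y⁻¹ := by group
            _ = _ := by rw [mem_C1.1 p.2.2.1]; group) m) h.ht (k _ (mem_C1.1 q.2.2.1) h.ht))
      have y1 := h.nc h.t2 h.t1 hy (mul_inv_eq_iff_eq_mul.1 this).symm
      rw [y1, one_mul, inv_one, mul_one] at e
      exact Prod.ext (Subtype.ext (inv_mul_eq_one.1 y1).symm) (Subtype.ext e.symm)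
    · obtain ⟨y, hy, e⟩ := h.d7 h.S h.ht h.t2 h.t1 v.2.1 v.2.2
      exact ⟨(⟨y, hy⟩, ⟨_, mem_C1.2 e, fun m => v.2.2 ((mul_mem_cancel_left (le_N (inv_mem hy))).1
        ((mul_mem_cancel_right (le_N hy)).1 m))⟩), Subtype.ext (by simp [mul_assoc])⟩
  have c3 : Nat.card C1(t) = Nat.card W + 2 := by
    have : (C1(t) : Set G) = W ∪ {1, t} := by
      ext g
      refine ⟨fun hg => or_iff_not_imp_left.2 fun n => h.b1 g (by_contra fun m => n ⟨hg, m⟩) (mem_C1.1 hg), ?_⟩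
      rintro (m | rfl | rfl)
      exacts [m.1, one_mem _, C1_self]
    change (C1(t) : Set G).ncard = _
    rw [this, Set.ncard_union_eq, Set.ncard_pair h.t1.symm]
    · rfl
    · rw [Set.disjoint_right]
      rintro _ (rfl | rfl) m
      exacts [m.2 (one_mem _), m.2 h.ht]
  have c5 := Set.ncard_add_ncard_compl (N(M) : Set G)
  have c4 : (N(M) : Set G).ncard = 2 * Nat.card M := h.cardN
  refine ⟨Nat.card W, Nat.card_pos_iff.2 ⟨⟨⟨u, mem_C1.2 h.c, h.hu⟩⟩, inferInstance⟩, c3, ?_, ?_⟩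
  · refine Nat.eq_of_mul_eq_mul_right (Nat.card_pos (α := M)) ?_
    rw [index_mul_card, ← c5, c4, ← c1, ← c2]; ring
  · have : {v : G | v * v = 1} = insert 1 (I ∪ (fun x => t * x) '' (M : Set G)) := by
      ext g
      refine ⟨fun hg => ?_, ?_⟩
      · by_cases g1 : g = 1
        · exact Or.inl g1
        by_cases m : g ∈ N(M)
        · exact Or.inr (Or.inr ⟨_, h.mulM h.ht h.t2 h.t1 m hg g1, by simp [← mul_assoc, h.t2]⟩)
        · exact Or.inr (Or.inl ⟨hg, m⟩)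
      · rintro (rfl | m | ⟨x, hx, rfl⟩)
        exacts [mul_one _, m.1, h.sqt hx]
    rw [this, Set.ncard_insert_of_notMem, Set.ncard_union_eq, h.tM_card, c2]
    · rfl
    · rw [Set.disjoint_right]
      rintro _ ⟨x, hx, rfl⟩ m
      exact m.2 (mul_mem h.ht (le_N hx))
    · rintro (m | ⟨x, hx, e⟩)
      · exact m.2 (one_mem _)
      · exact h.tM (eq_inv_of_mul_eq_one_left e ▸ inv_mem hx)

theorem C2 : IsPGroup 2 C1(t) := isPGroup_iff_forall_mem.2 fun _ hx => ⟨1, by simpa [pow_two] using h.b2 (mem_C1.1 hx)⟩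

theorem cases : ∃ d k, 0 < d ∧ 2 ^ d = k + 1 ∧ Nat.card C1(t) = 2 * (k + 1) ∧ M.index = Nat.card M * (2 * k) + 2 ∧
    {v : G | v * v = 1}.ncard = Nat.card M * (2 * k + 1) + 1 ∧
    ((Nat.card M = k + 2 ∧ C1(t).index = Nat.card M * (k + 1)) ∨
      (Nat.card M = 2 * k + 3 ∧ C1(t).index = Nat.card M * (2 * k + 1))) := by
  obtain ⟨w, w0, c1, c2, c3⟩ := h.count
  have : Fact (Nat.Prime 2) := ⟨Nat.prime_two⟩
  obtain ⟨e, he⟩ := IsPGroup.iff_card.1 h.C2
  obtain ⟨d, rfl⟩ : ∃ d, e = d + 1 := Nat.exists_eq_succ_of_ne_zero (by rintro rfl; omega)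
  have p0 : 0 < 2 ^ d := by positivity
  obtain ⟨k, rfl, hk⟩ : ∃ k, w = 2 * k ∧ 2 ^ d = k + 1 := ⟨2 ^ d - 1, by omega, by omega⟩
  refine ⟨d, k, Nat.pos_of_ne_zero (by rintro rfl; omega), hk, by omega, c2, by rw [c3]; ring, ?_⟩
  have e1 := C1(t).index_mul_card
  rw [← M.card_mul_index] at e1
  obtain ⟨r, hr⟩ : Nat.card M ∣ C1(t).index := (he ▸ (Nat.coprime_two_right.2 h.oddM).pow_right _ :
    (Nat.card M).Coprime (Nat.card C1(t))).dvd_of_dvd_mul_right ⟨_, e1⟩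
  have m0 := Nat.card_pos (α := M)
  have le : C1(t).index + 1 ≤ {v : G | v * v = 1}.ncard := by
    rw [← H9.card_conj_eq_index]
    change {y | IsConj t y}.ncard + 1 ≤ _
    rw [← Set.ncard_insert_of_notMem (a := 1) (fun e => h.t1 (isConj_one_left.1 e))]
    refine Set.ncard_le_ncard ?_
    rintro _ (rfl | e)
    · exact mul_one _
    · obtain ⟨c, rfl⟩ := isConj_iff.1 e
      exact H23.conj_mul_self h.t2
  have m1 : Nat.card M ≠ 1 := fun e => h.ne (card_eq_one.1 e)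
  rw [hr, c1, c2, mul_assoc] at e1
  have e2 := Nat.eq_of_mul_eq_mul_left m0 e1
  rw [hr, c3] at le
  have le2 : r ≤ 2 * k + 1 := Nat.le_of_mul_le_mul_left (by rw [mul_add]; omega) m0
  rw [hr]
  generalize Nat.card M = m at *
  have r0 : r ≠ 0 := by rintro rfl; omega
  obtain ⟨j, rfl⟩ : ∃ j, m = r + j := Nat.exists_eq_add_of_le (by by_contra! e; nlinarith [Nat.pos_of_ne_zero r0])
  have e3 : r = j * k + 1 := by nlinarith
  have : j ≤ 2 := by by_contra! e; nlinarith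
  subst e3
  interval_cases j
  · omega
  · exact Or.inl ⟨by omega, by ring⟩
  · exact Or.inr ⟨by omega, by ring⟩

theorem conj_mem {p : ℕ} (hp : p.Prime) (hd : p ∣ Nat.card M) (hy : orderOf y = p) : ∃ g : G, g * y * g⁻¹ ∈ M := by
  have := Fact.mk hp
  obtain ⟨k, -, -, c, -⟩ := h.count
  obtain ⟨Q, hQ⟩ := exists_isSylowIn (p := p) M
  obtain ⟨g, -, e⟩ := (hQ.trans le_top (by
    rw [relIndex_top_right, c, Nat.dvd_add_right (hd.mul_right _), Nat.prime_dvd_prime_iff_eq hp Nat.prime_two]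
    rintro rfl
    exact (Nat.not_even_iff_odd.2 h.oddM) (even_iff_two_dvd.2 hd))).exists_conj_mem' (Q := zpowers y)
      (IsPGroup.of_card (n := 1) (by rw [Nat.card_zpowers, hy, pow_one])) le_top
  exact ⟨g, hQ.le (e y (mem_zpowers y))⟩

theorem two : ∀ {d k : ℕ}, 0 < d → 2 ^ d = k + 1 → Nat.card C1(t) = 2 * (k + 1) →
    {v : G | v * v = 1}.ncard = Nat.card M * (2 * k + 1) + 1 → Nat.card M = 2 * k + 3 →
    C1(t).index = Nat.card M * (2 * k + 1) →
    ∃ (F : Type) (_ : Field F) (_ : Fintype F) (e : ℕ), 1 < e ∧ Fintype.card F = 2 ^ e ∧ IsCyclic M ∧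
      Nat.card M = 2 ^ e + 1 ∧ Nonempty (G ≃* PSL(2, F)) := by
  intro d k d0 hk c1 c3 c4 c5
  classical
  have : Fact (Nat.Prime 2) := ⟨Nat.prime_two⟩
  have cj : insert 1 {y | IsConj t y} = {v : G | v * v = 1} := by
    refine Set.eq_of_subset_of_ncard_le ?_ ?_
    · rintro _ (rfl | e)
      · exact mul_one _
      · obtain ⟨c, rfl⟩ := isConj_iff.1 e
        exact H23.conj_mul_self h.t2
    · rw [Set.ncard_insert_of_notMem (a := 1) (s := {y | IsConj t y}) (fun e => h.t1 (isConj_one_left.1 e)), c3, ← c5, ← H9.card_conj_eq_index]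
      rfl
  have sq : ∀ s : G, orderOf s = 2 → ∀ c ∈ centralizer ({s} : Set G), c * c = 1 := fun s hs c hc => by
    obtain ⟨s2, s1⟩ := H9.orderOf_eq_two.1 hs
    obtain ⟨g, rfl⟩ := isConj_iff.1 ((cj.ge s2).resolve_left s1)
    have := h.b2 (g := g⁻¹ * c * g) (by
      calc _ = g⁻¹ * (c * (g * t * g⁻¹)) * g := by group
        _ = _ := by rw [mem_C1.1 hc]; group)
    calc c * c = g * (g⁻¹ * c * g * (g⁻¹ * c * g)) * g⁻¹ := by group
      _ = 1 := by rw [this]; group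
  have ni : ¬ 2 ∣ C1(t).index := by
    rw [c5, ← even_iff_two_dvd, Nat.not_even_iff_odd]; exact h.oddM.mul ⟨k, rfl⟩
  have k0 : 0 < k := by have := Nat.one_lt_two_pow d0.ne'; omega
  obtain ⟨F, _, _, hF, ⟨e⟩⟩ := Cfsg.Agent.S1230.result (h.C2.toSylow ni) (fun hc => by
      obtain ⟨x, hx⟩ := Cyc.gen (H := C1(t)) hc
      have := Nat.le_of_dvd two_pos (orderOf_dvd_of_pow_eq_one (x := x) (n := 2)
        (by rw [pow_two]; exact h.b2 (mem_C1.1 (hx ▸ mem_zpowers x))))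
      rw [← Nat.card_zpowers, hx] at this; omega)
    (fun hn => h.not_mem (E := C1(t)) (hE := hn) h.C2 C1_self) fun s hs => ⟨⟨⟨fun a b => Subtype.ext (by
      have e1 := sq s hs _ (mul_mem a.2 b.2)
      rw [coe_mul, coe_mul, ← H9.inv_eq_of_mul_self e1, mul_inv_rev, H9.inv_eq_of_mul_self (sq s hs _ a.2),
        H9.inv_eq_of_mul_self (sq s hs _ b.2)])⟩⟩, fun c hc => by rw [pow_two, sq s hs c hc]⟩
  have hF' : Fintype.card F = 2 * (k + 1) := hF.trans c1
  refine ⟨F, _, _, d + 1, by omega, by rw [hF', pow_succ]; omega, ?_, by rw [pow_succ]; omega, ⟨e⟩⟩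
  obtain ⟨-, c, -, hc, -⟩ := H10.exists_dihedral_nonsplit (F := F)
  rw [hF', show 2 * (k + 1) - 1 = 1 + k * 2 by omega, Nat.gcd_add_mul_right_right, Nat.gcd_one_right, Nat.div_one] at hc
  have ho : orderOf (e.symm c) = Nat.card M := by rw [MulEquiv.orderOf_eq, hc, c4]; rfl
  generalize e.symm c = y at ho
  obtain ⟨p, hp, hd⟩ := Nat.exists_prime_and_dvd (n := Nat.card M) (by omega)
  have o := orderOf_pow_orderOf_div (orderOf_pos y).ne' (ho ▸ hd)
  obtain ⟨g, hg⟩ := h.conj_mem hp hd o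
  have m := h.cent hg (H23.conj_ne_one (by intro e; rw [e, orderOf_one] at o; exact hp.one_lt.ne o))
    (g := g * y * g⁻¹) (by rw [← conj_pow]; exact ((Commute.refl _).pow_right _).eq)
  exact cyc_iff.2 ⟨_, eq_of_le_of_card_ge (zpowers_le.2 m) (by rw [Nat.card_zpowers, H9.orderOf_conj', ho])⟩

theorem one : ∀ {d k : ℕ}, 0 < d → 2 ^ d = k + 1 → M.index = Nat.card M * (2 * k) + 2 →
    {v : G | v * v = 1}.ncard = Nat.card M * (2 * k + 1) + 1 → Nat.card M = k + 2 →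
    C1(t).index = Nat.card M * (k + 1) →
    ∃ (d : ℕ) (E : Subgroup G), 1 ≤ d ∧ E.Normal ∧ IsElementaryAbelian 2 E ∧ Nat.card E = 2 ^ (2 * d) ∧
      E ⊓ N(M) = ⊥ ∧ E ⊔ N(M) = ⊤ ∧ Nonempty (N(M) ≃* DihedralGroup (2 ^ d + 1)) := by
  intro d k d0 hk c2 c3 c4 c5
  have : Fact (Nat.Prime 2) := ⟨Nat.prime_two⟩
  have ix : M.index = 2 ^ (2 * d + 1) := by rw [c2, c4, pow_succ, two_mul d, pow_add, hk]; ring
  have cG := M.card_mul_index
  have C2 : ∀ w : G, orderOf w = 2 → IsPGroup 2 C1(w) := fun w hw => by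
    obtain ⟨w2, w1⟩ := H9.orderOf_eq_two.1 hw
    refine PiGrp.isPGroup fun p hp hd => by_contra fun n => ?_
    have := Fact.mk hp
    obtain ⟨y, hy, o⟩ := H10.exists_mem_orderOf_eq _ hp hd
    obtain ⟨g, hg⟩ := h.conj_mem hp (((Nat.Prime.dvd_mul hp).1 (cG ▸ hd.trans (card_subgroup_dvd_card _))).resolve_right
      fun e => n ((Nat.prime_dvd_prime_iff_eq hp Nat.prime_two).1 (hp.dvd_of_dvd_pow (ix ▸ e)))) o
    have := h.nc (H23.conj_mul_self (g := g) w2) (H23.conj_ne_one w1) hg (by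
      calc _ = g * (w * y) * g⁻¹ := by group
        _ = _ := by rw [← mem_C1.1 hy]; group)
    exact H23.conj_ne_one (by intro e; rw [e, orderOf_one] at o; exact hp.one_lt.ne o) this
  obtain ⟨P, hP⟩ := (IsPGroup.of_card (p := 2) (n := 1) (G := zpowers t) (by
    rw [Nat.card_zpowers, H9.orderOf_eq_two.2 ⟨h.t2, h.t1⟩]; rfl)).exists_le_sylow
  have tP : t ∈ (P : Subgroup G) := hP (mem_zpowers t)
  have nd : ¬ 2 ∣ Nat.card M := by rw [← even_iff_two_dvd, Nat.not_even_iff_odd]; exact h.oddM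
  have cP : Nat.card (P : Subgroup G) = 2 ^ (2 * d + 1) := H10.sylow_card_of (by rw [← cG, ix, mul_comm]) nd P
  have dj : M ⊓ (P : Subgroup G) = ⊥ := disjoint_iff.1 (disjoint_of_coprime_natCard (cP ▸ (Nat.coprime_two_right.2 h.oddM).pow_right _))
  have cpl : IsComplement' M (P : Subgroup G) :=
    isComplement'_of_card_mul_and_disjoint (by rw [cP, ← ix, cG]) (disjoint_iff.2 dj)
  have un : ∀ R : Subgroup G, IsPGroup 2 R → t ∈ R → R ≤ P := fun R hR tR => by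
    obtain ⟨g, hg⟩ := exists_conj_mem_sylow P hR
    obtain ⟨⟨y, q⟩, rfl⟩ := cpl.2 g
    have k1 : ∀ x ∈ R, (y : G)⁻¹ * x * y ∈ (P : Subgroup G) := fun x hx => by
      have := mul_mem (mul_mem q.2 (hg x hx)) (inv_mem q.2)
      simpa [mul_assoc] using this
    have := mul_mem tP (k1 t tR)
    rw [← mul_assoc, ← mul_assoc, h.inv h.ht h.t2 h.t1 (inv_mem y.2), inv_inv] at this
    have y1 := h.sq y.2 ((eq_bot_iff_forall _).1 dj _ ⟨mul_mem y.2 y.2, this⟩)
    intro x hx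
    simpa [y1] using k1 x hx
  set E := (P : Subgroup G).normalCore
  have E2 : IsPGroup 2 E := P.2.to_le (normalCore_le _)
  set K : Set G := {v | v * v = 1} \ {y | IsConj t y}
  have KE : K ⊆ E := fun s hs g => by
    have n : ¬ IsConj t (g * s * g⁻¹) := fun e => hs.2 (e.trans (isConj_iff.2 ⟨g⁻¹, by group⟩))
    obtain ⟨w, hw, -, e1, e2⟩ := (H9.isConj_or_exists_commute h.t2 (H23.conj_mul_self (g := g) hs.1)).resolve_left n
    exact un _ (C2 w hw) (mem_C1.2 e1.symm) (mem_C1.2 e2.symm)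
  have cK : K.ncard = 2 ^ (2 * d) := by
    rw [Set.ncard_sdiff (by
      intro _ e
      obtain ⟨c, rfl⟩ := isConj_iff.1 e
      exact H23.conj_mul_self h.t2), c3]
    change _ - Nat.card {y // IsConj t y} = _
    rw [H9.card_conj_eq_index, c5, c4, two_mul d, pow_add, hk]
    exact Nat.sub_eq_of_eq_add (by ring)
  have cE : Nat.card E ≤ 2 ^ (2 * d) := by
    obtain ⟨j, hj, e⟩ := (Nat.dvd_prime_pow Nat.prime_two).1 (cP ▸ card_dvd_of_le (normalCore_le (P : Subgroup G)))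
    rw [e]
    refine Nat.pow_le_pow_right two_pos (Nat.le_of_lt_succ (hj.lt_of_ne ?_))
    rintro rfl
    exact h.not_mem E2 ((eq_of_le_of_card_ge (normalCore_le _) (by rw [e, cP])).ge tP)
  have eK : K = E := Set.eq_of_subset_of_ncard_le KE (cK ▸ cE)
  have sq : ∀ s ∈ E, s * s = 1 := fun s hs => (eK.ge hs).1
  have cE' : Nat.card E = 2 ^ (2 * d) := by rw [← cK, eK]; rfl
  have i : E ⊓ N(M) = ⊥ := (eq_bot_iff_forall _).2 fun s hs => by_contra fun s1 => by
    obtain ⟨y, -, e⟩ := h.conjM h.ht h.t2 h.t1 hs.2 (sq s hs.1) s1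
    exact (eK.ge hs.1).2 (isConj_iff.2 ⟨y, e⟩)
  refine ⟨d, E, d0, inferInstance, ⟨⟨⟨fun a b => Subtype.ext (by
      have e1 := sq _ (mul_mem a.2 b.2)
      rw [coe_mul, coe_mul, ← H9.inv_eq_of_mul_self e1, mul_inv_rev, H9.inv_eq_of_mul_self (sq _ a.2),
        H9.inv_eq_of_mul_self (sq _ b.2)])⟩⟩, fun a ha => by rw [pow_two, sq a ha]⟩, cE', i,
    (isComplement'_of_card_mul_and_disjoint (by rw [cE', h.cardN, ← cG, ix]; ring) (disjoint_iff.2 i)).sup_eq_top, ?_⟩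
  obtain ⟨x, hx⟩ := (H1.cyc_of_semireg_abel h.abel (norm_of_normal (K := E)) (fun e => by
    rw [e, card_bot] at cE'; have := Nat.one_lt_two_pow (n := 2 * d) (by omega); omega) fun x hx x1 =>
      (eq_bot_iff_forall _).2 fun s hs => by_contra fun s1 => x1 (h.nc (sq s hs.1) s1 hx (mem_C1.1 hs.2))).gen
  have xM : x ∈ M := hx ▸ mem_zpowers x
  have e : closure {t, x} = N(M) := le_antisymm ((closure_le _).2 (by
    rintro _ (rfl | rfl); exacts [h.ht, le_N xM])) fun g hg => by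
      have l : M ≤ closure {t, x} := hx ▸ zpowers_le.2 (subset_closure (by simp))
      rcases h.b3 hg with m | m
      · exact l m
      · exact (mul_mem_cancel_left (subset_closure (by simp))).1 (l m)
  rw [← e]
  exact H9.nonempty_closure_equiv_dihedral (by positivity) (by rw [← Nat.card_zpowers, hx, c4, hk]) h.t2
    (by rw [H9.inv_eq_of_mul_self h.t2, h.inv h.ht h.t2 h.t1 xM]) (hx ▸ h.tM)

end B
end AMS
end H3
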