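import Cfsg.Agent.H5.Tw1
import Cfsg.Agent.S0021

/-! Coprime action of `A ≅ C_r × C_r` with abelian centralizers `C_K(a)` forces `K` solvable
(`AF.solv`): a Martineau-type argument on the maximal invariant `{p, q}`-subgroups. -/

set_option autoImplicit false
set_option linter.unusedSectionVars false
open Cfsg H18 H1 Subgroup
open scoped commutatorElement Pointwise

namespace H3
universe u
variable {G : Type*} [Group G] [Finite G] {A D E H K L M P Q R U V W X Y : Subgroup G} {a b c : G}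
  {p q r : ℕ} {π : Set ℕ}

theorem fpf_sup (hU : Cop R U) (hV : R ≤ N(V)) (hn : U ≤ N(V)) (h1 : U ⊓ C(R) = ⊥) (h2 : V ⊓ C(R) = ⊥) :
    (V ⊔ U) ⊓ C(R) = ⊥ := by
  have e : ((V ⊔ U) ⊓ C(R)) ⫽ V ≤ ⊥ := by
    refine mim_inf_C_le.trans ?_
    rw [quo_self_sup hn, ← hU.quo_cent hV hn, h1, mim_bot]
  have := (quo_eq_bot_iff (inf_le_left.trans (sup_le le_N hn))).1 (le_bot_iff.1 e)
  exact eq_bot_iff.2 (h2 ▸ le_inf this inf_le_right)

/-- the hypothesis: `A ≅ C_r × C_r` acts coprimely on `K` with abelian centralizers -/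
structure AF (r : ℕ) (A K : Subgroup G) : Prop where
  pr : r.Prime
  el : Elem r A
  card : Nat.card A = r ^ 2
  nc : ¬ Cyc A
  cop : Cop A K
  ab : ∀ a ∈ A, a ≠ 1 → Abel (K ⊓ C1(a))

namespace AF

theorem sub (h : AF r A K) (h1 : W ≤ K) (h2 : A ≤ N(W)) : AF r A W :=
  ⟨h.pr, h.el, h.card, h.nc, h.cop.sub h1 h2, fun a ha a1 => (h.ab a ha a1).mono (inf_le_inf_right _ h1)⟩

theorem cz (h : AF r A K) (ha : a ∈ A) (a1 : a ≠ 1) : Nat.card (zpowers a) = r := by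
  rw [card_zpowers', h.el.orderOf h.pr ha a1]

theorem pz (h : AF r A K) (ha : a ∈ A) (a1 : a ≠ 1) : (Nat.card (zpowers a)).Prime := by
  rw [h.cz ha a1]; exact h.pr

theorem ncent (h : AF r A K) (ha : a ∈ A) : A ≤ N(C1(a)) :=
  norm_C1 (le_C1_iff.2 (h.el.abel ha))

theorem sup_z (h : AF r A K) (ha : a ∈ A) (a1 : a ≠ 1) (hb : b ∈ A) (hab : b ∉ zpowers a) :
    zpowers a ⊔ zpowers b = A := by
  have h1 : zpowers a ≤ A := (zpowers_le).2 ha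
  have h2 : (zpowers a).relIndex A = r := relIndex_eq_of_mul h1 (by rw [h.card, h.cz ha a1, sq])
  rcases eq_or_eq_of_prime_relIndex (B := zpowers a ⊔ zpowers b) (h2 ▸ h.pr) le_sup_left
    (sup_le h1 ((zpowers_le).2 hb)) with e | e
  · exact absurd (e ▸ (le_sup_right : zpowers b ≤ _) (mem_zpowers b)) hab
  · exact e

theorem two (h : AF r A K) (ha : a ∈ A) (a1 : a ≠ 1) (hb : b ∈ A) (hab : b ∉ zpowers a) :
    C1(b) ⊓ C1(a) = C(A) := by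
  rw [← h.sup_z ha a1 hb hab, C_sup, C_zpowers, C_zpowers, inf_comm]

theorem gen (h : AF r A K) (h1 : X ≤ K) (h2 : A ≤ N(X)) (e : ∀ b ∈ A, b ≠ 1 → X ⊓ C1(b) ≤ Y) : X ≤ Y :=
  coprime_abelian_gen_cent1 h.el.abel h.nc h2 (h.cop.sub h1 h2).cop e

theorem gen2 (h : AF r A K) (h1 : X ≤ K) (h2 : A ≤ N(X)) (ha : a ∈ A) (a1 : a ≠ 1) (e1 : X ⊓ C1(a) ≤ Y)
    (e : ∀ b ∈ A, b ∉ zpowers a → X ⊓ C1(b) ≤ Y) : X ≤ Y := h.gen h1 h2 fun b hb b1 => by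
  by_cases hba : b ∈ zpowers a
  · rwa [C1_eq_of_prime (h.pz ha a1) hba b1, C_zpowers]
  · exact e b hb hba

theorem cent (h : AF r A K) (ha : a ∈ A) (a1 : a ≠ 1) (u1 : U ≤ K) (u2 : A ≤ N(U)) (v2 : A ≤ N(V))
    (hn : U ≤ N(V)) (u3 : PiGrp π U) (v3 : PiGrp πᶜ V) (h1 : U ⊓ C1(a) = ⊥) (h2 : V ⊓ C1(a) = ⊥) :
    U ≤ C(V) := by
  have z : zpowers a ≤ A := (zpowers_le).2 ha
  rw [← C_zpowers] at h1 h2
  have := H23.thompson_prime (z.trans (norm_sup v2 u2)) (h.pz ha a1)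
    (fpf_sup ((h.cop.sub u1 u2).left z) (z.trans v2) hn h1 h2)
  exact this.cent_pi le_sup_right le_sup_left u3 v3

theorem cc (h : AF r A K) (ha : a ∈ A) (a1 : a ≠ 1) (h1 : X ≤ K) (h2 : Y ≤ K) :
    X ⊓ C1(a) ≤ C(Y ⊓ C1(a)) :=
  cent_mono (h.ab a ha a1) (inf_le_inf_right _ h1) (inf_le_inf_right _ h2)

end AF

/-- a minimal counterexample -/
structure MC (r : ℕ) (A K : Subgroup G) : Prop extends AF r A K where
  fpf : K ⊓ C(A) = ⊥
  slv : ∀ W, W < K → A ≤ N(W) → Solv W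
  simp : ∀ W, W ⊴ K → A ≤ N(W) → W = ⊥ ∨ W = K
  ns : ¬ Solv K

/-- invariant `π`-subgroups -/
structure IV (A K : Subgroup G) (π : Set ℕ) (X : Subgroup G) : Prop where
  le : X ≤ K
  nm : A ≤ N(X)
  pi : PiGrp π X

theorem IV.inf (h : IV A K π X) (h2 : A ≤ N(Y)) : IV A K π (X ⊓ Y) :=
  ⟨inf_le_left.trans h.le, norm_inf h.nm h2, h.pi.inf_left⟩

theorem IV.sub (h : IV A K π X) (h1 : Y ≤ X) (h2 : A ≤ N(Y)) : IV A K π Y :=
  ⟨h1.trans h.le, h2, h.pi.of_le h1⟩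

theorem IV.sup (h : IV A K π X) (h' : IV A K π Y) (e : PiGrp π (X ⊔ Y)) : IV A K π (X ⊔ Y) :=
  ⟨sup_le h.le h'.le, norm_sup h.nm h'.nm, e⟩

namespace MC

theorem fp (h : MC r A K) (h1 : X ≤ K) : X ⊓ C(A) = ⊥ := eq_bot_iff.2 (h.fpf ▸ inf_le_inf_right _ h1)

theorem fp2 (h : MC r A K) (h1 : X ≤ K) (ha : a ∈ A) (a1 : a ≠ 1) (hb : b ∈ A) (hab : b ∉ zpowers a) :
    X ⊓ C1(b) ⊓ C1(a) = ⊥ := by
  rw [inf_assoc, h.two ha a1 hb hab, h.fp h1]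

theorem fp2' (h : MC r A K) (h1 : X ≤ K) (ha : a ∈ A) (a1 : a ≠ 1) (hb : b ∈ A) (hab : b ∉ zpowers a) :
    X ⊓ C1(a) ⊓ C1(b) = ⊥ := by
  rw [inf_right_comm, h.fp2 h1 ha a1 hb hab]

theorem snorm (h : MC r A K) (h0 : D ≠ ⊥) (h1 : D ≤ K) (h2 : A ≤ N(D)) (hs : Solv D) : Solv (K ⊓ N(D)) := by
  refine h.slv _ (inf_lt_left.2 fun e => ?_) (norm_inf h.cop.norm (norm_N h2))
  rcases h.simp D ⟨h1, e⟩ h2 with e' | e'
  · exact h0 e'
  · exact h.ns (e' ▸ hs)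

theorem join (h : MC r A K) (h0 : D ≠ ⊥) (h1 : D ≤ K) (h2 : A ≤ N(D)) (hs : Solv D) (hX : IV A K π X)
    (hY : IV A K π Y) (n1 : X ≤ N(D)) (n2 : Y ≤ N(D)) : IV A K π (X ⊔ Y) := by
  have s := h.snorm h0 h1 h2 hs
  have c := h.cop.sub (inf_le_left : K ⊓ N(D) ≤ K) (norm_inf h.cop.norm (norm_N h2))
  obtain ⟨H1, a1, a2, a3⟩ := coprime_Hall_subset c h.el.abel.solv s (le_inf hX.le n1) hX.pi hX.nm
  obtain ⟨H2, b1, b2, b3⟩ := coprime_Hall_subset c h.el.abel.solv s (le_inf hY.le n2) hY.pi hY.nm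
  obtain ⟨g, hg, e⟩ := coprime_Hall_trans c s a1 b1 a3 b3
  rw [h.fp inf_le_left, mem_bot] at hg
  rw [hg, cj_one] at e
  exact hX.sup hY (a1.pi.of_le (sup_le a2 (e ▸ b2)))

theorem le_syl (h : MC r A K) (hp : p.Prime) (hP : Hall {p} P K) (nP : A ≤ N(P)) (h1 : X ≤ K)
    (h2 : A ≤ N(X)) (h3 : PiGrp {p} X) : X ≤ P := by
  obtain ⟨S, a1, a2, a3⟩ := h.cop.exists_sylow_ge hp h1 h3 h2
  obtain ⟨g, hg, e⟩ := coprime_Sylow_trans h.cop hp hP a1 nP a3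
  rw [h.fpf, mem_bot] at hg
  rw [hg, cj_one] at e
  exact e ▸ a2

theorem hall_inf (h : MC r A K) (hp : p.Prime) (hP : Hall {p} P K) (nP : A ≤ N(P)) (h1 : H ≤ K)
    (h2 : A ≤ N(H)) : Hall {p} (P ⊓ H) H := by
  obtain ⟨S, a1, a3⟩ := (h.cop.sub h1 h2).exists_sylow hp
  exact a1.of_ge (le_inf (h.le_syl hp hP nP (a1.le.trans h1) a3 a1.pi) a1.le) inf_le_right hP.pi.inf_left

theorem not_compl (h : MC r A K) (hp : p.Prime) (hd : p ∣ Nat.card K) : ¬ Hall {p}ᶜ O[{p}ᶜ](K) K := by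
  intro e
  rcases h.simp _ (pcore_nml (π := {p}ᶜ)) (norm_pcore h.cop.norm) with e' | e'
  · rw [e'] at e
    exact h.ns (show PiGrp {p} K from e.compl_of_eq_bot.of_compl_compl).solv
  · exact (piNat_compl_iff hp).1 (e' ▸ pcore_pi : PiGrp {p}ᶜ K) hd

theorem burn (h : MC r A K) (hp : p.Prime) (hP : Hall {p} P K) (h0 : P ≠ ⊥) (nP : A ≤ N(P))
    (ha : a ∈ A) (a1 : a ≠ 1) : ¬ P ≤ C1(a) := by
  intro e
  refine h.not_compl hp ((hP.pi.dvd_card h0).trans (card_dvd hP.le)) (Burnside_normal_complement hp hP ?_)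
  have z : zpowers a ≤ A := (zpowers_le).2 ha
  have c := (h.cop.sub (inf_le_left : K ⊓ N(P) ≤ K) (norm_inf h.cop.norm (norm_N nP))).left z
  rw [← c.comm_sup, C_zpowers]
  refine sup_le (comm_cent_of_cent inf_le_right (zpowers_le_C_iff.2 e)) ?_
  exact cent_mono (h.ab a ha a1) (inf_le_inf_right _ inf_le_left) (le_inf hP.le e)

theorem nilq (h : MC r A K) (h1 : H ≤ K) (h2 : A ≤ N(H)) (hs : Solv H) : Nil (H ⫽ F(H)) :=
  H5.lns_one_eq_bot_iff.1 (H5.lns_succ_eq_bot_iff'.1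
    (H5.lns_two_of_pp h.pr h.el h.card (h.cop.sub h1 h2) hs (h.fp h1)))

theorem cf (h : MC r A K) (h1 : H ≤ K) (h2 : A ≤ N(H)) (hs : Solv H) (ha : a ∈ A) (a1 : a ≠ 1)
    (e : F(H) ⊓ C1(a) = ⊥) : ⁅H, zpowers a⁆ ≤ F(H) := by
  have z : zpowers a ≤ A := (zpowers_le).2 ha
  refine H5.comm_le_fit_of (h.cop.sub h1 h2) hs z fun s S _ s1 s2 s3 => ?_
  set V := O[{s}ᶜ](F(H))
  have v2 : A ≤ N(V) := norm_pcore (norm_fit h2)
  have v3 : H ≤ N(V) := fit_nml.pcore.norm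
  have v4 : V ⊓ C1(a) = ⊥ := eq_bot_iff.2 (e ▸ inf_le_inf_right _ pcore_le)
  have k : S ≤ S ⊓ C(V) ⊔ S ⊓ C1(a) := h.gen2 (s2.trans h1) s3 ha a1 le_sup_right fun b hb hab =>
    le_sup_of_le_left (le_inf inf_le_left (h.cent ha a1 (inf_le_left.trans (s2.trans h1))
      (norm_inf s3 (h.ncent hb)) v2 (inf_le_left.trans (s2.trans v3)) s1.inf_left pcore_pi
      (h.fp2 (s2.trans h1) ha a1 hb hab) v4))
  refine (comm_mono k le_rfl).trans (comm_sup_le ?_ ?_ (inf_le_right.trans le_N)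
    (inf_le_left.trans (s2.trans (norm_C v3))))
  · exact (comm_mono inf_le_right le_rfl).trans (comm_le_left (z.trans (norm_C v2)))
  · rw [comm_eq_bot_iff.2 (by rw [C_zpowers]; exact inf_le_right)]; exact bot_le

theorem odd (h : MC r A K) (hp : p.Prime) (p2 : p ≠ 2) (hP : Hall {p} P K) (h0 : P ≠ ⊥) (nP : A ≤ N(P)) :
    ∃ a ∈ A, a ≠ 1 ∧ ∀ b ∈ A, b ∉ zpowers a → P ⊓ C1(b) ≠ ⊥ := by
  by_contra hc
  push Not at hc
  have : Fact p.Prime := ⟨hp⟩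
  obtain ⟨h3, h4, h5⟩ := H27.isConjugacyFunctor_induced (G := G) (p := p) H27.isCharPFunctor_kInfLower
    P hP.pi.isPGroup
  set W := inducedFunctor kInfLower P
  have hW : A ≤ N(W) := fun g hg => mem_N_iff_cj.2 (by
    rw [cj_def, ← h5 g, ← cj_def, cj_eq_self (nP hg)])
  have hs := h.snorm (h4 h0) (h3.trans hP.le) hW (hP.pi.of_le h3).solv
  refine h.not_compl hp ((hP.pi.dvd_card h0).trans (card_dvd hP.le)) ((hasNormalPComplement_iff hp).1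
    (H23.pnil_of_kinf hp p2 hP ((hasNormalPComplement_iff hp).2 ?_)))
  set H := K ⊓ N(W)
  have h1 : H ≤ K := inf_le_left
  have h2 : A ≤ N(H) := norm_inf h.cop.norm (norm_N hW)
  obtain ⟨T, t1, t2⟩ := coprime_Hall_exists {p}ᶜ (h.cop.sub h1 h2) h.el.abel.solv hs
  have v1 : O[{p}](H) ≤ P := h.le_syl hp hP nP (pcore_le.trans h1) (norm_pcore h2) pcore_pi
  have t3 : T ≤ C(O[{p}](H)) := h.gen (t1.le.trans h1) t2 fun a ha a1 => by
    obtain ⟨b, hb, hab, e⟩ := hc a ha a1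
    have b1 : b ≠ 1 := fun e' => hab (e' ▸ one_mem _)
    exact h.cent hb b1 (inf_le_left.trans (t1.le.trans h1)) (norm_inf t2 (h.ncent ha)) (norm_pcore h2)
      (inf_le_left.trans (t1.le.trans pcore_nml.norm)) t1.pi.inf_left pcore_pi.compl_compl
      (h.fp2' (t1.le.trans h1) ha a1 hb hab) (eq_bot_iff.2 (e ▸ inf_le_inf_right _ v1))
  have l1 : T ⊔ F(H) ⊴ H := nml_of_quo fit_nml.norm (sup_le t1.le fit_le) le_sup_right (by
    rw [quo_sup_self (t1.le.trans fit_nml.norm)]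
    exact (h.nilq h1 h2 hs).hall_nml (t1.mim fit_nml.norm))
  have l2 : T ⊔ F(H) ≤ N(T) := sup_le le_N (by
    rw [← (fit_nil (H := H)).pcore_sup (π := {p}), pcore_fit]
    exact sup_le (cent_norm (cent_symm t3)) (le_norm (pcore_fit_le.trans t1.pcore_le)))
  have l3 := l1.pcore (π := {p}ᶜ)
  rw [(t1.of_le le_sup_left l1.le).eq_pcore l2] at l3
  exact t1.pcore_hall l3.norm

end MC

/-- maximal invariant `π`-subgroups -/
def MXI (A K : Subgroup G) (π : Set ℕ) (H : Subgroup G) : Prop :=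
  IV A K π H ∧ ∀ L, IV A K π L → H ≤ L → L = H

theorem IV.exists_mx (h : IV A K π L) : ∃ H, L ≤ H ∧ MXI A K π H := exists_maximal_sub (IV A K π) h

/-- two invariant Sylow subgroups that do not generate a `{p, q}`-group -/
structure PQ (r p q : ℕ) (π : Set ℕ) (A K P Q : Subgroup G) : Prop extends MC r A K where
  hp : p.Prime
  hq : q.Prime
  ne : p ≠ q
  hπ : ∀ s, s ∈ π ↔ s = p ∨ s = q
  sP : Hall {p} P K
  sQ : Hall {q} Q K
  nP : A ≤ N(P)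
  nQ : A ≤ N(Q)
  no : ¬ PiGrp π (P ⊔ Q)

namespace PQ

theorem symm (h : PQ r p q π A K P Q) : PQ r q p π A K Q P :=
  ⟨h.toMC, h.hq, h.hp, h.ne.symm, fun s => (h.hπ s).trans or_comm, h.sQ, h.sP, h.nQ, h.nP, sup_comm P Q ▸ h.no⟩

theorem ivP (h : PQ r p q π A K P Q) : IV A K π P := ⟨h.sP.le, h.nP, h.sP.pi.of_p ((h.hπ p).2 (.inl rfl))⟩

theorem ne0 (h : PQ r p q π A K P Q) : P ≠ ⊥ := fun e => h.no (by
  rw [e, bot_sup_eq]; exact h.symm.ivP.pi)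

theorem sv (h : PQ r p q π A K P Q) (hL : IV A K π L) : Solv L :=
  h.slv L (lt_of_le_of_ne hL.le fun e => h.no ((e ▸ hL.pi : PiGrp π K).of_le (sup_le h.sP.le h.sQ.le))) hL.nm

theorem pc (h : PQ r p q π A K P Q) (hL : PiGrp π L) : O[{p}ᶜ](L) = O[{q}](L) :=
  pcore_congr' fun s hs hd => by
    rcases (h.hπ s).1 (hL s hs hd) with e | e <;> simp [e, h.ne, h.ne.symm]

theorem qp' (h : PQ r p q π A K P Q) (hL : PiGrp {q} L) : PiGrp {p}ᶜ L := hL.p'_of_ne h.ne.symm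

theorem inf0 (h : PQ r p q π A K P Q) : P ⊓ Q = ⊥ := h.sP.pi.inf_eq_bot (h.qp' h.sQ.pi)

theorem mx_le (h : PQ r p q π A K P Q) (hH : MXI A K π H) (d1 : D ⊴ H) (d0 : D ≠ ⊥) (d2 : A ≤ N(D))
    (hL : IV A K π L) (n : L ≤ N(D)) : L ≤ H :=
  hH.2 _ (h.join d0 (d1.le.trans hH.1.le) d2 ((h.sv hH.1).of_le d1.le) hH.1 hL d1.norm n) le_sup_left ▸
    le_sup_right

theorem b1 (h : PQ r p q π A K P Q) (hH : MXI A K π H) (d1 : D ⊴ H) (d0 : D ≠ ⊥) (d2 : A ≤ N(D))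
    (d3 : PiGrp {p} D) (hL : IV A K π L) (d4 : D ≤ L) (e1 : E ≤ O[{q}](H)) (e2 : E ≤ L) : E ≤ O[{q}](L) := by
  have k : L ⊓ N(D) ≤ H := h.mx_le hH d1 d0 d2 (hL.inf (norm_N d2)) inf_le_right
  have := p'core_norm_pgroup (h.sv hL) d4 d3
  rw [h.pc hL.pi, h.pc hL.pi.inf_left] at this
  exact (le_inf (le_inf e2 ((e1.trans pcore_le).trans d1.norm)) e1).trans ((inf_pcore_le k).trans this)

theorem cpq (h : PQ r p q π A K P Q) : O[{p}](L) ≤ C(O[{q}](L)) :=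
  pcore_cent_nml pcore_nml (h.qp' pcore_pi)

theorem b2 (h : PQ r p q π A K P Q) (hH : MXI A K π H) (hL : MXI A K π L) (h1 : O[{p}](H) ≠ ⊥)
    (h2 : O[{q}](H) ≠ ⊥) (z1 : Z(O[{p}](H)) ≤ L) (z2 : O[{q}](H) ≤ L) : L = H := by
  have np : A ≤ N(O[{p}](H)) := norm_pcore hH.1.nm
  have nq : A ≤ N(O[{q}](H)) := norm_pcore hH.1.nm
  have z0 : Z(O[{p}](H)) ≠ ⊥ := (pcore_pi (π := {p})).nil.Z_ne_bot h1
  have a1 : O[{q}](H) ≤ O[{q}](L) :=
    h.b1 hH pcore_nml.Z z0 (norm_Z np) pcore_pi.inf_left hL.1 z1 le_rfl z2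
  have a2 : Z(O[{p}](H)) ≤ O[{p}](L) := h.symm.b1 hH pcore_nml h2 nq pcore_pi hL.1 z2 inf_le_left z1
  have a3 : O[{p}](L) ≤ H := h.mx_le hH pcore_nml h2 nq (hL.1.sub pcore_le (norm_pcore hL.1.nm))
    (cent_norm (h.cpq.trans (C_anti a1)))
  have a4 : O[{q}](L) ≤ H := h.mx_le hH pcore_nml.Z z0 (norm_Z np) (hL.1.sub pcore_le (norm_pcore hL.1.nm))
    (cent_norm (h.symm.cpq.trans (C_anti a2)))
  have a5 : O[{q}](L) ≤ O[{q}](H) := h.b1 hL pcore_nml (fun e => z0 (eq_bot_iff.2 (e ▸ a2)))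
    (norm_pcore hL.1.nm) pcore_pi hH.1 a3 le_rfl a4
  exact (hL.2 H hH.1 (h.mx_le hH pcore_nml h2 nq hL.1 (le_antisymm a1 a5 ▸ pcore_nml.norm))).symm

theorem uq (h : PQ r p q π A K P Q) (hH : MXI A K π H) (h1 : O[{p}](H) ≠ ⊥) (h2 : O[{q}](H) ≠ ⊥)
    (m1 : M ≤ O[{p}](H)) (m0 : M ≠ ⊥) (m2 : A ≤ N(M)) (hL : IV A K π L) (n : L ≤ N(M)) : L ≤ H := by
  have hX : IV A K π (Z(O[{p}](H)) ⊔ O[{q}](H)) := hH.1.sub (sup_le (inf_le_left.trans pcore_le) pcore_le)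
    (norm_sup (norm_Z (norm_pcore hH.1.nm)) (norm_pcore hH.1.nm))
  obtain ⟨L', a1, a2⟩ := (h.join m0 (m1.trans (pcore_le.trans hH.1.le)) m2 (pcore_pi.of_le m1).solv hL hX n
    (cent_norm (sup_le (inf_le_right.trans (C_anti m1)) (h.symm.cpq.trans (C_anti m1))))).exists_mx
  exact h.b2 hH a2 h1 h2 (le_sup_left.trans (le_sup_right.trans a1))
    (le_sup_right.trans (le_sup_right.trans a1)) ▸ le_sup_left.trans a1

theorem key (h : PQ r p q π A K P Q) (hH : MXI A K π H) (h1 : O[{p}](H) ≠ ⊥) (h2 : O[{q}](H) ≠ ⊥)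
    (hb : b ∈ A) (b1 : b ≠ 1) (e : F(H) ⊓ C1(b) ≠ ⊥) (hL : IV A K π L) : L ⊓ C1(b) ≤ H := by
  have k1 : O[{p}](H) ≤ K := pcore_le.trans hH.1.le
  have k2 : O[{q}](H) ≤ K := pcore_le.trans hH.1.le
  by_cases e1 : O[{p}](H) ⊓ C1(b) = ⊥
  · by_cases e2 : O[{q}](H) ⊓ C1(b) = ⊥
    · have z : zpowers b ≤ A := (zpowers_le).2 hb
      rw [← C_zpowers] at e e1 e2
      refine absurd (eq_bot_iff.2 ?_) e
      rw [← fpf_sup ((h.cop.sub k1 (norm_pcore hH.1.nm)).left z) (z.trans (norm_pcore hH.1.nm))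
        (cent_norm h.cpq) e1 e2]
      refine inf_le_inf_right _ (fit_le_of_pcores fun s hs hd => ?_)
      rcases (h.hπ s).1 (hH.1.pi s hs (hd.trans (card_dvd fit_le))) with rfl | rfl
      exacts [le_sup_right, le_sup_left]
    · exact h.symm.uq hH h2 h1 inf_le_left e2 (norm_inf (norm_pcore hH.1.nm) (h.ncent hb))
        (hL.inf (h.ncent hb)) (cent_norm (h.cc hb b1 hL.le k2))
  · exact h.uq hH h1 h2 inf_le_left e1 (norm_inf (norm_pcore hH.1.nm) (h.ncent hb))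
      (hL.inf (h.ncent hb)) (cent_norm (h.cc hb b1 hL.le k1))

theorem top (h : PQ r p q π A K P Q) (e : P ⊓ N(P ⊓ H) ≤ H) : P ≤ H :=
  h.sP.pi.nil.eq_of_norm_le inf_le_left (le_inf inf_le_left e) ▸ inf_le_right

theorem top' (h : PQ r p q π A K P Q) (hH : MXI A K π H) (h1 : O[{p}](H) ≠ ⊥) (e : P ⊓ H ≤ F(H)) :
    P ≤ H ∧ H ≤ N(P) := by
  have s := h.hall_inf h.hp h.sP h.nP hH.1.le hH.1.nm
  have e1 : P ⊓ H = O[{p}](H) := le_antisymm (le_pcore_of_le_fit e s.pi) s.pcore_le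
  have e2 : P ≤ H := h.top (h.mx_le hH pcore_nml h1 (norm_pcore hH.1.nm)
    (h.ivP.inf (norm_N (norm_inf h.nP hH.1.nm))) (e1 ▸ inf_le_right))
  rw [inf_eq_left.2 e2] at e1
  exact ⟨e2, e1 ▸ pcore_nml.norm⟩

theorem step2 (h : PQ r p q π A K P Q) (hH : MXI A K π H) (h1 : O[{p}](H) ≠ ⊥) (h2 : O[{q}](H) ≠ ⊥) :
    P ≤ H := by
  by_cases c1 : ∀ b ∈ A, b ≠ 1 → F(H) ⊓ C1(b) ≠ ⊥
  · exact h.gen h.sP.le h.nP fun b hb b1 => h.key hH h1 h2 hb b1 (c1 b hb b1) h.ivP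
  push Not at c1
  obtain ⟨a, ha, a1, e⟩ := c1
  have z : zpowers a ≤ A := (zpowers_le).2 ha
  have f1 := h.cf hH.1.le hH.1.nm (h.sv hH.1) ha a1 e
  by_cases c2 : ∀ b ∈ A, b ∉ zpowers a → F(H) ⊓ C1(b) ≠ ⊥
  · have s := h.hall_inf h.hp h.sP h.nP hH.1.le hH.1.nm
    have n : A ≤ N(P ⊓ H) := norm_inf h.nP hH.1.nm
    have iv := h.ivP.inf (norm_N n)
    refine h.top (h.gen2 iv.le iv.nm ha a1 ?_ fun b hb hab =>
      h.key hH h1 h2 hb (fun e' => hab (e' ▸ one_mem _)) (c2 b hb hab) iv)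
    have e1 : ⁅P ⊓ H, zpowers a⁆ = O[{p}](H) := by
      refine le_antisymm (le_pcore_of_le_fit ((comm_mono inf_le_right le_rfl).trans f1)
        (s.pi.of_le (comm_le_left (z.trans n)))) ?_
      rw [← (((h.cop.sub (pcore_le.trans hH.1.le) (norm_pcore (π := {p}) hH.1.nm)).left z).comm_eq_of_cent
        (by rw [C_zpowers]; exact eq_bot_iff.2 (e ▸ inf_le_inf_right _ pcore_le_fit)))]
      exact comm_mono s.pcore_le le_rfl
    exact h.mx_le hH pcore_nml h1 (norm_pcore hH.1.nm) (iv.inf (h.ncent ha))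
      (e1 ▸ norm_comm (inf_le_left.trans inf_le_right) (inf_le_right.trans C1_le_N_zpowers))
  push Not at c2
  obtain ⟨b, hb, hab, e'⟩ := c2
  have f2 := h.cf hH.1.le hH.1.nm (h.sv hH.1) hb (fun e' => hab (e' ▸ one_mem _)) e'
  have f3 : ⁅H, A⁆ ≤ F(H) := by
    rw [← h.sup_z ha a1 hb hab]
    exact comm_sup_le' f1 f2 (z.trans (norm_fit hH.1.nm)) (((zpowers_le).2 hb).trans (norm_fit hH.1.nm))
  have f4 := (h.cop.sub hH.1.le hH.1.nm).le_sup_of_comm_le f3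
  rw [h.fp hH.1.le, sup_bot_eq] at f4
  exact (h.top' hH h1 (inf_le_right.trans f4)).1

theorem step3 (h : PQ r p q π A K P Q) (hH : MXI A K π H) (h2 : O[{q}](H) = ⊥) : P ≤ H ∧ H ≤ N(P) := by
  have s := h.hall_inf h.hp h.sP h.nP hH.1.le hH.1.nm
  have e : P ⊓ H ≤ F(H) := H5.le_fit_of_cent inf_le_right s.pi (by
    rw [(h.nilq hH.1.le hH.1.nm (h.sv hH.1)).fit_eq]; exact mim_mono inf_le_right) (by
    rw [eq_bot_iff.2 (pcore_fit_le.trans ((h.pc hH.1.pi).trans h2).le), C_bot]; exact le_top)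
  refine h.top' hH (fun h1 => ?_) e
  have e1 : P ⊓ H = ⊥ := eq_bot_iff.2 (h1 ▸ le_pcore_of_le_fit e s.pi)
  rw [e1] at s
  have e2 : H = ⊥ := by rw [← pcore_eq_self s.compl_of_eq_bot, h.pc hH.1.pi, h2]
  exact h.ne0 ((hH.2 P h.ivP (e2 ▸ bot_le)).trans e2)

theorem dich0 (h : PQ r p q π A K P Q) (hH : MXI A K π H) : O[{q}](H) = ⊥ ∨ O[{p}](H) = ⊥ := by
  by_contra e
  push Not at e
  exact h.no (hH.1.pi.of_le (sup_le (h.step2 hH e.2 e.1) (h.symm.step2 hH e.1 e.2)))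

theorem dich (h : PQ r p q π A K P Q) (hL : IV A K π L) : L ≤ N(P) ∨ L ≤ N(Q) := by
  obtain ⟨H, a1, a2⟩ := hL.exists_mx
  exact (h.dich0 a2).imp (fun e => a1.trans (h.step3 a2 e).2) fun e => a1.trans (h.symm.step3 a2 e).2

theorem faith (h : PQ r p q π A K P Q) : Q ⊓ C(P) = ⊥ := by
  have i1 := h.symm.ivP.inf (norm_C h.nP)
  obtain ⟨H, a1, a2⟩ := (h.ivP.sup i1 (h.ivP.pi.sup_norm' i1.pi (inf_le_right.trans C_le_N))).exists_mx
  rcases h.dich0 a2 with e | e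
  · obtain ⟨b1, b2⟩ := h.step3 a2 e
    have := cent_sub_pcore (h.sv a2.1) ((h.pc a2.1.pi).trans e)
    rw [(h.sP.of_le b1 a2.1.le).eq_pcore b2] at this
    exact eq_bot_iff.2 (h.inf0 ▸ le_inf ((le_inf (le_sup_right.trans a1) inf_le_right).trans this) inf_le_left)
  · exact absurd (a2.1.pi.of_le (sup_le (le_sup_left.trans a1) (h.symm.step3 a2 e).1)) h.no

theorem nn (h : PQ r p q π A K P Q) : ¬ P ≤ N(Q) := fun e => h.no (h.ivP.pi.sup_norm h.symm.ivP.pi e)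

theorem dc (h : PQ r p q π A K P Q) (hb : b ∈ A) (b1 : b ≠ 1) : Q ⊓ C1(b) ≤ N(P) ∨ P ⊓ C1(b) ≤ N(Q) := by
  have i1 := h.ivP.inf (h.ncent hb)
  have i2 := h.symm.ivP.inf (h.ncent hb)
  exact (h.dich (i1.sup i2 (i1.pi.sup_norm i2.pi (cent_norm (h.cc hb b1 h.sP.le h.sQ.le))))).imp
    le_sup_right.trans le_sup_left.trans

theorem lemE (h : PQ r p q π A K P Q) (hb : b ∈ A) (b1 : b ≠ 1) (d0 : P ⊓ C1(b) ≠ ⊥) : Q ⊓ C1(b) ≤ N(P) := by
  by_contra e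
  have d1 : P ⊓ C1(b) ≤ N(Q) := (h.dc hb b1).resolve_left e
  have i1 := h.ivP.inf (h.ncent hb)
  have xy : P ⊓ N(Q) ≤ C(Q ⊓ N(P)) := cent_of_inf_eq_bot (norm_inf inf_le_right (norm_N (inf_le_left.trans le_N)))
    (norm_inf inf_le_right (norm_N (inf_le_left.trans le_N)))
    (eq_bot_iff.2 (h.inf0 ▸ inf_le_inf inf_le_left inf_le_left))
  have l1 : P ⊓ C(P ⊓ C1(b)) ≤ N(Q) := by
    have := h.join d0 i1.le i1.nm h.sP.pi.inf_left.solv (h.symm.ivP.inf (h.ncent hb))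
      (h.ivP.inf (norm_C i1.nm)) (cent_norm (h.cc hb b1 h.sQ.le h.sP.le)) (inf_le_right.trans C_le_N)
    exact le_sup_right.trans ((h.dich this).resolve_left fun e' => e (le_sup_left.trans e'))
  have x0 : Q ⊓ N(P) ≤ ⊥ := h.faith ▸ le_inf inf_le_left (PxQ h.sP.pi.inf_left (h.qp' h.sQ.pi.inf_left) h.sP.pi
    ((le_inf inf_le_left d1).trans xy) (inf_le_left.trans le_N) inf_le_right ((le_inf inf_le_left l1).trans xy))
  refine h.nn (h.gen2 h.sP.le h.nP hb b1 d1 fun c hc hbc => ?_)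
  have c1 : c ≠ 1 := fun e' => hbc (e' ▸ one_mem _)
  refine (h.dc hc c1).resolve_left fun e' => d0 (eq_bot_iff.2 (h.symm.faith ▸ le_inf inf_le_left ?_))
  exact h.cent hc c1 i1.le i1.nm h.nQ d1 h.sP.pi.inf_left (h.qp' h.sQ.pi) (h.fp2' h.sP.le hb b1 hc hbc)
    (eq_bot_iff.2 ((le_inf inf_le_left e').trans x0))

theorem false (h : PQ r p q π A K P Q) (p2 : p ≠ 2) : False := by
  obtain ⟨a, ha, a1, e⟩ := h.odd h.hp p2 h.sP h.ne0 h.nP
  have n1 : ∀ b ∈ A, b ∉ zpowers a → b ≠ 1 := fun b _ hab e' => hab (e' ▸ one_mem _)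
  have e1 : ∀ b ∈ A, b ∉ zpowers a → Q ⊓ C1(b) ≤ N(P) := fun b hb hab => h.lemE hb (n1 b hb hab) (e b hb hab)
  have e2 : P ⊓ C1(a) = ⊥ := by_contra fun e' => h.symm.nn (h.gen2 h.sQ.le h.nQ ha a1 (h.lemE ha a1 e') e1)
  refine h.burn h.hq h.sQ h.symm.ne0 h.nQ ha a1 (h.gen2 h.sQ.le h.nQ ha a1 inf_le_right fun b hb hab => ?_)
  have i := h.symm.ivP.inf (h.ncent hb)
  exact (h.faith ▸ le_inf inf_le_left (h.cent ha a1 i.le i.nm h.nP (e1 b hb hab) h.sQ.pi.inf_left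
    (h.symm.qp' h.sP.pi) (h.fp2 h.sQ.le ha a1 hb hab) e2) : _ ≤ ⊥).trans bot_le

end PQ

theorem MC.perm (h : MC r A K) (hp : p.Prime) (hq : q.Prime) (ne : p ≠ q) (sP : Hall {p} P K)
    (sQ : Hall {q} Q K) (nP : A ≤ N(P)) (nQ : A ≤ N(Q)) {x : G} (hx : x ∈ P ⊔ Q) :
    ∃ a ∈ P, ∃ b ∈ Q, x = a * b := by
  have e : PiGrp {p, q} (P ⊔ Q) := by_contra fun no => by
    have k : PQ r p q {p, q} A K P Q := ⟨h, hp, hq, ne, fun s => by simp, sP, sQ, nP, nQ, no⟩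
    by_cases p2 : p = 2
    · exact k.symm.false fun e => ne (p2.trans e.symm)
    · exact k.false p2
  have l : P ⊔ Q ≤ K := sup_le sP.le sQ.le
  refine (sP.of_le le_sup_left l).exists_mul ((sQ.of_le le_sup_right l).congr fun s hs hd => ?_) hx
  rcases e s hs hd with e | e <;> simp_all [ne.symm]

theorem MC.false (h : MC r A K) : False := by
  choose P h1 h2 using fun p : Nat.Primes => h.cop.exists_sylow p.2
  choose S hS using fun p : Nat.Primes => (h1 p).exists_sylow p.2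
  have m : ∀ p (x : K), x ∈ S p ↔ (x : G) ∈ P p := fun p x => by
    rw [← hS p]; exact (mem_map_iff_mem K.subtype_injective).symm
  have k : ∀ p q : Nat.Primes, (S p : Set K) * (S q : Set K) ⊆ (S q : Set K) * (S p : Set K) := by
    rintro p q _ ⟨x, hx, y, hy, rfl⟩
    by_cases e : q = p
    · subst e; exact ⟨x, hx, y, hy, rfl⟩
    obtain ⟨a, ha, b, hb, e'⟩ := h.perm q.2 p.2 (fun e' => e (Subtype.ext e')) (h1 q) (h1 p) (h2 q) (h2 p)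
      (mul_mem ((le_sup_right : P p ≤ _) ((m p x).1 hx)) ((le_sup_left : P q ≤ _) ((m q y).1 hy)))
    exact ⟨⟨a, (h1 q).le ha⟩, (m q _).2 ha, ⟨b, (h1 p).le hb⟩, (m p _).2 hb, Subtype.ext e'.symm⟩
  exact h.ns (Cfsg.Agent.S0021.result S fun p q => (k p q).antisymm (k q p))

theorem AF.solv_aux (n : ℕ) : ∀ {G : Type u} [Group G] [Finite G] {A K : Subgroup G}, Nat.card K = n →
    AF r A K → Solv K := by
  induction n using Nat.strong_induction_on with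
  | _ n ih =>
  intro G _ _ A K hn h
  have sub : ∀ W, W < K → A ≤ N(W) → Solv W := fun W h1 h2 => ih _ (hn ▸ card_lt h1) rfl (h.sub h1.le h2)
  by_contra ns
  have simp : ∀ W, W ⊴ K → A ≤ N(W) → W = ⊥ ∨ W = K := fun W h1 h2 => by
    by_contra hc
    push Not at hc
    have d : A ⊓ W = ⊥ := (h.cop.sub h1.le h2).inf_eq_bot
    refine ns (solv_of_quo h1.norm (ih _ (hn ▸ card_quo_lt h1 hc.1) rfl ⟨h.pr, h.el.mim,
      (card_quo_of_disj h2 d).trans h.card, fun e => h.nc ((cyc_quo_iff h2 d).1 e), h.cop.mim, fun z hz z1 => ?_⟩)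
      (sub W (lt_of_le_of_ne h1.le hc.2) h2))
    obtain ⟨a, ha, rfl⟩ := (mem_quo h2).1 hz
    have z : zpowers a ≤ A := (zpowers_le).2 ha
    rw [← C_zpowers, ← mim_zpowers (h2 ha), ← (h.cop.left z).quo_cent (z.trans h2) h1.norm, C_zpowers]
    exact (h.ab a ha fun e => z1 (by rw [e, mfun_one])).mim
  have c : K ≤ C(K ⊓ C(A)) := h.gen le_rfl h.cop.norm fun b hb b1 =>
    cent_mono (h.ab b hb b1) le_rfl (inf_le_inf_left _ (C_le_C1 hb))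
  rcases simp _ ⟨inf_le_left, cent_norm c⟩ (norm_inf h.cop.norm (norm_C le_N)) with e | e
  · exact MC.false ⟨h, e, sub, simp, ns⟩
  · rw [e] at c; exact ns (Abel.solv c)

theorem AF.solv (h : AF r A K) : Solv K := AF.solv_aux _ rfl h

end H3
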