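import Cfsg.Prelude.Def_DegreeGraph
import Mathlib.GroupTheory.SemidirectProduct
import Cfsg.Agent.H6.Clifford
import Cfsg.Agent.H5.FS
import Mathlib.NumberTheory.LegendreSymbol.Complex
import Mathlib.Analysis.SpecialFunctions.Complex.CircleAddChar

/-! Character degrees from annihilators and class-sum eigenvalues (`ann`, `ann2`, `eig`); the affine group
of a finite ring (`AffR`, `aff_deg`). -/

set_option autoImplicit false
open Cfsg H5

namespace H3
variable {G P : Type*} [Group G] [Group P]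

theorem ann [Fintype G] {F : G → ℂ} (hF : IsClassFunction G F) (h0 : F ≠ 0) : ∃ ψ, IsIrrCharacter G ψ ∧
    ∀ (n : ℕ) (a : Fin n → ℂ) (x : Fin n → G), (∀ g, ∑ y, ∑ i, a i * F (y * x i * y⁻¹ * g) = 0) →
      ∑ i, a i * ψ (x i) = 0 := by
  obtain ⟨ψ, hψ, hc⟩ := hF.exists_irr_constituent h0
  refine ⟨ψ, hψ, fun n a x h => ?_⟩
  have e := Fintype.linearIndependent_iff.1 (H5.linearIndependent_irr (G := G))
    (fun χ => classInner F χ * (Nat.card G * (∑ i, a i * χ.1 (x i)) / χ.1 1)) (funext fun g => by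
      refine Eq.trans ?_ (h g)
      rw [Finset.sum_comm]
      simp only [← Finset.mul_sum, hF.apply_eq_sum_irr (_ * g)]
      simp only [Finset.sum_comm (s := (Finset.univ : Finset G)), ← Finset.mul_sum,
        fun χ : IrrCharacter G => χ.2.sum_conj_mul]
      simp only [Finset.sum_apply, Pi.smul_apply, smul_eq_mul, Finset.mul_sum, Finset.sum_div, Finset.sum_mul]
      rw [Finset.sum_comm]
      exact Finset.sum_congr rfl fun _ _ => Finset.sum_congr rfl fun _ _ => by ring) ⟨ψ, hψ⟩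
  simpa [hc, hψ.apply_one_ne_zero, Nat.card_pos.ne'] using e

theorem ann2 [Finite G] (f : G →* P) (φ : P → ℂ) (h0 : φ 1 ≠ 0) : ∃ ψ, IsIrrCharacter G ψ ∧
    ∀ (n : ℕ) (a : Fin n → ℂ) (x : Fin n → G), (∀ y g, ∑ i, a i * φ (f y * f (x i) * (f y)⁻¹ * f g) = 0) →
      ∑ i, a i * ψ (x i) = 0 := by
  have := Fintype.ofFinite G
  obtain ⟨ψ, hψ, h⟩ := ann (F := fun g => ∑ h, φ (f (h * g * h⁻¹))) (fun g x => by
      refine Eq.trans (Finset.sum_congr rfl fun h _ => ?_)
        (Equiv.sum_comp (Equiv.mulRight x) (fun h => φ (f (h * g * h⁻¹))))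
      simp [mul_assoc]) (fun e => by
    have := congrFun e 1
    simp [h0] at this)
  refine ⟨ψ, hψ, fun n a x e => h n a x fun g => Finset.sum_eq_zero fun y _ => ?_⟩
  simp only [Finset.mul_sum]
  rw [Finset.sum_comm]
  refine Finset.sum_eq_zero fun z _ => Eq.trans (Finset.sum_congr rfl fun i _ => ?_) (e (z * y) (z * g * z⁻¹))
  simp only [← map_mul, ← map_inv]
  congr 3
  group

theorem dvd_of_integral {α : ℂ} (hα : IsIntegral ℤ α) {n m : ℤ} (hn : n ≠ 0) (h : n * α = m) : n ∣ m := by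
  have e : α = algebraMap ℚ ℂ (m / n) := by
    have : (n : ℂ) ≠ 0 := by exact_mod_cast hn
    simp [← h, this]
  rw [e, isIntegral_algebraMap_iff (algebraMap ℚ ℂ).injective] at hα
  obtain ⟨z, hz⟩ := IsIntegrallyClosed.isIntegral_iff.1 hα
  refine ⟨z, ?_⟩
  have : (n : ℚ) ≠ 0 := by exact_mod_cast hn
  have h2 : (m : ℚ) = n * z := by
    rw [show (z : ℚ) = m / n from hz]; field_simp
  exact_mod_cast h2

theorem eig [Finite G] {Ω Λ : Type*} [MulAction P Ω] {n : ℕ} (f : G →* P) (gen : Λ → P)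
    (h1 : ∀ X : Subgroup P, (∀ l, gen l ∈ X) → f.range ≤ X) (h2 : ∀ l, gen l ∈ f.range) (k : Fin (n + 1) → P)
    (σ : Λ → Fin (n + 1) → Fin (n + 1)) (inj : ∀ l i j, σ l i = σ l j → i = j)
    (hσ : ∀ l i, gen l * k i = k (σ l i) * gen l) (h0 : k 0 ∈ f.range)
    (reach : ∀ i, i = 0 ∨ ∃ l j, j < i ∧ σ l j = i) (v : Ω → ℤ) (m0 : Ω) (hv : v m0 ≠ 0) (c : ℤ)
    (he : ∀ m, ∑ i, v (k i • m) = c * v m) :
    ∃ d ∈ charDegrees G, ((n + 1 : ℕ) : ℤ) ∣ c * d := by
  obtain ⟨x, hx⟩ := h0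
  have lift : ∀ i, ∃ h : G, f (h * x * h⁻¹) = k i := fun i => by
    induction i using WellFoundedLT.induction with
    | _ i ih =>
    rcases reach i with rfl | ⟨l, j, hj, rfl⟩
    · exact ⟨1, by simpa using hx⟩
    · obtain ⟨h, e⟩ := ih j hj
      obtain ⟨g, hg⟩ := h2 l
      refine ⟨g * h, ?_⟩
      rw [show g * h * x * (g * h)⁻¹ = g * (h * x * h⁻¹) * g⁻¹ by group, map_mul, map_mul, map_inv, e, hg, hσ,
        mul_inv_cancel_right]
  choose h hh using lift
  let S : Subgroup P :=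
    { carrier := {p | ∃ τ : Equiv.Perm (Fin (n + 1)), ∀ i, p * k i = k (τ i) * p}
      one_mem' := ⟨1, by simp⟩
      mul_mem' := fun {a b} ⟨s, hs⟩ ⟨t, ht⟩ => ⟨s * t, fun i => by
        rw [mul_assoc, ht, ← mul_assoc, hs, mul_assoc]; rfl⟩
      inv_mem' := fun {a} ⟨s, hs⟩ => ⟨s⁻¹, fun i => by
        rw [inv_mul_eq_iff_eq_mul, ← mul_assoc, hs]; simp⟩ }
  have hS := h1 S fun l => ⟨Equiv.ofBijective _ (Finite.injective_iff_bijective.1 (inj l)), hσ l⟩
  obtain ⟨ψ, hψ, e⟩ := ann2 f (fun p => (v (p • m0) : ℂ)) (by simpa using hv)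
  have := e (n + 2) (Fin.cons (-c) fun _ => 1) (Fin.cons 1 fun i => h i * x * (h i)⁻¹) fun y g => by
    obtain ⟨τ, hτ⟩ := hS ⟨y, rfl⟩
    rw [Fin.sum_univ_succ]
    simp only [Fin.cons_zero, Fin.cons_succ, hh, hτ, map_one, mul_one, mul_inv_cancel, one_mul,
      mul_inv_cancel_right, mul_smul]
    rw [Equiv.sum_comp τ fun i => (v (k i • f g • m0) : ℂ), ← Int.cast_sum, he]
    simp
  rw [Fin.sum_univ_succ] at this
  simp only [Fin.cons_zero, Fin.cons_succ, one_mul, hψ.isClassFunction _ _, Finset.sum_const, Finset.card_univ,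
    Fintype.card_fin, nsmul_eq_mul] at this
  refine ⟨_, ⟨⟨ψ, hψ⟩, rfl⟩, dvd_of_integral (hψ.isCharacter.isIntegral x) (by omega) ?_⟩
  push_cast at this ⊢
  rw [hψ.coe_charDegree]
  linear_combination this

variable (R : Type) [CommRing R]

/-- units acting on the additive group -/
def affA : Rˣ →* MulAut (Multiplicative R) :=
  (MulAutMultiplicative R).symm.toMonoidHom.comp (DistribMulAction.toAddAut Rˣ R)

/-- the affine group `R ⋊ Rˣ` -/
abbrev AffR := Multiplicative R ⋊[affA R] Rˣ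

instance instFiniteAffR [Finite R] : Finite (AffR R) := Finite.of_equiv _ SemidirectProduct.equivProd.symm

theorem card_affR : Nat.card (AffR R) = Nat.card R * Nat.card Rˣ := SemidirectProduct.card

theorem solv_affR : Group.IsSolvable (AffR R) :=
  Group.isSolvable_of_ker_le_range SemidirectProduct.inl SemidirectProduct.rightHom
    SemidirectProduct.range_inl_eq_ker_rightHom.ge

theorem aff_deg [Finite R] {ψ : AddChar R ℂ} (h : ψ.IsPrimitive) :
    ∃ χ, IsIrrCharacter (AffR R) χ ∧ χ 1 = Nat.card Rˣ := by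
  have := Fintype.ofFinite (AffR R)
  let N : Subgroup (AffR R) := (SemidirectProduct.rightHom).ker
  let l : N →* ℂ :=
    { toFun := fun n => ψ n.1.left.toAdd
      map_one' := ψ.map_zero_eq_one
      map_mul' := fun a b => by
        have : a.1.right = 1 := a.2
        simp [this, ψ.map_add_eq_mul] }
  refine ⟨_, H6.isIrr_ind_of_inertia_le (isIrrCharacter_hom l.toHomUnits) fun g hg => ?_, ?_⟩
  · by_contra e
    refine h (a := g.right - 1) (fun e' => e (Units.ext (sub_eq_zero.1 e'))) (AddChar.ext _ _ fun a => ?_)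
    have := H6.mem_inertia'.1 hg ⟨SemidirectProduct.inl (Multiplicative.ofAdd a), rfl⟩
    have e1 : (g * SemidirectProduct.inl (Multiplicative.ofAdd a) * g⁻¹).left.toAdd = g.right * a := by
      have k : ∀ (u : Rˣ) (x : Multiplicative R), (affA R u x).toAdd = u * x.toAdd := fun _ _ => rfl
      simp [k]
    change ψ _ = ψ a at this
    rw [e1] at this
    rw [AddChar.mulShift_apply, sub_mul, one_mul, ψ.map_sub_eq_div, this, div_self, AddChar.one_apply]
    exact fun e => by simpa [e] using ψ.map_add_eq_mul a (-a)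
  · rw [indFun_apply_one, Subgroup.index_ker, MonoidHom.range_eq_top.2 SemidirectProduct.rightHom_surjective]
    simp

theorem graph_6048 {X : Type*} [Group X] (hX : Nat.card X = 6048) (h1 : ∃ d ∈ charDegrees X, 6 ∣ d)
    (h2 : ∃ d ∈ charDegrees X, 14 ∣ d) (h3 : ∃ d ∈ charDegrees X, 21 ∣ d) :
    degreePrimes X = {2, 3, 7} ∧ ∀ p q, (degreeGraph X).Adj p q ↔
      p ≠ q ∧ p ∈ ({2, 3, 7} : Set ℕ) ∧ q ∈ ({2, 3, 7} : Set ℕ) := by
  have : Finite X := Nat.finite_of_card_ne_zero (by omega)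
  have k : ∀ p, p.Prime → ∀ d ∈ charDegrees X, p ∣ d → p ∈ ({2, 3, 7} : Set ℕ) := by
    rintro p hp _ ⟨χ, rfl⟩ hd
    have e : p ∣ 2 ^ 5 * 3 ^ 3 * 7 := hd.trans (χ.2.charDegree_dvd_card.trans hX.dvd)
    rcases (Nat.Prime.dvd_mul hp).1 e with e | e
    · rcases (Nat.Prime.dvd_mul hp).1 e with e | e
      · exact .inl ((Nat.prime_dvd_prime_iff_eq hp Nat.prime_two).1 (hp.dvd_of_dvd_pow e))
      · exact .inr (.inl ((Nat.prime_dvd_prime_iff_eq hp Nat.prime_three).1 (hp.dvd_of_dvd_pow e)))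
    · exact .inr (.inr ((Nat.prime_dvd_prime_iff_eq hp Nat.prime_seven).1 e))
  obtain ⟨a, ha, a1⟩ := h1
  obtain ⟨b, hb, b1⟩ := h2
  obtain ⟨c, hc, c1⟩ := h3
  refine ⟨Set.ext fun p => ⟨fun ⟨hp, d, hd, e⟩ => k p hp d hd e, ?_⟩, fun p q => ⟨fun ⟨e, hp, hq, d, hd, e'⟩ =>
    ⟨e, k p hp d hd ((dvd_mul_right _ _).trans e'), k q hq d hd ((dvd_mul_left _ _).trans e')⟩, ?_⟩⟩
  · rintro (rfl | rfl | rfl)
    exacts [⟨by decide, a, ha, by omega⟩, ⟨by decide, a, ha, by omega⟩, ⟨by decide, b, hb, by omega⟩]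
  · rintro ⟨e, rfl | rfl | rfl, rfl | rfl | rfl⟩
    exacts [absurd rfl e, ⟨e, by decide, by decide, a, ha, a1⟩, ⟨e, by decide, by decide, b, hb, b1⟩,
      ⟨e, by decide, by decide, a, ha, a1⟩, absurd rfl e, ⟨e, by decide, by decide, c, hc, c1⟩,
      ⟨e, by decide, by decide, b, hb, b1⟩, ⟨e, by decide, by decide, c, hc, c1⟩, absurd rfl e]

end H3
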