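import Cfsg.Agent.H3.Rank2b
import Cfsg.Agent.H3.LM
import Cfsg.Agent.H3.Sec
import Cfsg.Agent.H1.Coprime
import Cfsg.Agent.H1.Cores

/-! Automorphisms of 2-groups with a central four-group `Ω₁`: `klein_aut`, `exists_four_of_fpf`,
`eq_one_of_fix_four`; `exists_aut_GL` (automorphisms of elementary abelian groups as matrices), `cmod_phi`
(the kernel on the Frattini quotient of `O_p(G)` in a group of characteristic `p`). -/

set_option autoImplicit false
set_option linter.style.haveILetI false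
set_option linter.unusedSectionVars false

namespace H3

open Subgroup H18 Cfsg
open scoped commutatorElement

section Four

variable {P : Type*} [Group P]

theorem klein_aut {Z : Subgroup P} (hZ : Nat.card Z = 4) (h2 : ∀ x ∈ Z, x * x = 1) (φ : MulAut P)
    (hi : XInv φ Z) {a : P} (ha : a ∈ Z) (h : φ (φ a) ≠ a) :
    (∀ c ∈ Z, (φ ^ 3) c = c) ∧ (∀ c ∈ Z, c ≠ 1 → φ c ≠ c) := by
  have h1 : φ a ≠ a := fun e => h (by rw [e, e])
  have a1 : a ≠ 1 := fun e => h1 (by rw [e, map_one])
  have b1 : φ a ≠ 1 := by simpa using a1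
  have kc := fun c (hc : c ∈ Z) => klein_cases hZ h2 ha (hi a ha) a1 b1 h1.symm hc
  have h5 : φ (φ a) = a * φ a := by
    rcases kc _ (hi _ (hi a ha)) with e | e | e | e
    exacts [(b1 (by simpa using e)).elim, (h e).elim, (h1 (φ.injective e)).elim, e]
  have h3 : φ (a * φ a) = a := by
    rw [map_mul, h5, comm_of_cent (abel_of_sq h2) ha (hi a ha), ← mul_assoc, h2 _ (hi a ha), one_mul]
  refine ⟨fun c hc => ?_, fun c hc c1 => ?_⟩
  · simp only [pow_succ, pow_zero, one_mul, MulAut.mul_apply]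
    rcases kc c hc with rfl | rfl | rfl | rfl <;> simp only [map_one, h5, h3]
  · rcases kc c hc with rfl | rfl | rfl | rfl
    exacts [(c1 rfl).elim, h1, fun e => h1 (φ.injective e), fun e => b1 (by simpa [h3] using e.symm)]

/-- the central elements of order at most two -/
def om1Z (P : Type*) [Group P] : Subgroup P where
  carrier := {x | x * x = 1 ∧ ∀ y, y * x = x * y}
  one_mem' := ⟨one_mul 1, fun y => by simp⟩
  mul_mem' := fun {a b} ha hb => ⟨by
    rw [mul_assoc, ← mul_assoc b, ha.2 b, mul_assoc, hb.1, mul_one, ha.1], fun y => by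
      rw [← mul_assoc, ha.2, mul_assoc, hb.2, mul_assoc]⟩
  inv_mem' := fun {a} ha => by rwa [inv_eq_of_mul_eq_one_right ha.1]

theorem om1Z_inv (φ : MulAut P) : XInv φ (om1Z P) := fun x hx =>
  ⟨by rw [← map_mul, hx.1, map_one], fun y => by
    obtain ⟨y, rfl⟩ := φ.surjective y
    rw [← map_mul, hx.2, map_mul]⟩

theorem exists_four_of_fpf [Finite P] [Nontrivial P] (hP : IsPGroup 2 P) (hr : PRankLE 2 2 P) (φ : MulAut P)
    (hφ : ∀ x, φ x = x → x = 1) : (∀ x, x ∈ om1Z P ↔ x * x = 1) ∧ Nat.card (om1Z P) = 4 := by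
  classical
  have := Fact.mk Nat.prime_two
  obtain ⟨a, ha, a1, a2⟩ := exists_invol hP (X := center P) (ne_bot_iff_exists_ne_one.2 <| by
    have := IsPGroup.center_nontrivial hP
    exact exists_ne 1)
  have hm : a ∈ om1Z P := ⟨a2, mem_center_iff.1 ha⟩
  have hc : Nat.card (om1Z P) = 4 := by
    have h1 := card_le_of_rank hr (U := om1Z P) fun x hx => hx.1
    obtain ⟨k, hk⟩ := (hP.to_subgroup (om1Z P)).exists_card_eq
    have h2 : zpowers a < om1Z P := (zpowers_le.2 hm).lt_of_ne fun e => by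
      have h3 : φ a ∈ zpowers a := e ▸ om1Z_inv φ a hm
      have h4 : orderOf a = 2 := orderOf_eq_prime (by rw [pow_two, a2]) a1
      rw [mem_zpowers_iff_mem_range_orderOf, h4] at h3
      simp only [Finset.mem_image, Finset.mem_range] at h3
      obtain ⟨i, hi, e⟩ := h3
      interval_cases i
      · exact a1 (by simpa using e.symm)
      · exact a1 (hφ a (by simpa using e.symm))
    have h3 := card_lt h2
    rw [Nat.card_zpowers, orderOf_eq_prime (p := 2) (by rw [pow_two, a2]) a1, hk] at h3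
    rw [hk] at h1 ⊢
    have h4 : k ≤ 2 := (Nat.pow_le_pow_iff_right (by norm_num)).1 h1
    interval_cases k <;> simp_all
  exact ⟨fun x => ⟨fun h => h.1, fun h => mem_of_cent hr (k := 2) hc (fun x hx => hx.1)
    (mem_C.2 fun y hy => (hy.2 x).symm) h⟩, hc⟩

theorem eq_one_of_fix_four [Finite P] (hP : IsPGroup 2 P) {Z : Subgroup P} (memZ : ∀ x, x ∈ Z ↔ x * x = 1)
    (cent : ∀ a ∈ Z, ∀ x, x * a = a * x) (hZ : Nat.card Z = 4) (φ : MulAut P) {a : P} (ha : a ∈ Z)
    (h : φ (φ a) ≠ a) {σ : MulAut P} (h3 : σ ^ 3 = 1) (hf : ∀ a ∈ Z, σ a = a) : σ = 1 := by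
  obtain ⟨F, _, _, _, hF⟩ := exists_field_two (q := 4) ⟨2, rfl⟩ (by norm_num)
  obtain ⟨ξ, z, l, S⟩ := exists_suz_four hP memZ cent hZ φ ha h F hF
  have h4 : ∀ y, σ (σ (σ y)) = y := fun y => by
    have := DFunLike.congr_fun h3 y
    simpa only [pow_succ, pow_zero, one_mul, MulAut.mul_apply, MulAut.one_apply] using this
  ext y
  refine fix_of_stab hP (n := 3) (by decide) h3 (hf _ ?_)
  set u := y⁻¹ * σ y with hu
  have h5 : u * σ u * σ (σ u) = 1 := by
    simp only [hu, map_mul, map_inv, h4]; group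
  by_contra hn
  by_cases hA : Abel (⊤ : Subgroup P)
  · have hc : ∀ x y : P, Commute x y := fun x y => comm_of_cent hA (mem_top x) (mem_top y)
    obtain ⟨n, h6⟩ := hP u
    obtain ⟨j, h7, h8⟩ := H9.exists_notMem_pow_mem (A := ⊥) h6 fun e => hn (by rw [mem_bot.1 e]; exact one_mem _)
    rw [mem_bot, pow_succ, pow_mul, pow_two] at h8
    have h9 := congrArg (· ^ 2 ^ j) h5
    simp only [(hc _ _).mul_pow, ← map_pow, hf _ ((memZ _).2 h8), h8, one_mul, one_pow] at h9
    exact h7 (mem_bot.2 h9)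
  · obtain ⟨ω, h0, h1⟩ := S.four
    have hω := four_cases hF h0 h1
    obtain ⟨f, z', f1, f2, f3, f4, f5, -, f7⟩ := S.form_four hF hA hω
    have sq : ∀ x, x * x ∈ Z := fun x => (f2 _).1 (by rw [f1]; ext <;> simp [CharTwo.add_self_eq_zero])
    have e1 : z' (σ u * σ u) = z' (u * u) := by rw [← map_mul, hf _ (sq u)]
    have e2 : z' (σ (σ u) * σ (σ u)) = z' (u * u) := by rw [← map_mul, ← map_mul, hf _ (sq u), hf _ (sq u)]
    have e3 : f (σ (σ u)) = f u + f (σ u) := by
      have := congrArg f h5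
      rw [f1, f1, (f2 1).2 (one_mem _)] at this
      have a1 := congrArg Prod.fst this
      have a2 := congrArg Prod.snd this
      simp only [Prod.fst_add, Prod.snd_add, Prod.fst_zero, Prod.snd_zero] at a1 a2
      ext <;> simp only [Prod.fst_add, Prod.snd_add]
      · linear_combination a1 - ((f u).1 + (f (σ u)).1) * (CharTwo.two_eq_zero (R := F))
      · linear_combination a2 - ((f u).2 + (f (σ u)).2) * (CharTwo.two_eq_zero (R := F))
    have an : ∀ x, z' (x * x) = 0 → f x = 0 := fun x hx => (f2 x).2 ((memZ x).2 (f5 _ (sq x) hx))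
    obtain ⟨w, hw⟩ := f3 (ω • f u + f (σ u))
    rw [f7, f7] at e1 e2
    rw [e3] at e2
    simp only [Prod.fst_add, Prod.snd_add] at e2
    have h2 := CharTwo.two_eq_zero (R := F)
    have e4 : f w = 0 := an w (by
      rw [f7, hw]
      simp only [Prod.fst_add, Prod.snd_add, Prod.smul_fst, Prod.smul_snd, smul_eq_mul]
      linear_combination (1 - ω) * e1 + ω * e2 +
        ((f u).1 * (f u).1 + ω * ((f u).1 * (f u).2) + (f u).2 * (f u).2) * hω -
        ω * ((f u).1 * (f u).1 + ω * ((f u).1 * (f u).2) + (f u).2 * (f u).2) * h2)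
    rw [hw] at e4
    have e5 := congrArg Prod.fst e4
    have e6 := congrArg Prod.snd e4
    simp only [Prod.fst_add, Prod.snd_add, Prod.smul_fst, Prod.smul_snd, smul_eq_mul, Prod.fst_zero,
      Prod.snd_zero] at e5 e6
    rw [show (f (σ u)).1 = -(ω * (f u).1) by linear_combination e5,
      show (f (σ u)).2 = -(ω * (f u).2) by linear_combination e6] at e1
    refine hn ((f2 u).1 (an u ((mul_eq_zero.1 (?_ : ω * z' (u * u) = 0)).resolve_left h0)))
    rw [f7]
    linear_combination -e1 + ((f u).1 * (f u).1 + ω * ((f u).1 * (f u).2) + (f u).2 * (f u).2) * hω -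
      ((f u).1 * (f u).1 + ω * ((f u).1 * (f u).2) + (f u).2 * (f u).2) * h2

end Four

theorem exists_aut_GL {V : Type*} [CommGroup V] [Finite V] {p n : ℕ} [Fact p.Prime] (hV : ∀ v : V, v ^ p = 1)
    (hc : Nat.card V ≤ p ^ n) : ∃ ρ : MulAut V →* GL (Fin n) (ZMod p), Function.Injective ρ := by
  obtain ⟨_⟩ : Nonempty (Module (ZMod p) (Additive V)) := ⟨AddCommGroup.zmodModule (n := p) fun x =>
    Additive.toMul.injective (by simpa using hV x.toMul)⟩
  haveI : Module.Finite (ZMod p) (Additive V) := Module.Finite.of_finite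
  have hm : Module.finrank (ZMod p) (Additive V) ≤ n := by
    have := Module.natCard_eq_pow_finrank (K := ZMod p) (V := Additive V)
    rw [Nat.card_zmod] at this
    exact (Nat.pow_le_pow_iff_right (Fact.out : p.Prime).one_lt).1 (this ▸ hc)
  let W := Additive V × (Fin (n - Module.finrank (ZMod p) (Additive V)) → ZMod p)
  let b : Module.Basis (Fin n) (ZMod p) W := Module.finBasisOfFinrankEq _ _ (by
    simp only [W, Module.finrank_prod, Module.finrank_fin_fun]; omega)
  let τ : MulAut V →* Module.End (ZMod p) W :=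
    { toFun := fun σ => ((MonoidHom.toAdditive σ.toMonoidHom).toZModLinearMap p).prodMap LinearMap.id
      map_one' := LinearMap.ext fun _ => rfl
      map_mul' := fun _ _ => LinearMap.ext fun _ => rfl }
  refine ⟨((LinearMap.toMatrixAlgEquiv b).toMonoidHom.comp τ).toHomUnits, fun σ σ' h => ?_⟩
  have h1 : τ σ = τ σ' := (LinearMap.toMatrixAlgEquiv b).injective (congrArg Units.val h)
  ext v
  exact congrArg (fun f : Module.End (ZMod p) W => (f (Additive.ofMul v, 0)).1.toMul) h1

theorem cmod_phi {G : Type*} [Group G] [Finite G] {p : ℕ} [hp : Fact p.Prime]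
    (hC : C(pCore p G) ≤ pCore p G) [(Φ(pCore p G)).Normal] : cmod (pCore p G) Φ(pCore p G) = pCore p G := by
  have hQ : PiGrp {p} (pCore p G) := piGrp_of_isPGroup hp.out (H1.pCore_isPGroup p G)
  refine le_antisymm (H1.le_pCore (PiGrp.isPGroup fun q hq hd => ?_))
    (le_cmod.2 (hQ.der_le_phi hp.out))
  obtain ⟨x, hx, rfl⟩ := cauchy hq hd
  by_contra hn
  refine hn (hQ.elt (hC (zpowers_le.1 (H1.le_centralizer_of_frattini (A := zpowers x) norm_of_normal ?_
    (le_cmod.1 (zpowers_le.2 hx))))) _ hq dvd_rfl)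
  rw [Nat.card_zpowers, hq.coprime_iff_not_dvd]
  exact fun h => hn (hQ _ hq (h.trans (card_subgroup_dvd_card _)))

end H3
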