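import Cfsg.Agent.H3.Sec
import Cfsg.Agent.H3.ABG2
import Cfsg.Agent.H18.BG1
import Cfsg.Agent.H17.Four

/-! Direct products inside 2-groups of sectional rank at most four (Thompson): `phi_sup_le`, `relIndex_prod`,
`sec_pair`, `sec_cent`. -/

set_option autoImplicit false
set_option linter.unusedSectionVars false

namespace H3

open Subgroup Cfsg H18
open scoped commutatorElement

variable {G : Type*} [Group G] [Finite G] {p k : ℕ} {A B A' B' P Q T : Subgroup G}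

theorem phi_sup_le (hp : p.Prime) (hA : PiGrp {p} A) (hB : PiGrp {p} B) (hc : A ≤ C(B)) :
    Φ(A ⊔ B) ≤ Φ(A) ⊔ Φ(B) := by
  have hAB : PiGrp {p} (A ⊔ B : Subgroup G) :=
    (PiNat.mul hA hB).of_dvd (Nrm2.card_sup_dvd (Or.inl (cent_norm hc)))
  refine (hAB.phi_le_iff hp).2 ⟨?_, fun x hx => ?_⟩
  · rw [der_sup, comm_eq_bot_iff.2 hc, sup_bot_eq]
    exact sup_le_sup (hA.der_le_phi hp) (hB.der_le_phi hp)
  · obtain ⟨a, ha, b, hb, rfl⟩ := (mem_sup_of_cent hc).1 hx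
    rw [(show Commute a b from comm_of_cent hc ha hb).mul_pow]
    exact mul_mem_sup (hA.pow_mem_phi hp ha) (hB.pow_mem_phi hp hb)

theorem relIndex_prod (hc : A ≤ C(B)) (hd : A ⊓ B = ⊥) (h1 : A' ≤ A) (h2 : B' ≤ B) :
    (A' ⊔ B').relIndex (A ⊔ B) = A'.relIndex A * B'.relIndex B := by
  refine relIndex_eq_of_mul (sup_le_sup h1 h2) ?_
  rw [card_sup_of_cent hc hd, card_sup_of_cent (cent_mono hc h1 h2) (le_bot_iff.1 ((inf_le_inf h1 h2).trans hd.le)),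
    ← card_mul_relIndex h1, ← card_mul_relIndex h2]
  ring

theorem sec_phi (hp : p.Prime) (hr : SectionalPRankLE p k G) (hA : PiGrp {p} A) (h : Φ(A) ≤ B) :
    B.relIndex A ≤ p ^ k :=
  sec_le hr ((hA.phi_le_iff hp).1 h).1 ((hA.phi_le_iff hp).1 h).2

theorem cent_sup_le (hc : A ≤ C(B)) : (A ⊔ B) ⊓ C(A ⊔ B) ≤ Z(A) ⊔ Z(B) := fun x hx => by
  obtain ⟨a, ha, b, hb, rfl⟩ := (mem_sup_of_cent hc).1 hx.1
  have h := mem_inf.1 (C_sup.le hx.2)
  refine mul_mem_sup (mem_inf.2 ⟨ha, ?_⟩) (mem_inf.2 ⟨hb, ?_⟩)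
  · simpa using mul_mem h.1 (inv_mem (cent_symm hc hb))
  · simpa using mul_mem (inv_mem (hc ha)) h.2

theorem four_le_phi (hA : PiGrp {2} A) (h : ¬Abel A) : 2 ^ 2 ≤ Φ(A).relIndex A :=
  Nat.le_of_dvd relIndex_pos (sq_dvd_relIndex_of_not_cyc Nat.prime_two hA le_rfl H18.phi_nml.norm fun e => h e.abel)

theorem Z_le_phi (hp : p.Prime) (hA : PiGrp {p} A) (h : ¬Abel A) (hZ : Nat.card ↥(Z(A)) = p) : Z(A) ≤ Φ(A) :=
  (prime_le_of_inf_ne_bot (hZ ▸ hp) (by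
    rw [inf_comm]; exact hA.nil.meet_Z nml_der fun e => h (abel_iff_der.2 e))).trans
    (hA.der_le_phi hp)

theorem sec_pair (h2 : IsPGroup 2 G) (hr : SectionalPRankLE 2 4 G) (nP : P ⊴ T) (nQ : Q ⊴ T) (hP : ¬Abel P)
    (hQ : ¬Abel Q) (zP : Nat.card ↥(Z(P)) = 2) (zQ : Nat.card ↥(Z(Q)) = 2) (hne : Z(P) ≠ Z(Q)) :
    P ⊓ Q = ⊥ ∧ P ≤ C(Q) ∧ C(P ⊔ Q) ≤ P ⊔ Q ∧ SectionalPRankLE 2 2 P := by
  have pi : ∀ X : Subgroup G, PiGrp {2} X := fun X => piGrp_of_isPGroup Nat.prime_two (h2.to_subgroup X)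
  have hd : P ⊓ Q = ⊥ := by
    by_contra h
    obtain ⟨x, ⟨⟨xP, xQ⟩, -, xC⟩, x1⟩ := exists_mem_ne_one' ((pi T).nil.meet_Z (nP.inf nQ) h)
    exact hne ((zpowers_eq_of_prime (zP ▸ Nat.prime_two) (mem_inf.2 ⟨xP, C_anti nP.le xC⟩) x1).symm.trans
      (zpowers_eq_of_prime (zQ ▸ Nat.prime_two) (mem_inf.2 ⟨xQ, C_anti nQ.le xC⟩) x1))
  have hc : P ≤ C(Q) := cent_of_inf_eq_bot (nP.le.trans nQ.norm) (nQ.le.trans nP.norm) hd
  have q4 := four_le_phi (pi Q) hQ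
  refine ⟨hd, hc, fun c hc' => by_contra fun hn => ?_, sec_of fun H N h1 h3 h4 => ?_⟩
  · obtain ⟨n, hn'⟩ := h2 c
    obtain ⟨j, j1, j2⟩ := H9.exists_notMem_pow_mem hn' hn
    rw [pow_succ, pow_mul] at j2
    have j3 : c ^ 2 ^ j ∈ C(P ⊔ Q) := pow_mem hc' _
    generalize c ^ 2 ^ j = d at j1 j2 j3
    have j4 : d ^ 2 ∈ Φ(P) ⊔ Φ(Q) := sup_le_sup (Z_le_phi Nat.prime_two (pi P) hP zP)
      (Z_le_phi Nat.prime_two (pi Q) hQ zQ) (cent_sup_le hc (mem_inf.2 ⟨j2, pow_mem j3 _⟩))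
    have j5 := sec_phi (A := P ⊔ Q ⊔ zpowers d) (B := Φ(P) ⊔ Φ(Q)) Nat.prime_two hr (pi _)
      ((phi_sup_le Nat.prime_two (pi _) (pi _) (cent_symm (zpowers_le.2 j3))).trans
        (sup_le (phi_sup_le Nat.prime_two (pi _) (pi _) hc) (((pi _).phi_le_iff Nat.prime_two).2
          ⟨abel_zpowers.der.le.trans bot_le, by
            rintro _ ⟨i, rfl⟩
            rw [← zpow_natCast, ← zpow_mul, mul_comm, zpow_mul, zpow_natCast]
            exact zpow_mem j4 i⟩)))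
    rw [← relIndex_tower (sup_le_sup H18.phi_le H18.phi_le) le_sup_left, relIndex_prod hc hd H18.phi_le H18.phi_le] at j5
    have j6 : 1 < (P ⊔ Q).relIndex (P ⊔ Q ⊔ zpowers d) :=
      one_lt_relIndex fun e => j1 (e (mem_sup_right (Subgroup.mem_zpowers d)))
    have := Nat.mul_le_mul (Nat.mul_le_mul (four_le_phi (pi P) hP) q4) j6
    omega
  · have l : H.map P.subtype ≤ P := map_subtype_le _
    have j5 := sec_phi (A := H.map P.subtype ⊔ Q) (B := N.map P.subtype ⊔ Φ(Q)) Nat.prime_two hr (pi _)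
      ((phi_sup_le Nat.prime_two (pi _) (pi _) (l.trans hc)).trans (sup_le_sup_right
        (((pi _).phi_le_iff Nat.prime_two).2 ⟨by rw [← map_commutator]; exact map_mono h3, by
          rintro _ ⟨x, hx, rfl⟩
          exact ⟨_, h4 x hx, map_pow _ _ _⟩⟩) _))
    rw [relIndex_prod (l.trans hc) (le_bot_iff.1 ((inf_le_inf_right _ l).trans hd.le)) (map_mono h1) H18.phi_le,
      relIndex_map_map_of_injective _ _ P.subtype_injective] at j5
    have := Nat.mul_le_mul_left (N.relIndex H) q4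
    omega

theorem sec_cent (h2 : IsPGroup 2 G) (hr : SectionalPRankLE 2 4 G) (hP : ¬Abel P) (zP : Nat.card ↥(Z(P)) = 2)
    (nP : P ⊴ C(Z(P))) (h : C(Z(P)) ≠ ⊤) : SectionalPRankLE 2 2 P ∧ C(Z(P)).index = 2 := by
  have pi : ∀ X : Subgroup G, PiGrp {2} X := fun X => piGrp_of_isPGroup Nat.prime_two (h2.to_subgroup X)
  set T := C(Z(P)) with hT
  have key : ∀ g ∈ N(T), g ∉ T → P ⊓ cj g P = ⊥ ∧ P ≤ C(cj g P) ∧ C(P ⊔ cj g P) ≤ P ⊔ cj g P ∧
      SectionalPRankLE 2 2 P := fun g hg hn =>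
    sec_pair h2 hr nP (by simpa [cj_eq_self hg] using nP.cj g) hP (fun e => hP (by simpa using e.cj g⁻¹)) zP
      (by rw [← cj_Z, card_cj, zP]) fun e => hn ((pi (zpowers g)).cent_prime Nat.prime_two zP
        (zpowers_le.2 (mem_N_iff_cj.2 (by rw [cj_Z, ← e]))) (Subgroup.mem_zpowers g))
  obtain ⟨g, ⟨-, hg⟩, hn⟩ := SetLike.exists_of_lt ((pi ⊤).nil.lt_norm h.lt_top)
  obtain ⟨hd, hc, hC, hs⟩ := key g hg hn
  have nQ : cj g P ⊴ T := by simpa [cj_eq_self hg] using nP.cj g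
  set V := Z(P) ⊔ Z(cj g P) with hV
  have zT : Z(P) ≤ Z(T) := le_inf (inf_le_left.trans nP.le) (cent_symm le_rfl)
  have CV : C(P ⊔ cj g P) ≤ V := (le_inf hC le_rfl).trans (cent_sup_le hc)
  have eV : Z(T) = V := le_antisymm (inf_le_right.trans ((C_anti (sup_le nP.le nQ.le)).trans CV))
    (sup_le zT (by rw [← cj_Z]; exact (cj_mono zT).trans (by rw [cj_Z, cj_eq_self hg])))
  have cV : Nat.card V = 2 ^ 2 := by
    rw [card_sup_of_cent (cent_mono hc inf_le_left inf_le_left)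
      (le_bot_iff.1 ((inf_le_inf inf_le_left inf_le_left).trans hd.le)), ← cj_Z, card_cj, zP]; rfl
  have eT : C(V) = T := le_antisymm (C_anti le_sup_left) (eV ▸ Z_cent)
  have nV : N(T) ≤ N(V) := eV ▸ norm_Z le_rfl
  have top : N(T) = ⊤ := (pi ⊤).nil.eq_of_norm_le le_top fun x hx => by
    have nU : cj x V ⊴ N(T) := by
      have : V ⊴ N(T) := ⟨(eV ▸ inf_le_left).trans le_N, nV⟩
      simpa [cj_eq_self hx.2] using this.cj x
    have cU : Nat.card (cj x V) = 2 ^ 2 := card_cj.trans cV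
    have lt := (pi N(T)).comm_lt (pi _) nU.norm (ne_bot_of_prime_dvd Nat.prime_two (by rw [cU]; decide))
    have cD : N(T) ≤ C(⁅cj x V, N(T)⁆) := by
      obtain ⟨j, hj⟩ := (pi ⁅cj x V, N(T)⁆).card_eq_pow
      have := card_lt lt
      rw [cU, hj, Nat.pow_lt_pow_iff_right (by norm_num)] at this
      interval_cases j
      · rw [card_eq_one.1 hj, C_bot]; exact le_top
      · exact (pi _).cent_prime Nat.prime_two hj norm_comm_right
    have dP : ∀ d ∈ ⁅cj x V, N(T)⁆, d ∈ P → d = 1 := fun d h1 h3 => eq_one_of_eq_bot hd (mem_inf.2 ⟨h3, by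
      rw [mem_cj, mul_assoc, mem_C.1 (cD hg) d h1, inv_mul_cancel_left]; exact h3⟩)
    have dQ : ∀ d ∈ ⁅cj x V, N(T)⁆, d ∈ cj g P → d = 1 := fun d h1 h3 => dP d h1 (by
      rwa [mem_cj, mul_assoc, mem_C.1 (cD hg) d h1, inv_mul_cancel_left] at h3)
    have le : cj x V ≤ V := fun u hu => by
      have m : ∀ y ∈ T, ⁅u, y⁆ ∈ ⁅cj x V, N(T)⁆ := fun y hy => commutator_mem_commutator hu (le_N hy)
      by_cases uT : u ∈ T
      · refine CV (C_sup.ge (mem_inf.2 ⟨mem_C.2 fun y hy => ?_, mem_C.2 fun y hy => ?_⟩))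
        · exact (commutatorElement_eq_one_iff_mul_comm.1 (dP _ (m y (nP.le hy))
            (mul_mem (conj_mem nP.norm uT hy) (inv_mem hy)))).symm
        · exact (commutatorElement_eq_one_iff_mul_comm.1 (dQ _ (m y (nQ.le hy))
            (mul_mem (conj_mem nQ.norm uT hy) (inv_mem hy)))).symm
      · refine absurd (fun y hy => ?_) hP
        have a1 : u * y * u⁻¹ ∈ C(P) := cent_symm (key u (nU.le hu) uT).2.1 (conj_mem_cj hy)
        have a2 : ⁅u, y⁆ ∈ C(P) := cent_symm ((nP.le.trans le_N).trans cD) (m y (nP.le hy))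
        simpa [commutatorElement_def, mul_assoc] using mul_mem (inv_mem a2) a1
    exact eT ▸ N_le_N_C (mem_N_of_cj_le le)
  refine ⟨hs, ?_⟩
  have := H17.relIndex_C_dvd (pi ⊤) Nat.prime_two (top.ge.trans nV) cV
  rw [eT, relIndex_top_right] at this
  exact ((Nat.dvd_prime Nat.prime_two).1 this).resolve_left fun e => h (index_eq_one.1 e)

end H3
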