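import Cfsg.Agent.H3.LM
import Cfsg.Agent.H17.Syl

/-! Casolo's theorem on subnormalizers of `p`-subgroups: `Cas.mu` (Möbius function to the top of a finite poset),
`Cas.card_cj` (counting elements by conjugates), `Cas.casolo`, and the fixed point formula `Cas.step`, `Cas.chain`
along a normal series with `p`- and `p'`-factors. -/

set_option autoImplicit false
set_option linter.unusedSectionVars false

namespace H3.Cas

open Subgroup Cfsg H18 Finset
open scoped commutatorElement Classical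

section Mu

variable {α : Type*} [Fintype α] [PartialOrder α]

/-- minus the Möbius function from `a` to an adjoined top element of `X` -/
noncomputable def mu (X : Set α) : α → ℤ :=
  (wellFounded_gt (α := α)).fix fun a f => 1 - ∑ b : {b // a < b ∧ b ∈ X}, f b.1 b.2.1

theorem mu_eq (X : Set α) (a : α) : mu X a = 1 - ∑ b with a < b ∧ b ∈ X, mu X b := by
  rw [mu, WellFounded.fix_eq, sum_subtype (p := fun b => a < b ∧ b ∈ X) _ (by simp)]

theorem sum_mu {X : Set α} {a : α} (ha : a ∈ X) : ∑ b with a ≤ b ∧ b ∈ X, mu X b = 1 := by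
  rw [show univ.filter (fun b => a ≤ b ∧ b ∈ X) = insert a (univ.filter fun b => a < b ∧ b ∈ X) by
    ext b; simp only [mem_filter, mem_univ, true_and, mem_insert, le_iff_eq_or_lt (a := a)]; aesop,
    sum_insert (by simp), mu_eq]
  ring

theorem mu_retract {X Y : Set α} {a : α} (r : α → α) (h1 : ∀ x ∈ X, a < x → a < r x ∧ r x ∈ Y)
    (h2 : ∀ y ∈ Y, y ∈ X ∧ ∀ x, y ≤ r x ↔ y ≤ x) : mu X a = mu Y a := by
  have fib : ∀ (s : Finset α) (T : α → Prop), (∀ x ∈ X, a < x → (r x ∈ s ↔ T x)) →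
      ∑ y ∈ s, ∑ x with (a < x ∧ x ∈ X) ∧ r x = y, mu X x = ∑ x with (a < x ∧ x ∈ X) ∧ T x, mu X x := fun s T h => by
    rw [← sum_fiberwise_of_maps_to (s := univ.filter fun x => (a < x ∧ x ∈ X) ∧ T x) (t := s) (g := r)
      fun x hx => by simp only [mem_filter] at hx; exact (h x hx.2.1.2 hx.2.1.1).2 hx.2.2]
    refine sum_congr rfl fun y hy => sum_congr ?_ fun _ _ => rfl
    ext x
    simp only [mem_filter, mem_univ, true_and]
    exact ⟨fun e => ⟨⟨e.1, (h x e.1.2 e.1.1).1 (e.2 ▸ hy)⟩, e.2⟩, fun e => ⟨e.1.1, e.2⟩⟩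
  have key : ∀ y ∈ Y, a < y → mu Y y = ∑ x with (a < x ∧ x ∈ X) ∧ r x = y, mu X x := fun y => by
    induction y using (wellFounded_gt (α := α)).induction with
    | _ y ih =>
    intro hy ay
    have e := fib (insert y (univ.filter fun b => y < b ∧ b ∈ Y)) (fun x => y ≤ x) fun x hx ax => by
      rw [← (h2 y hy).2 x]
      simp only [mem_filter, mem_univ, true_and, mem_insert, le_iff_eq_or_lt (a := y), (h1 x hx ax).2, and_true,
        eq_comm]
    rw [sum_insert (by simp), filter_congr (p := fun x => (a < x ∧ x ∈ X) ∧ y ≤ x) (q := fun x => y ≤ x ∧ x ∈ X)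
      fun x _ => ⟨fun e => ⟨e.2, e.1.2⟩, fun e => ⟨⟨ay.trans_le e.1, e.2⟩, e.1⟩⟩, sum_mu (h2 y hy).1] at e
    rw [mu_eq, sum_congr rfl fun b hb => ih b (mem_filter.1 hb).2.1 (mem_filter.1 hb).2.2
      (ay.trans (mem_filter.1 hb).2.1), ← e]
    ring
  rw [mu_eq X, mu_eq Y, sum_congr rfl fun b hb => key b (mem_filter.1 hb).2.2 (mem_filter.1 hb).2.1,
    fib _ (fun _ => True) fun x hx ax => by simpa using h1 x hx ax]
  simp

end Mu

variable {G : Type*} [Group G] [Fintype G] [Fintype (Subgroup G)] {p : ℕ} {H K L M M' P S : Subgroup G}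

theorem card_filter (H : Subgroup G) : #{g | g ∈ H} = Nat.card H := by
  rw [Nat.card_eq_fintype_card, Fintype.card_subtype]

theorem card_cj_eq (L S : Subgroup G) (T : Subgroup G → Prop) :
    #{g | g ∈ L ∧ T (cj g S)} = #{K | T K ∧ ∃ g ∈ L, K = cj g S} * Nat.card (L ⊓ N(S) : Subgroup G) := by
  rw [card_eq_sum_card_fiberwise (f := fun g => cj g S) (t := univ.filter fun K => T K ∧ ∃ g ∈ L, K = cj g S)
    fun g hg => by simp only [coe_filter, mem_univ, true_and, Set.mem_ofPred_eq] at hg ⊢; exact ⟨hg.2, g, hg.1, rfl⟩,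
    ← smul_eq_mul, ← sum_const]
  refine sum_congr rfl fun K hK => ?_
  obtain ⟨hT, y, hy, rfl⟩ := (mem_filter.1 hK).2
  rw [← card_filter]
  refine (card_bij (fun g _ => y * g) (fun g hg => ?_) (fun _ _ _ _ e => mul_left_cancel e) fun g hg => ?_).symm
  · simp only [mem_filter, mem_univ, true_and, Subgroup.mem_inf] at hg ⊢
    rw [cj_mul, cj_eq_self hg.2]
    exact ⟨⟨mul_mem hy hg.1, hT⟩, rfl⟩
  · simp only [mem_filter, mem_univ, true_and, Subgroup.mem_inf] at hg ⊢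
    exact ⟨y⁻¹ * g, ⟨mul_mem (inv_mem hy) hg.1.1, mem_N_iff_cj.2 (by rw [cj_mul, hg.2, cj_inv_cj])⟩, by simp⟩

theorem sum_syl (hp : p.Prime) (hS : Hall {p} S L) (T : Subgroup G → Prop) :
    ∑ K with T K ∧ Hall {p} K L, Nat.card (L ⊓ N(K) : Subgroup G) = #{g | g ∈ L ∧ T (cj g S)} := by
  rw [card_cj_eq, ← smul_eq_mul, ← sum_const]
  refine sum_congr (filter_congr fun K _ => and_congr_right fun _ =>
    ⟨sylow_conj hp hS, by rintro ⟨g, hg, rfl⟩; exact hS.cj_mem hg⟩) fun K hK => ?_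
  obtain ⟨-, g, hg, rfl⟩ := (mem_filter.1 hK).2
  rw [← cj_N, ← card_cj (g := g) (H := L ⊓ N(S)), cj_inf, cj_eq_self_of_mem hg]

/-- the `p`-subgroups of `L` normalized by `g` -/
def X (p : ℕ) (L : Subgroup G) (g : G) : Set (Subgroup G) := {K | K ≤ L ∧ PiGrp {p} K ∧ g ∈ N(K)}

theorem sum_comm_X (L : Subgroup G) (T : Subgroup G → Prop) :
    ∑ g with g ∈ L, ∑ K with T K ∧ K ∈ X p L g, mu (X p L g) K =
      ∑ K with T K ∧ K ≤ L ∧ PiGrp {p} K, ∑ g with g ∈ L ⊓ N(K), mu (X p L g) K :=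
  sum_comm' fun g K => by
    simp only [mem_filter, mem_univ, true_and, Subgroup.mem_inf]
    exact ⟨fun ⟨a, b, c, d, e⟩ => ⟨⟨a, e⟩, b, c, d⟩, fun ⟨⟨a, e⟩, b, c, d⟩ => ⟨a, b, c, d, e⟩⟩

theorem sum_mu_X (hp : p.Prime) (K : Subgroup G) : PiGrp {p} K → ∀ L, K ≤ L →
    ∑ g with g ∈ L ⊓ N(K), mu (X p L g) K = if Hall {p} K L then (Nat.card (L ⊓ N(K) : Subgroup G) : ℤ) else 0 := by
  induction K using (wellFounded_gt (α := Subgroup G)).induction with
  | _ K ih =>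
  intro hK L hL
  have e0 : ∀ g ∈ L ⊓ N(K), mu (X p L g) K = mu (X p (L ⊓ N(K)) g) K := fun g hg =>
    mu_retract (fun Q => Q ⊓ N(K)) (fun Q hQ lt => ⟨hQ.2.1.nil.lt_norm lt, inf_le_inf_right _ hQ.1, hQ.2.1.inf_left,
      zpowers_le.1 (norm_inf (zpowers_le.2 hQ.2.2) (norm_N (zpowers_le.2 hg.2)))⟩)
    fun Q hQ => ⟨⟨hQ.1.trans inf_le_left, hQ.2⟩, fun x => by simp [hQ.1.trans inf_le_right]⟩
  rw [sum_congr rfl fun g hg => (e0 g (mem_filter.1 hg).2).trans (mu_eq _ _), sum_sub_distrib, sum_comm_X, sum_congr rfl fun Q hQ => ih Q (mem_filter.1 hQ).2.1 (mem_filter.1 hQ).2.2.2 _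
      (mem_filter.1 hQ).2.2.1, ← sum_filter, filter_filter, sum_const, card_filter]
  obtain ⟨S, hS, le⟩ := exists_sylow_le hp hK (le_inf hL le_N)
  rw [filter_congr (q := fun Q => K < Q ∧ Hall {p} Q (L ⊓ N(K))) fun Q _ =>
    ⟨fun e => ⟨e.1.1, e.2⟩, fun e => ⟨⟨e.1, e.2.le, e.2.pi⟩, e.2⟩⟩, ← Nat.cast_sum, sum_syl hp hS]
  split_ifs with h
  · rw [filter_false_of_mem fun g _ e => e.2.ne' (h.eq_of_le e.2.le
      (((hS.cj_mem e.1).le).trans inf_le_left) (hS.pi.cj g))]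
    simp
  · have lt : K < S := le.lt_of_ne fun e => h (sylow_of_max hp hL hK fun Q hQ l1 l2 => by
      by_contra h'
      exact (hQ.nil.lt_norm (l1.lt_of_ne fun e => h' e.ge)).ne'
        ((show Hall {p} K (L ⊓ N(K)) from e ▸ hS).eq_of_le (le_inf l1 le_N) (inf_le_inf_right _ l2) hQ.inf_left))
    rw [filter_congr (q := fun g => g ∈ L ⊓ N(K)) fun g _ => and_iff_left_of_imp fun hg => by
      rw [← cj_eq_self hg.2, cj_lt_cj]; exact lt, card_filter]
    simp

theorem subn_iff (hp : p.Prime) (hH : PiGrp {p} H) (g : G) :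
    (H.subgroupOf (H ⊔ zpowers g)).IsSubnormal ↔ ∃ K, H ≤ K ∧ K ∈ X p ⊤ g := by
  have := Fact.mk hp
  refine ⟨fun h => ⟨O[{p}](H ⊔ zpowers g), pCore_map (H := H ⊔ zpowers g) hp ▸
    (H17.subn_iff.2 ⟨le_sup_left, h⟩).le_oP hH.isPGroup, le_top, pcore_pi,
    (pcore_nml (H := H ⊔ zpowers g)).norm (mem_sup_right (mem_zpowers g))⟩, fun ⟨R, a, _, b, c⟩ => ?_⟩
  have n : R ⊓ (H ⊔ zpowers g) ⊴ H ⊔ zpowers g := nml_inf_of_norm' (sup_le (le_norm a) (zpowers_le.2 c))
  exact (H17.subn_iff.1 ((H17.Subn.of_normal n.le n.norm).trans (H17.subn_of_nilpotent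
    b.inf_left.nil H (le_inf a le_sup_left)))).2

theorem casolo (hp : p.Prime) (hH : PiGrp {p} H) (hP : Hall {p} P ⊤) :
    #{g | (H.subgroupOf (H ⊔ zpowers g)).IsSubnormal} = #{g | H ≤ cj g P} := by
  have e := sum_comm_X (p := p) ⊤ fun K => H ≤ K
  rw [sum_congr rfl fun Q hQ => sum_mu_X hp Q (mem_filter.1 hQ).2.2.2 ⊤ le_top, ← sum_filter, filter_filter,
    filter_congr (q := fun Q => H ≤ Q ∧ Hall {p} Q ⊤) fun Q _ =>
      ⟨fun e => ⟨e.1.1, e.2⟩, fun e => ⟨⟨e.1, e.2.le, e.2.pi⟩, e.2⟩⟩, ← Nat.cast_sum, sum_syl hp hP,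
    sum_congr rfl (g := fun g => if (H.subgroupOf (H ⊔ zpowers g)).IsSubnormal then 1 else 0) fun g _ => ?_] at e
  · simpa using e
  split_ifs with h
  · obtain ⟨K, hK⟩ := (subn_iff hp hH g).1 h
    obtain ⟨B, -, hB, mn⟩ := exists_minimal_sub (fun K => H ≤ K ∧ K ∈ X p ⊤ g) hK
    rw [← sum_mu hB.2]
    refine sum_congr (filter_congr fun Q _ => and_congr_left fun hQ => ⟨fun l => ?_, hB.1.trans⟩) fun _ _ => rfl
    exact inf_eq_left.1 (mn _ ⟨le_inf hB.1 l, le_top, hB.2.2.1.inf_left, zpowers_le.1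
      (norm_inf (zpowers_le.2 hB.2.2.2) (zpowers_le.2 hQ.2.2))⟩ inf_le_left)
  · rw [filter_false_of_mem fun K _ e => h ((subn_iff hp hH g).2 ⟨K, e⟩), sum_empty]

theorem card_inv : #{g | H ≤ cj g P} = #{g | cj g H ≤ P} :=
  card_bij (fun g _ => g⁻¹) (fun g hg => by simpa [← le_cj_iff] using hg) (fun _ _ _ _ e => inv_injective e)
    fun g hg => ⟨g⁻¹, by simpa [← cj_le_iff] using hg, inv_inv g⟩

theorem step_cop [M.Normal] [M'.Normal] (hp : p.Prime) (hH : PiGrp {p} H) (hP : Hall {p} P ⊤) (hd : P ⊓ M' ≤ M)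
    (hM : M ≤ M') : #{g | cj g H ≤ P ⊔ M} * Nat.card M' =
      #{g | cj g H ≤ P ⊔ M'} * Nat.card (M' ⊓ cmod H M : Subgroup G) := by
  refine card_mul_eq_card_mul (fun a b => a * b⁻¹ ∈ M') (fun a ha => ?_) fun b hb => ?_
  · rw [← card_filter M']
    refine (card_bij (fun m _ => m⁻¹ * a) (fun m hm => ?_) (fun _ _ _ _ e => by simpa using e) fun b hb =>
      ⟨a * b⁻¹, by simpa using ((mem_bipartiteAbove _).1 hb).2, by simp⟩).symm
    simp only [mem_bipartiteAbove, mem_filter, mem_univ, true_and] at ha hm ⊢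
    exact ⟨cj_mul.le.trans (cj_le_of_mem (ha.trans (sup_le_sup_left hM _)) (mem_sup_right (inv_mem hm))),
      by simpa using hm⟩
  obtain ⟨x, hx, le⟩ := sylow_le_cj hp (hP.of_le le_sup_left le_top) (hH.cj b) (mem_filter.1 hb).2
  obtain ⟨s, hs, m, hm, rfl⟩ := (mem_sup_of_norm norm_of_normal).1 hx
  have l : cj (m * b) H ≤ P := by
    rw [cj_mul, cj_le_iff, cj_eq_self_of_mem (inv_mem hs), cj_cj] at le; exact le
  set y := m * b with hy
  have nM := (inferInstance : M.Normal)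
  have nM' := (inferInstance : M'.Normal)
  have key : ∀ u ∈ M', cj (y * u) H ≤ P ⊔ M ↔ u ∈ cmod H M := fun u hu => by
    rw [mem_cmod]
    refine ⟨fun h k hk => ?_, fun h z hz => ?_⟩
    · have a1 : y * ⁅k, u⁆ * y⁻¹ ∈ (P ⊔ M) ⊓ M' := Subgroup.mem_inf.2 ⟨by
        have := mul_mem (mem_sup_left (l (conj_mem_cj hk))) (h (conj_mem_cj (inv_mem hk)))
        simpa [commutatorElement_def, mul_assoc] using this,
        nM'.conj_mem _ (mul_mem (nM'.conj_mem _ hu k) (inv_mem hu)) y⟩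
      rw [Nrm2.modular' (Or.inl norm_of_normal) hM, sup_eq_right.2 hd] at a1
      simpa [mul_assoc] using nM.conj_mem _ a1 y⁻¹
    · obtain ⟨k, hk, rfl⟩ := mem_cj'.1 hz
      have := mul_mem_sup (l (conj_mem_cj hk)) (nM.conj_mem _ (h _ (inv_mem hk)) y)
      simpa [commutatorElement_def, mul_assoc] using this
  rw [← card_filter]
  refine (card_bij (fun u _ => y * u) (fun u hu => ?_) (fun _ _ _ _ e => mul_left_cancel e) fun a ha => ?_).symm
  · simp only [mem_bipartiteBelow, mem_filter, mem_univ, true_and, Subgroup.mem_inf] at hu ⊢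
    exact ⟨(key u hu.1).2 hu.2, by simpa [hy, mul_assoc] using mul_mem hm (nM'.conj_mem _ hu.1 b)⟩
  · simp only [mem_bipartiteBelow, mem_filter, mem_univ, true_and, Subgroup.mem_inf] at ha ⊢
    have : y⁻¹ * a ∈ M' := by simpa [hy, mul_assoc] using nM'.conj_mem _ (mul_mem (inv_mem hm) ha.2) b⁻¹
    exact ⟨y⁻¹ * a, ⟨this, (key _ this).1 (by simpa using ha.1)⟩, by simp⟩

/-- the number of elements conjugating `H` into `K` -/
noncomputable def aa (H K : Subgroup G) : ℕ := #{g | cj g H ≤ K}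

theorem step [M.Normal] [M'.Normal] (hp : p.Prime) (hH : PiGrp {p} H) (hP : Hall {p} P ⊤) (hM : M ≤ M')
    (h : (∃ m, M.relIndex M' = p ^ m) ∨ (M.relIndex M').Coprime p) :
    aa H (P ⊔ M) * Nat.card (P ⊔ M' : Subgroup G) = aa H (P ⊔ M') * Nat.card (P ⊔ M : Subgroup G) *
      if (M.relIndex M').Coprime p then Nat.card (M' ⊓ cmod H M : Subgroup G) / Nat.card M else 1 := by
  split_ifs with hc
  · have hd : P ⊓ M' ≤ M := Hall.le_of_nml (π := Set.univ) (M := M) (hall_self piNat_univ) le_N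
      (relIndex_eq_one_iff.1 (PiNat.eq_one (π := {p}) (hP.pi.inf_left.of_dvd relIndex_dvd)
        (((piNat_compl_iff_coprime hp).2 hc).of_dvd (Nml.relIndex_dvd ⟨hM, norm_of_normal⟩ inf_le_right)))) piNat_univ
    obtain ⟨c, e⟩ := card_dvd (le_inf hM fun u hu => mem_cmod.2 fun k _ =>
      mul_mem ((inferInstance : M.Normal).conj_mem _ hu k) (inv_mem hu) : M ≤ M' ⊓ cmod H M)
    have e1 : aa H _ * _ = aa H _ * _ := step_cop hp hH hP hd hM
    have e2 := Nrm2.card_sup (A := P) (B := M) (Or.inl norm_of_normal)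
    have e3 := Nrm2.card_sup (A := P) (B := M') (Or.inl norm_of_normal)
    rw [show P ⊓ M' = P ⊓ M from le_antisymm (le_inf inf_le_left hd) (inf_le_inf_left _ hM)] at e3
    rw [e, Nat.mul_div_cancel_left _ card_pos']
    refine Nat.eq_of_mul_eq_mul_right (card_pos' (H := P ⊓ M)) ?_
    rw [mul_assoc, e3, mul_right_comm _ c, mul_assoc _ _ (Nat.card (P ⊓ M : Subgroup G)), e2, mul_left_comm, e1, e]
    ring
  · obtain ⟨m, hm⟩ := h.resolve_right hc
    have : M' ≤ P ⊔ M := relIndex_eq_one_iff.1 (PiNat.eq_one (π := {p})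
      ((hm ▸ piNat_pow_self hp m).of_dvd (relIndex_dvd_left le_sup_right))
      ((hP.idx_of_le le_sup_left).of_dvd (Nml.relIndex_dvd' nml_top le_top)))
    rw [show P ⊔ M' = P ⊔ M from le_antisymm (sup_le le_sup_left this) (sup_le_sup_left hM _), mul_one]

theorem chain (hp : p.Prime) (hH : PiGrp {p} H) (hP : Hall {p} P ⊤) (n : ℕ) : ∀ M : Fin (n + 1) → Subgroup G,
    Monotone M → ∀ hn : ∀ i, (M i).Normal, (∀ i : Fin n, (∃ m, (M i.castSucc).relIndex (M i.succ) = p ^ m) ∨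
      ((M i.castSucc).relIndex (M i.succ)).Coprime p) →
    aa H (P ⊔ M 0) * Nat.card (P ⊔ M (Fin.last n) : Subgroup G) =
      aa H (P ⊔ M (Fin.last n)) * Nat.card (P ⊔ M 0 : Subgroup G) *
        ∏ i : Fin n, if ((M i.castSucc).relIndex (M i.succ)).Coprime p then
          Nat.card (M i.succ ⊓ cmod H (M i.castSucc) : Subgroup G) / Nat.card (M i.castSucc) else 1 := by
  induction n with
  | zero => intro M _ _ _; simp
  | succ n ih =>
  intro M hM hn hf
  have e1 := ih (fun i => M i.castSucc) (hM.comp Fin.strictMono_castSucc.monotone) (fun i => hn _) fun i => hf i.castSucc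
  have e2 := step hp hH hP (hM (Fin.castSucc_le_succ (Fin.last n))) (hf (Fin.last n))
  have ar : ∀ a0 a1 a2 b0 b1 b2 c d : ℕ, 0 < b1 → a0 * b1 = a1 * b0 * c → a1 * b2 = a2 * b1 * d →
      a0 * b2 = a2 * b0 * (c * d) := fun a0 a1 a2 b0 b1 b2 c d h h1 h2 => Nat.eq_of_mul_eq_mul_right h (by
    rw [mul_right_comm, h1, mul_right_comm, mul_right_comm a1, h2]; ring)
  rw [Fin.prod_univ_castSucc]
  exact ar _ _ _ _ _ _ _ _ card_pos' e1 e2

theorem card_subn (hp : p.Prime) (hH : PiGrp {p} H) (hP : Hall {p} P ⊤) :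
    Nat.card {g : G // (H.subgroupOf (H ⊔ zpowers g)).IsSubnormal} = aa H P := by
  rw [Nat.card_eq_fintype_card, Fintype.card_subtype, aa, ← card_inv, ← casolo hp hH hP]

end H3.Cas
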