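import Cfsg.Agent.H3.B4
import Cfsg.Agent.H1.LiftChar
import Cfsg.Agent.H1.Coprime
import Cfsg.Agent.H22.Miller
import Mathlib.Analysis.MeanInequalities

/-! The Navarro-Rizo fixed point formula (as an inequality, `Cas.nr_le`) and Gheri's bound on the number of
`p`-elements of a `p`-solvable group (`Cas.gheri`). -/

set_option autoImplicit false
set_option linter.unusedSectionVars false

namespace H3.Cas

open Subgroup Cfsg H18 Finset
open H19 (els mem_els)
open scoped commutatorElement Classical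

theorem gen_sum {Γ : Type*} [Group Γ] [Fintype Γ] {p : ℕ} (hp : p.Prime) (hΓ : IsPGroup p Γ) (χ : Γ → ℂ)
    (r : Subgroup Γ → ℕ) (h : ∀ A : Subgroup Γ, ∑ a ∈ els A, χ a = Nat.card A * r A) :
    ∑ x : Γ, p * r (zpowers x) = (p - 1) * Nat.card Γ * r ⊤ + ∑ x : Γ, r (zpowers (x ^ p)) := by
  have := Fact.mk hp
  have p0 : (p : ℂ) ≠ 0 := Nat.cast_ne_zero.2 hp.ne_zero
  have p1 : ((p - 1 : ℕ) : ℂ) ≠ 0 := Nat.cast_ne_zero.2 (Nat.sub_pos_of_lt hp.one_lt).ne'
  have key : ∀ x : Γ, (p * r (zpowers x) : ℂ) = r (zpowers (x ^ p)) +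
      ∑ a with zpowers a = zpowers x, ((p - 1 : ℕ) : ℂ) / (orderOf x).totient * χ a := fun x => by
    obtain ⟨k, hk⟩ := (IsPGroup.iff_orderOf.1 hΓ) x
    cases k with
    | zero =>
      obtain rfl : x = 1 := by simpa using hk
      have := h ⊥
      rw [show els (⊥ : Subgroup Γ) = {1} by ext; simp, sum_singleton] at this
      rw [show univ.filter (fun a : Γ => zpowers a = zpowers 1) = {1} by ext; simp, sum_singleton, this]
      simp [Nat.cast_sub hp.one_le]; ring
    | succ k =>
      have o : orderOf (x ^ p) = p ^ k := by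
        rw [orderOf_pow_of_dvd hp.ne_zero (hk ▸ dvd_pow_self p k.succ_ne_zero), hk, pow_succ,
          Nat.mul_div_cancel _ hp.pos]
      have n : x ∉ zpowers (x ^ p) := fun e => by
        rw [mem_zpowers_pow_iff, hk, Nat.gcd_eq_left (dvd_pow_self p k.succ_ne_zero)] at e
        exact hp.ne_one e
      have e := h (zpowers x)
      rw [show els (zpowers x) = els (zpowers (x ^ p)) ∪ univ.filter fun a => zpowers a = zpowers x by
        ext a
        simp only [mem_els, mem_union, mem_filter, mem_univ, true_and]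
        refine ⟨fun ha => ?_, fun ha => ha.elim (fun ha => zpowers_le.2 (npow_mem_zpowers x p) ha)
          fun ha => ha ▸ mem_zpowers a⟩
        obtain ⟨i, rfl⟩ := mem_powers_iff_mem_zpowers.2 ha
        by_cases hi : p ∣ i
        · obtain ⟨j, rfl⟩ := hi
          exact Or.inl (by simpa only [pow_mul] using npow_mem_zpowers (x ^ p) j)
        · exact Or.inr (le_antisymm (zpowers_le.2 ha) (zpowers_le.2 (mem_zpowers_pow_iff.2 (by
            rw [hk]; exact ((hp.coprime_iff_not_dvd.2 hi).symm.pow_right _))))),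
        sum_union (disjoint_left.2 fun a h1 h2 => n (zpowers_le.2 (mem_els.1 h1)
          ((mem_filter.1 h2).2.ge (mem_zpowers x)))), h, Nat.card_zpowers, Nat.card_zpowers, o, hk] at e
      rw [← mul_sum, eq_sub_of_add_eq' e, hk, Nat.totient_prime_pow_succ hp]
      push_cast
      field_simp
      ring
  have e : ∑ x : Γ, ∑ a with zpowers a = zpowers x, ((p - 1 : ℕ) : ℂ) / (orderOf x).totient * χ a =
      (p - 1 : ℕ) * ∑ a, χ a := by
    rw [sum_comm' (t' := univ) (s' := fun a => univ.filter fun x => zpowers x = zpowers a) fun x a => by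
      simp [eq_comm], mul_sum]
    refine sum_congr rfl fun a _ => ?_
    rw [sum_congr rfl (g := fun _ => ((p - 1 : ℕ) : ℂ) / (orderOf a).totient * χ a) fun x hx => by
      rw [← Nat.card_zpowers, (mem_filter.1 hx).2, Nat.card_zpowers], sum_const,
      show #{x | zpowers x = zpowers a} = (orderOf a).totient by
        rw [← H22.ncard_gen, Set.ncard_eq_toFinset_card', Set.toFinset_ofPred]]
    have : ((orderOf a).totient : ℂ) ≠ 0 := Nat.cast_ne_zero.2 (Nat.totient_pos.2 (orderOf_pos a)).ne'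
    rw [nsmul_eq_mul]
    field_simp
  have e2 := h ⊤
  rw [show els (⊤ : Subgroup Γ) = univ by ext; simp, card_top] at e2
  apply Nat.cast_injective (R := ℂ)
  push_cast
  rw [sum_congr rfl fun x _ => key x, sum_add_distrib, e, e2]
  ring

theorem nr_le {Γ X : Type*} [Group Γ] [Fintype Γ] [Group X] [Finite X] {p : ℕ} (hp : p.Prime) (hΓ : IsPGroup p Γ)
    (f : Γ →* X) {V : Subgroup X} (hf : ∀ g, f g ∈ N(V)) (hc : (Nat.card V).Coprime p) :
    ∏ x : Γ, Nat.card ↥(V ⊓ C((zpowers x).map f)) ^ p ≤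
      Nat.card V ^ Nat.card Γ * Nat.card ↥(V ⊓ C((⊤ : Subgroup Γ).map f)) ^ ((p - 1) * Nat.card Γ) := by
  have h0 : Nat.card V ^ Nat.card Γ * Nat.card ↥(V ⊓ C((⊤ : Subgroup Γ).map f)) ^ ((p - 1) * Nat.card Γ) ≠ 0 :=
    mul_ne_zero (pow_ne_zero _ card_ne_zero') (pow_ne_zero _ card_ne_zero')
  refine Nat.le_of_dvd h0.bot_lt ((Nat.factorization_prime_le_iff_dvd
    (prod_ne_zero_iff.2 fun _ _ => pow_ne_zero _ card_ne_zero') h0).1 fun ℓ hℓ => ?_)
  have := Fact.mk hp
  have := Fact.mk hℓ
  have hA : ∀ A : Subgroup Γ, IsPGroup p (A.map f) := fun A => (hΓ.to_subgroup A).map f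
  have nA : ∀ A : Subgroup Γ, ∀ {W : Subgroup X}, (∀ g, f g ∈ N(W)) → A.map f ≤ N(W) := fun A W h => by
    rintro _ ⟨g, -, rfl⟩; exact h g
  have cA : ∀ A : Subgroup Γ, (Nat.card (A.map f)).Coprime (Nat.card V) := fun A => by
    obtain ⟨k, hk⟩ := (hA A).exists_card_eq
    rw [hk]; exact hc.symm.pow_left k
  have sA : ∀ A : Subgroup Γ, Group.IsSolvable (A.map f) := fun A => by
    have := (hA A).isNilpotent; infer_instance
  obtain ⟨Q, hQ, nQ⟩ := H1.exists_invariant_isSylowIn (nA ⊤ hf) (cA ⊤) (Or.inl (sA ⊤)) ℓ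
  have nQ' : ∀ g, f g ∈ N(Q) := fun g => nQ ⟨g, mem_top g, rfl⟩
  obtain ⟨k, hk⟩ := hΓ.exists_card_eq
  obtain ⟨χ, -, hχ⟩ := H1.exists_lift_char_aux hℓ _ f rfl (piGrp_of_isPGroup hℓ hQ.isPGroup).solv nQ'
    (by rw [hk]; exact (hc.coprime_dvd_left (card_dvd hQ.le)).pow_right k)
  have fa : ∀ A : Subgroup Γ, (Nat.card ↥(V ⊓ C(A.map f))).factorization ℓ =
      (Nat.card ↥(Q ⊓ C(A.map f))).factorization ℓ := fun A => by
    have := hQ.inf_centralizer (nA A hf) (cA A) (Or.inl (sA A)) (nA A nQ')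
    rw [← card_mul_relIndex this.le, Nat.factorization_mul card_ne_zero' H18.relIndex_ne_zero, Finsupp.add_apply,
      Nat.factorization_eq_zero_of_not_dvd this.not_dvd, add_zero]
  have e := gen_sum hp hΓ χ _ hχ
  simp only [← fa] at e
  rw [Nat.factorization_prod fun _ _ => pow_ne_zero _ card_ne_zero', Nat.factorization_mul (pow_ne_zero _ card_ne_zero')
    (pow_ne_zero _ card_ne_zero')]
  simp only [Nat.factorization_pow, Finsupp.coe_finsetSum, Finset.sum_apply, Finsupp.smul_apply, smul_eq_mul,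
    Finsupp.add_apply]
  rw [e, add_comm, add_le_add_iff_right, Nat.card_eq_fintype_card, ← card_univ, ← smul_eq_mul, ← sum_const]
  exact sum_le_sum fun x _ => (Nat.factorization_le_iff_dvd card_ne_zero' card_ne_zero').2 (card_dvd inf_le_left) ℓ

variable {G : Type*} [Group G] {p : ℕ}

theorem card_sec [Finite G] {M M' : Subgroup G} [M.Normal] (hM : M ≤ M') (H : Subgroup G) :
    Nat.card (M' ⊓ cmod H M : Subgroup G) / Nat.card M =
      Nat.card ↥(M'.map (QuotientGroup.mk' M) ⊓ C(H.map (QuotientGroup.mk' M))) := by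
  have : M' ⊓ cmod H M = (M'.map (QuotientGroup.mk' M) ⊓ C(H.map (QuotientGroup.mk' M))).comap
      (QuotientGroup.mk' M) := by
    rw [comap_inf, comap_map_eq_self (by rwa [QuotientGroup.ker_mk']), cmod]
  rw [this]
  exact Nat.div_eq_of_eq_mul_right card_pos'
    ((Nat.card_congr (QuotientGroup.preimageMkEquivSubgroupProdSet M
      (M'.map (QuotientGroup.mk' M) ⊓ C(H.map (QuotientGroup.mk' M)) : Subgroup _))).trans (Nat.card_prod _ _))

theorem aa_pos [Fintype G] {H K : Subgroup G} {g : G} (h : cj g H ≤ K) : 0 < aa H K :=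
  card_pos.2 ⟨g, by simpa using h⟩

theorem aa_cj [Fintype G] (H K : Subgroup G) (y : G) : aa (cj y H) K = aa H K :=
  card_bij (fun g _ => g * y) (fun g hg => by simpa [cj_cj] using hg) (fun _ _ _ _ e => mul_right_cancel e)
    fun g hg => ⟨g * y⁻¹, by simpa [cj_cj] using hg, by simp⟩

theorem gheri [Finite G] [hp : Fact p.Prime] (P : Sylow p G) (n : ℕ) (M : Fin (n + 1) → Subgroup G) (h0 : M 0 = ⊥)
    (hn : M (Fin.last n) = ⊤) (hM : Monotone M) (hN : ∀ i, (M i).Normal)
    (hf : ∀ i : Fin n, (∃ m, (M i.castSucc).relIndex (M i.succ) = p ^ m) ∨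
      ((M i.castSucc).relIndex (M i.succ)).Coprime p) :
    Nat.card (P : Subgroup G) ^ p * Nat.card (Sylow p G) ^ (p - 1) ≤
      Nat.card {g : G // ∃ k : ℕ, orderOf g = p ^ k} ^ p := by
  have := Fintype.ofFinite G
  have := Fintype.ofFinite (Subgroup G)
  have hP := hall_sylow_top hp.out P
  let c : Subgroup G → Fin n → ℕ := fun H i => if ((M i.castSucc).relIndex (M i.succ)).Coprime p then
    Nat.card (M i.succ ⊓ cmod H (M i.castSucc) : Subgroup G) / Nat.card (M i.castSucc) else 1
  set N := Nat.card (P : Subgroup G) with hN'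
  have N0 : 0 < N := card_pos'
  have ch : ∀ H ≤ (P : Subgroup G), aa H P = N * ∏ i, c H i := fun H hH => by
    have e := chain hp.out (hP.pi.of_le hH) hP n M hM hN hf
    rwa [h0, hn, sup_bot_eq, sup_top_eq, show aa H ⊤ = Nat.card (⊤ : Subgroup G) by simp [aa], mul_assoc, mul_comm,
      mul_right_inj' card_ne_zero'] at e
  have e1 : aa ⊥ (P : Subgroup G) = Nat.card G := by simp [aa]
  have e2 : aa (P : Subgroup G) P * Nat.card (Sylow p G) = Nat.card G := by
    rw [P.card_eq_index_normalizer, ← card_mul_index N((P : Subgroup G)), ← card_filter]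
    congr 1
    exact congrArg _ (filter_congr fun g _ => ⟨mem_N_of_cj_le, fun h => (cj_eq_self h).le⟩)
  have e3 : ∏ x : (P : Subgroup G), aa (zpowers (x : G)) P ^ p ≤ Nat.card G ^ N * aa (P : Subgroup G) P ^ ((p - 1) * N) := by
    rw [← e1, ch ⊥ bot_le, ch _ le_rfl, prod_congr rfl fun x _ => congrArg (· ^ p) (ch _ (zpowers_le.2 x.2))]
    simp only [mul_pow, ← prod_pow]
    rw [prod_mul_distrib, prod_comm, mul_mul_mul_comm, ← prod_mul_distrib, prod_const, card_univ,
      ← Nat.card_eq_fintype_card, ← pow_mul, ← pow_add, show N + (p - 1) * N = p * N by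
        rw [← Nat.sub_add_cancel hp.out.one_le]; simp; ring]
    refine Nat.mul_le_mul_left _ (prod_le_prod' fun i _ => ?_)
    simp only [c]
    split_ifs with h
    · have := nr_le hp.out P.isPGroup' ((QuotientGroup.mk' (M i.castSucc)).comp (P : Subgroup G).subtype)
        (V := (M i.succ).map (QuotientGroup.mk' _)) (fun g => by
          have : ((M i.succ).map (QuotientGroup.mk' (M i.castSucc))).Normal :=
            (hN _).map _ (QuotientGroup.mk'_surjective _)
          exact norm_of_normal (H := ⊤) (mem_top _)) (by rwa [← relIndex_ker, QuotientGroup.ker_mk'])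
      rw [← Subgroup.map_map ⊤, ← MonoidHom.range_eq_map, range_subtype] at this
      simp only [← Subgroup.map_map, MonoidHom.map_zpowers (P : Subgroup G).subtype, coe_subtype] at this
      simpa only [card_sec (hM (Fin.castSucc_le_succ i)), Subgroup.map_bot, C_bot, inf_top_eq] using this
    · simp
  have a0 : ∀ x : (P : Subgroup G), (0 : ℝ) < aa (zpowers (x : G)) P := fun x =>
    Nat.cast_pos.2 (aa_pos (g := 1) (by simp))
  have e4 : (Nat.card {g : G // ∃ k : ℕ, orderOf g = p ^ k} : ℝ) =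
      ∑ x : (P : Subgroup G), (Nat.card G : ℝ) / aa (zpowers (x : G)) P := by
    calc (Nat.card {g : G // ∃ k : ℕ, orderOf g = p ^ k} : ℝ)
        = ∑ g : G, ∑ y : G with cj y (zpowers g) ≤ P, (1 : ℝ) / aa (zpowers g) P := by
          rw [Nat.card_eq_fintype_card, Fintype.card_subtype, card_eq_sum_ones, Nat.cast_sum, sum_filter]
          refine sum_congr rfl fun g _ => ?_
          rw [sum_const, nsmul_eq_mul]
          split_ifs with h
          · obtain ⟨k, hk⟩ := h
            obtain ⟨y, -, hy⟩ := sylow_le_cj hp.out hP (Q := zpowers g)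
              (piGrp_zpowers.2 (show PiNat _ _ from hk ▸ piNat_pow_self hp.out k)) le_top
            rw [Nat.cast_one]
            exact (mul_one_div_cancel (Nat.cast_ne_zero.2 (aa_pos hy).ne')).symm
          · rw [filter_false_of_mem fun y _ e => h (by
              simpa only [card_cj, Nat.card_zpowers] using (hP.pi.of_le e).card_eq_pow)]
            simp
      _ = ∑ y : G, ∑ x : (P : Subgroup G), (1 : ℝ) / aa (zpowers (x : G)) P := by
          rw [sum_comm' (t' := univ) (s' := fun y => univ.filter fun g => cj y (zpowers g) ≤ P) fun _ _ => by simp]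
          refine sum_congr rfl fun y _ => (sum_bij (fun (x : (P : Subgroup G)) _ => y⁻¹ * x * y) (fun x _ => ?_)
            (fun _ _ _ _ e => by simpa using e) (fun g hg => ?_) fun x _ => ?_).symm
          · simpa [cj_zpowers, mul_assoc] using x.2
          · exact ⟨⟨y * g * y⁻¹, by simpa [cj_zpowers] using hg⟩, mem_univ _, by simp [mul_assoc]⟩
          · rw [← aa_cj _ _ y⁻¹, cj_zpowers, inv_inv]
      _ = _ := by
          rw [sum_const, card_univ, ← Nat.card_eq_fintype_card, nsmul_eq_mul, mul_sum]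
          simp only [mul_one_div]
  have G0 : (0 : ℝ) < Nat.card G := Nat.cast_pos.2 Nat.card_pos
  have am := Real.geom_mean_le_arith_mean univ (fun _ : (P : Subgroup G) => (1 : ℝ))
    (fun x => (Nat.card G : ℝ) / aa (zpowers (x : G)) P) (fun _ _ => zero_le_one) (by simpa using Fintype.card_pos)
    fun x _ => (div_pos G0 (a0 x)).le
  simp only [Real.rpow_one, one_mul, sum_const, card_univ, nsmul_eq_mul, mul_one, ← Nat.card_eq_fintype_card,
    ← e4, ← hN'] at am
  have z0 : (0 : ℝ) ≤ ∏ x : (P : Subgroup G), (Nat.card G : ℝ) / aa (zpowers (x : G)) P :=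
    prod_nonneg fun x _ => (div_pos G0 (a0 x)).le
  have am2 := pow_le_pow_left₀ (Real.rpow_nonneg z0 _) am (N * p)
  rw [pow_mul, Real.rpow_inv_natCast_pow z0 N0.ne', mul_comm, pow_mul] at am2
  have e5 : (((Nat.card (Sylow p G) : ℝ)) ^ (p - 1)) ^ N ≤ (∏ x : (P : Subgroup G), (Nat.card G : ℝ) / aa (zpowers (x : G)) P) ^ p := by
    rw [prod_div_distrib, div_pow, le_div_iff₀ (pow_pos (prod_pos fun x _ => a0 x) _), ← prod_pow, prod_const,
      card_univ, ← Nat.card_eq_fintype_card, ← hN']
    have : (Nat.card (Sylow p G) ^ (p - 1)) ^ N * ∏ x : (P : Subgroup G), aa (zpowers (x : G)) P ^ p ≤ (Nat.card G ^ N) ^ p := by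
      refine (Nat.mul_le_mul_left _ e3).trans_eq ?_
      rw [← pow_mul, mul_left_comm, ← mul_pow, mul_comm (Nat.card (Sylow p G)), e2, ← pow_add, ← pow_mul]
      congr 1
      rw [← Nat.sub_add_cancel hp.out.one_le]; simp; ring
    exact_mod_cast this
  have e6 := (pow_le_pow_iff_left₀ (by positivity) (by positivity) N0.ne').1 (e5.trans am2)
  rw [div_pow, le_div_iff₀ (by positivity), mul_comm] at e6
  exact_mod_cast e6

end H3.Cas
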