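import Cfsg.Agent.H9.MaxClass
import Cfsg.Agent.H1.Fitting

/-! Irreducible linear `p`-groups: `exists_uz` (normal subgroup of type `(p,p)` in coordinates),
`imprim` (a faithful irreducible `p`-group with such a subgroup is imprimitive),
`imprim_or` (cyclic, maximal class or imprimitive). -/

set_option autoImplicit false

namespace H3.Imp
open Subgroup Cfsg H18
open scoped commutatorElement

variable {G : Type*} [Group G] [Finite G] {p : ℕ}

theorem exists_central [Fact p.Prime] (hG : IsPGroup p G) {W : Subgroup G} [W.Normal]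
    (h0 : W ≠ ⊥) : ∃ z ∈ W, z ∈ center G ∧ z ≠ 1 := by
  have := hG.isNilpotent
  have h1 := H1.normal_inf_center_ne_bot W h0
  obtain ⟨⟨z, hz⟩, h2⟩ := (Subgroup.ne_bot_iff_exists_ne_one).1 h1
  exact ⟨z, hz.1, hz.2, fun e => h2 (Subtype.ext e)⟩

theorem exists_uz [Fact p.Prime] (hG : IsPGroup p G) {W : Subgroup G} [W.Normal]
    (hE : PElem p 2 W ⊤) : ∃ u z : G, z ∈ center G ∧ orderOf z = p ∧ u ^ p = 1 ∧ u ∉ zpowers z ∧
      ∀ g, g * u * g⁻¹ * u⁻¹ ∈ zpowers z := by
  have hp : p.Prime := Fact.out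
  have h0 : W ≠ ⊥ := by
    intro e
    have := hE.card
    rw [e, card_bot] at this
    have := hp.one_lt
    nlinarith
  obtain ⟨z, hzW, hzc, hz1⟩ := exists_central hG h0
  have ho : orderOf z = p := orderOf_eq_prime (hE.elem.pow z hzW) hz1
  have hle : zpowers z ≤ W := Subgroup.zpowers_le.2 hzW
  have hn : (zpowers z).Normal := H9.normal_zpowers_of_center hzc
  obtain ⟨u, huW, hu⟩ : ∃ u ∈ W, u ∉ zpowers z := by
    by_contra hc
    push Not at hc
    have h1 := card_le_of_le (show W ≤ zpowers z from hc)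
    rw [Nat.card_zpowers, ho, hE.card] at h1
    have := hp.one_lt
    nlinarith
  refine ⟨u, z, hzc, ho, hE.elem.pow u huW, hu, fun g => ?_⟩
  set f := QuotientGroup.mk' (zpowers z)
  have hf : Function.Surjective f := QuotientGroup.mk'_surjective _
  have hWn : (W.map f).Normal := Subgroup.Normal.map inferInstance f hf
  have hc : Nat.card (W.map f) = p := by
    have h1 := card_mul_relIndex hle
    rw [← relIndex_ker, QuotientGroup.ker_mk']
    rw [Nat.card_zpowers, ho, hE.card, sq] at h1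
    exact Nat.eq_of_mul_eq_mul_left hp.pos h1
  have hne : W.map f ≠ ⊥ := by
    intro e; rw [e, card_bot] at hc; exact hp.one_lt.ne hc
  obtain ⟨y, hy, hyc, hy1⟩ := exists_central (hG.to_quotient (zpowers z)) hne
  have hyo : zpowers y = W.map f := by
    have h2 := card_dvd_of_le (Subgroup.zpowers_le.2 hy)
    rw [hc] at h2
    rcases (Nat.dvd_prime hp).1 h2 with h | h
    · exact absurd (zpowers_eq_bot.1 (card_eq_one.1 h)) hy1
    · exact eq_of_le_of_card_ge (Subgroup.zpowers_le.2 hy) (by rw [h, hc])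
  have h1 : f u ∈ center _ := by
    have : f u ∈ zpowers y := hyo ▸ mem_map_of_mem f huW
    exact (Subgroup.zpowers_le.2 hyc) this
  rw [← QuotientGroup.eq_one_iff (N := zpowers z)]
  change f _ = 1
  rw [map_mul, map_mul, map_mul, map_inv, map_inv, mem_center_iff.1 h1 (f g)]
  group

section lin
variable {F V : Type*} [Field F] [AddCommGroup V] [Module F V] (ρ : G →* (V ≃ₗ[F] V))

/-- the fixed space of an element -/
def fix (g : G) : Submodule F V where
  carrier := {v | ρ g v = v}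
  add_mem' := fun {a b} ha hb => by
    change ρ g (a + b) = a + b
    rw [map_add, ha, hb]
  zero_mem' := map_zero _
  smul_mem' := fun c {a} ha => by
    change ρ g (c • a) = c • a
    rw [map_smul, ha]

omit [Finite G] in
theorem mem_fix {g : G} {v : V} : v ∈ fix ρ g ↔ ρ g v = v := Iff.rfl

omit [Finite G] in
theorem mul_app (g h : G) (v : V) : ρ (g * h) v = ρ g (ρ h v) := by rw [map_mul]; rfl

omit [Finite G] in
theorem fix_pow {g : G} {v : V} (h : ρ g v = v) (n : ℕ) : ρ (g ^ n) v = v := by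
  induction n with
  | zero => simp
  | succ n ih => rw [pow_succ, mul_app, h, ih]

omit [Finite G] in
theorem fix_inv {g : G} {v : V} (h : ρ g v = v) : ρ g⁻¹ v = v := by
  conv_lhs => rw [← h]
  rw [← mul_app, inv_mul_cancel, map_one]; rfl

omit [Finite G] in
theorem map_fix (g h : G) : (fix ρ h).map (ρ g : V →ₗ[F] V) = fix ρ (g * h * g⁻¹) := by
  ext v
  constructor
  · rintro ⟨w, hw, rfl⟩
    change ρ _ (ρ g w) = ρ g w
    rw [← mul_app, inv_mul_cancel_right, mul_app, (mem_fix ρ).1 hw]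
  · intro hv
    refine ⟨ρ g⁻¹ v, ?_, ?_⟩
    · change ρ h (ρ g⁻¹ v) = ρ g⁻¹ v
      conv_rhs => rw [← (mem_fix ρ).1 hv]
      rw [← mul_app, ← mul_app]; congr 2; group
    · change ρ g (ρ g⁻¹ v) = v
      rw [← mul_app, mul_inv_cancel, map_one]; rfl

omit [Finite G] in
/-- the norm of an element of exponent `n` lands in its fixed space -/
theorem norm_mem_fix {g : G} {n : ℕ} (hg : g ^ n = 1) (v : V) :
    (∑ i ∈ Finset.range n, ρ (g ^ i) v) ∈ fix ρ g := by
  rw [mem_fix, map_sum]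
  simp only [← mul_app, ← pow_succ']
  have h1 := Finset.sum_range_succ' (fun i => ρ (g ^ i) v) n
  rw [Finset.sum_range_succ, hg, pow_zero] at h1
  exact (add_right_cancel h1).symm

omit [Finite G] in
theorem fix_center (hρ : Function.Injective ρ)
    (hirr : ∀ W : Submodule F V, (∀ g : G, ∀ w ∈ W, ρ g w ∈ W) → W = ⊥ ∨ W = ⊤)
    {z : G} (hz : z ∈ center G) (h1 : z ≠ 1) : fix ρ z = ⊥ := by
  refine (hirr _ fun g w hw => ?_).resolve_right fun e => h1 (hρ ?_)
  · rw [mem_fix, ← mul_app, ← mem_center_iff.1 hz g, mul_app, (mem_fix ρ).1 hw]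
  · rw [map_one]
    ext v
    exact (mem_fix ρ).1 (e ▸ Submodule.mem_top)

theorem imprim [Fact p.Prime] (hpF : (p : F) ≠ 0) [Nontrivial V] (hρ : Function.Injective ρ)
    (hirr : ∀ W : Submodule F V, (∀ g : G, ∀ w ∈ W, ρ g w ∈ W) → W = ⊥ ∨ W = ⊤)
    {u z : G} (hz : z ∈ center G) (ho : orderOf z = p) (hu : u ^ p = 1) (huz : u ∉ zpowers z)
    (hc : ∀ g, g * u * g⁻¹ * u⁻¹ ∈ zpowers z) :
    ∃ (H : Subgroup G) (W : Fin p → Submodule F V), H.index = p ∧
      iSup W = ⊤ ∧ iSupIndep W ∧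
      (∀ h ∈ H, ∀ i, ∀ w ∈ W i, ρ h w ∈ W i) ∧
      (∀ i, ∃ h ∈ H, h ≠ 1 ∧ ∀ w ∈ W i, ρ h w = w) ∧
      ∀ g : G, g ∉ H → ∃ σ : Equiv.Perm (Fin p), orderOf σ = p ∧
        ∀ i, (W i).map (ρ g : V →ₗ[F] V) = W (σ i) := by
  have hp : p.Prime := Fact.out
  have hzc : ∀ g, Commute g z := fun g => mem_center_iff.1 hz g
  have hzp : z ^ p = 1 := ho ▸ pow_orderOf_eq_one z
  have hfz : ∀ k, ¬ p ∣ k → fix ρ (z ^ k) = ⊥ := fun k hk =>
    fix_center ρ hρ hirr (pow_mem hz k) fun e => hk (ho ▸ orderOf_dvd_of_pow_eq_one e)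
  have hxp : ∀ i : ℕ, (u * z ^ i) ^ p = 1 := fun i => by
    rw [((hzc u).pow_right i).mul_pow, hu, ← pow_mul, mul_comm i, pow_mul, hzp, one_pow, one_mul]
  have hx1 : ∀ i : ℕ, u * z ^ i ≠ 1 := fun i e => huz (by
    rw [eq_inv_of_mul_eq_one_left e]; exact inv_mem (npow_mem_zpowers z i))
  set W : Fin p → Submodule F V := fun i => fix ρ (u * z ^ (i : ℕ)) with hW
  have hsup : iSup W = ⊤ := by
    rw [eq_top_iff]
    intro v _
    have h1 : ∑ i : Fin p, ∑ k ∈ Finset.range p, ρ ((u * z ^ (i : ℕ)) ^ k) v = (p : F) • v := by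
      rw [Finset.sum_comm]
      have h2 : ∀ k ∈ Finset.range p, ∑ i : Fin p, ρ ((u * z ^ (i : ℕ)) ^ k) v =
          if k = 0 then (p : F) • v else 0 := by
        intro k hk
        split_ifs with h0
        · subst h0; simp [Nat.cast_smul_eq_nsmul]
        · have h3 := norm_mem_fix ρ (g := z ^ k) (n := p)
            (by rw [← pow_mul, mul_comm, pow_mul, hzp, one_pow]) v
          rw [hfz k (Nat.not_dvd_of_pos_of_lt (Nat.pos_of_ne_zero h0) (Finset.mem_range.1 hk)),
            Submodule.mem_bot, Finset.sum_range] at h3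
          have h4 : ∀ i : Fin p, ρ ((u * z ^ (i : ℕ)) ^ k) v = ρ (u ^ k) (ρ ((z ^ k) ^ (i : ℕ)) v) := by
            intro i
            rw [((hzc u).pow_right i).mul_pow, mul_app, ← pow_mul, ← pow_mul, mul_comm k]
          simp only [h4]
          rw [← map_sum, h3, map_zero]
      rw [Finset.sum_congr rfl h2, Finset.sum_ite_eq', if_pos (Finset.mem_range.2 hp.pos)]
    have h5 : (p : F) • v ∈ iSup W := by
      rw [← h1]
      exact Submodule.sum_mem _ fun i _ => Submodule.mem_iSup_of_mem i (norm_mem_fix ρ (hxp i) v)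
    have := Submodule.smul_mem _ (p : F)⁻¹ h5
    rwa [smul_smul, inv_mul_cancel₀ hpF, one_smul] at this
  have hdis : ∀ i j : Fin p, i ≠ j → ∀ v, v ∈ W i → v ∈ W j → v = 0 := by
    have key : ∀ i j : Fin p, (i : ℕ) < j → ∀ v, v ∈ W i → v ∈ W j → v = 0 := by
      intro i j hij v hi hj
      have h1 : v ∈ fix ρ (z ^ ((j : ℕ) - i)) := by
        have e : z ^ ((j : ℕ) - i) = (u * z ^ (i : ℕ))⁻¹ * (u * z ^ (j : ℕ)) := by
          rw [pow_sub _ hij.le, mul_inv_rev, mul_assoc, inv_mul_cancel_left]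
          exact ((Commute.refl z).pow_pow _ _).inv_right.eq
        rw [mem_fix, e, mul_app, (mem_fix ρ).1 hj, fix_inv ρ hi]
      rwa [hfz _ (Nat.not_dvd_of_pos_of_lt (by omega) (by have := j.2; omega)),
        Submodule.mem_bot] at h1
    intro i j hij v hi hj
    rcases lt_or_gt_of_ne (Fin.val_ne_of_ne hij) with h | h
    exacts [key i j h v hi hj, key j i h v hj hi]
  have hind : iSupIndep W := by
    intro i
    rw [Submodule.disjoint_def]
    intro v hv hv'
    let e : V →ₗ[F] V := ∑ k ∈ Finset.range p, (ρ ((u * z ^ (i : ℕ)) ^ k) : V →ₗ[F] V)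
    have he : ∀ w, e w = ∑ k ∈ Finset.range p, ρ ((u * z ^ (i : ℕ)) ^ k) w := fun w => by
      simp [e, LinearMap.sum_apply]
    have h1 : (⨆ j, ⨆ (_ : j ≠ i), W j) ≤ LinearMap.ker e := by
      refine iSup_le fun j => iSup_le fun hj w hw => ?_
      rw [LinearMap.mem_ker, he]
      refine hdis i j hj.symm _ (norm_mem_fix ρ (hxp i) w) (Submodule.sum_mem _ fun k _ => ?_)
      have hcm : Commute (u * z ^ (j : ℕ)) ((u * z ^ (i : ℕ)) ^ k) :=
        (((Commute.refl u).mul_right ((hzc u).pow_right _)).mul_left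
          (((hzc u).symm.pow_left _).mul_right ((Commute.refl z).pow_pow _ _))).pow_right k
      change ρ _ _ = _
      rw [← mul_app, hcm.eq, mul_app, (mem_fix ρ).1 hw]
    have h2 := h1 hv'
    rw [LinearMap.mem_ker, he, Finset.sum_congr rfl fun k _ => fix_pow ρ hv k] at h2
    simp only [Finset.sum_const, Finset.card_range, ← Nat.cast_smul_eq_nsmul F] at h2
    exact (smul_eq_zero.1 h2).resolve_left hpF
  have hcc : ∀ g, g * u * g⁻¹ * u⁻¹ ∈ center G := fun g => Subgroup.zpowers_le.2 hz (hc g)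
  let φ : G →* G := MonoidHom.mk' (fun g => g * u * g⁻¹ * u⁻¹) fun a b => by
    have h1 := mem_center_iff.1 (hcc b) a⁻¹
    have h2 := mem_center_iff.1 (hcc b) (u * a⁻¹ * u⁻¹)
    calc a * b * u * (a * b)⁻¹ * u⁻¹ = a * ((b * u * b⁻¹ * u⁻¹) * (u * a⁻¹ * u⁻¹)) := by group
      _ = _ := by rw [← h2]; group
  have hφ : ∀ g, φ g = g * u * g⁻¹ * u⁻¹ := fun _ => rfl
  have hconj : ∀ g (i : ℕ), g * (u * z ^ i) * g⁻¹ = u * (φ g * z ^ i) := fun g i => by
    rw [← mul_assoc u, hφ, mem_center_iff.1 (hcc g) u, ← mul_assoc g, mul_assoc (g * u),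
      ((hzc g⁻¹).pow_right i).symm.eq]
    group
  refine ⟨φ.ker, W, ?_, hsup, hind, fun h hh i w hw => ?_, fun i => ⟨u * z ^ (i : ℕ), ?_, hx1 i,
    fun w hw => hw⟩, fun g hg => ?_⟩
  · rw [index_ker]
    have h1 : φ.range ≤ zpowers z := by rintro _ ⟨g, rfl⟩; exact hc g
    have h2 := card_dvd_of_le h1
    rw [Nat.card_zpowers, ho] at h2
    refine ((Nat.dvd_prime hp).1 h2).resolve_left fun e => ?_
    have h3 : u ∈ center G := mem_center_iff.2 fun g => by
      have : φ g ∈ (⊥ : Subgroup G) := card_eq_one.1 e ▸ ⟨g, rfl⟩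
      rw [mem_bot, hφ, mul_inv_eq_one, mul_inv_eq_iff_eq_mul] at this
      exact this
    have h4 : iSup W = ⊥ := iSup_eq_bot.2 fun i =>
      fix_center ρ hρ hirr (mul_mem h3 (pow_mem hz _)) (hx1 i)
    exact bot_ne_top (h4.symm.trans hsup)
  · have h1 : ρ h w ∈ (W i).map (ρ h : V →ₗ[F] V) := ⟨w, hw, rfl⟩
    rwa [hW, map_fix, hconj, (MonoidHom.mem_ker).1 hh, one_mul] at h1
  · rw [MonoidHom.mem_ker, hφ, mul_assoc u, ((hzc u).pow_right _).symm.eq]
    group
  · obtain ⟨c, hc1⟩ : ∃ c : ℕ, z ^ c = φ g := by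
      have := hc g
      rw [← mem_powers_iff_mem_zpowers] at this
      exact this
    have : NeZero p := ⟨hp.ne_zero⟩
    have hc0 : (Fin.ofNat p c) ≠ 0 := by
      intro e
      apply hg
      have : p ∣ c := Nat.dvd_of_mod_eq_zero (by simpa [Fin.ext_iff] using e)
      rw [MonoidHom.mem_ker, ← hc1, ← orderOf_dvd_iff_pow_eq_one, ho]
      exact this
    refine ⟨Equiv.addLeft (Fin.ofNat p c), ?_, fun i => ?_⟩
    · refine orderOf_eq_prime ?_ fun e => hc0 ?_
      · rw [Equiv.nsmul_addLeft]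
        have : p • Fin.ofNat p c = 0 := by
          have := card_nsmul_eq_zero (G := Fin p) (x := Fin.ofNat p c)
          rwa [Fintype.card_fin] at this
        rw [this, Equiv.addLeft_zero]
      · simpa using congrArg (fun σ : Equiv.Perm (Fin p) => σ 0) e
    · rw [hW, map_fix, hconj, ← hc1, ← pow_add]
      congr 2
      rw [pow_eq_pow_iff_modEq, ho]
      simp only [Equiv.coe_addLeft, Fin.val_add, Fin.val_ofNat]
      simp [Nat.ModEq]

theorem charP_ne [Fact p.Prime] (hG : IsPGroup p G) (q : ℕ) [Fact q.Prime] {V : Type*}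
    [AddCommGroup V] [Module (ZMod q) V] [Finite V] [Nontrivial V] (ρ : G →* (V ≃ₗ[ZMod q] V))
    (hρ : Function.Injective ρ)
    (hirr : ∀ W : Submodule (ZMod q) V, (∀ g : G, ∀ w ∈ W, ρ g w ∈ W) → W = ⊥ ∨ W = ⊤)
    [Nontrivial G] : (p : ZMod q) ≠ 0 := by
  intro e
  have hq : q.Prime := Fact.out
  have hp : p.Prime := Fact.out
  rw [ZMod.natCast_eq_zero_iff, Nat.prime_dvd_prime_iff_eq hq hp] at e
  subst e
  obtain ⟨z, -, hz, hz1⟩ := exists_central hG (W := ⊤) top_ne_bot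
  obtain ⟨k, hk⟩ := hG z
  have h1 := fix_center ρ hρ hirr hz hz1
  have h2 : ((ρ z : V →ₗ[ZMod q] V) - 1) ^ q ^ k = 0 := by
    have : CharP (Module.End (ZMod q) V) q := by
      have : Nontrivial (Module.End (ZMod q) V) := inferInstance
      exact charP_of_injective_algebraMap (algebraMap (ZMod q) _).injective q
    rw [sub_pow_char_pow_of_commute _ _ (Commute.one_right _), one_pow, sub_eq_zero]
    ext v
    have : ((ρ z : V →ₗ[ZMod q] V) ^ q ^ k) v = ρ (z ^ q ^ k) v := by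
      rw [map_pow, LinearEquiv.pow_apply, Module.End.pow_apply]; rfl
    rw [this, hk, map_one]; rfl
  have h3 : Function.Injective ((ρ z : V →ₗ[ZMod q] V) - 1 : Module.End (ZMod q) V) := by
    rw [← LinearMap.ker_eq_bot, eq_bot_iff, ← h1]
    intro v hv
    rw [LinearMap.mem_ker, LinearMap.sub_apply, sub_eq_zero] at hv
    exact hv
  have h4 := Function.Injective.iterate h3 (q ^ k)
  rw [← Module.End.coe_pow, h2] at h4
  obtain ⟨v, hv⟩ := exists_ne (0 : V)
  exact hv (h4 rfl)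

theorem imprim_or [Fact p.Prime] (hG : IsPGroup p G) (q : ℕ) [Fact q.Prime] {V : Type*}
    [AddCommGroup V] [Module (ZMod q) V] [Finite V] [Nontrivial V] (ρ : G →* (V ≃ₗ[ZMod q] V))
    (hρ : Function.Injective ρ)
    (hirr : ∀ W : Submodule (ZMod q) V, (∀ g : G, ∀ w ∈ W, ρ g w ∈ W) → W = ⊥ ∨ W = ⊤) :
    IsCyclic G ∨ (p = 2 ∧ ∃ k x, H9.MC (⊤ : Subgroup G) k x) ∨
    ∃ (H : Subgroup G) (W : Fin p → Submodule (ZMod q) V), H.index = p ∧
      iSup W = ⊤ ∧ iSupIndep W ∧
      (∀ h ∈ H, ∀ i, ∀ w ∈ W i, ρ h w ∈ W i) ∧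
      (∀ i, ∃ h ∈ H, h ≠ 1 ∧ ∀ w ∈ W i, ρ h w = w) ∧
      ∀ g : G, g ∉ H → ∃ σ : Equiv.Perm (Fin p), orderOf σ = p ∧
        ∀ i, (W i).map (ρ g : V →ₗ[ZMod q] V) = W (σ i) := by
  rcases subsingleton_or_nontrivial G with hs | hs
  · exact Or.inl inferInstance
  rcases H9.cyclic_or_mc_or_normal (P := (⊤ : Subgroup G)) (hG.to_subgroup ⊤) with h | h | ⟨W, h1, h2⟩
  · exact Or.inl (isCyclic_of_surjective topEquiv topEquiv.surjective)
  · exact Or.inr (Or.inl h)
  have := h1.normal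
  obtain ⟨u, z, a, b, c, d, e⟩ := exists_uz hG h2
  exact Or.inr (Or.inr (imprim ρ (charP_ne hG q ρ hρ hirr) hρ hirr a b c d e))

end lin

end H3.Imp
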