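import Cfsg.Agent.H3.B6
import Cfsg.Agent.H3.B3
import Cfsg.Agent.H3.B1
import Cfsg.Agent.H3.PGrpBasic

/-! Frattini index of linear `2`-groups: `Imp.frat_le_mul` (`d(P) ≤ d(P/N) + d(N)`),
`Imp.split` (a faithful `p'`-representation with an invariant subspace),
`Imp.frat_bound` (`2 [P : Φ(P)] ≤ |V| + 1`). -/

set_option autoImplicit false

namespace H3.Imp
open Subgroup Cfsg H18 Module
open scoped commutatorElement

universe u v

theorem frat_le_mul {P : Type*} [Group P] [Finite P] {p : ℕ} [Fact p.Prime] (hP : IsPGroup p P)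
    (N : Subgroup P) [N.Normal] :
    (frattini P).index ≤ (frattini (P ⧸ N)).index * (frattini N).index := by
  have h1 : (frattini P ⊔ N).index = (frattini (P ⧸ N)).index := by
    rw [← map_frattini_of_surjective hP _ (QuotientGroup.mk'_surjective N), index_map,
      QuotientGroup.ker_mk', MonoidHom.range_eq_top_of_surjective _ (QuotientGroup.mk'_surjective N),
      index_top, mul_one]
  rw [← relIndex_mul_index (le_sup_left : frattini P ≤ frattini P ⊔ N), h1, mul_comm,
    relIndex_sup_left]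
  refine Nat.mul_le_mul_left _ (Nat.le_of_dvd (Nat.pos_of_ne_zero FiniteIndex.index_ne_zero) ?_)
  exact index_dvd_of_le (map_le_iff_le_comap.1 (map_subtype_frattini_le hP N))

theorem split {K : Type*} [Field K] {p : ℕ} (hp : (p : K) ≠ 0) {P : Type u} [Group P]
    (hP : IsPGroup p P) {V : Type v} [AddCommGroup V] [Module K V] (ρ : Representation K P V)
    (hρ : Function.Injective ρ) (W : Submodule K V) (hW : ∀ g, W ≤ W.comap (ρ g)) :
    ∃ (N : Subgroup P) (_ : N.Normal) (ρ1 : Representation K (P ⧸ N) W)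
      (ρ2 : Representation K N (V ⧸ W)), Function.Injective ρ1 ∧ Function.Injective ρ2 := by
  let σ := (ρ.subrepresentation W hW).toHomUnits
  refine ⟨σ.ker, inferInstance, (Units.coeHom _).comp (QuotientGroup.kerLift σ),
    (ρ.quotient W hW).comp σ.ker.subtype, Units.val_injective.comp (QuotientGroup.kerLift_injective σ),
    (injective_iff_map_eq_one _).2 fun g hg => Subtype.ext (hρ ?_)⟩
  obtain ⟨m, hm⟩ := hP (g : P)
  rw [OneMemClass.coe_one, map_one]
  refine DL.eq_one_of_sq hp (m := m) (by rw [← map_pow, hm, map_one])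
    (DL.mul_eq_zero_of_triv ρ W hW (congrArg Units.val g.2) hg)

theorem card_lt_of_one {K : Type*} [Field K] {P : Type*} [Group P] {V : Type*} [AddCommGroup V]
    [Module K V] [Finite V] (ρ : Representation K P V) (hρ : Function.Injective ρ)
    (h : finrank K V = 1) : Nat.card P < Nat.card V ∧ ∀ g h : P, g * h = h * g := by
  have : Nontrivial V := Module.nontrivial_of_finrank_eq_succ h
  obtain ⟨v, hv⟩ := exists_ne (0 : V)
  have hsp := (finrank_eq_one_iff_of_nonzero' v hv).1 h
  have he : ∀ g h : P, ρ g v = ρ h v → g = h := fun g h e => hρ (by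
    ext w
    obtain ⟨c, rfl⟩ := hsp w
    rw [map_smul, map_smul, e])
  refine ⟨?_, fun g h => he _ _ ?_⟩
  · have h1 : Function.Injective fun o : Option P => o.elim 0 fun g => ρ g v := by
      have h0 : ∀ g, ρ g v ≠ 0 := fun g e => hv (by
        rw [← ρ.inv_self_apply g v, e, map_zero])
      rintro (_ | a) (_ | b) e
      · rfl
      · exact absurd e.symm (h0 b)
      · exact absurd e (h0 a)
      · rw [he a b e]
    have : Finite (Option P) := Finite.of_injective _ h1
    have : Finite P := Finite.of_injective _ (Option.some_injective P)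
    have h2 := Nat.card_le_card_of_injective _ h1
    rw [Finite.card_option] at h2
    exact h2
  · obtain ⟨c1, e1⟩ := hsp (ρ g v)
    obtain ⟨c2, e2⟩ := hsp (ρ h v)
    rw [map_mul, map_mul, Module.End.mul_apply, Module.End.mul_apply, ← e1, ← e2, map_smul, map_smul,
      ← e1, ← e2, smul_comm c1]

theorem frat_bound (q : ℕ) [hq : Fact q.Prime] (hq2 : q ≠ 2) (n : ℕ) :
    ∀ (P : Type u) [Group P] [Finite P], IsPGroup 2 P → ∀ (V : Type v) [AddCommGroup V]
      [Module (ZMod q) V] [Finite V] (ρ : Representation (ZMod q) P V), Function.Injective ρ →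
      Nat.card V = n → 2 * (frattini P).index ≤ n + 1 ∧ (3 < n → 2 * (frattini P).index ≤ n) := by
  induction n using Nat.strong_induction_on with
  | _ n ih =>
  intro P _ _ hP V _ _ _ ρ hρ hn
  have hq3 : 3 ≤ q := by have := hq.out.two_le; omega
  have h2q : ((2 : ℕ) : ZMod q) ≠ 0 := by
    rw [Ne, ZMod.natCast_eq_zero_iff, Nat.prime_dvd_prime_iff_eq hq.out Nat.prime_two]; exact hq2
  have hcard : ∀ (U : Type v) [AddCommGroup U] [Module (ZMod q) U] [Finite U],
      Nat.card U = q ^ finrank (ZMod q) U := fun U _ _ _ => by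
    rw [Module.natCard_eq_pow_finrank (K := ZMod q), Nat.card_zmod]
  have h3 : ∀ (U : Type v) [AddCommGroup U] [Module (ZMod q) U] [Finite U] [Nontrivial U],
      3 ≤ Nat.card U := fun U _ _ _ _ => by
    rw [hcard]
    exact hq3.trans (Nat.le_self_pow finrank_pos.ne' q)
  have h9 : ∀ (U : Type v) [AddCommGroup U] [Module (ZMod q) U] [Finite U] [Nontrivial U],
      finrank (ZMod q) U = 1 ∨ 9 ≤ Nat.card U := fun U _ _ _ _ => by
    have := finrank_pos (R := ZMod q) (M := U)
    refine or_iff_not_imp_left.2 fun h => ?_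
    rw [hcard]
    exact (Nat.pow_le_pow_left hq3 2).trans (Nat.pow_le_pow_right (by omega) (by omega))
  rcases subsingleton_or_nontrivial V with hs | hs
  · have : Subsingleton P := hρ.subsingleton
    have h1 : (frattini P).index = 1 := by rw [Subsingleton.elim (frattini P) ⊤, index_top]
    rw [h1, ← hn, Nat.card_unique]; omega
  have hn3 := hn ▸ h3 V
  have red : ∀ (Q : Type u) [Group Q] [Finite Q], IsPGroup 2 Q → ∀ σ : Representation (ZMod q) Q V,
      Function.Injective σ → ∀ W : Submodule (ZMod q) V, (∀ g, W ≤ W.comap (σ g)) → W ≠ ⊥ → W ≠ ⊤ →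
      ∃ a b g1 g2, Nat.card W = a ∧ a * b = n ∧ 3 ≤ a ∧ 3 ≤ b ∧ (frattini Q).index ≤ g1 * g2 ∧
        (2 * g1 ≤ a + 1 ∧ (3 < a → 2 * g1 ≤ a)) ∧ (2 * g2 ≤ b + 1 ∧ (3 < b → 2 * g2 ≤ b)) ∧
        (a = 3 → b = 3 → Nat.card Q ≤ 4) := by
    intro Q _ _ hQ σ hσ W hW h0 h1
    obtain ⟨N, hN, ρ1, ρ2, i1, i2⟩ := split h2q hQ σ hσ W hW
    have : Nontrivial W := Submodule.nontrivial_iff_ne_bot.2 h0
    have : Nontrivial (V ⧸ W) := Submodule.Quotient.nontrivial_iff.2 h1
    have : Finite (V ⧸ W) := Finite.of_surjective _ W.mkQ_surjective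
    have e : Nat.card W * Nat.card (V ⧸ W) = n := by
      rw [← hn, mul_comm]; exact (AddSubgroup.card_eq_card_quotient_mul_card_addSubgroup W.toAddSubgroup).symm
    have a3 := h3 W
    have b3 := h3 (V ⧸ W)
    refine ⟨_, _, _, _, rfl, e, a3, b3, frat_le_mul hQ N,
      ih _ (by nlinarith) _ (hQ.to_quotient N) W ρ1 i1 rfl,
      ih _ (by nlinarith) _ (hQ.to_subgroup N) _ ρ2 i2 rfl, fun ha hb => ?_⟩
    have c1 := (card_lt_of_one ρ1 i1 ((h9 W).resolve_right (by omega))).1
    have c2 := (card_lt_of_one ρ2 i2 ((h9 _).resolve_right (by omega))).1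
    rw [card_eq_card_quotient_mul_card_subgroup N]
    exact Nat.mul_le_mul (show _ ≤ 2 by omega) (show _ ≤ 2 by omega)
  by_cases hirr : ∀ W : Submodule (ZMod q) V, (∀ g, W ≤ W.comap (ρ g)) → W = ⊥ ∨ W = ⊤
  swap
  · push Not at hirr
    obtain ⟨W, hW, h0, h1⟩ := hirr
    obtain ⟨a, b, g1, g2, -, e, a3, b3, hg, ⟨c1, -⟩, ⟨c2, -⟩, -⟩ := red P hP ρ hρ W hW h0 h1
    have : 2 * (frattini P).index ≤ n := by
      have := Nat.mul_le_mul c1 c2
      nlinarith
    omega
  let ρ' : P →* (V ≃ₗ[ZMod q] V) :=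
    (LinearMap.GeneralLinearGroup.generalLinearEquiv (ZMod q) V).toMonoidHom.comp ρ.toHomUnits
  have hρ' : ∀ g v, ρ' g v = ρ g v := fun _ _ => rfl
  have i' : Function.Injective ρ' := fun g h e => hρ (LinearMap.ext fun v => by
    rw [← hρ', e, hρ'])
  have hirr' : ∀ W : Submodule (ZMod q) V, (∀ g : P, ∀ w ∈ W, ρ' g w ∈ W) → W = ⊥ ∨ W = ⊤ :=
    fun W hW => hirr W fun g w hw => hW g w hw
  rcases imprim_or hP q ρ' i' hirr' with hc | ⟨-, k, x, hm⟩ | ⟨H, W, h1, h2, h3, h4, h5, h6⟩
  · have : (frattini P).index ≤ 2 := by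
      have := isCyclic_of_surjective _ (QuotientGroup.mk'_surjective (frattini P))
      rw [index_eq_card, ← IsCyclic.exponent_eq_card]
      refine Nat.le_of_dvd two_pos (Monoid.exponent_dvd_of_forall_pow_eq_one fun y => ?_)
      obtain ⟨x, rfl⟩ := QuotientGroup.mk'_surjective _ y
      rw [← map_pow]
      exact (QuotientGroup.eq_one_iff _).2 (pow_mem_frattini hP x)
    omega
  · have h4 : (frattini P).index ≤ 4 := by
      rw [← hm.index_commutator, H9.relIndex_commutator_top]
      exact Nat.le_of_dvd (Nat.pos_of_ne_zero FiniteIndex.index_ne_zero)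
        (index_dvd_of_le (commutator_le_frattini hP))
    rcases h9 V with h | h
    · exact absurd ⟨⟨fun g h' => Subtype.ext ((card_lt_of_one ρ hρ h).2 g h')⟩⟩ hm.not_comm
    omega
  have hHn : H.Normal := normal_of_index_eq_two h1
  obtain ⟨g, hg⟩ : ∃ g, g ∉ H := by
    by_contra hc
    push Not at hc
    rw [(eq_top_iff' H).2 hc, index_top] at h1
    omega
  obtain ⟨σ, hσ, hσ'⟩ := h6 g hg
  have hσ0 : σ 0 = 1 := by
    have key : ∀ τ : Equiv.Perm (Fin 2), τ 0 = 1 ∨ τ = 1 := by decide
    refine (key σ).resolve_right fun this => ?_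
    rw [this, orderOf_one] at hσ
    omega
  have hcomp : IsCompl (W 0) (W 1) := by
    refine ⟨h3.pairwiseDisjoint zero_ne_one, codisjoint_iff.2 ?_⟩
    rw [← h2]
    exact le_antisymm (sup_le (le_iSup W 0) (le_iSup W 1)) (iSup_le fun i => by
      fin_cases i
      exacts [le_sup_left, le_sup_right])
  have hc01 : Nat.card (W 0) = Nat.card (W 1) := by
    rw [← hσ0, ← hσ']
    exact Nat.card_congr ((ρ' g).submoduleMap (W 0)).toEquiv
  have hnn : Nat.card (W 0) * Nat.card (W 0) = n := by
    rw [← hn, ← Nat.card_congr (Submodule.prodEquivOfIsCompl _ _ hcomp).toEquiv, Nat.card_prod, hc01]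
  have h0 : W 0 ≠ ⊥ := fun e => by
    rw [e, Nat.card_unique] at hnn; omega
  have h0' : W 0 ≠ ⊤ := fun e => by
    rw [e, Nat.card_congr Submodule.topEquiv.toEquiv, hn] at hnn
    nlinarith
  obtain ⟨a, b, g1, g2, ea, e, a3, b3, hg', ⟨-, c1⟩, ⟨-, c2⟩, c3⟩ := red H (hP.to_subgroup H)
    (ρ.comp H.subtype) (hρ.comp H.subtype_injective) (W 0) (fun h w hw => h4 h h.2 0 w hw) h0 h0'
  have hab : b = a := by
    rw [ea, ← e] at hnn
    exact (Nat.eq_of_mul_eq_mul_left (by omega) hnn).symm
  subst hab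
  have : 2 * (frattini P).index ≤ n := by
    rcases a3.lt_or_eq with h | h
    · have d1 := frat_le_mul hP H
      have d2 : (frattini (P ⧸ H)).index ≤ 2 :=
        h1 ▸ Nat.le_of_dvd Nat.card_pos (index_dvd_card _)
      have := Nat.mul_le_mul (c1 h) (c2 h)
      have := Nat.mul_le_mul d2 hg'
      nlinarith
    · have d1 := c3 h.symm h.symm
      have d2 := card_mul_index H
      have d3 := card_mul_index (frattini P)
      have d4 : frattini P ≠ ⊥ := fun e => by
        obtain ⟨h, -, hh1, hh⟩ := h5 0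
        have hz : h ∈ center P := by
          have := commutator_le_frattini hP
          rw [e, le_bot_iff, commutator_eq_bot_iff_center_eq_top] at this
          exact this ▸ mem_top h
        exact h0 (eq_bot_iff.2 (fix_center ρ' i' hirr' hz hh1 ▸ hh))
      have d5 := (one_lt_card_iff_ne_bot _).2 d4
      subst h
      nlinarith
  omega

end H3.Imp
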