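import Cfsg.Agent.H18.BG1
import Cfsg.Agent.H21.Extra

/-! An element `b` of order three with a single cubic Jordan block on an elementary abelian `3`-group `V`, acting on a
solvable `3'`-group `R = ⁅R, b⁆` (ambient form): the hypothesis `Cb.Hy`, four-groups `Cb.Fg`, statements `Cb.Two`, `Cb.Main`. -/

set_option autoImplicit false

namespace H3.Cb

open Subgroup Cfsg H18
open scoped commutatorElement

universe u

structure Hy {G : Type*} [Group G] (V R : Subgroup G) (b : G) : Prop where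
  el : Elem 3 V
  nR : R ≤ N(V)
  nb : b ∈ N(V)
  ff : (R ⊔ zpowers b) ⊓ C(V) = ⊥
  pi : PiGrp {3}ᶜ R
  solv : Solv R
  ord : orderOf b = 3
  nbR : b ∈ N(R)
  cm : ⁅R, zpowers b⁆ = R
  nine : Nat.card (⁅V, zpowers b⁆ : Subgroup G) ≤ 9
  cub : b ∉ C((⁅V, zpowers b⁆ : Subgroup G))

/-- a four-group normalized, not centralized, by `b` -/
structure Fg {G : Type*} [Group G] (Q : Subgroup G) (b : G) : Prop where
  el : Elem 2 Q
  card : Nat.card Q = 4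
  nb : b ∈ N(Q)
  nc : b ∉ C(Q)

def Two : Prop := ∀ (G : Type u) [Group G] [Finite G] (V R Q : Subgroup G) (b : G), Hy V R b → Q ≤ R → Fg Q b →
  PiGrp {2} R

def Main : Prop := ∀ (G : Type u) [Group G] [Finite G] (V R Q : Subgroup G) (b : G), Hy V R b → Q ≤ R → Fg Q b →
  ((Elem 2 R ∧ Nat.card R = 4) ∨ (H21.ES 2 R ∧ ¬ Abel R ∧ Nat.card R = 32 ∧ ∃ A ≤ R, Elem 2 A ∧ Nat.card A = 8)) ∧
    ⁅V, R⁆ ⊓ (V ⊓ C(R)) = ⊥ ∧ ⁅V, R⁆ ⊔ (V ⊓ C(R)) = V ∧ (R ⊔ zpowers b) ⊓ C((⁅V, R⁆ : Subgroup G)) = ⊥ ∧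
      ∀ W ≤ ⁅V, R⁆, R ⊔ zpowers b ≤ N(W) → W = ⊥ ∨ W = ⁅V, R⁆

end H3.Cb
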