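import Cfsg.Agent.H3.Cb0
import Cfsg.Agent.H3.PG

/-! Basic facts under `Cb.Hy`: splitting (`Hy.split`), `Hy.lemB`, `Hy.lemC`, four-groups (`Fg.irr`, `Fg.cases`). -/

set_option autoImplicit false
set_option linter.unusedSectionVars false

namespace H3.Cb

open Subgroup Cfsg H18 H1 H3
open scoped commutatorElement

variable {G : Type*} [Group G] [Finite G] {V R Q T X U U' A : Subgroup G} {b s t v x : G}

theorem Hy.piB (h : Hy V R b) : PiGrp {3} (zpowers b) := piGrp_of_prime Nat.prime_three (card_zpowers'.trans h.ord)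
theorem Hy.piV (h : Hy V R b) : PiGrp {3} V := h.el.pi' Nat.prime_three
theorem Hy.b3 (h : Hy V R b) : b ^ 3 = 1 := h.ord ▸ pow_orderOf_eq_one b
theorem Hy.copV (h : Hy V R b) (hX : X ≤ R) (hU : U ≤ V) (hn : X ≤ N(U)) : Cop X U :=
  cop_of_pi' hn (h.pi.of_le hX) (h.piV.of_le hU) (Or.inl (h.solv.of_le hX))
theorem Hy.copB (h : Hy V R b) (hX : X ≤ R) (hn : b ∈ N(X)) : Cop (zpowers b) X :=
  cop_of_pi (zpowers_le.2 hn) h.piB (h.pi.of_le hX) (Or.inr (h.solv.of_le hX))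
theorem Hy.triv (h : Hy V R b) (hx : x ∈ R) (hc : x ∈ C(V)) : x = 1 := eq_one_of_eq_bot h.ff ⟨mem_sup_left hx, hc⟩
theorem Hy.cV (h : Hy V R b) (hX : X ≤ R) : ⁅V, X⁆ ≤ V := comm_le_left (hX.trans h.nR)
theorem Hy.wV (h : Hy V R b) : ⁅V, zpowers b⁆ ≤ V := comm_le_left (zpowers_le.2 h.nb)
theorem Hy.nc (h : Hy V R b) (hn : b ∈ N(X)) : b ∈ N((⁅V, X⁆ : Subgroup G)) :=
  zpowers_le.1 (norm_comm (zpowers_le.2 h.nb) (zpowers_le.2 hn))
theorem Hy.nz (h : Hy V R b) (hn : b ∈ N(X)) : b ∈ N((V ⊓ C(X) : Subgroup G)) :=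
  zpowers_le.1 (norm_inf (zpowers_le.2 h.nb) (norm_C (zpowers_le.2 hn)))
theorem Hy.dis (h : Hy V R b) (hX : X ≤ R) : ⁅V, X⁆ ⊓ C(X) = ⊥ :=
  abel_comm_inf_cent h.el.abel (hX.trans h.nR) (h.copV hX le_rfl (hX.trans h.nR)).cop

theorem Hy.small (h : Hy V R b) (hA : A ≤ V) (hn : b ∈ N(A)) (hc : Nat.card A ≤ 3) : b ∈ C(A) :=
  cent_symm (cent_of_card_le_prime (h.piB.sup_norm (h.piV.of_le hA) (zpowers_le.2 hn))
    (nml_sup_right (zpowers_le.2 hn)) hc) (mem_sup_left (mem_zpowers b))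

theorem Hy.big (h : Hy V R b) (hU : U ≤ V) (hn : b ∈ N(U)) (k : b ∉ C((⁅U, zpowers b⁆ : Subgroup G))) :
    ⁅V, zpowers b⁆ ≤ U := by
  have l : ⁅U, zpowers b⁆ ≤ ⁅V, zpowers b⁆ := comm_mono hU le_rfl
  refine (eq_of_card_ge l (h.nine.trans ?_)).ge.trans (comm_le_left (zpowers_le.2 hn))
  refine Nat.le_of_dvd card_pos' (pow_dvd_card_of_lt (n := 1) Nat.prime_three (h.piV.of_le (l.trans h.wV)) ?_)
  exact lt_of_not_ge fun c => k (h.small (l.trans h.wV) (norm_comm_right (mem_zpowers b)) c)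

theorem Hy.split (h : Hy V R b) (hU : U ≤ V) (hU' : U' ≤ V) (hn : b ∈ N(U)) (hn' : b ∈ N(U')) (e : V ≤ U ⊔ U')
    (d : U ⊓ U' = ⊥) (k : b ∉ C(U)) : ⁅V, zpowers b⁆ ≤ U ∧ b ∈ C(U') := by
  have ab := h.el.abel
  have c : ∀ {Y Y'}, Y' ≤ V → b ∈ N(Y') → Y ⊓ Y' = ⊥ → ⁅V, zpowers b⁆ ≤ Y → b ∈ C(Y') := fun h1 h2 h3 h4 =>
    cent_symm (comm_eq_bot_iff.1 (eq_bot_iff.2 ((le_inf ((comm_mono h1 le_rfl).trans h4)
      (comm_le_left (zpowers_le.2 h2))).trans h3.le))) (mem_zpowers b)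
  suffices ⁅V, zpowers b⁆ ≤ U from ⟨this, c hU' hn' d this⟩
  by_cases k1 : b ∈ C((⁅U, zpowers b⁆ : Subgroup G))
  · by_cases k2 : b ∈ C((⁅U', zpowers b⁆ : Subgroup G))
    · have l1 := (comm_mono hU (le_refl (zpowers b))).trans h.wV
      have l2 := (comm_mono hU' (le_refl (zpowers b))).trans h.wV
      refine absurd (C_anti ((comm_mono e le_rfl).trans (comm_sup_le le_sup_left le_sup_right
        (hU.trans (ab.norm (sup_le l1 l2))) (hU'.trans (ab.norm (sup_le l1 l2))))) ?_) h.cub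
      rw [C_sup]; exact ⟨k1, k2⟩
    · exact absurd (c hU hn (inf_comm U U' ▸ d) (h.big hU' hn' k2)) k
  · exact h.big hU hn k1

theorem Hy.lemB (h : Hy V R b) (hX : X ≤ R) (hn : b ∈ N(X)) (k : b ∉ C(X)) :
    ⁅V, zpowers b⁆ ≤ ⁅V, X⁆ ∧ b ∈ C((V ⊓ C(X) : Subgroup G)) := by
  have c := h.copV hX le_rfl (hX.trans h.nR)
  refine h.split (h.cV hX) inf_le_left (h.nc hn) (h.nz hn) c.comm_sup.ge
    (eq_bot_iff.2 ((inf_le_inf_left _ inf_le_right).trans (h.dis hX).le)) fun l => k ?_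
  have l1 := comm_le_left (zpowers_le.2 hn)
  refine cent_symm (comm_eq_bot_iff.1 (eq_bot_iff.2 fun y hy => h.triv (hX (l1 hy)) ?_)) (mem_zpowers b)
  rw [← c.comm_sup, C_sup]
  exact ⟨((comm_mono le_rfl (zpowers_le.2 l)).trans (comm_le_right (norm_C norm_comm_right))) hy,
    cent_symm inf_le_right (l1 hy)⟩

theorem Hy.lemC (h : Hy V R b) (hX : X ≤ R) (hn : b ∈ N(X)) (k : b ∉ C(X)) :
    ¬ X ≤ C((⁅V, zpowers b⁆ : Subgroup G)) := fun l =>
  h.cub (C_anti (le_inf h.wV (cent_symm l)) (h.lemB hX hn k).2)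

/-- `R` centralizes what `b` centralizes, if it normalizes it -/
theorem Hy.cen (h : Hy V R b) (hn : R ≤ N(A)) (k : b ∈ C(A)) : R ≤ C(A) :=
  h.cm.ge.trans ((comm_mono le_rfl (zpowers_le.2 k)).trans (comm_le_right (norm_C hn)))

omit [Finite G] in
theorem idx2 (h : A.relIndex X = 2) (hx : x ∈ X) (hs : s ∈ X) (h1 : x ∉ A) (h2 : s ∉ A) : x * s ∈ A :=
  (mul_mem_iff_of_index_two h (a := ⟨x, hx⟩) (b := ⟨s, hs⟩)).2 (by
    simp only [mem_subgroupOf]; exact iff_of_false h1 h2)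

omit [Finite G] in
theorem comm_idx2 (h : A.relIndex X = 2) (h1 : U ≤ N(A)) (h2 : U ≤ N(X)) : ⁅X, U⁆ ≤ A :=
  commutator_le.2 fun x hx u hu => by
    rw [show ⁅x, u⁆ = x * (u * x⁻¹ * u⁻¹) by simp only [commutatorElement_def, mul_assoc]]
    by_cases k : x ∈ A
    · exact mul_mem k (conj_mem h1 hu (inv_mem k))
    · exact idx2 h hx (conj_mem h2 hu (inv_mem hx)) k fun l => k (by simpa [mul_assoc] using conj_mem' h1 hu l)

theorem cent2 (h : Nat.card A = 2) (hn : x ∈ N(A)) : x ∈ C(A) := fun a ha => by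
  by_cases e : a = 1
  · simp [e]
  obtain ⟨y, -, hy⟩ := (Nat.card_eq_two_iff' (1 : A)).1 h
  have := congrArg Subtype.val ((hy ⟨_, conj_mem_N hn ha⟩ fun l => e (conj_eq_one_iff'.1 (congrArg Subtype.val l))).trans
    (hy ⟨a, ha⟩ fun l => e (congrArg Subtype.val l)).symm)
  exact (mul_inv_eq_iff_eq_mul.1 this).symm

theorem Fg.sq (f : Fg T b) (hs : s ∈ T) : s * s = 1 := by rw [← pow_two]; exact f.el.pow s hs

theorem Fg.irr (f : Fg T b) (h3 : orderOf b = 3) (hA : A ≤ T) (hn : b ∈ N(A)) : A = ⊥ ∨ A = T := by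
  obtain ⟨k, hk, e⟩ := (Nat.dvd_prime_pow Nat.prime_two).1 (show _ ∣ 2 ^ 2 from f.card ▸ card_dvd hA)
  obtain rfl | rfl | rfl : k = 0 ∨ k = 1 ∨ k = 2 := by omega
  · exact Or.inl (card_eq_one.1 e)
  · refine (f.nc (cent_symm (cent_of_comm_le (comm_idx2 (relIndex_eq_of_mul hA (by rw [e, f.card]; rfl)) (zpowers_le.2 hn)
      (zpowers_le.2 f.nb)) (cent_symm (zpowers_le.2 (cent2 e hn))) ?_) (mem_zpowers b))).elim
    rw [card_zpowers', h3, e]; norm_num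
  · exact Or.inr (eq_of_card_eq hA (e.trans f.card.symm))

theorem Fg.fix (f : Fg T b) (h3 : orderOf b = 3) (hs : s ∈ T) (k : b * s * b⁻¹ = s) : s = 1 :=
  (f.irr h3 (A := T ⊓ C(zpowers b)) inf_le_left
    (zpowers_le.1 (norm_inf (zpowers_le.2 f.nb) (norm_C le_N)))).elim
    (fun e => eq_one_of_eq_bot e ⟨hs, by rw [C_zpowers]; exact mem_C1.2 (mul_inv_eq_iff_eq_mul.1 k).symm⟩)
    fun e => (f.nc (cent_symm (e.ge.trans inf_le_right) (mem_zpowers b))).elim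

theorem Fg.cm (f : Fg T b) (h3 : orderOf b = 3) : ⁅T, zpowers b⁆ = T :=
  (f.irr h3 (comm_le_left (zpowers_le.2 f.nb)) (norm_comm_right (mem_zpowers b))).resolve_left fun e =>
    f.nc (cent_symm (comm_eq_bot_iff.1 e) (mem_zpowers b))

omit [Finite G] in
theorem mem2 (h : s * s = 1) (hx : x ∈ zpowers s) : x = 1 ∨ x = s := by
  obtain ⟨k, rfl⟩ := hx
  have e : s ^ (2 : ℤ) = 1 := by rw [zpow_two, h]
  obtain ⟨j, rfl | rfl⟩ := Int.even_or_odd' k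
  · exact Or.inl (by simp only [zpow_mul, e, one_zpow])
  · exact Or.inr (by simp only [zpow_add, zpow_mul, e, one_zpow, one_mul, zpow_one])

theorem Fg.gen (f : Fg T b) (hs : s ∈ T) (ht : t ∈ T) (s1 : s ≠ 1) (t1 : t ≠ 1) (k : s ≠ t) :
    zpowers s ⊔ zpowers t = T := by
  refine eq_of_card_eq (sup_le (zpowers_le.2 hs) (zpowers_le.2 ht)) ?_
  rw [card_sup_of_cent (cent_mono f.el.abel (zpowers_le.2 hs) (zpowers_le.2 ht)) (eq_bot_iff.2 fun y hy =>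
    (mem2 (f.sq hs) hy.1).elim id fun e => (mem2 (f.sq ht) hy.2).resolve_right fun e' => k (e.symm.trans e')),
    card_zpowers', card_zpowers', orderOf_eq_prime (p := 2) (f.el.pow s hs) s1,
    orderOf_eq_prime (p := 2) (f.el.pow t ht) t1, f.card]

theorem Fg.prod (f : Fg T b) (h3 : orderOf b = 3) (hs : s ∈ T) : s * (b * s * b⁻¹) = b⁻¹ * s * b := by
  have b3 : b * b * b = 1 := by rw [← pow_three', ← h3, pow_orderOf_eq_one]
  have m1 := conj_mem_N f.nb hs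
  have m2 := conj_mem_N' f.nb hs
  have e : b * b = b⁻¹ := eq_inv_of_mul_eq_one_left b3
  have := f.fix h3 (mul_mem (mul_mem hs m1) m2) (by
    rw [show b * (s * (b * s * b⁻¹) * (b⁻¹ * s * b)) * b⁻¹ = b * s * b⁻¹ * (b * b * s * (b * b)⁻¹) * s by group, e,
      inv_inv, ← comm_of_cent f.el.abel hs (mul_mem m1 m2), mul_assoc s])
  rw [eq_inv_of_mul_eq_one_left this, inv_eq_of_mul_eq_one_left (f.sq m2)]

theorem Fg.cases (f : Fg T b) (h3 : orderOf b = 3) (hs : s ∈ T) (s1 : s ≠ 1) (hx : x ∈ T) :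
    x = 1 ∨ x = s ∨ x = b * s * b⁻¹ ∨ x = b⁻¹ * s * b := by
  have m1 := conj_mem_N f.nb hs
  rw [← f.gen hs m1 s1 (mt conj_eq_one_iff'.1 s1) fun e => s1 (f.fix h3 hs e.symm)] at hx
  obtain ⟨y, hy, z, hz, rfl⟩ := (mem_sup_of_cent (cent_mono f.el.abel (zpowers_le.2 hs) (zpowers_le.2 m1))).1 hx
  rcases mem2 (f.sq hs) hy with rfl | rfl <;> rcases mem2 (f.sq m1) hz with rfl | rfl
  · simp
  · simp
  · simp
  · simp [f.prod h3 hs]

end H3.Cb
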