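import Cfsg.Agent.H3.Cb1

/-! The three lines of `⁅V, T⁆` for a four-group `T` (`Hy.line`, `Hy.card_U`), irreducibility (`Hy.irr`), the
centralizer of `T` (`Hy.sqM`, `Hy.idxM`, `Hy.comM`). -/

set_option autoImplicit false
set_option linter.unusedSectionVars false

namespace H3.Cb

open Subgroup Cfsg H18 H1 H3
open scoped commutatorElement

variable {G : Type*} [Group G] [Finite G] {V R Q T X U W A : Subgroup G} {b s t v x : G}

theorem inverts (hA : Abel A) (hs : s ∈ N(A)) (h2 : s * s = 1) (h0 : A ⊓ C1(s) = ⊥) (hv : v ∈ A) :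
    s * v * s⁻¹ = v⁻¹ := by
  have m := conj_mem_N hs hv
  refine eq_inv_of_mul_eq_one_right (eq_one_of_eq_bot h0 ⟨mul_mem hv m, mem_C1.2 ?_⟩)
  symm
  calc s * (v * (s * v * s⁻¹)) = s * v * s⁻¹ * (s * s) * v * s⁻¹ := by group
    _ = v * (s * v * s⁻¹) * s := by rw [h2, mul_one, comm_of_cent hA hv m, inv_eq_of_mul_eq_one_left h2]

theorem Hy.eq1 (h : Hy V R b) (hv : v ∈ V) (e : v = v⁻¹) : v = 1 := by
  have := h.el.pow v hv
  rwa [pow_three', mul_eq_one_iff_eq_inv.2 e, one_mul] at this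

theorem Hy.faith (h : Hy V R b) (hX : X ≤ R) (hx : x ∈ R ⊔ zpowers b) (h1 : x ∈ C((⁅V, X⁆ : Subgroup G)))
    (h2 : x ∈ C((V ⊓ C(X) : Subgroup G))) : x = 1 := eq_one_of_eq_bot h.ff ⟨hx, by
  rw [← (h.copV hX le_rfl (hX.trans h.nR)).comm_sup, C_sup]; exact ⟨h1, h2⟩⟩

theorem idxL (hX : PiGrp {3}ᶜ X) (hA : Nat.card A = 3) (hn : X ≤ N(A)) : C(A).relIndex X ∣ 2 := by
  obtain ⟨v, -, rfl⟩ := exists_gen_of_prime (X := A) (hA ▸ Nat.prime_three)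
  have h1 := relIndex_C1_le (A := X) (x := v) (K := zpowers v) fun a ha =>
    mul_mem (conj_mem hn ha (mem_zpowers v)) (inv_mem (mem_zpowers v))
  have h2 := (hX.relIndex (A := C1(v))).not_dvd' Nat.prime_three rfl
  have h3 := relIndex_pos (A := C1(v)) (B := X)
  rw [C_zpowers]
  rw [hA] at h1
  generalize C1(v).relIndex X = n at *
  interval_cases n <;> simp_all

section
variable (h : Hy V R b) (hT : T ≤ R) (f : Fg T b)
include h hT f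

theorem Hy.two (hs : s ∈ T) (ht : t ∈ T) (s1 : s ≠ 1) (t1 : t ≠ 1) (k : s ≠ t) : ⁅V, T⁆ ⊓ C1(s) ⊓ C1(t) = ⊥ := by
  rw [inf_assoc, ← C_zpowers, ← C_zpowers, ← C_sup, f.gen hs ht s1 t1 k, h.dis hT]

omit hT in
theorem Hy.cjL : cj b (⁅V, T⁆ ⊓ C1(s)) = ⁅V, T⁆ ⊓ C1(b * s * b⁻¹) := by rw [cj_inf, cj_C1, cj_eq_self (h.nc f.nb)]

omit hT in
theorem Hy.cjL' : cj b⁻¹ (⁅V, T⁆ ⊓ C1(s)) = ⁅V, T⁆ ⊓ C1(b⁻¹ * s * b) := by
  rw [cj_inf, cj_C1, cj_eq_self (inv_mem (h.nc f.nb)), inv_inv]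

theorem Hy.genL (hW : W ≤ V) (hn : T ≤ N(W)) (k : ∀ s ∈ T, s ≠ 1 → W ⊓ C1(s) ≤ X) : W ≤ X :=
  coprime_abelian_gen_cent1 f.el.abel (not_cyc_of_pow Nat.prime_two f.el.pow (by rw [f.card]; norm_num)) hn
    (h.copV hT hW hn).cop k

theorem Hy.gen3 (hs : s ∈ T) (s1 : s ≠ 1) (h1 : ⁅V, T⁆ ⊓ C1(s) ≤ X) (h2 : ⁅V, T⁆ ⊓ C1(b * s * b⁻¹) ≤ X)
    (h3 : ⁅V, T⁆ ⊓ C1(b⁻¹ * s * b) ≤ X) : ⁅V, T⁆ ≤ X := h.genL hT f (h.cV hT) norm_comm_right fun t ht t1 => by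
  rcases f.cases h.ord hs s1 ht with e | e | e | e
  exacts [(t1 e).elim, e ▸ h1, e ▸ h2, e ▸ h3]

omit f in
theorem Hy.nL (hX : X ≤ R ⊓ C(T)) (hs : s ∈ T) : X ≤ N((⁅V, T⁆ ⊓ C1(s) : Subgroup G)) :=
  norm_inf (norm_comm (hX.trans (inf_le_left.trans h.nR)) (hX.trans (inf_le_right.trans C_le_N)))
    (norm_C1 (hX.trans (inf_le_right.trans (C_le_C1 hs))))

theorem Hy.invL (hs : s ∈ T) (ht : t ∈ T) (s1 : s ≠ 1) (t1 : t ≠ 1) (k : s ≠ t) (hv : v ∈ ⁅V, T⁆ ⊓ C1(s)) :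
    t * v * t⁻¹ = v⁻¹ := inverts (h.el.abel.mono (inf_le_left.trans (h.cV hT)))
      (h.nL hT (le_inf hT f.el.abel) hs ht) (f.sq ht) (h.two hT f hs ht s1 t1 k) hv

theorem Hy.invA (hs : s ∈ T) (s1 : s ≠ 1) (hv : v ∈ (⁅V, T⁆ ⊓ C1(s)) ⊔ (⁅V, T⁆ ⊓ C1(b * s * b⁻¹))) :
    b⁻¹ * s * b * v * (b⁻¹ * s * b)⁻¹ = v⁻¹ := by
  have m1 := conj_mem_N f.nb hs
  have m2 := conj_mem_N' f.nb hs
  have n1 : b * s * b⁻¹ ≠ 1 := mt conj_eq_one_iff'.1 s1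
  have n2 : b⁻¹ * s * b ≠ 1 := fun e => s1 (by simpa [mul_assoc] using congrArg (fun y => b * y * b⁻¹) e)
  have l : ⁅V, T⁆ ⊓ C1(s) ≤ V := inf_le_left.trans (h.cV hT)
  have l' : ⁅V, T⁆ ⊓ C1(b * s * b⁻¹) ≤ V := inf_le_left.trans (h.cV hT)
  obtain ⟨y, hy, z, hz, rfl⟩ := (mem_sup_of_cent (cent_mono h.el.abel l l')).1 hv
  rw [comm_of_cent h.el.abel (l hy) (l' hz), mul_inv_rev z,
    ← h.invL hT f hs m2 s1 n2 (fun e => n1 (mul_left_cancel ((f.prod h.ord hs).trans (e.symm.trans (mul_one _).symm)))) hy,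
    ← h.invL hT f m1 m2 n1 n2 (fun e => s1 (mul_right_cancel ((f.prod h.ord hs).trans (e.symm.trans (one_mul _).symm)))) hz,
    ← comm_of_cent h.el.abel (l hy) (l' hz)]
  group

theorem Hy.line (hs : s ∈ T) (s1 : s ≠ 1) : Nat.card (⁅V, T⁆ ⊓ C1(s) : Subgroup G) = 3 := by
  have l : ⁅V, T⁆ ⊓ C1(s) ≤ V := inf_le_left.trans (h.cV hT)
  have l' : ⁅V, T⁆ ⊓ C1(b * s * b⁻¹) ≤ V := inf_le_left.trans (h.cV hT)
  refine card_eq_prime_of_le (h.piV.of_le l) (fun e => h.cub (C_anti ((h.lemB hT f.nb f.nc).1.trans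
    (h.gen3 hT f hs s1 e.le (by rw [← h.cjL f, e, cj_bot]) (by rw [← h.cjL' f, e, cj_bot]))) (by simp))) ?_
  have c := card_le_mul_of_comm (A := (⁅V, T⁆ ⊓ C1(s)) ⊔ (⁅V, T⁆ ⊓ C1(b * s * b⁻¹))) (x := b) (K := ⁅V, zpowers b⁆)
    fun a ha => commutator_mem_commutator (sup_le l l' ha) (mem_zpowers b)
  rw [card_sup_of_cent (cent_mono h.el.abel l l') (eq_bot_iff.2 ((inf_le_inf_left _ inf_le_right).trans (h.two hT f hs
    (conj_mem_N f.nb hs) s1 (mt conj_eq_one_iff'.1 s1) fun e => s1 (f.fix h.ord hs e.symm)).le)), ← h.cjL f, card_cj,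
    h.cjL f, (card_eq_one (H := _ ⊓ C1(b))).2 (eq_bot_iff.2 fun v hv => ?_), one_mul] at c
  · nlinarith [h.nine]
  have e := h.invA hT f hs s1 hv.1
  have c : Commute v b := mem_C1.1 hv.2
  have k : ∀ y, y * v * y⁻¹ = v⁻¹ → b * y * b⁻¹ * v * (b * y * b⁻¹)⁻¹ = v⁻¹ := fun y e => by
    rw [show b * y * b⁻¹ * v * (b * y * b⁻¹)⁻¹ = b * (y * (b⁻¹ * v * b) * y⁻¹) * b⁻¹ by group, c.symm.inv_mul_cancel, e,
      c.symm.inv_right.mul_inv_cancel]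
  have e1 := k _ e
  rw [show b * (b⁻¹ * s * b) * b⁻¹ = s by group] at e1
  refine h.eq1 (sup_le l l' hv.1) ?_
  rw [← e, ← f.prod h.ord hs, show s * (b * s * b⁻¹) * v * (s * (b * s * b⁻¹))⁻¹ =
    s * (b * s * b⁻¹ * v * (b * s * b⁻¹)⁻¹) * s⁻¹ by group, k s e1, ← conj_inv, e1, inv_inv]

theorem Hy.card_U : Nat.card (⁅V, T⁆ : Subgroup G) = 27 := by
  obtain ⟨s, hs, s1⟩ := exists_mem_ne_one' (H := T) fun e => by simpa [e] using f.card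
  have l : ∀ s : G, ⁅V, T⁆ ⊓ C1(s) ≤ V := fun _ => inf_le_left.trans (h.cV hT)
  have m1 := conj_mem_N f.nb hs
  have m2 := conj_mem_N' f.nb hs
  have n1 : b * s * b⁻¹ ≠ 1 := mt conj_eq_one_iff'.1 s1
  have n2 : b⁻¹ * s * b ≠ 1 := fun e => s1 (by simpa [mul_assoc] using congrArg (fun y => b * y * b⁻¹) e)
  rw [le_antisymm (h.gen3 hT f hs s1 (le_sup_left.trans le_sup_left) (le_sup_right.trans le_sup_left) le_sup_right)
    (sup_le (sup_le inf_le_left inf_le_left) inf_le_left), card_sup_of_cent (cent_mono h.el.abel (sup_le (l _) (l _)) (l _))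
    (eq_bot_iff.2 fun v hv => h.eq1 (l _ hv.2) (by
      rw [← h.invA hT f hs s1 hv.1, ← mem_C1.1 hv.2.2, mul_inv_cancel_right])),
    card_sup_of_cent (cent_mono h.el.abel (l _) (l _)) (eq_bot_iff.2 ((inf_le_inf_left _ inf_le_right).trans
      (h.two hT f hs m1 s1 n1 fun e => s1 (f.fix h.ord hs e.symm)).le)), h.line hT f hs s1, h.line hT f m1 n1,
    h.line hT f m2 n2]

theorem Hy.irr (hW : W ≤ ⁅V, R⁆) (hn : R ⊔ zpowers b ≤ N(W)) : W = ⊥ ∨ W = ⁅V, R⁆ := by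
  refine or_iff_not_imp_left.2 fun w0 => le_antisymm hW ?_
  have wV := hW.trans (h.cV le_rfl)
  have n1 := le_sup_left.trans hn
  have n2 : b ∈ N(W) := hn (mem_sup_right (mem_zpowers b))
  have k : W ⊓ ⁅V, T⁆ ≠ ⊥ := fun e => w0 (eq_bot_iff.2 ((le_inf hW (cent_symm (h.cen n1 (C_anti (le_inf wV
    (comm_eq_bot_iff.1 (eq_bot_iff.2 ((le_inf (comm_le_left (hT.trans n1)) (comm_mono wV le_rfl)).trans e.le))))
      (h.lemB hT f.nb f.nc).2)))).trans (h.dis le_rfl).le))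
  have nn := norm_inf (hT.trans n1) (norm_comm_right (A := V))
  obtain ⟨s, hs, s1, e⟩ := exists_cent1_ne_bot f.el.abel (not_cyc_of_pow Nat.prime_two f.el.pow (by
    rw [f.card]; norm_num)) nn (h.copV hT (inf_le_left.trans wV) nn).cop k
  have l : ⁅V, T⁆ ⊓ C1(s) ≤ W := prime_le_of_inf_ne_bot (h.line hT f hs s1 ▸ Nat.prime_three) (by
    rwa [inf_comm, ← inf_assoc])
  have l2 := (h.lemB hT f.nb f.nc).1.trans (h.gen3 hT f hs s1 l (h.cjL f ▸ cj_le_of_mem_N l n2)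
    (h.cjL' f ▸ cj_le_of_mem_N l (inv_mem n2)))
  have ab := h.el.abel
  let K : Subgroup G := ⟨⟨⟨{g | g ∈ N(W) ∧ ∀ v ∈ V, g * v * g⁻¹ * v⁻¹ ∈ W}, fun {x y} hx hy => ⟨mul_mem hx.1 hy.1,
    fun v hv => by simpa [mul_assoc] using mul_mem (conj_mem_N hx.1 (hy.2 v hv)) (hx.2 v hv)⟩⟩, one_mem _,
    fun v _ => by simp⟩, fun {x} hx => ⟨inv_mem hx.1, fun v hv => by
      simpa [mul_assoc] using conj_mem_N' hx.1 (inv_mem (hx.2 v hv))⟩⟩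
  have b1 : zpowers b ≤ K := zpowers_le.2 ⟨n2, fun v hv => l2 (comm_comm.le (commutator_mem_commutator
    (mem_zpowers b) hv))⟩
  have b2 : R ≤ N(K) := norm_iff.2 fun r hr g hg => ⟨mul_mem (mul_mem (n1 hr) hg.1) (inv_mem (n1 hr)), fun v hv => by
    simpa [mul_assoc] using conj_mem n1 hr (hg.2 _ (conj_mem' h.nR hr hv))⟩
  have b3 := h.cm.ge.trans ((comm_mono le_rfl b1).trans (comm_le_right b2))
  exact comm_comm.le.trans (commutator_le.2 fun r hr v hv => (b3 hr).2 v hv)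

theorem Hy.idxS (hX : X ≤ R ⊓ C(T)) (hs : s ∈ T) (s1 : s ≠ 1) : C((⁅V, T⁆ ⊓ C1(s) : Subgroup G)).relIndex X ∣ 2 :=
  idxL (h.pi.of_le (hX.trans inf_le_left)) (h.line hT f hs s1) (h.nL hT hX hs)

theorem Hy.cU (k : ∀ s ∈ T, s ≠ 1 → x ∈ C((⁅V, T⁆ ⊓ C1(s) : Subgroup G))) : x ∈ C((⁅V, T⁆ : Subgroup G)) :=
  le_C1_iff.1 (h.genL hT f (h.cV hT) norm_comm_right fun s hs s1 => le_C1_iff.2 (k s hs s1))

theorem Hy.sqM (hx : x ∈ R ⊓ C(T)) : x ^ 2 ∈ C((⁅V, T⁆ : Subgroup G)) := h.cU hT f fun s hs s1 => by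
  obtain ⟨c, e⟩ := h.idxS hT f le_rfl hs s1
  rw [e, pow_mul]
  exact pow_mem (pow_relIndex_mem (norm_C (h.nL hT le_rfl hs)) hx) c

theorem Hy.derM : ⁅R ⊓ C(T), R ⊓ C(T)⁆ ≤ C((⁅V, T⁆ : Subgroup G)) := fun _ hx => h.cU hT f fun s hs s1 =>
  der_le_of_relIndex_dvd_sq Nat.prime_two (norm_C (h.nL hT le_rfl hs))
    ((h.idxS hT f le_rfl hs s1).trans (by norm_num)) hx

theorem Hy.idxM (hX : X ≤ R ⊓ C(T)) : C((⁅V, T⁆ : Subgroup G)).relIndex X ≤ 8 := by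
  obtain ⟨s, hs, s1⟩ := exists_mem_ne_one' (H := T) fun e => by simpa [e] using f.card
  have n2 : b⁻¹ * s * b ≠ 1 := fun e => s1 (by simpa [mul_assoc] using congrArg (fun y => b * y * b⁻¹) e)
  have a1 := Nat.le_of_dvd two_pos (h.idxS hT f hX hs s1)
  have a2 := Nat.le_of_dvd two_pos (h.idxS hT f hX (conj_mem_N f.nb hs) (mt conj_eq_one_iff'.1 s1))
  have a3 := Nat.le_of_dvd two_pos (h.idxS hT f hX (conj_mem_N' f.nb hs) n2)
  refine le_trans (Nat.le_of_dvd relIndex_pos (relIndex_dvd_left ?_))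
    (relIndex_inf_le.trans (Nat.mul_le_mul (relIndex_inf_le.trans (Nat.mul_le_mul a1 a2)) a3))
  rw [← C_sup, ← C_sup]
  exact C_anti (h.gen3 hT f hs s1 (le_sup_left.trans le_sup_left) (le_sup_right.trans le_sup_left) le_sup_right)

omit hT in
theorem Hy.nM : b ∈ N((R ⊓ C(T) : Subgroup G)) :=
  zpowers_le.1 (norm_inf (zpowers_le.2 h.nbR) (norm_C (zpowers_le.2 f.nb)))

theorem Hy.comM : ⁅R ⊓ C(T), zpowers b⁆ = T := by
  have l := comm_le_left (zpowers_le.2 (h.nM f))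
  have l1 := l.trans inf_le_left
  have c := h.copB inf_le_left (h.nM f)
  have a : ⁅R ⊓ C(T), zpowers b⁆ ≤ C((V ⊓ C(T) : Subgroup G)) :=
    (comm_mono le_rfl (zpowers_le.2 (h.lemB hT f.nb f.nc).2)).trans (comm_le_right (norm_C (norm_inf
      (inf_le_left.trans h.nR) (inf_le_right.trans le_N))))
  have d : ⁅R ⊓ C(T), zpowers b⁆ ⊓ C((⁅V, T⁆ : Subgroup G)) = ⊥ := eq_bot_iff.2 fun x hx =>
    h.faith hT (mem_sup_left (l1 hx.1)) hx.2 (a hx.1)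
  have ab : Abel ⁅R ⊓ C(T), zpowers b⁆ := abel_iff_der.2 (eq_bot_iff.2
    ((le_inf der_le ((der_mono l).trans (h.derM hT f))).trans d.le))
  have e := abel_comm_inf_cent ab c.comm.norm c.comm.cop
  rw [c.comm_comm] at e
  have e1 := (semireg_prime (by rw [card_zpowers', h.ord]; exact Nat.prime_three) e).dvd_pred c.comm.norm
  have t : T ≤ ⁅R ⊓ C(T), zpowers b⁆ := (f.cm h.ord).ge.trans (comm_mono (le_inf hT f.el.abel) le_rfl)
  have e2 := h.idxM hT f l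
  rw [← relIndex_inf_left, d, relIndex_bot_left] at e2
  have e3 := card_dvd t
  have e4 := card_pos' (H := ⁅R ⊓ C(T), zpowers b⁆)
  refine (eq_of_card_ge t ?_).symm
  rw [card_zpowers', h.ord] at e1
  rw [f.card] at e3 ⊢
  omega

end

end H3.Cb
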