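import Cfsg.Agent.H3.Cb2
import Cfsg.Agent.H18.GT1

/-! The extraspecial case: `St.es`. -/

set_option autoImplicit false
set_option linter.unusedSectionVars false

namespace H3.Cb

open Subgroup Cfsg H18 H1 H3
open scoped commutatorElement

structure St {G : Type*} [Group G] (V R T : Subgroup G) (b z : G) : Prop where
  hy : Hy V R b
  two : PiGrp {2} R
  le : T ≤ R
  fg : Fg T b
  zR : z ∈ R
  zo : orderOf z = 2
  zT : z ∉ T
  zc : z ∈ C((R ⊔ zpowers b : Subgroup G))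
  cm : ⁅T, R⁆ = zpowers z
  fx : V ⊓ C1(z) ≤ C((R ⊔ zpowers b : Subgroup G))
  inv : ∀ w ∈ ⁅V, T⁆, z * w * z⁻¹ = w⁻¹

variable {G : Type*} [Group G] [Finite G] {V R T A : Subgroup G} {b z c d x y : G}

def cz (Z : Subgroup G) (x : G) : Subgroup G where
  carrier := {r | r ∈ N(Z) ∧ ⁅r, x⁆ ∈ Z}
  mul_mem' {r s} hr hs := ⟨mul_mem hr.1 hs.1, by
    simpa [commutatorElement_def, mul_assoc] using mul_mem (conj_mem_N hr.1 hs.2) hr.2⟩
  one_mem' := ⟨one_mem _, by simp⟩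
  inv_mem' {r} hr := ⟨inv_mem hr.1, by
    simpa [commutatorElement_def, mul_assoc] using conj_mem_N' hr.1 (inv_mem hr.2)⟩

namespace St

variable (h : St V R T b z)
include h

theorem zz : z * z = 1 := by rw [← pow_two, ← h.zo, pow_orderOf_eq_one]
theorem z1 : z ≠ 1 := fun e => h.zT (e ▸ one_mem T)
theorem cZ : R ≤ C(zpowers z) := cent_symm (zpowers_le.2 (C_anti le_sup_left h.zc))
theorem bZ : b ∈ C(zpowers z) := cent_symm (zpowers_le.2 (C_anti le_sup_right h.zc)) (mem_zpowers b)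
theorem DM : T ⊔ zpowers z ≤ R ⊓ C(T) :=
  sup_le (le_inf h.le h.fg.el.abel) (le_inf (zpowers_le.2 h.zR) (cent_symm (h.le.trans h.cZ)))
theorem DR : T ⊔ zpowers z ≤ R := h.DM.trans inf_le_left
theorem TZ : T ⊓ zpowers z = ⊥ := eq_bot_iff.2 fun _ hx => (mem2 h.zz hx.2).resolve_right fun e => h.zT (e ▸ hx.1)
theorem elD : Elem 2 (T ⊔ zpowers z) := elem_sup h.fg.el (elem_zpowers (by rw [pow_two, h.zz])) (h.le.trans h.cZ)
theorem cardD : Nat.card (T ⊔ zpowers z : Subgroup G) = 8 := by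
  rw [card_sup_of_cent (h.le.trans h.cZ) h.TZ, h.fg.card, card_zpowers', h.zo]
theorem cmD : ⁅T ⊔ zpowers z, R⁆ ≤ zpowers z :=
  comm_sup_le h.cm.le (comm_le_left (cent_norm h.cZ)) (cent_norm (h.le.trans h.cZ)) le_N
theorem nD : R ≤ N((T ⊔ zpowers z : Subgroup G)) := norm_iff_comm_le'.2 (h.cmD.trans le_sup_right)
theorem bD : b ∈ N((T ⊔ zpowers z : Subgroup G)) :=
  zpowers_le.1 (norm_sup (zpowers_le.2 h.fg.nb) (zpowers_le.2 (C_le_N h.bZ)))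
theorem memD (hd : d ∈ T ⊔ zpowers z) : ∃ t ∈ T, ∃ u ∈ zpowers z, d = t * u :=
  (mem_sup_of_cent (h.le.trans h.cZ)).1 hd
theorem nM : R ≤ N((R ⊓ C(T) : Subgroup G)) := by
  rw [show R ⊓ C(T) = R ⊓ C((T ⊔ zpowers z : Subgroup G)) by rw [C_sup, ← inf_assoc, inf_eq_left.2
    (inf_le_left.trans h.cZ)]]
  exact norm_inf le_N (norm_C h.nD)

theorem nz {W : Subgroup G} (hW : W ≤ ⁅V, T⁆) (k : z ∈ C(W)) : W = ⊥ := eq_bot_iff.2 fun w hw =>
  h.hy.eq1 (h.hy.cV h.le (hW hw)) (by rw [← h.inv w (hW hw), ← k w hw, mul_inv_cancel_right])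

theorem DU : (T ⊔ zpowers z) ⊓ C((⁅V, T⁆ : Subgroup G)) = ⊥ := eq_bot_iff.2 fun d hd => by
  obtain ⟨t, ht, u, hu, rfl⟩ := h.memD hd.1
  rcases mem2 h.zz hu with rfl | rfl
  · rw [mul_one] at hd ⊢
    exact h.hy.faith h.le (mem_sup_left (h.le ht)) hd.2 (cent_symm inf_le_right ht)
  have e := h.nz (W := ⁅V, T⁆ ⊓ C1(t)) inf_le_left (by
    simpa only [inv_mul_cancel_left] using
      mul_mem (inv_mem (le_C1_iff.1 (inf_le_right (b := C1(t))))) (C_anti inf_le_left hd.2))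
  by_cases k : t = 1
  · have := h.hy.card_U h.le h.fg
    rw [k, C1_one, inf_top_eq] at e
    simp [e] at this
  · have := h.hy.line h.le h.fg ht k
    simp [e] at this

theorem split : R ⊓ C(T) = (T ⊔ zpowers z) ⊔ (R ⊓ C(T) ⊓ C((⁅V, T⁆ : Subgroup G))) := by
  refine (eq_of_card_ge (sup_le h.DM inf_le_left) ?_).symm
  rw [Nrm2.card_sup_of_disj (Or.inr (inf_le_left.trans (inf_le_left.trans h.nD)))
    (eq_bot_iff.2 ((inf_le_inf_left _ inf_le_right).trans h.DU.le)), h.cardD,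
    ← card_mul_relIndex' (A := C((⁅V, T⁆ : Subgroup G))), inf_comm, mul_comm]
  exact Nat.mul_le_mul_right _ (h.hy.idxM h.le h.fg le_rfl)

theorem kill (hx : x ∈ R) (k : x ∉ C(T)) (hc : c ∈ R) (h1 : c ∈ C((⁅V, T⁆ : Subgroup G)))
    (h2 : c ∈ C(cj x ⁅V, T⁆)) : c = 1 := by
  obtain ⟨t, ht, e⟩ : ∃ t ∈ T, ⁅t, x⁆ ≠ 1 := by
    by_contra! l
    exact k fun t ht => commutatorElement_eq_one_iff_mul_comm.1 (l t ht)
  have e1 := (mem2 h.zz (h.cm.le (commutator_mem_commutator ht hx))).resolve_left e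
  have l : cj x T ≤ C(T) := (cj_le_of_mem_N le_sup_left (h.nD hx)).trans (h.DM.trans inf_le_right)
  have l' : cj x T ≤ R := cj_le_of_mem h.le hx
  rw [cj_comm, cj_eq_self (h.hy.nR hx)] at h2
  refine h.hy.faith (zpowers_le.2 h.zR) (mem_sup_left hc) (C_anti ((comm_mono le_rfl (zpowers_le.2 (?_ :
    z ∈ T ⊔ cj x T))).trans (comm_sup_le' le_sup_left le_sup_right (norm_sup norm_comm_right (norm_comm
      (h.le.trans h.hy.nR) (cent_norm (cent_symm l)))) (norm_sup (norm_comm (l'.trans h.hy.nR) (cent_norm l))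
        norm_comm_right))) (C_sup.ge ⟨h1, h2⟩)) (C_zpowers (x := z) ▸ cent_symm h.fx (mem_sup_left hc))
  rw [← e1, commutatorElement_def, mul_assoc, mul_assoc, ← mul_assoc x]
  exact mul_mem_sup ht (conj_mem_cj (inv_mem ht))

theorem kill2 (hx : x ∈ R) (k : x ∉ C(T)) (hc : c ∈ R) (h1 : c ∈ C((⁅V, T⁆ : Subgroup G)))
    (h2 : ⁅c, x⁆ ∈ zpowers z) : c = 1 := by
  have a : x * c⁻¹ * x⁻¹ ∈ C(cj x ⁅V, T⁆) := cj_C.le (conj_mem_cj (inv_mem h1))
  have e : ⁅c, x⁆ = c * (x * c⁻¹ * x⁻¹) := by simp only [commutatorElement_def, mul_assoc]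
  rcases mem2 h.zz h2 with l | l
  · exact h.kill hx k hc h1 (by rw [eq_inv_of_mul_eq_one_left (e.symm.trans l)]; exact inv_mem a)
  have n := card_le_mul_of_comm (A := T) (x := x) fun t ht => h.cm.le (commutator_mem_commutator ht hx)
  obtain ⟨s, hs, s1⟩ := exists_mem_ne_one' (H := T ⊓ C1(x)) fun e => by
    simp [e, h.fg.card, h.zo] at n
  have l1 : ⁅V, zpowers s⁆ ≤ ⁅V, T⁆ := comm_mono le_rfl (zpowers_le.2 hs.1)
  have l2 : ⁅V, zpowers s⁆ ≤ cj x ⁅V, T⁆ := by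
    rw [cj_comm, cj_eq_self (h.hy.nR hx)]
    refine comm_mono le_rfl (zpowers_le.2 ?_)
    rw [← conj_eq_self_of_C1 (mem_C1_comm.1 hs.2)]
    exact conj_mem_cj hs.1
  exact (s1 (h.hy.triv (h.le hs.1) (cent_symm (comm_eq_bot_iff.1 (h.nz l1 (l ▸ e ▸ mul_mem (C_anti l1 h1)
    (C_anti l2 a)))) (mem_zpowers s)))).elim

theorem nRM : ¬ R ≤ C(T) := fun l => h.z1 (eq_one_of_eq_bot (h.cm.symm.trans (comm_eq_bot_iff.2 (cent_symm l)))
  (mem_zpowers z))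

theorem sqD (hx : x ∈ R) : x ^ 2 ∈ T ⊔ zpowers z := by
  by_cases k : x ∈ C(T)
  · obtain ⟨y, hy, k'⟩ := SetLike.not_le_iff_exists.1 h.nRM
    rw [h.kill hy k' (pow_mem hx 2) (h.hy.sqM h.le h.fg ⟨hx, k⟩) (by
      rw [← cj_C, mem_cj, show y⁻¹ * x ^ 2 * y = (y⁻¹ * x * y) ^ 2 by rw [pow_two, pow_two]; group]
      exact h.hy.sqM h.le h.fg (conj_mem' h.nM hy ⟨hx, k⟩))]
    exact one_mem _
  have a : x ^ 2 ∈ R ⊓ C(T) := ⟨pow_mem hx 2, fun t ht => by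
    have m := h.cm.le (commutator_mem_commutator ht hx)
    have e : ⁅t, x⁆ * ⁅t, x⁆ = 1 := by rcases mem2 h.zz m with e | e <;> rw [e]; exacts [mul_one 1, h.zz]
    calc t * x ^ 2 = ⁅t, x⁆ * (x * ⁅t, x⁆) * x * t := by simp only [commutatorElement_def, pow_two]; group
      _ = _ := by rw [← h.cZ hx _ m, ← mul_assoc, e, one_mul, pow_two]⟩
  rw [h.split] at a
  obtain ⟨d, hd, c, hc, e⟩ := (mem_sup_of_norm' (inf_le_left.trans (inf_le_left.trans h.nD))).1 a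
  rw [e, h.kill2 hx k hc.1.1 hc.2 (by
    rw [eq_inv_mul_of_mul_eq e.symm, show ⁅d⁻¹ * x ^ 2, x⁆ = ⁅d⁻¹, x⁆ by simp only [commutatorElement_def]; group]
    exact h.cmD (commutator_mem_commutator (inv_mem hd) hx)), mul_one]
  exact hd

theorem derD : ⁅R, R⁆ ≤ T ⊔ zpowers z := commutator_le.2 fun x hx y hy => by
  rw [show ⁅x, y⁆ = x ^ 2 * (x⁻¹ * y) ^ 2 * y⁻¹ ^ 2 by simp only [commutatorElement_def, pow_two]; group]
  exact mul_mem (mul_mem (h.sqD hx) (h.sqD (mul_mem (inv_mem hx) hy))) (h.sqD (inv_mem hy))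

theorem MD : R ⊓ C(T) = T ⊔ zpowers z := by
  have n : zpowers b ≤ N((R ⊓ C(T) ⊓ C((⁅V, T⁆ : Subgroup G)) : Subgroup G)) :=
    norm_inf (zpowers_le.2 (h.hy.nM h.fg)) (norm_C (zpowers_le.2 (h.hy.nc h.fg.nb)))
  rw [h.split]
  refine sup_eq_left.2 ((le_inf (inf_le_left.trans inf_le_left) (comm_eq_bot_iff.1 (eq_bot_iff.2 ((le_inf
    ((comm_mono inf_le_left le_rfl).trans ((h.hy.comM h.le h.fg).le.trans le_sup_left))
    ((comm_le_left n).trans inf_le_right)).trans h.DU.le)))).trans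
      (((h.hy.copB le_rfl h.hy.nbR).cent_le_of_comm_eq h.hy.cm).trans h.derD))

theorem n2 (hn : b ∈ N(A)) : A.relIndex R ≠ 2 := fun e => by
  have := relIndex_eq_one_iff.2 (h.hy.cm.ge.trans (comm_idx2 e (zpowers_le.2 hn) (zpowers_le.2 h.hy.nbR)))
  omega

theorem idx : (T ⊔ zpowers z).relIndex R = 4 := by
  obtain ⟨s, hs, s1⟩ := exists_mem_ne_one' (H := T) fun e => by simpa [e] using h.fg.card
  have m := conj_mem_N h.fg.nb hs
  have a : ∀ t ∈ T, C1(t).relIndex R ≤ 2 := fun t ht => (relIndex_C1_le fun r hr => (comm_comm.trans h.cm).le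
    (commutator_mem_commutator hr ht)).trans (card_zpowers'.trans h.zo).le
  have a1 := relIndex_inf_le.trans (Nat.mul_le_mul (a s hs) (a _ m))
  rw [← C_zpowers, ← C_zpowers, ← C_sup, h.fg.gen hs m s1 (mt conj_eq_one_iff'.1 s1)
    fun e => s1 (h.fg.fix h.hy.ord hs e.symm), ← relIndex_inf_left, h.MD] at a1
  have a2 := h.n2 h.bD
  have a3 := one_lt_relIndex fun l => h.nRM (l.trans (h.DM.trans inf_le_right))
  have a4 := dvd_relIndex_of_not_le h.two fun l => h.nRM (l.trans (h.DM.trans inf_le_right))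
  omega

theorem idx2' (hy : y ∈ R) (k : y ∉ T ⊔ zpowers z) : (T ⊔ zpowers z ⊔ zpowers y).relIndex R = 2 := by
  have := relIndex_tower (le_sup_left (b := zpowers y)) (sup_le h.DR (zpowers_le.2 hy))
  rw [h.idx, H18.GT.relIndex_sup2 (h.nD hy) (pow_two y ▸ h.sqD hy) k] at this
  omega

theorem one (hy : y ∈ R) (k : b * y * b⁻¹ ∈ T ⊔ zpowers z ⊔ zpowers y) : y ∈ T ⊔ zpowers z := by_contra fun l =>
  h.n2 (mem_N_of_cj_le (by
    rw [cj_sup, cj_eq_self h.bD, cj_zpowers]; exact sup_le le_sup_left (zpowers_le.2 k))) (h.idx2' hy l)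

theorem nrm (hx : x ∈ R) : x * (b * x * b⁻¹) * (b⁻¹ * x * b) ∈ zpowers z := by
  have b3 : b * b * b = 1 := by rw [← pow_three', h.hy.b3]
  have e : b * b = b⁻¹ := eq_inv_of_mul_eq_one_left b3
  have m1 := conj_mem_N h.hy.nbR hx
  have m2 := conj_mem_N' h.hy.nbR hx
  have e1 : b * (x * (b * x * b⁻¹) * (b⁻¹ * x * b)) * b⁻¹ = x⁻¹ * (x * (b * x * b⁻¹) * (b⁻¹ * x * b)) * x := by
    rw [show b * (x * (b * x * b⁻¹) * (b⁻¹ * x * b)) * b⁻¹ = b * x * b⁻¹ * (b * b * x * (b * b)⁻¹) * x by group, e]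
    group
  have m := mul_mem (mul_mem hx m1) m2
  generalize x * (b * x * b⁻¹) * (b⁻¹ * x * b) = n at e1 m
  obtain ⟨t, ht, u, hu, rfl⟩ := h.memD (h.one m (by
    rw [e1, show x⁻¹ * n * x = ⁅x⁻¹, n⁆ * n by simp only [commutatorElement_def]; group]
    exact mul_mem_sup (h.derD (commutator_mem_commutator (inv_mem hx) m)) (mem_zpowers n)))
  have e2 : b * t * b⁻¹ = x⁻¹ * t * x := mul_right_cancel (b := u) (by
    rw [mul_assoc _ b⁻¹, ← inv_mem h.bZ u hu, mul_assoc _ x, ← h.cZ hx u hu]; simpa only [mul_assoc] using e1)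
  rw [h.fg.fix h.hy.ord ht (mul_inv_eq_one.1 (eq_one_of_eq_bot h.TZ ⟨T.mul_mem (conj_mem_N h.fg.nb ht) (T.inv_mem ht), by
    simpa [e2, commutatorElement_def] using (comm_comm.trans h.cm).le (commutator_mem_commutator (inv_mem hx) ht)⟩)),
    one_mul]
  exact hu

theorem der : ⁅R, R⁆ ≤ zpowers z := commutator_le.2 fun r hr x hx => by
  have nZ := cent_norm h.cZ
  have a : T ⊔ zpowers z ≤ cz (zpowers z) x := fun d hd => ⟨nZ (h.DR hd), h.cmD (commutator_mem_commutator hd hx)⟩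
  by_cases k : x ∈ T ⊔ zpowers z
  · exact (comm_comm.le.trans h.cmD) (commutator_mem_commutator hr k)
  have m1 := conj_mem_N h.hy.nbR hx
  have a1 : T ⊔ zpowers z ⊔ zpowers x ≤ cz (zpowers z) x ⊓ R :=
    le_inf (sup_le a (zpowers_le.2 ⟨nZ hx, by simp⟩)) (sup_le h.DR (zpowers_le.2 hx))
  refine ((((eq_or_eq_of_prime_relIndex (h.idx2' hx k ▸ Nat.prime_two) a1 inf_le_right).resolve_left fun e =>
    k (h.one hx (e.le ⟨⟨nZ m1, ?_⟩, m1⟩))).ge hr).1).2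
  simpa [commutatorElement_def, mul_assoc] using
    mul_mem (conj_mem' nZ (conj_mem_N' h.hy.nbR hx) (inv_mem (h.nrm (inv_mem hx)))) (inv_mem (h.nrm hx))

theorem es : H21.ES 2 R ∧ ¬ Abel R ∧ Nat.card R = 32 ∧ ∃ A ≤ R, Elem 2 A ∧ Nat.card A = 8 := by
  refine ⟨⟨?_, h.der.trans (cent_symm h.cZ)⟩, fun l => h.nRM (le_trans l (C_anti h.le)), by
    rw [← H18.card_mul_relIndex h.DR, h.cardD, h.idx], _, h.DR, h.elD, h.cardD⟩
  rw [← h.zo, ← card_zpowers', le_antisymm (fun d hd => ?_) (le_inf (zpowers_le.2 h.zR) (cent_symm h.cZ))]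
  obtain ⟨t, ht, u, hu, rfl⟩ := h.memD (h.MD.le ⟨hd.1, C_anti h.le hd.2⟩)
  rw [eq_one_of_eq_bot ((h.fg.irr h.hy.ord (A := T ⊓ C(R)) inf_le_left (zpowers_le.1 (norm_inf (zpowers_le.2 h.fg.nb)
    (norm_C (zpowers_le.2 h.hy.nbR))))).resolve_right fun e => h.nRM (cent_symm (e.ge.trans inf_le_right)))
    ⟨ht, by simpa using C(R).mul_mem hd.2 (C(R).inv_mem (cent_symm h.cZ hu))⟩, one_mul]
  exact hu

end St

theorem Hy.rest (h : Hy V R b) (hT : T ≤ R) (f : Fg T b) :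
    ⁅V, R⁆ ⊓ (V ⊓ C(R)) = ⊥ ∧ ⁅V, R⁆ ⊔ (V ⊓ C(R)) = V ∧ (R ⊔ zpowers b) ⊓ C((⁅V, R⁆ : Subgroup G)) = ⊥ ∧
      ∀ W ≤ ⁅V, R⁆, R ⊔ zpowers b ≤ N(W) → W = ⊥ ∨ W = ⁅V, R⁆ :=
  ⟨eq_bot_iff.2 ((inf_le_inf_left _ inf_le_right).trans (h.dis le_rfl).le), (h.copV le_rfl le_rfl h.nR).comm_sup,
    eq_bot_iff.2 fun _ hx => h.faith le_rfl hx.1 hx.2 (sup_le (cent_symm inf_le_right)
      (zpowers_le.2 (h.lemB le_rfl h.nbR fun l => f.nc (C_anti hT l)).2) hx.1), fun _ => h.irr hT f⟩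

end H3.Cb
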