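import Cfsg.Agent.H3.MaxCl3

/-! Zassenhaus' identity: a group of exponent `p` and class at most `p` satisfies the `(p-1)`-Engel law
(`Eng.engel`, `Eng.engel_mod`); `p`-groups of maximal class have `|H : ℧₁(H)| ≤ p^p` (`MX.relIndex_mho_le`). -/

set_option autoImplicit false

namespace H3.Eng

open Subgroup Cfsg H18 H3
open scoped commutatorElement

variable {G : Type*} [Group G] {N : Subgroup G} {p k : ℕ}

theorem bil {Q : Type*} [Group Q] {c n u v : Q} (m k : ℕ) (h1 : Commute u (n ^ k * v)) (h2 : Commute v c)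
    (h3 : Commute c ⁅c, n⁆) (h4 : Commute n ⁅c, n⁆) : ⁅c ^ m * u, n ^ k * v⁆ = ⁅c, n⁆ ^ (k * m) := by
  have e1 : ⁅c ^ m * u, n ^ k * v⁆ = ⁅c ^ m, n ^ k * v⁆ := by
    rw [comm_mul_left', commutatorElement_eq_one_iff_commute.2 h1]; group
  have e2 : ⁅c ^ m, n ^ k * v⁆ = ⁅c ^ m, n ^ k⁆ := by
    have := (h2.pow_right m).inv_right.eq
    rw [commutatorElement_def, commutatorElement_def, mul_inv_rev]
    calc _ = c ^ m * n ^ k * (v * (c ^ m)⁻¹) * (v⁻¹ * (n ^ k)⁻¹) := by group
      _ = _ := by rw [this]; group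
  have e3 := comm_pow_right h4 k
  rw [e1, e2, comm_pow_left (by rw [e3]; exact h3.pow_right k), e3, pow_mul]

theorem homog (φ : G →* G) (h : ∀ n ∈ N, (n ^ k)⁻¹ * φ n ∈ gam N 2) (a : ℕ) :
    ∀ d ∈ gam N (a + 1), (d ^ k ^ (a + 1))⁻¹ * φ d ∈ gam N (a + 2) := by
  induction a with
  | zero => simpa [gam_one] using h
  | succ a ih =>
    have n0 := (gam_nml (H := N) (a + 3)).norm
    have hφ : ∀ n ∈ N, φ n ∈ N := fun n hn => by
      simpa using mul_mem (pow_mem hn k) (gam_le _ (h n hn))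
    have cm : ∀ {i j : ℕ} {u g : G}, u ∈ gam N i → g ∈ gam N j → a + 3 ≤ i + j →
        Commute (cs (gam N (a + 3)) u) (cs (gam N (a + 3)) g) := fun hu hg hij => by
      rw [← commutatorElement_eq_one_iff_commute, ← mfun_comm (n0 (gam_le _ hu)) (n0 (gam_le _ hg))]
      exact cs_eq_one (gam_anti hij (comm_mem_gam hu hg))
    intro d hd
    have hd' := hd
    rw [gam_succ (by omega), Subgroup.commutator_def] at hd
    rw [← cs_eq_iff (n0 (pow_mem (gam_le _ hd') _)) (n0 (hφ _ (gam_le _ hd'))), mfun_pow (n0 (gam_le _ hd'))]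
    clear hd'
    have mm : ∀ {x : G}, x ∈ closure {g | ∃ g₁ ∈ gam N (a + 1), ∃ g₂ ∈ N, ⁅g₁, g₂⁆ = g} → x ∈ gam N (a + 2) :=
      fun hx => by rw [gam_succ (by omega), Subgroup.commutator_def]; exact hx
    induction hd using closure_induction with
    | mem x hx =>
      obtain ⟨c, hc, n, hn, rfl⟩ := hx
      have c1 := gam_le _ hc
      have u1 := ih c hc
      have v1 := h n hn
      have e1 : φ c = c ^ k ^ (a + 1) * ((c ^ k ^ (a + 1))⁻¹ * φ c) := by group
      have e2 : φ n = n ^ k * ((n ^ k)⁻¹ * φ n) := by group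
      have z1 := comm_mem_gam (j := 1) hc hn
      rw [map_commutatorElement, mfun_comm (n0 (hφ _ c1)) (n0 (hφ _ hn)), e1, e2,
        mfun_mul (n0 (pow_mem c1 _)) (n0 (gam_le _ u1)), mfun_mul (n0 (pow_mem hn _)) (n0 (gam_le _ v1)),
        mfun_pow (n0 c1), mfun_pow (n0 hn), bil, mfun_comm (n0 c1) (n0 hn), ← pow_succ']
      · rw [← mfun_pow (n0 hn), ← mfun_mul (n0 (pow_mem hn _)) (n0 (gam_le _ v1))]
        exact cm (j := 1) u1 (mul_mem (pow_mem hn _) (gam_le _ v1)) (by omega)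
      · exact cm v1 hc (by omega)
      · rw [← mfun_comm (n0 c1) (n0 hn)]; exact cm (i := 1) c1 z1 (by omega)
      · rw [← mfun_comm (n0 c1) (n0 hn)]; exact cm (i := 1) hn z1 (by omega)
    | one => simp [mfun_one]
    | mul x y hx hy h1 h2 =>
      have x1 := gam_le _ (mm hx)
      have y1 := gam_le _ (mm hy)
      rw [map_mul, mfun_mul (n0 x1) (n0 y1), mfun_mul (n0 (hφ _ x1)) (n0 (hφ _ y1)), ← h1, ← h2,
        (cm (j := 1) (mm hx) y1 (by omega)).mul_pow]
    | inv x hx h1 =>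
      have x1 := gam_le _ (mm hx)
      rw [map_inv, mfun_inv (n0 x1), mfun_inv (n0 (hφ _ x1)), ← h1, inv_pow]

theorem iter_pow {x y : G} (hx : x ∈ N) (hy : y ∈ N) (k j : ℕ) :
    (dl x)^[j] y ∈ gam N (j + 1) ∧ (((dl x)^[j] y) ^ k)⁻¹ * (dl x)^[j] (y ^ k) ∈ gam N (j + 2) := by
  induction j with
  | zero => simpa [gam_one] using hy
  | succ j ih =>
    obtain ⟨h1, h2⟩ := ih
    rw [Function.iterate_succ_apply', Function.iterate_succ_apply', dl_eq, dl_eq]
    refine ⟨comm_mem_gam (j := 1) (inv_mem h1) hx, ?_⟩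
    generalize (dl x)^[j] y = a at h1 h2
    generalize (dl x)^[j] (y ^ k) = b at h2
    obtain ⟨u, rfl⟩ : ∃ u, b = a ^ k * u := ⟨(a ^ k)⁻¹ * b, by group⟩
    rw [inv_mul_cancel_left] at h2
    have h3 := comm_pow_mod (inv_mem h1) hx k
    have h4 := comm_mem_gam (j := 1) (inv_mem h2) hx
    have h5 := comm_mem_gam (i := j + 2) (j := j + 2) (inv_mem (comm_mem_gam (j := 1) (pow_mem (inv_mem h1) k) hx))
      (inv_mem h2)
    rw [mul_inv_rev, ← inv_pow a, comm_mul_left']
    have h6 := mul_mem (mul_mem h3 (gam_anti (by omega) h5)) h4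
    generalize ⁅a⁻¹, x⁆ ^ k = z at h6 ⊢
    generalize ⁅a⁻¹ ^ k, x⁆ = w at h6 ⊢
    generalize ⁅u⁻¹, x⁆ = v at h6 ⊢
    convert h6 using 1
    rw [commutatorElement_def]; group

theorem map_iter {H : Type*} [Group H] (f : G →* H) (x y : G) (j : ℕ) :
    f ((dl x)^[j] y) = (dl (f x))^[j] (f y) := by
  induction j with
  | zero => rfl
  | succ j ih => simp [Function.iterate_succ_apply', dl, ih]

theorem exists_k (hp : p.Prime) {a : ℕ} (h1 : 1 ≤ a) (h2 : a + 2 ≤ p) : ∃ k : ℕ, ¬ (p : ℤ) ∣ k ^ (a + 1) - k := by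
  have := Fact.mk hp
  by_contra! h
  have := (FiniteField.forall_pow_eq_one_iff (ZMod p) a).1 fun x => by
    have := (ZMod.intCast_zmod_eq_zero_iff_dvd _ p).2 (h (x : ZMod p).val)
    push_cast at this
    rw [ZMod.natCast_zmod_val, sub_eq_zero, pow_succ] at this
    ext; simpa using this
  rw [ZMod.card] at this
  have := Nat.le_of_dvd h1 this
  omega

theorem core (hp : p.Prime) (he : ∀ g : G, g ^ p = 1) (hc : gam (⊤ : Subgroup G) (p + 1) = ⊥) {x y : G}
    (φ : ℕ → G →* G) (hx : ∀ k, φ k x = x) (hy : ∀ k, φ k y = y ^ k) : (dl x)^[p - 1] y = 1 := by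
  set N := closure {b | ∃ a ∈ zpowers x, b = a * y * a⁻¹} with hN
  have n1 : zpowers x ≤ N(N) := norm_closure (by
    rintro a ha _ ⟨b, hb, rfl⟩; exact ⟨a * b, mul_mem ha hb, by group⟩)
  have x1 : x ∈ N(N) := n1 (mem_zpowers x)
  have y1 : y ∈ N := subset_closure ⟨1, one_mem _, by group⟩
  have d0 : N ≤ N((⁅N, N⁆ : Subgroup G)) := norm_comm_left
  have hφ : ∀ k, ∀ n ∈ N, (n ^ k)⁻¹ * φ k n ∈ gam N 2 := fun k n hn => by
    have hφ : ∀ n ∈ N, φ k n ∈ N := fun n hn => by
      induction hn using closure_induction with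
      | mem _ h =>
        obtain ⟨_, ⟨i, rfl⟩, rfl⟩ := h
        simp only [map_mul, map_inv, map_zpow, hx, hy]
        exact conj_mem n1 ⟨i, rfl⟩ (pow_mem y1 k)
      | one => simp
      | mul _ _ _ _ h1 h2 => rw [map_mul]; exact mul_mem h1 h2
      | inv _ _ h => rw [map_inv]; exact inv_mem h
    rw [gam_two, ← cs_eq_iff (d0 (pow_mem hn k)) (d0 (hφ n hn)), mfun_pow (d0 hn)]
    induction hn using closure_induction with
    | mem _ h =>
      rw [← mfun_pow (d0 (subset_closure h))]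
      obtain ⟨_, ⟨i, rfl⟩, rfl⟩ := h
      simp only [map_mul, map_inv, map_zpow, hx, hy, conj_pow]
    | one => simp [mfun_one]
    | mul a b ha hb h1 h2 =>
      have : Commute (cs ⁅N, N⁆ a) (cs ⁅N, N⁆ b) := by
        rw [← commutatorElement_eq_one_iff_commute, ← mfun_comm (d0 ha) (d0 hb)]
        exact cs_eq_one (commutator_mem_commutator ha hb)
      rw [map_mul, mfun_mul (d0 ha) (d0 hb), mfun_mul (d0 (hφ _ ha)) (d0 (hφ _ hb)), ← h1, ← h2, this.mul_pow]
    | inv a ha h1 => rw [map_inv, mfun_inv (d0 ha), mfun_inv (d0 (hφ _ ha)), ← h1, inv_pow]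
  have g3 : gam N 2 ≤ gam ⊤ 3 := by
    have : (gam (⊤ : Subgroup G) 3).Normal := normalizer_eq_top_iff.1 (top_le_iff.1 (gam_nml 3).norm)
    have c1 : ∀ u ∈ gam (⊤ : Subgroup G) 2, ∀ g : G, Commute (u : G ⧸ gam ⊤ 3) g := fun u hu g => by
      rw [← commutatorElement_eq_one_iff_commute]
      exact (QuotientGroup.eq_one_iff ⁅u, g⁆).2 (comm_mem_gam (j := 1) hu (mem_top g))
    have c2 : ∀ g : G, Commute (y : G ⧸ gam ⊤ 3) g → ∀ n ∈ N, Commute (n : G ⧸ gam ⊤ 3) g := fun g hg n hn => by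
      induction hn using closure_induction with
      | mem _ h =>
        obtain ⟨a, -, rfl⟩ := h
        have : a * y * a⁻¹ = ⁅a, y⁆ * y := by rw [commutatorElement_def]; group
        rw [this, QuotientGroup.mk_mul]
        exact (c1 _ (comm_mem_gam (i := 1) (j := 1) (mem_top a) (mem_top y)) g).mul_left hg
      | one => simp
      | mul _ _ _ _ h1 h2 => rw [QuotientGroup.mk_mul]; exact h1.mul_left h2
      | inv _ _ h => rw [QuotientGroup.mk_inv]; exact h.inv_left
    rw [gam_two, commutator_le]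
    intro a ha b hb
    rw [← QuotientGroup.eq_one_iff]
    exact commutatorElement_eq_one_iff_commute.2 (c2 b (c2 y (Commute.refl _) b hb).symm a ha)
  have g4 : ∀ j, gam N (j + 2) ≤ gam ⊤ (j + 3) := fun j => by
    induction j with
    | zero => exact g3
    | succ j ih => rw [gam_succ (by omega), gam_succ (i := j + 3) (by omega)]; exact commutator_mono ih le_top
  have s1 : (dl x)^[p - 1] y ∈ gam N 2 := by
    have f : Filt2 fun i => N ⊓ gam ⊤ i ⊔ ⁅N, N⁆ := ⟨fun i => sup_le_sup_right (inf_le_inf_left _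
      (gam_anti (Nat.le_succ i))) _, fun i j => le_sup_of_le_right (commutator_mono
        (sup_le inf_le_left (gam_le (H := N) 2)) (sup_le inf_le_left (gam_le (H := N) 2)))⟩
    have := f.pow_formula (K := ⁅N, N⁆) (s := x) (y := y) hp ((sup_le inf_le_left (gam_le (H := N) 2)).trans d0)
      (by simp [hc]) (fun c _ => by simp [he]) (fun i z hz => ?_) (mem_sup_left ⟨y1, mem_top y⟩)
    · simpa [he, gam_two] using this
    obtain ⟨a, ha, b, hb, rfl⟩ := (mem_sup_of_norm (inf_le_left.trans d0)).1 hz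
    have : dl x (a * b) = b⁻¹ * (dl x a * (x * b * x⁻¹)) := by simp only [dl]; group
    rw [this]
    refine mul_mem (mem_sup_right (inv_mem hb)) (mul_mem (mem_sup_left ⟨N.mul_mem (N.inv_mem ha.1)
      (conj_mem_N x1 ha.1), ?_⟩) (mem_sup_right (conj_mem (norm_der n1) (mem_zpowers x) hb)))
    rw [dl_eq]; exact comm_mem_gam (j := 1) (inv_mem ha.2) (mem_top x)
  have p1 : p - 1 + 2 = p + 1 := by have := hp.pos; omega
  have s2 : ∀ k, φ k ((dl x)^[p - 1] y) = ((dl x)^[p - 1] y) ^ k := fun k => by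
    have := (iter_pow (mem_top x) (mem_top y) k (p - 1)).2
    rw [p1, hc, mem_bot, inv_mul_eq_one] at this
    rw [map_iter, hx, hy, this]
  generalize (dl x)^[p - 1] y = D at s1 s2
  have s3 : ∀ a, a + 2 ≤ p → D ∈ gam N (a + 2) := fun a => by
    induction a with
    | zero => exact fun _ => s1
    | succ a ih =>
      intro h
      obtain ⟨k, hk⟩ := exists_k hp (a := a + 1) (by omega) h
      have h1 := homog (φ k) (hφ k) (a + 1) D (ih (by omega))
      rw [s2, ← zpow_natCast, ← zpow_natCast, ← zpow_neg, ← zpow_add] at h1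
      refine zpowers_le.2 h1 (mem_zpowers_zpow_iff.2 ?_)
      rcases (Nat.dvd_prime hp).1 (orderOf_dvd_of_pow_eq_one (he D)) with e | e
      · simp [e]
      · rw [e, Int.gcd_comm, ← Int.isCoprime_iff_gcd_eq_one]
        refine (Nat.prime_iff_prime_int.1 hp).irreducible.coprime_iff_not_dvd.2 fun e => hk ?_
        rw [← dvd_neg]; convert e using 1; push_cast; ring
  have := g4 _ (s3 (p - 2) (by have := hp.two_le; omega))
  rwa [show p - 2 + 3 = p + 1 by have := hp.two_le; omega, hc] at this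

theorem engel (hp : p.Prime) (he : ∀ g : G, g ^ p = 1) (hc : gam (⊤ : Subgroup G) (p + 1) = ⊥) (x y : G) :
    (dl x)^[p - 1] y = 1 := by
  have h := core (G := ℕ → G) hp (fun g => funext fun i => he _) (eq_bot_iff.2 fun g hg => funext fun i => by
      have := mem_map_of_mem (Pi.evalMonoidHom (fun _ : ℕ => G) i) hg
      rw [gam, map_lowerCentralSeries] at this
      exact hc.le (gam_mono le_top (p + 1) this))
    (x := fun _ => x) (y := fun i => y ^ i) (fun k => MonoidHom.mk' (fun f i => f (i * k)) fun _ _ => rfl)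
    (fun _ => rfl) fun k => funext fun i => pow_mul y i k
  have := map_iter (Pi.evalMonoidHom (fun _ : ℕ => G) 1) (fun _ => x) (fun i => y ^ i) (p - 1)
  rw [h] at this
  simpa using this.symm

theorem engel_mod (hp : p.Prime) (he : ∀ g : G, g ^ p ∈ gam (⊤ : Subgroup G) (p + 1)) (x y : G) :
    (dl x)^[p - 1] y ∈ gam (⊤ : Subgroup G) (p + 1) := by
  have : (gam (⊤ : Subgroup G) (p + 1)).Normal := normalizer_eq_top_iff.1 (top_le_iff.1 (gam_nml _).norm)
  rw [← QuotientGroup.eq_one_iff, ← QuotientGroup.mk'_apply, map_iter]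
  refine engel hp (fun g => ?_) ?_ _ _
  · obtain ⟨g, rfl⟩ := QuotientGroup.mk_surjective g
    exact (QuotientGroup.eq_one_iff (g ^ p)).2 (he g)
  · rw [← QuotientGroup.range_mk' (gam ⊤ (p + 1)), MonoidHom.range_eq_map]
    refine (map_lowerCentralSeries _ _ _).symm.trans ?_
    rw [Subgroup.map_eq_bot_iff, QuotientGroup.ker_mk']
    rfl

end H3.Eng

namespace H3

open Subgroup Cfsg H18

variable {G : Type*} [Group G] [Finite G] {p n : ℕ} {H K : Subgroup G}

theorem MX.exists_pow_not_mem (h : MX p n (⊤ : Subgroup G)) (hn : p + 1 ≤ n) :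
    ∃ g : G, g ^ p ∉ gam (⊤ : Subgroup G) (p + 1) := by
  by_contra! he
  obtain ⟨s, hs, hu⟩ := h.exists_unif
  have h3 := h.three
  have h2 := h.prime.two_le
  obtain ⟨w, w1, w2⟩ := SetLike.exists_of_lt (h.gam_lt le_rfl (by omega))
  obtain ⟨y, -, hy⟩ := h.surj le_rfl hs (hu 1 le_rfl (by omega)) w1
  have e := Eng.engel_mod h.prime he s y⁻¹
  rw [show p - 1 = p - 2 + 1 by omega, Function.iterate_succ_apply, dl_eq, inv_inv,
    show p + 1 = 2 + (p - 2) + 1 by omega] at e
  have := h.of_iter_mem hs hu le_rfl (comm_mem_gam (i := 1) (j := 1) (mem_top y) hs) _ (by omega) e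
  exact w2 (by simpa only [inv_mul_cancel_right] using mul_mem hy this)

theorem MX.relIndex_mho_le (h : MX p n (⊤ : Subgroup G)) (H : Subgroup G) :
    (closure {y : G | ∃ h ∈ H, y = h ^ p}).relIndex H ≤ p ^ p := by
  set K := closure {y : G | ∃ h ∈ H, y = h ^ p} with hK
  have k1 : K ≤ H := (closure_le _).2 (by rintro _ ⟨a, ha, rfl⟩; exact H.pow_mem ha p)
  have k2 : ∀ y ∈ H, y ^ p ∈ K := fun y hy => subset_closure ⟨y, hy, rfl⟩
  have hp := h.prime
  rcases (le_top (a := H)).eq_or_lt with rfl | hH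
  · obtain ⟨r, -, hr⟩ := (Nat.dvd_prime_pow hp).1 (h.card ▸ relIndex_dvd_card K ⊤)
    by_contra! e
    rw [hr, Nat.pow_lt_pow_iff_right hp.one_lt] at e
    have h2 := hp.two_le
    have k3 : K ⊴ ⊤ := ⟨le_top, norm_closure (by
      rintro a - _ ⟨b, -, rfl⟩; exact ⟨a * b * a⁻¹, mem_top _, conj_pow.symm⟩)⟩
    have k4 := h.eq_gam k3 (by omega) hr
    have k5 : r ≤ n := (Nat.pow_dvd_pow_iff_le_right hp.one_lt).1 (hr ▸ h.card ▸ relIndex_dvd_card K ⊤)
    obtain ⟨g, hg⟩ := h.exists_pow_not_mem (by omega)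
    exact hg (gam_anti e (k4 ▸ k2 g (mem_top g)))
  refine relIndex_le_of_card_le k1 ((h.card_le_inf hH).trans ((Nat.mul_le_mul_left p ((h.card_le_mho
    inf_le_right fun y hy => k2 y hy.1).trans (Nat.mul_le_mul_left _ (card_le inf_le_left)))).trans_eq ?_))
  rw [← mul_assoc, ← pow_succ', Nat.sub_add_cancel hp.one_le]

end H3
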