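import Cfsg.Agent.H27.FSGen

set_option autoImplicit false

/-! The centre of a saturated fusion system as a direct factor of `Z(S)` (`center_compl`). -/

namespace H3

open Subgroup Equiv Cfsg
open H20 (Mor AutF AutK Stab img HomOn)
open scoped H20

theorem exists_retract {Γ A : Type*} [Group Γ] [Finite Γ] [CommGroup A] [Finite A]
    (φ : Γ →* MulAut A) (T : Subgroup Γ) (hc : (Nat.card A).Coprime T.index) :
    ∃ K : Subgroup A, (∀ a ∈ K, ∀ t ∈ T, φ t a = a) ∧ (∀ a ∈ K, (∀ g, φ g a = a) → a = 1) ∧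
      ∀ a, (∀ t ∈ T, φ t a = a) → ∃ b, (∀ g, φ g b = b) ∧ b⁻¹ * a ∈ K := by
  have := Fintype.ofFinite (Γ ⧸ T)
  let τ : A →* A := ∏ q : Γ ⧸ T, (φ q.out).toMonoidHom
  have hτ : ∀ a, τ a = ∏ q : Γ ⧸ T, φ q.out a := fun a => MonoidHom.finsetProd_apply _ _ _
  have h1 : ∀ a, (∀ g, φ g a = a) → τ a = a ^ T.index := fun a ha => by
    simp [hτ, ha, index_eq_card]
  have h2 : ∀ a, (∀ t ∈ T, φ t a = a) → ∀ g, φ g (τ a) = τ a := fun a ha g => by
    rw [hτ, map_prod, ← Equiv.prod_comp (MulAction.toPerm g) fun q : Γ ⧸ T => φ q.out a]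
    refine Finset.prod_congr rfl fun q _ => ?_
    obtain ⟨t, ht⟩ := QuotientGroup.mk_out_eq_mul T (g * q.out)
    rw [MulAction.toPerm_apply, ← MulAction.Quotient.mk_smul_out, smul_eq_mul, ht, map_mul,
      MulAut.mul_apply, ha t t.2, map_mul, MulAut.mul_apply]
  refine ⟨τ.ker ⊓ ⨅ t ∈ T, (φ t).toMonoidHom.eqLocus (MonoidHom.id A), fun a ha t ht =>
    mem_iInf.1 (mem_iInf.1 ha.2 t) ht, fun a ha e => (powCoprime hc).injective
      (by simpa [h1 a e] using MonoidHom.mem_ker.1 ha.1), fun a ha => ?_⟩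
  have h4 : ∀ g, φ g ((powCoprime hc).symm (τ a)) = (powCoprime hc).symm (τ a) := fun g => by
    simp [h2 a ha]
  refine ⟨_, h4, MonoidHom.mem_ker.2 ?_, mem_iInf.2 fun t => mem_iInf.2 fun ht => ?_⟩
  · rw [map_mul, map_inv, h1 _ h4, ← powCoprime_apply hc, Equiv.apply_symm_apply, inv_mul_cancel]
  · show φ t _ = _
    rw [map_mul, map_inv, h4, ha t ht]; rfl

variable {Ω : Type*} [Group Ω] {S Q : Subgroup Ω} {F : FusionSystem S} {p : ℕ} [Finite S]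
  [Fact p.Prime]

open scoped IsMulCommutative in
theorem center_compl (hS : IsPGroup p S) (hF : F.IsSaturated p) (hQ : F.IsNormal Q)
    (hZ : cIn S S ≤ Q) : ∃ K, K ≤ cIn S S ∧ F.center ⊓ K = ⊥ ∧ F.center ⊔ K = cIn S S := by
  have hn := H20.sc_normal (H20.normal_sc hQ)
  have hA : cIn Q Q ≤ Q := H20.cIn_le
  have := H20.fin_of_le (hA.trans hQ.1)
  have := H20.fin_of_le hQ.1
  have : IsMulCommutative (cIn Q Q) :=
    ⟨⟨fun a b => Subtype.ext (b.2.2 a a.2.1)⟩⟩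
  have hst : ∀ σ ∈ AutF F Q, ∀ x ∈ cIn Q Q, σ x ∈ cIn Q Q := fun σ hσ x hx => by
    refine ⟨H20.AutF_apply_mem hσ hx.1, fun y hy => ?_⟩
    have h4 := H20.AutF_apply_mem (inv_mem hσ) hy
    rw [← H20.pm_apply_inv σ y, ← (H20.AutF_hom hσ).mul h4 hx.1, hx.2 _ h4,
      (H20.AutF_hom hσ).mul hx.1 h4]
  let φ : AutF F Q →* MulAut (cIn Q Q) := MonoidHom.mk' (fun σ => H20.toAut
    ((H20.AutF_hom σ.2).mono hA) fun x => ⟨fun h => by simpa using hst _ (inv_mem σ.2) _ h,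
      hst _ σ.2 x⟩) fun _ _ => rfl
  have hs := H20.fn_syl hS hF (H20.fn_of_normal hQ.1 hn)
  obtain ⟨n, hn'⟩ := IsPGroup.iff_card.1 (hS.to_le (hA.trans hQ.1))
  obtain ⟨K, h1, h2, h3⟩ := exists_retract φ ((AutK S Q).subgroupOf _)
    (hn' ▸ (((Fact.out : p.Prime).coprime_iff_not_dvd.2 hs.not_dvd).pow_left n))
  have hZ' : cIn S S ≤ cIn Q Q := fun x hx =>
    ⟨hZ hx, fun y hy => hx.2 y (hQ.1 hy)⟩
  have h4 : ∀ a : cIn Q Q, (∀ g, φ g a = a) → (a : Ω) ∈ F.center := fun a ha =>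
    H20.le_center (Q := zpowers (a : Ω)) (H20.central_iff.2 ⟨zpowers_le.2 (hQ.1 a.2.1), fun P σ hσ => by
      obtain ⟨τ, e1, e2, e3⟩ := H20.normal_ext hQ hσ
      refine ⟨τ, fun x hx => ?_, e2.mono (sup_le_sup_left (zpowers_le.2 a.2.1) P), e3⟩
      obtain ⟨k, rfl⟩ := mem_zpowers_iff.1 hx
      rw [e2.hom.zpow (mem_sup_right a.2.1), ← H20.res_apply e1 a.2.1]
      exact congrArg (fun x : cIn Q Q => (x : Ω) ^ k)
        (ha ⟨_, (e2.mono le_sup_right).res_mem e1⟩)⟩) (mem_zpowers _)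
  have h5 : K.map (Subgroup.subtype _) ≤ cIn S S := by
    rintro _ ⟨a, ha, rfl⟩
    refine ⟨hQ.1 a.2.1, fun g hg => ?_⟩
    have := congrArg Subtype.val (h1 a ha ⟨_, H20.cr_mem_AutF F hQ.1 hg (hn hg)⟩
      (H20.cr_mem_AutK hg (hn hg)))
    exact mul_inv_eq_iff_eq_mul.1 ((H20.cr_apply (hn hg) a.2.1).symm.trans this)
  refine ⟨_, h5, eq_bot_iff.2 ?_, le_antisymm (sup_le H20.center_le h5) fun x hx => ?_⟩
  · rintro _ ⟨hx, a, ha, rfl⟩
    exact congrArg Subtype.val (h2 a ha fun g => Subtype.ext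
      (H20.central_fix (H20.center_central F) (H20.AutF_mor hQ.1 g.2) a.2.1 hx))
  · obtain ⟨b, e1, e2⟩ := h3 ⟨x, hZ' hx⟩ fun t ht => Subtype.ext (by
      obtain ⟨-, g, hg, e⟩ := H20.mem_AutK.1 ht
      exact (e x (hZ hx)).trans (mul_inv_eq_iff_eq_mul.2 (hx.2 g hg)))
    simpa using mul_mem_sup (h4 b e1) (mem_map_of_mem (Subgroup.subtype _) e2)

theorem center_compl_odd (h2 : p ≠ 2) (hS : IsPGroup p S) (hF : F.IsSaturated p) :
    ∃ K, K ≤ cIn S S ∧ F.center ⊓ K = ⊥ ∧ F.center ⊔ K = cIn S S := by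
  have h1 := H4.thompsonOf_le 0 S
  have hn := H4.le_normalizer_thompsonOf 0 S
  obtain ⟨N, hN⟩ := H20.exists_isKN F h1 (H20.kd_Stab _) (H20.NK_Stab.trans (H20.nIn_eq_of hn)).symm
  rw [← H27.center_eq_J hS hF (Or.inl h2) hN]
  exact center_compl hS (H20.sat_normalizer hS hF (H20.fn_of_normal h1 hn) hN)
    (hN.normal (H20.kd_Stab _) h1) fun x hx => mem_map_of_mem S.subtype (H27.center_le_J S
      (mem_center_iff.2 fun y => Subtype.ext (hx.2 y y.2) : (⟨x, hx.1⟩ : S) ∈ center S))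

end H3
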