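import Cfsg.Agent.H23.SzId
import Cfsg.Agent.H23.Zass4
import Cfsg.Agent.H9.Hv2
import Cfsg.Agent.S1230
import Cfsg.Agent.S0215
import Cfsg.Agent.S0205

/-! Doubly transitive groups with an involution whose centralizer has constant fixity: `CF G Ω i` (every element
swapping two points is an involution, one class of involutions, `|C(t)| = n - i`), `exists_CF`, and the
identification `CF.main` (`PSL₂(q)`, `Sz(q)` or a regular normal subgroup). -/

set_option autoImplicit false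
set_option linter.unusedSectionVars false
open Cfsg H18 Subgroup MulAction
open scoped MatrixGroups

namespace H3

variable {G Ω : Type*} [Group G] [MulAction G Ω] [Finite G] [Finite Ω]

theorem fx_moved_mul (two : ∀ x y z w : Ω, x ≠ y → z ≠ w → ∃ g : G, g • x = z ∧ g • y = w) {a b : Ω}
    (hab : a ≠ b) {K : Subgroup G} (mK : ∀ {g : G}, g ∈ K ↔ g • a = a ∧ g • b = b) (s : G) :
    Nat.card {x : Ω // s • x ≠ x} * Nat.card K =
    Nat.card C1(s) * Nat.card {u : G // IsConj s u ∧ u • a = b} := by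
  classical
  have hch : ∀ x : {x : Ω // s • x ≠ x}, ∃ g : G, g • x.1 = a ∧ g • s • x.1 = b := fun x =>
    two _ _ a b x.2.symm hab
  choose γ hγ using hch
  have hch : ∀ u : {u : G // IsConj s u ∧ u • a = b}, ∃ g : G, g * s * g⁻¹ = u := fun u => isConj_iff.1 u.2.1
  choose δ hδ using hch
  have Ka : ∀ k : K, (k : G) • a = a := fun k => (mK.1 k.2).1
  have Kb : ∀ k : K, (k : G) • b = b := fun k => (mK.1 k.2).2
  rw [← Nat.card_prod, ← Nat.card_prod]
  trans Nat.card {g : G // (g * s * g⁻¹) • a = b}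
  · refine Nat.card_eq_of_bijective (fun p => ⟨p.2 * γ p.1, ?_⟩) ⟨?_, ?_⟩
    · have : a = (p.2 * γ p.1) • p.1.1 := by rw [mul_smul, (hγ _).1, Ka]
      rw [this, H23.conj_smul_fix, mul_smul, (hγ _).2, Kb]
    · rintro ⟨x, k⟩ ⟨y, l⟩ e
      have e : k * γ x = l * γ y := congrArg Subtype.val e
      have e1 : (k * γ x) • x.1 = a := by rw [mul_smul, (hγ _).1, Ka]
      have e2 : (l * γ y) • y.1 = a := by rw [mul_smul, (hγ _).1, Ka]
      rw [← e, ← e1] at e2
      obtain rfl : y = x := Subtype.ext (smul_left_cancel _ e2)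
      rw [Subtype.ext (mul_right_cancel e : (k : G) = l)]
    · rintro ⟨g, hg⟩
      have hx : s • g⁻¹ • a ≠ g⁻¹ • a := fun e => hab (by rw [← hg, H23.conj_fix_iff.2 e])
      refine ⟨(⟨_, hx⟩, ⟨g * (γ ⟨_, hx⟩)⁻¹, mK.2 ⟨?_, ?_⟩⟩), Subtype.ext (by simp)⟩
      · rw [mul_smul, ← eq_inv_smul_iff, inv_smul_eq_iff, (hγ _).1]
      · rw [mul_smul, ← (hγ ⟨_, hx⟩).2, inv_smul_smul, (hγ ⟨_, hx⟩).2, ← hg, mul_smul, mul_smul]
  · symm
    have e1 : ∀ (c : C1(s)) u, δ u * c * s * (δ u * c)⁻¹ = u := fun c u => by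
      rw [← hδ, mul_assoc (δ _), mem_C1.1 c.2]; group
    refine Nat.card_eq_of_bijective (fun p => ⟨δ p.2 * p.1, by rw [e1]; exact p.2.2.2⟩) ⟨?_, ?_⟩
    · rintro ⟨c, u⟩ ⟨d, v⟩ e
      have e : δ u * c = δ v * d := congrArg Subtype.val e
      obtain rfl : u = v := Subtype.ext (by rw [← e1 c u, e, e1])
      rw [Subtype.ext (mul_left_cancel e : (c : G) = d)]
    · rintro ⟨g, hg⟩
      let u : {u : G // IsConj s u ∧ u • a = b} := ⟨g * s * g⁻¹, isConj_iff.2 ⟨g, rfl⟩, hg⟩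
      refine ⟨(⟨(δ u)⁻¹ * g, mem_C1.2 ?_⟩, u), Subtype.ext (by simp)⟩
      have := hδ u
      calc (δ u)⁻¹ * g * s = (δ u)⁻¹ * (g * s * g⁻¹) * g := by group
        _ = s * ((δ u)⁻¹ * g) := by rw [show g * s * g⁻¹ = u from rfl, ← this]; group

theorem fx_card_swap (two : ∀ x y z w : Ω, x ≠ y → z ≠ w → ∃ g : G, g • x = z ∧ g • y = w) {a b : Ω}
    (hab : a ≠ b) : {t : G | t • a = b ∧ t • b = a}.ncard = Nat.card ↥(stabilizer G a ⊓ stabilizer G b) := by
  obtain ⟨t, ha, hb⟩ := two a b b a hab hab.symm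
  symm
  rw [← Nat.card_coe_set_eq]
  refine Nat.card_eq_of_bijective (fun k => ⟨t * k, by rw [mul_smul, k.2.1, ha], by rw [mul_smul, k.2.2, hb]⟩)
    ⟨fun k l e => Subtype.ext (mul_left_cancel (congrArg Subtype.val e)),
    fun s => ⟨⟨t⁻¹ * s, ?_, ?_⟩, Subtype.ext (by simp)⟩⟩
  · show (t⁻¹ * s.1) • a = a
    rw [mul_smul, s.2.1, inv_smul_eq_iff, ha]
  · show (t⁻¹ * s.1) • b = b
    rw [mul_smul, s.2.2, inv_smul_eq_iff, hb]

theorem fx_card_moved (s : G) : Nat.card {x : Ω // s • x ≠ x} + (fixedBy Ω s).ncard = Nat.card Ω := by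
  rw [← Set.ncard_add_ncard_compl (fixedBy Ω s), add_comm, ← Nat.card_coe_set_eq (fixedBy Ω s)ᶜ]
  rfl

theorem fx_conj (g s : G) : (fixedBy Ω (g * s * g⁻¹)).ncard = (fixedBy Ω s).ncard :=
  Nat.card_congr (α := fixedBy Ω (g * s * g⁻¹)) (β := fixedBy Ω s) ⟨fun x => ⟨g⁻¹ • x.1, H23.conj_fix_iff.1 x.2⟩,
    fun x => ⟨g • x.1, by rw [mem_fixedBy, H23.conj_smul_fix, x.2]⟩, fun x => by simp, fun x => by simp⟩

theorem fx_burnside (H : Subgroup G) {i : ℕ} (hH : ∀ g ∈ H, g ≠ 1 → (fixedBy Ω g).ncard = i)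
    (hi : i < Nat.card Ω) : Nat.card H + i ≤ Nat.card Ω := by
  classical
  have := Fintype.ofFinite H
  have := Fintype.ofFinite Ω
  have := Fintype.ofFinite (Quotient (orbitRel H Ω))
  have e := sum_card_fixedBy_eq_card_orbits_mul_card_group H Ω
  rw [← Finset.add_sum_erase _ _ (Finset.mem_univ (1 : H)),
    Finset.sum_congr rfl (g := fun _ => i) fun g hg => by
      rw [← hH g g.2 fun e => (Finset.mem_erase.1 hg).1 (Subtype.ext e), ← Nat.card_eq_fintype_card]; rfl,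
    Finset.sum_const, Finset.card_erase_of_mem (Finset.mem_univ _), Finset.card_univ, smul_eq_mul] at e
  have e1 : Fintype.card (fixedBy Ω (1 : H)) = Nat.card Ω := by
    rw [← Nat.card_eq_fintype_card, fixedBy_one_eq_univ, Nat.card_congr (Equiv.Set.univ Ω)]
  rw [e1, ← Nat.card_eq_fintype_card (α := H)] at e
  obtain ⟨c, hc⟩ : ∃ c, Nat.card H = c + 1 := ⟨_, (Nat.succ_pred_eq_of_pos Nat.card_pos).symm⟩
  rw [hc] at e ⊢
  rw [Nat.add_sub_cancel] at e
  generalize Fintype.card (Quotient (orbitRel H Ω)) = r at e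
  rcases le_or_gt r i with h | h
  · have := Nat.mul_le_mul_right (c + 1) h
    nlinarith
  · have := Nat.mul_le_mul_right (c + 1) (Nat.succ_le_of_lt h)
    simp only [Nat.succ_eq_add_one] at this
    nlinarith

/-- the consequences of constant fixity `i` on the centralizer of an involution -/
structure CF (G Ω : Type*) [Group G] [MulAction G Ω] (i : ℕ) : Prop where
  two : ∀ x y z w : Ω, x ≠ y → z ≠ w → ∃ g : G, g • x = z ∧ g • y = w
  faith : ∀ g : G, (∀ x : Ω, g • x = x) → g = 1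
  ex : ∃ t : G, t * t = 1 ∧ t ≠ 1
  sq : ∀ {s : G} {a b : Ω}, a ≠ b → s • a = b → s • b = a → s * s = 1
  conj : ∀ {u v : G}, u * u = 1 → u ≠ 1 → v * v = 1 → v ≠ 1 → ∃ g : G, g * u * g⁻¹ = v
  fix : ∀ {u g : G}, u * u = 1 → u ≠ 1 → g * u = u * g → g ≠ 1 → (fixedBy Ω g).ncard = i
  card : ∀ {u : G}, u * u = 1 → u ≠ 1 → Nat.card C1(u) + i = Nat.card Ω

theorem exists_CF (two : ∀ x y z w : Ω, x ≠ y → z ≠ w → ∃ g : G, g • x = z ∧ g • y = w)
    (faith : ∀ g : G, (∀ x : Ω, g • x = x) → g = 1) {t : G} (t2 : t * t = 1) (t1 : t ≠ 1) {i : ℕ}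
    (hC : ∀ g : G, g * t = t * g → g ≠ 1 → (fixedBy Ω g).ncard = i) : CF G Ω i := by
  have hm := fx_card_moved (Ω := Ω) t
  rw [hC t rfl t1] at hm
  obtain ⟨x, hx⟩ : ∃ x : Ω, t • x ≠ x := by
    by_contra h; push Not at h; exact t1 (faith t h)
  have : Nonempty {x : Ω // t • x ≠ x} := ⟨⟨x, hx⟩⟩
  have hp : 0 < Nat.card {x : Ω // t • x ≠ x} := Nat.card_pos
  have hb := fx_burnside (Ω := Ω) C1(t) (fun g hg => hC g (mem_C1.1 hg)) (by omega)
  have key : ∀ {a b : Ω}, a ≠ b → Nat.card C1(t) + i = Nat.card Ω ∧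
      ∀ s : G, s • a = b → s • b = a → IsConj t s := by
    intro a b hab
    have e := fx_moved_mul two hab (K := stabilizer G a ⊓ stabilizer G b) Iff.rfl t
    have hsub : {u : G | IsConj t u ∧ u • a = b} ⊆ {t : G | t • a = b ∧ t • b = a} := by
      rintro u ⟨h1, h2⟩
      obtain ⟨g, rfl⟩ := isConj_iff.1 h1
      exact ⟨h2, by rw [← h2, ← mul_smul, H23.conj_mul_self t2, one_smul]⟩
    have hle := Set.ncard_le_ncard hsub
    have e2 : Nat.card {u : G // IsConj t u ∧ u • a = b} = {u : G | IsConj t u ∧ u • a = b}.ncard := rfl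
    rw [e2, ← fx_card_swap two hab] at e
    have hK : 0 < {t : G | t • a = b ∧ t • b = a}.ncard := by rw [fx_card_swap two hab]; exact Nat.card_pos
    have h1 : Nat.card {x : Ω // t • x ≠ x} ≤ Nat.card C1(t) :=
      Nat.le_of_mul_le_mul_right (e ▸ Nat.mul_le_mul_left _ hle) hK
    have h2 : Nat.card {x : Ω // t • x ≠ x} = Nat.card C1(t) := by omega
    rw [h2] at e
    have h3 := Set.eq_of_subset_of_ncard_le hsub (Nat.eq_of_mul_eq_mul_left Nat.card_pos e).le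
    exact ⟨by omega, fun s ha hb => (h3.symm ▸ (⟨ha, hb⟩ : s ∈ {t : G | t • a = b ∧ t • b = a}) :
      s ∈ {u : G | IsConj t u ∧ u • a = b}).1⟩
  have cj : ∀ {u : G}, u * u = 1 → u ≠ 1 → ∃ g : G, g * t * g⁻¹ = u := by
    intro u u2 u1
    obtain ⟨y, hy⟩ : ∃ y : Ω, u • y ≠ y := by
      by_contra h; push Not at h; exact u1 (faith u h)
    exact isConj_iff.1 ((key hy.symm).2 u rfl (by rw [← mul_smul, u2, one_smul]))
  refine ⟨two, faith, ⟨t, t2, t1⟩, fun hab ha hb => ?_, fun u2 u1 v2 v1 => ?_, fun {u g} u2 u1 e g1 => ?_,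
    fun u2 u1 => ?_⟩
  · obtain ⟨g, rfl⟩ := isConj_iff.1 ((key hab).2 _ ha hb)
    exact H23.conj_mul_self t2
  · obtain ⟨g, rfl⟩ := cj u2 u1
    obtain ⟨h, rfl⟩ := cj v2 v1
    exact ⟨h * g⁻¹, by group⟩
  · obtain ⟨h, rfl⟩ := cj u2 u1
    rw [← hC (h⁻¹ * g * h) ?_ (H23.conj_ne_one' g1), ← fx_conj h (h⁻¹ * g * h)]
    · congr 2; group
    · calc h⁻¹ * g * h * t = h⁻¹ * (g * (h * t * h⁻¹)) * h := by group
        _ = t * (h⁻¹ * g * h) := by rw [e]; group
  · obtain ⟨h, rfl⟩ := cj u2 u1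
    rw [H9.card_centralizer_conj]
    exact (key hx.symm).1

theorem fx_exists_inv {x : G} {j : ℕ} (h : x ^ 2 ^ j = 1) (h1 : x ≠ 1) :
    ∃ n : ℕ, x ^ n * x ^ n = 1 ∧ x ^ n ≠ 1 := by
  induction j with
  | zero => exact absurd (by simpa using h) h1
  | succ j ih =>
    by_cases e : x ^ 2 ^ j = 1
    · exact ih e
    · exact ⟨2 ^ j, by rw [← pow_add, ← two_mul, ← pow_succ', h], e⟩

/-- the conclusion: `PSL₂(q)`, `Sz(q)` or a regular normal subgroup -/
def FxC (G Ω : Type*) [Group G] [MulAction G Ω] : Prop :=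
  (∃ (F : Type) (_ : Field F) (_ : Fintype F), Nonempty (G ≃* PSL(2, F))) ∨ Lie.IsoSuzuki G ∨
    ∃ R : Subgroup G, R.Normal ∧ (∀ x y : Ω, ∃ r ∈ R, r • x = y) ∧ ∀ x : Ω, ∀ r ∈ R, r • x = x → r = 1

namespace CF
variable {i : ℕ} {a b c : Ω} {g k s t u v : G} (h : CF G Ω i)
include h

theorem moved (g1 : g ≠ 1) : ∃ x : Ω, g • x ≠ x := by
  by_contra e; push Not at e; exact g1 (h.faith g e)

theorem swap (hab : a ≠ b) : ∃ s : G, s * s = 1 ∧ s • a = b ∧ s • b = a := by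
  obtain ⟨s, h1, h2⟩ := h.two a b b a hab hab.symm
  exact ⟨s, h.sq hab h1 h2, h1, h2⟩

theorem inv (hab : a ≠ b) (ha : s • a = b) (hb : s • b = a) (ka : k • a = a) (kb : k • b = b) :
    s * k * s⁻¹ = k⁻¹ := by
  have e := h.sq (s := s * k) hab (by rw [mul_smul, ka, ha]) (by rw [mul_smul, kb, hb])
  rw [H9.inv_eq_of_mul_self (h.sq hab ha hb), eq_inv_iff_mul_eq_one, mul_assoc (s * k), e]

theorem comm (hab : a ≠ b) (ga : g • a = a) (gb : g • b = b) (ka : k • a = a) (kb : k • b = b) :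
    g * k = k * g := by
  obtain ⟨s, -, h1, h2⟩ := h.swap hab
  have e := h.inv hab h1 h2 (k := g * k) (by rw [mul_smul, ka, ga]) (by rw [mul_smul, kb, gb])
  have e2 : s * (g * k) * s⁻¹ = s * g * s⁻¹ * (s * k * s⁻¹) := by group
  rw [e2, h.inv hab h1 h2 ga gb, h.inv hab h1 h2 ka kb, ← mul_inv_rev] at e
  exact (inv_injective e).symm

theorem trans_normal {N : Subgroup G} (hN : N.Normal) (h1 : N ≠ ⊥) (x y : Ω) : ∃ r ∈ N, r • x = y := by
  by_cases e : x = y
  · exact ⟨1, one_mem _, by rw [one_smul, e]⟩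
  obtain ⟨u, hu, u1⟩ := (N.bot_or_exists_ne_one).resolve_left h1
  obtain ⟨z, hz⟩ := h.moved u1
  obtain ⟨g, g1, g2⟩ := h.two z (u • z) x y hz.symm e
  exact ⟨_, hN.conj_mem u hu g, by rw [← g1, H23.conj_smul_fix, g2]⟩

theorem reg_of_abel {N : Subgroup G} (hN : N.Normal) (h1 : N ≠ ⊥) (hA : Abel N) : FxC G Ω := by
  refine Or.inr (Or.inr ⟨N, hN, h.trans_normal hN h1, fun x r hr e => h.faith r fun y => ?_⟩)
  obtain ⟨m, hm, rfl⟩ := h.trans_normal hN h1 x y
  rw [← mul_smul, ← mem_centralizer_iff.1 (hA hr) m hm, mul_smul, e]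

theorem of_elem (t2 : t * t = 1) (t1 : t ≠ 1) (hab : a ≠ b) (ta : t • a = a) (tb : t • b = b)
    (hK : ∀ k : G, k • a = a → k • b = b → k * k = 1) : FxC G Ω := by
  have hi : 1 < i := by
    rw [← h.fix t2 t1 rfl t1]
    exact (Set.one_lt_ncard (Set.toFinite _)).2 ⟨a, ta, b, tb, hab⟩
  have el : ∀ {u g : G}, u * u = 1 → u ≠ 1 → g * u = u * g → g * g = 1 := by
    intro u g u2 u1 e
    by_cases g1 : g = 1
    · rw [g1, one_mul]
    rw [← h.fix u2 u1 e g1] at hi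
    obtain ⟨x, hx, y, hy, hxy⟩ := (Set.one_lt_ncard (Set.toFinite _)).1 hi
    obtain ⟨w, w1, w2⟩ := h.two x y a b hxy hab
    have := hK (w * g * w⁻¹) (by rw [← w1, H23.conj_smul_fix, hx]) (by rw [← w2, H23.conj_smul_fix, hy])
    calc g * g = w⁻¹ * (w * g * w⁻¹ * (w * g * w⁻¹)) * w := by group
      _ = 1 := by rw [this]; group
  have ab : ∀ {u : G}, u * u = 1 → u ≠ 1 → Abel C1(u) := fun u2 u1 x hx =>
    mem_centralizer_iff.2 fun y hy => by
      have e := el u2 u1 (mem_C1.1 (mul_mem hx hy))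
      rw [← H9.inv_eq_of_mul_self e, mul_inv_rev, H9.inv_eq_of_mul_self (el u2 u1 (mem_C1.1 hx)),
        H9.inv_eq_of_mul_self (el u2 u1 (mem_C1.1 hy))]
  have hP : IsPGroup 2 C1(t) := fun x => ⟨1, Subtype.ext (by
    rw [pow_one, pow_two]; exact el t2 t1 (mem_C1.1 x.2))⟩
  obtain ⟨T, hT⟩ := hP.exists_le_sylow
  obtain ⟨s, s2, sa, sb⟩ := h.swap hab
  have st : s ∈ C1(t) := mem_C1.2 (by
    have := h.inv hab sa sb ta tb
    rw [H9.inv_eq_of_mul_self t2] at this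
    exact mul_inv_eq_iff_eq_mul.1 this)
  have s1 : s ≠ 1 := fun e => hab (by rw [← sa, e, one_smul])
  have tT : t ∈ (T : Subgroup G) := hT C1_self
  by_cases hn : (T : Subgroup G).Normal
  · have hb : (T : Subgroup G) ≠ ⊥ := fun e => t1 (mem_bot.1 (e ▸ tT))
    have : Nontrivial (T : Subgroup G) := (nontrivial_iff_ne_bot _).2 hb
    have := T.isPGroup'.center_nontrivial
    obtain ⟨⟨z, hz⟩, z1⟩ := exists_ne (1 : center (T : Subgroup G))
    have z1 : (z : G) ≠ 1 := fun e => z1 (Subtype.ext (Subtype.ext e))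
    have zc : ∀ x ∈ (T : Subgroup G), x * z = z * x := fun x hx =>
      congrArg Subtype.val (mem_center_iff.1 hz ⟨x, hx⟩)
    exact h.reg_of_abel hn hb ((ab (el t2 t1 (zc t tT).symm) z1).mono fun x hx => mem_C1.2 (zc x hx))
  have hc : ¬ IsCyclic (T : Subgroup G) := fun hc => by
    obtain ⟨x, hx⟩ := (Subgroup.isCyclic_iff_exists_zpowers_eq_top _).1 hc
    have := H9.inv_unique_zpowers (hx ▸ hT st) (hx ▸ tT) (H23.orderOf_two s2 s1) (H23.orderOf_two t2 t1)
    exact hab (by rw [← sa, this, ta])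
  obtain ⟨F, i1, i2, -, e⟩ := Cfsg.Agent.S1230.result T hc hn fun u hu =>
    ⟨(ab (H23.mul_self_of_orderOf hu) (H23.ne_one_of_orderOf hu)).comm, fun c hc => by
      rw [pow_two]; exact el (H23.mul_self_of_orderOf hu) (H23.ne_one_of_orderOf hu) (mem_C1.1 hc)⟩
  exact Or.inl ⟨F, i1, i2, e⟩

/-- an element commuting with `t` and fixing no point outside `Fix(t)` fixes all of `Fix(t)` -/
theorem fix_or (t2 : t * t = 1) (t1 : t ≠ 1) (e : g * t = t * g) :
    g * g = 1 ∨ ∀ x : Ω, t • x = x → g • x = x := by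
  by_cases g1 : g = 1
  · exact Or.inl (by rw [g1, one_mul])
  by_cases hs : fixedBy Ω g ⊆ fixedBy Ω t
  · have := Set.eq_of_subset_of_ncard_le hs (by rw [h.fix t2 t1 e g1, h.fix t2 t1 rfl t1])
    exact Or.inr fun x hx => (this.symm ▸ hx : x ∈ fixedBy Ω g)
  obtain ⟨x, hx, tx⟩ := Set.not_subset.1 hs
  have hx : g • x = x := hx
  have := h.inv (s := t) (k := g) (Ne.symm tx) rfl (by rw [← mul_smul, t2, one_smul]) hx
    (by rw [← mul_smul, e, mul_smul, hx])
  rw [← e, mul_inv_cancel_right, eq_inv_iff_mul_eq_one] at this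
  exact Or.inl this

theorem of_not_elem (t2 : t * t = 1) (t1 : t ≠ 1) (hab : a ≠ b) (ta : t • a = a) (tb : t • b = b)
    (ka : k • a = a) (kb : k • b = b) (k2 : k * k ≠ 1) : FxC G Ω := by
  have kf := (h.fix_or t2 t1 (h.comm hab ka kb ta tb)).resolve_left k2
  have tf : ∀ x : Ω, t • x = x → x = a ∨ x = b := by
    intro x tx
    by_contra hx
    push Not at hx
    obtain ⟨s, s2, sa, sb⟩ := h.swap hab
    obtain ⟨r, r2, ra, rb⟩ := h.swap hx.1.symm
    have c1 : ∀ {y : G}, y • a = a → y • b = b → y • x = x → s * r * y = y * (s * r) := fun {y} ya yb yx => by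
      have e1 := h.inv hab sa sb (k := y⁻¹) (inv_smul_eq_iff.2 ya.symm) (inv_smul_eq_iff.2 yb.symm)
      calc s * r * y = s * (r * y * r⁻¹) * s⁻¹ * (s * r) := by group
        _ = y * (s * r) := by rw [h.inv hx.1.symm ra rb ya yx, e1, inv_inv]
    have wa : (s * r) • a ≠ a := fun e => hx.2 (by
      rw [mul_smul, ra, ← sb] at e; exact smul_left_cancel _ e)
    rcases h.fix_or t2 t1 (c1 ta tb tx) with e | e
    · have ck := c1 ka kb (kf x tx)
      have := h.inv (s := s * r) (k := k) wa.symm rfl (by rw [← mul_smul, e, one_smul]) ka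
        (by rw [← mul_smul, ← ck, mul_smul, ka])
      rw [ck, mul_inv_cancel_right, eq_inv_iff_mul_eq_one] at this
      exact k2 this
    · exact wa (e a ta)
  have hi : i = 2 := by
    rw [← h.fix t2 t1 rfl t1, ← Set.ncard_pair hab]
    congr 1
    exact Set.ext fun x => ⟨tf x, by rintro (rfl | rfl) <;> assumption⟩
  have three : ∀ {g : G} {x y z : Ω}, x ≠ y → y ≠ z → x ≠ z → g • x = x → g • y = y → g • z = z → g = 1 := by
    intro g x y z h1 h2 h3 gx gy gz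
    by_contra g1
    obtain ⟨w, w1, w2⟩ := h.two x y a b h1 hab
    have := h.fix t2 t1 (h.comm hab (g := w * g * w⁻¹) (by rw [← w1, H23.conj_smul_fix, gx])
      (by rw [← w2, H23.conj_smul_fix, gy]) ta tb) (H23.conj_ne_one g1)
    rw [fx_conj, hi] at this
    exact this.not_gt ((Set.two_lt_ncard (Set.toFinite _)).2 ⟨x, gx, y, gy, z, gz, h1, h3, h2⟩)
  obtain ⟨c, hc⟩ := h.moved t1
  have tK : t ∈ stabilizer G a ⊓ stabilizer G b := ⟨ta, tb⟩
  obtain ⟨Q, z⟩ := H23.exists_ZS' hab h.two three (fun e => t1 (mem_bot.1 (e ▸ tK)))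
    ⟨c, fun e => hc (e ▸ ta), fun e => hc (e ▸ tb)⟩
  have he : Even (Nat.card ↥(stabilizer G a ⊓ stabilizer G b)) :=
    even_iff_two_dvd.2 (H23.orderOf_two t2 t1 ▸ orderOf_dvd_natCard _ tK)
  obtain ⟨s, s2, sa, sb⟩ := h.swap hab
  obtain ⟨F, i1, i2, -, ⟨e, -⟩ | ⟨-, e⟩⟩ := z.psl_of_inv (z.le_of_even he) sa s2
    fun k hk => h.inv hab sa sb hk.1 hk.2
  · exfalso
    have hle : N(stabilizer G a ⊓ stabilizer G b) ≤ C1(t) := fun g hg => mem_C1.2 (by
      rcases z.mem_NK.1 hg with hg | hg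
      · exact h.comm hab hg.1 hg.2 ta tb
      · have := h.inv hab hg.1 hg.2 ta tb
        rw [H9.inv_eq_of_mul_self t2] at this
        exact mul_inv_eq_iff_eq_mul.1 this)
    have h1 := card_le_of_le hle
    have h2 := h.card t2 t1
    have h3 := z.two_le_K
    rw [z.card_NK] at h1
    rw [z.cardΩ] at h2
    omega
  · exact Or.inl ⟨F, i1, i2, e⟩

theorem eq_of_le_one (hi : i ≤ 1) (u2 : u * u = 1) (u1 : u ≠ 1) (e : g * u = u * g) (g1 : g ≠ 1) (ga : g • a = a)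
    (gb : g • b = b) : a = b := by
  rw [← h.fix u2 u1 e g1] at hi
  exact (Set.ncard_le_one (Set.toFinite _)).1 hi a ga b gb

theorem of_isolated (u2 : u * u = 1) (u1 : u ≠ 1) (hu : ∀ v : G, v * v = 1 → v * u = u * v → v = 1 ∨ v = u)
    (hab : a ≠ b) (hac : a ≠ c) (hbc : b ≠ c) : FxC G Ω := by
  obtain ⟨T⟩ : Nonempty (Sylow 2 G) := inferInstance
  obtain ⟨z, zT, z2, z1, zc⟩ : ∃ z ∈ (T : Subgroup G), z * z = 1 ∧ z ≠ 1 ∧ ∀ x ∈ (T : Subgroup G), x * z = z * x := by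
    have hb : (T : Subgroup G) ≠ ⊥ := T.ne_bot_of_dvd_card (H23.orderOf_two u2 u1 ▸ orderOf_dvd_natCard u)
    have : Nontrivial (T : Subgroup G) := (nontrivial_iff_ne_bot _).2 hb
    have := T.isPGroup'.center_nontrivial
    obtain ⟨⟨y, hy⟩, y1⟩ := exists_ne (1 : center (T : Subgroup G))
    obtain ⟨j, hj⟩ := T.isPGroup' y
    obtain ⟨n, h1, h2⟩ := fx_exists_inv hj fun e => y1 (Subtype.ext e)
    exact ⟨(y ^ n : (T : Subgroup G)), (y ^ n).2, congrArg Subtype.val h1, fun e => h2 (Subtype.ext e),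
      fun x hx => congrArg Subtype.val (mem_center_iff.1 (pow_mem hy n) ⟨x, hx⟩)⟩
  obtain ⟨w, rfl⟩ := h.conj u2 u1 z2 z1
  obtain ⟨N, hN, ho, hc⟩ := Cfsg.Agent.S0215.result T _ (H23.orderOf_two z2 z1) zT fun g hg => by
    have e := zc _ hg
    rcases hu (w⁻¹ * (g * (w * u * w⁻¹) * g⁻¹) * w) (by
      have := H23.conj_mul_self (g := w⁻¹ * g * w) u2
      rw [← this]; group) (by
      calc _ = w⁻¹ * (g * (w * u * w⁻¹) * g⁻¹ * (w * u * w⁻¹)) * w := by group
        _ = _ := by rw [e]; group) with e1 | e1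
    · exact absurd e1 (H23.conj_ne_one' (H23.conj_ne_one z1))
    · calc _ = w * (w⁻¹ * (g * (w * u * w⁻¹) * g⁻¹) * w) * w⁻¹ := by group
        _ = _ := by rw [e1]
  have hb : N ≠ ⊥ := by
    rintro rfl
    have all : ∀ {s : G}, s * s = 1 → s ≠ 1 → s = w * u * w⁻¹ := fun s2 s1 => by
      obtain ⟨g, rfl⟩ := h.conj z2 z1 s2 s1
      have := mem_bot.1 (hc g)
      rw [mul_inv_eq_one, mul_inv_eq_iff_eq_mul] at this
      rw [← this, mul_inv_cancel_right]
    obtain ⟨s, s2, sa, -⟩ := h.swap hab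
    obtain ⟨r, r2, ra, -⟩ := h.swap hac
    have e1 := all s2 fun e => hab (by rw [← sa, e, one_smul])
    have e2 := all r2 fun e => hac (by rw [← ra, e, one_smul])
    exact hbc (by rw [← sa, ← ra, e1, e2])
  have : Group.IsSolvable N := Cfsg.Agent.S0205.result ho
  obtain ⟨M, hM, hm⟩ := exists_minNorm (A := ⊤) hb (by rw [normalizer_eq_top])
  have hs : Solv M := Group.isSolvable_of_isSolvable_injective (inclusion_injective hM)
  exact h.reg_of_abel (normalizer_eq_top_iff.1 (top_le_iff.1 hm.norm)) hm.ne_bot (hm.abel hs)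

theorem of_three (hi : i ≤ 1) (hab : a ≠ b) (hbc : b ≠ c) (hac : a ≠ c) (k1 : k ≠ 1) (ka : k • a = a)
    (kb : k • b = b) (kc : k • c = c) : FxC G Ω := by
  have nc : ∀ {v : G}, v * v = 1 → k * v = v * k → v = 1 := fun v2 e => by
    by_contra v1
    exact hab (h.eq_of_le_one hi v2 v1 e k1 ka kb)
  obtain ⟨s1, -, a1, b1⟩ := h.swap hab
  obtain ⟨s2, -, a2, b2⟩ := h.swap hac
  obtain ⟨s3, -, a3, b3⟩ := h.swap hbc
  have e1 := h.inv hab a1 b1 ka kb
  have e2 := h.inv hac a2 b2 ka kc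
  have e3 := h.inv hbc a3 b3 (k := k⁻¹) (inv_smul_eq_iff.2 kb.symm) (inv_smul_eq_iff.2 kc.symm)
  have wk : s2 * s3 * s1 * k * (s2 * s3 * s1)⁻¹ = k⁻¹ := by
    calc _ = s2 * (s3 * (s1 * k * s1⁻¹) * s3⁻¹) * s2⁻¹ := by group
      _ = _ := by rw [e1, e3, inv_inv, e2]
  have wa : s2 * s3 * s1 ∈ stabilizer G a := by rw [mem_stabilizer_iff, mul_smul, mul_smul, a1, a3, b2]
  obtain ⟨s, hs, ⟨j, hj⟩, sk⟩ := H9.exists_two_element_inverting wk
  have sa : s • a = a := (zpowers_le_of_mem wa : _ ≤ stabilizer G a) hs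
  have ss : s * s = 1 := by
    by_contra e
    obtain ⟨n, h1, h2⟩ := fx_exists_inv (j := j) (by rw [← pow_two, ← pow_mul, mul_comm, pow_mul, hj, one_pow]) e
    exact h2 (nc h1 ((H9.commute_sq_of_inverts sk).pow_left n).eq.symm)
  have sn : s ≠ 1 := by
    rintro rfl
    rw [one_mul, inv_one, mul_one, eq_inv_iff_mul_eq_one] at sk
    exact k1 (nc sk rfl)
  have ca : ∀ {g : G}, g * s = s * g → g • a = a := fun {g} e =>
    h.eq_of_le_one hi ss sn rfl sn (by rw [← mul_smul, ← e, mul_smul, sa]) sa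
  have i1 : i = 1 := by
    refine le_antisymm hi ?_
    rw [← h.fix ss sn rfl sn]
    exact (Set.ncard_pos (Set.toFinite _)).2 ⟨a, sa⟩
  have tr : ∀ y, y ≠ a → ∃ g : G, g * s = s * g ∧ g • b = y := by
    intro y hy
    let f : C1(s) → ({a}ᶜ : Set Ω) := fun g => ⟨(g : G) • b, fun e => hab (smul_left_cancel (g : G)
      ((ca (mem_C1.1 g.2)).trans (Eq.symm e)))⟩
    have hf : Function.Injective f := fun x y e => by
      have e : (x : G) • b = (y : G) • b := congrArg Subtype.val e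
      by_contra hne
      have hm := mem_C1.1 (mul_mem (inv_mem y.2) x.2)
      exact hab (h.eq_of_le_one hi ss sn hm (fun e => hne (Subtype.ext (inv_mul_eq_one.1 e).symm)) (ca hm)
        (by rw [mul_smul, e, inv_smul_smul]))
    have hc := h.card ss sn
    have h2 := Set.ncard_add_ncard_compl ({a} : Set Ω)
    rw [Set.ncard_singleton, ← Nat.card_coe_set_eq] at h2
    obtain ⟨g, hg⟩ := ((Nat.bijective_iff_injective_and_card f).2 ⟨hf, by omega⟩).2 ⟨y, hy⟩
    exact ⟨g, mem_C1.1 g.2, congrArg Subtype.val hg⟩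
  refine h.of_isolated ss sn (fun v v2 e => ?_) hab hac hbc
  by_cases v1 : v = 1
  · exact Or.inl v1
  obtain ⟨g, rfl⟩ := h.conj ss sn v2 v1
  have ga : g • a = a := h.eq_of_le_one hi v2 v1 rfl v1 (by rw [H23.conj_smul_fix, sa]) (ca e)
  obtain ⟨d, d1, d2⟩ := tr (g⁻¹ • b) fun e => hab (by rw [← ga, ← e, smul_inv_smul])
  have xk := h.comm hab (g := g * d) (by rw [mul_smul, ca d1, ga]) (by rw [mul_smul, d2, smul_inv_smul]) ka kb
  have ev : g * s * g⁻¹ = g * d * s * (g * d)⁻¹ := by rw [mul_assoc g d, d1]; group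
  rw [ev] at e v2 ⊢
  generalize g * d = x at *
  have vk : x * s * x⁻¹ * k * (x * s * x⁻¹)⁻¹ = k⁻¹ := by
    have q1 : x⁻¹ * k * x = k := by rw [mul_assoc, ← xk, inv_mul_cancel_left]
    calc _ = x * (s * (x⁻¹ * k * x) * s⁻¹) * x⁻¹ := by group
      _ = (x * k * x⁻¹)⁻¹ := by rw [q1, sk]; group
      _ = _ := by rw [xk, mul_inv_cancel_right]
  generalize x * s * x⁻¹ = v at *
  have := nc (v := s * v) (by rw [mul_assoc, ← mul_assoc v, e, mul_assoc, v2, mul_one, ss]) (by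
    have q := congrArg (·⁻¹) sk
    simp only [mul_inv_rev, inv_inv] at q
    calc k * (s * v) = s * (k⁻¹ * s⁻¹) * (s * v) := by rw [q]
      _ = s * k⁻¹ * v := by group
      _ = _ := by rw [← vk]; group)
  rw [← H9.inv_eq_of_mul_self ss, inv_mul_eq_one] at this
  exact Or.inr this.symm

theorem main : FxC G Ω := by
  obtain ⟨t, t2, t1⟩ := h.ex
  rcases le_or_gt i 1 with hi | hi
  swap
  · rw [← h.fix t2 t1 rfl t1] at hi
    obtain ⟨a, ta, b, tb, hab⟩ := (Set.one_lt_ncard (Set.toFinite _)).1 hi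
    by_cases hK : ∀ k : G, k • a = a → k • b = b → k * k = 1
    · exact h.of_elem t2 t1 hab ta tb hK
    push Not at hK
    obtain ⟨k, ka, kb, k2⟩ := hK
    exact h.of_not_elem t2 t1 hab ta tb ka kb k2
  by_cases three : ∀ {g : G} {x y z : Ω}, x ≠ y → y ≠ z → x ≠ z → g • x = x → g • y = y → g • z = z → g = 1
  swap
  · push Not at three
    obtain ⟨g, x, y, z, h1, h2, h3, gx, gy, gz, g1⟩ := three
    exact h.of_three hi h1 h2 h3 g1 gx gy gz
  obtain ⟨a, ha⟩ := h.moved t1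
  have hab := ha.symm
  generalize t • a = b at hab
  have reg : ∀ N : Subgroup G, N.Normal → IsPretransitive N Ω → (∀ a : Ω, stabilizer N a = ⊥) → FxC G Ω :=
    fun N hN ht hr => Or.inr (Or.inr ⟨N, hN, fun x y => by
      obtain ⟨r, e⟩ := ht.exists_smul_eq x y; exact ⟨r, r.2, e⟩, fun x r rN e => by
      have : (⟨r, rN⟩ : N) ∈ stabilizer N x := e
      rw [hr x, mem_bot] at this
      exact congrArg Subtype.val this⟩)
  by_cases hK : stabilizer G a ⊓ stabilizer G b = ⊥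
  · have : Nontrivial Ω := ⟨a, b, hab⟩
    obtain ⟨N, hN, ht, hr, -⟩ := H16.exists_kernel_sharp (G := G) (α := Ω)
      (is_two_pretransitive_iff.2 fun {x y z w} => h.two x y z w) fun g x y hxy gx gy => by
        obtain ⟨w, w1, w2⟩ := h.two x y a b hxy hab
        by_contra g1
        exact H23.conj_ne_one (g := w) g1 (mem_bot.1 (hK ▸ (mem_inf.2 ⟨by rw [mem_stabilizer_iff, ← w1, H23.conj_smul_fix, gx],
          by rw [mem_stabilizer_iff, ← w2, H23.conj_smul_fix, gy]⟩ : _ ∈ stabilizer G a ⊓ stabilizer G b)))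
    exact reg N hN ht hr
  obtain ⟨k, hk, k1⟩ := (bot_or_exists_ne_one _).resolve_left hK
  obtain ⟨c, hc⟩ := h.moved k1
  obtain ⟨Q, z⟩ := H23.exists_ZS' hab h.two three hK ⟨c, fun e => hc (e ▸ hk.1), fun e => hc (e ▸ hk.2)⟩
  by_cases hr : H23.NR G Ω
  swap
  · unfold H23.NR at hr
    push Not at hr
    obtain ⟨N, hN, ht, hr⟩ := hr
    exact reg N hN ht hr
  have ho : Odd (Nat.card ↥(stabilizer G a ⊓ stabilizer G b)) := by
    by_contra e
    obtain ⟨s, hs, s2, s1⟩ := z.exists_inv_of_even (Nat.not_odd_iff_even.1 e)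
    exact hab (h.eq_of_le_one hi s2 s1 rfl s1 hs.1 hs.2)
  have := z.simple_of_odd hr ho
  rcases z.psl_or_suz with ⟨F, i1, i2, -, e⟩ | ⟨h1, h2, t, d⟩
  · exact Or.inl ⟨F, i1, i2, e⟩
  · exact Or.inr (Or.inl (d.isoSuzuki h1 h2))

end CF

end H3
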