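import Cfsg.Agent.S0483
import Cfsg.Agent.H9.IsoP
import Cfsg.Agent.H10.Small
import Cfsg.Agent.H10.SL
import Cfsg.Agent.H3.Frobenius
import Mathlib.GroupTheory.Focal
import Mathlib.GroupTheory.GroupAction.CardCommute

/-! Groups with `k₂(G) = |P|/2`: `Half.nc S x` = number of conjugates of `x` in `S`; `mod_three`
(`k(G)|G| ≡ 1 mod 3`), `four` (odd automorphisms force a four-group), `struct`, `count`. -/

set_option autoImplicit false
set_option linter.unusedSectionVars false

namespace H3.Half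
open Subgroup Cfsg H3
open scoped commutatorElement

variable {G : Type*} [Group G] [Finite G]

theorem mod_three (h3 : ∀ x : G, x ^ 3 = 1 → x = 1) : Nat.card (ConjClasses G) * Nat.card G ≡ 1 [MOD 3] := by
  classical
  have : Fact (Nat.Prime 3) := ⟨by norm_num⟩
  rw [← card_comm_eq_card_conjClasses_mul_card]
  have := Fintype.ofFinite {p : G × G // Commute p.1 p.2}
  let f : Function.End {p : G × G // Commute p.1 p.2} := fun p =>
    ⟨(p.1.2, (p.1.1 * p.1.2)⁻¹), (p.2.symm.mul_right (Commute.refl _)).inv_right⟩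
  have hf : f ^ 3 ^ 1 = 1 := by
    funext p
    apply Subtype.ext
    show (f (f (f p))).1 = p.1
    simp only [f]
    ext <;> simp [mul_assoc]
  have h := Equiv.Perm.card_fixedPoints_modEq hf
  rw [Nat.card_eq_fintype_card]
  refine h.trans ?_
  rw [← Nat.card_eq_fintype_card, Nat.card_eq_one_iff_unique.2 ⟨⟨?_⟩, ⟨⟨⟨(1, 1), Commute.refl _⟩, by
    show f _ = _
    simp [f]⟩⟩⟩]
  · have k : ∀ p : f.fixedPoints, p.1.1 = (1, 1) := fun p => by
      have e := congrArg Subtype.val p.2
      simp only [f] at e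
      have e1 := congrArg Prod.fst e
      have e2 := congrArg Prod.snd e
      simp only at e1 e2
      have : p.1.1.1 = 1 := h3 _ (by
        rw [← e1] at e2 ⊢
        rw [pow_succ, sq]; exact mul_eq_one_iff_inv_eq.2 e2)
      exact Prod.ext this (e1.trans this)
    intro p q
    exact Subtype.ext (Subtype.ext ((k p).trans (k q).symm))

/-- conjugates of `x` in `S` -/
def cs (S : Subgroup G) (x : G) : Set G := {y | y ∈ S ∧ IsConj x y}

theorem cs_eq {S : Subgroup G} {x y : G} (h : IsConj x y) : cs S x = cs S y :=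
  Set.ext fun _ => and_congr_right fun _ => ⟨h.symm.trans, h.trans⟩

/-- elements of `S` with at least three conjugates in `S` -/
def big (S : Subgroup G) : Set G := {x | x ∈ S ∧ 3 ≤ (cs S x).ncard}

theorem card_aut {V : Type*} [Group V] [Finite V] (h : Nat.card V = 4) : Nat.card (MulAut V) ∣ 6 := by
  classical
  have := Fintype.ofFinite V
  let φ : MulAut V →* Equiv.Perm {v : V // v ≠ 1} :=
    { toFun := fun a => Equiv.Perm.subtypePerm a.toEquiv fun v => by simp
      map_one' := by ext; simp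
      map_mul' := fun a b => by ext; simp }
  have hi : Function.Injective φ := (injective_iff_map_eq_one _).2 fun a ha => by
    ext v
    by_cases hv : v = 1
    · simp [hv]
    · exact congrArg Subtype.val (DFunLike.congr_fun ha ⟨v, hv⟩)
  have := card_dvd_of_injective φ hi
  rwa [Nat.card_perm, Nat.card_eq_fintype_card (α := {v : V // v ≠ 1}), Fintype.card_subtype_compl,
    ← Nat.card_eq_fintype_card, h, Fintype.card_unique] at this

theorem relIndex_dvd {V : Subgroup G} (h : Nat.card V = 4) :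
    (centralizer (V : Set G)).relIndex (normalizer (V : Set G)) ∣ 6 := by
  have key := card_dvd_of_injective _ (QuotientGroup.kerLift_injective V.normalizerMonoidHom)
  rw [normalizerMonoidHom_ker, ← index, ← relIndex] at key
  exact key.trans (card_aut h)

theorem four {S R : Subgroup G} (hS : IsPGroup 2 S) (hB : (big S).ncard ≤ 3) (hR : R ≤ S) {g : G}
    (hg : g ∈ normalizer (R : Set G)) (ho : (orderOf g).Coprime 2) (hc : g ∉ centralizer (R : Set G)) :
    Nat.card R = 4 ∧ (∀ x, x ∈ R ↔ x = 1 ∨ x ∈ big S) ∧ (∀ x ∈ R, ∀ y ∈ R, x ≠ 1 → y ≠ 1 → IsConj x y) := by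
  have : Fact (Nat.Prime 2) := ⟨Nat.prime_two⟩
  set C := R ⊓ centralizer ({g} : Set G) with hC
  have key : ∀ x ∈ R, x ∉ C → ∃ T : Set G, T.ncard = 3 ∧ (∀ y ∈ T, y ∈ R ∧ y ∉ C ∧ IsConj x y) := fun x hx hxC => by
    have n1 : ∀ y ∈ R, y ∉ C → g * y * g⁻¹ ≠ y := fun y hy hyC e => hyC ⟨hy, mem_centralizer_singleton_iff.2
      (mul_inv_eq_iff_eq_mul.1 e).symm⟩
    have n2 : ∀ y ∈ R, y ∉ C → g * y * g⁻¹ ∉ C := fun y hy hyC e => n1 y hy hyC (by
      have := mem_centralizer_singleton_iff.1 e.2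
      rw [inv_mul_cancel_right] at this
      exact (mul_left_cancel this).symm)
    have m1 := conj_mem_of_mem_normalizer hg hx
    have m2 := conj_mem_of_mem_normalizer hg m1
    refine ⟨{x, g * x * g⁻¹, g * (g * x * g⁻¹) * g⁻¹}, Set.ncard_eq_three.2 ⟨_, _, _, (n1 x hx hxC).symm,
      fun e => n1 x hx hxC ?_, (n1 _ m1 (n2 x hx hxC)).symm, rfl⟩, ?_⟩
    · have c : Commute (g ^ 2) x := by
        show g ^ 2 * x = x * g ^ 2
        conv_rhs => rw [e]
        simp [sq, mul_assoc]
      obtain ⟨k, hk⟩ := exists_pow_eq_self_of_coprime (x := g) (n := 2) ho.symm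
      have := (c.pow_left k).eq
      rw [hk] at this
      rw [this, mul_inv_cancel_right]
    · rintro y (rfl | rfl | rfl)
      · exact ⟨hx, hxC, IsConj.refl _⟩
      · exact ⟨m1, n2 x hx hxC, isConj_iff.2 ⟨g, rfl⟩⟩
      · exact ⟨m2, n2 _ m1 (n2 x hx hxC), isConj_iff.2 ⟨g * g, by group⟩⟩
  have sub : (R : Set G) \ C ⊆ big S := fun x hx => by
    obtain ⟨T, h3, hT⟩ := key x hx.1 hx.2
    exact ⟨hR hx.1, h3 ▸ Set.ncard_le_ncard (fun y hy => ⟨hR (hT y hy).1, (hT y hy).2.2⟩)⟩
  obtain ⟨x, hx, hxC⟩ : ∃ x ∈ R, x ∉ C := by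
    by_contra! e
    exact hc (mem_centralizer_iff.2 fun y hy => mem_centralizer_singleton_iff.1 (e y hy).2)
  obtain ⟨T, h3, hT⟩ := key x hx hxC
  have s1 : T ⊆ (R : Set G) \ C := fun y hy => ⟨(hT y hy).1, (hT y hy).2.1⟩
  have c1 := Set.ncard_le_ncard s1
  have c2 := Set.ncard_le_ncard sub
  have c3 := Set.ncard_inter_add_ncard_sdiff_eq_ncard (R : Set G) C
  rw [Set.inter_eq_right.2 (show (C : Set G) ⊆ R from inf_le_left)] at c3
  have e1 : (C : Set G).ncard = Nat.card C := rfl
  have e2 : (R : Set G).ncard = Nat.card R := rfl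
  obtain ⟨a, ha⟩ := IsPGroup.iff_card.1 (hS.to_le hR)
  obtain ⟨b, hb⟩ : ∃ b, Nat.card C = 2 ^ b := IsPGroup.iff_card.1 (hS.to_le (inf_le_left.trans hR : C ≤ S))
  have hb0 : b = 0 := by
    by_contra hb0
    have : 0 < 2 ^ b := by positivity
    have ha0 : a ≠ 0 := by rintro rfl; omega
    have := dvd_pow_self 2 ha0
    have := dvd_pow_self 2 hb0
    omega
  subst hb0
  have hC1 : C = ⊥ := card_eq_one.1 hb
  have eT : T = (R : Set G) \ C := Set.eq_of_subset_of_ncard_le s1 (by omega)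
  have eB : (R : Set G) \ C = big S := Set.eq_of_subset_of_ncard_le sub (by omega)
  refine ⟨by omega, fun y => ⟨fun hy => ?_, ?_⟩, fun y hy z hz y1 z1 => ?_⟩
  · by_cases y1 : y = 1
    · exact Or.inl y1
    · exact Or.inr (eB ▸ ⟨hy, by simpa [hC1] using y1⟩)
  · rintro (rfl | hy)
    · exact one_mem _
    · exact (eB.symm ▸ hy : y ∈ (R : Set G) \ C).1
  · have hy' : y ∈ T := eT ▸ ⟨hy, by simpa [hC1] using y1⟩
    have hz' : z ∈ T := eT ▸ ⟨hz, by simpa [hC1] using z1⟩
    exact (hT y hy').2.2.symm.trans (hT z hz').2.2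

theorem normal_case {V : Subgroup G} [V.Normal] (h4 : Nat.card V = 4) (hC : centralizer (V : Set G) = V)
    (hG : ¬ IsPGroup 2 G) (hN : ∀ N : Subgroup G, N.Normal → N ≠ ⊥ → V ≤ N) :
    Nonempty (G ≃* alternatingGroup (Fin 4)) ∨ Nonempty (G ≃* Equiv.Perm (Fin 4)) := by
  have : Fact (Nat.Prime 3) := ⟨by norm_num⟩
  have h6 := relIndex_dvd h4
  rw [hC, normalizer_eq_top, relIndex_top_right] at h6
  have hc := V.card_mul_index
  rw [h4] at hc
  have hi : V.index = 3 ∨ V.index = 6 := by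
    have := Nat.le_of_dvd (by norm_num) h6
    have h1 : V.index ≠ 1 := fun e => hG (IsPGroup.of_card (n := 2) (by omega))
    have h2 : V.index ≠ 2 := fun e => hG (IsPGroup.of_card (n := 3) (by omega))
    generalize V.index = i at *
    interval_cases i <;> simp_all
  obtain ⟨T⟩ := (inferInstance : Nonempty (Sylow 3 G))
  obtain ⟨m, hm, hm'⟩ : ∃ m, Nat.card G = 3 ^ 1 * m ∧ (m = 4 ∨ m = 8) := by
    rcases hi with e | e
    · exact ⟨4, by omega, Or.inl rfl⟩
    · exact ⟨8, by omega, Or.inr rfl⟩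
  have hT := H10.sylow_card_of hm (by omega) T
  have hTi := H10.sylow_index_of hm (by omega) T
  have n1 := card_sylow_modEq_one 3 G
  have n2 := T.card_dvd_index
  have n3 := H10.card_sylow_mul_card_normalizer T
  have n4 := H10.card_sylow_eq_index T
  have n5 : Nat.card (Sylow 3 G) ≠ 1 := fun e => by
    rw [e, eq_comm, index_eq_one] at n4
    have := normalizer_eq_top_iff.1 n4
    have := card_dvd_of_le (hN T this (by rintro e; rw [e, card_bot] at hT; omega))
    rw [h4, hT] at this; omega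
  have n6 : Nat.card (Sylow 3 G) = 4 := by
    rw [hTi] at n2
    have := Nat.le_of_dvd (by omega) n2
    unfold Nat.ModEq at n1
    clear n3 n4
    generalize Nat.card (Sylow 3 G) = i at *
    rcases hm' with rfl | rfl <;> interval_cases i <;> omega
  obtain ⟨f, hf⟩ := H10.exists_hom_perm_index (normalizer ((T : Subgroup G) : Set G))
  have hk : f.ker = ⊥ := by
    by_contra e
    have := card_dvd_of_le ((hN _ inferInstance e).trans (hf ▸ normalCore_le _))
    rw [h4] at this; rw [n6] at n3; omega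
  rw [MonoidHom.ker_eq_bot_iff] at hk
  rw [n6] at n4
  revert f
  rw [← n4]
  intro f _ hk
  rcases hm' with rfl | rfl
  · exact Or.inl (H10.equiv_alt_of_injective f hk (by rw [hm]; rfl))
  · exact Or.inr (H10.equiv_perm_of_injective f hk (by rw [hm]; rfl))

theorem perfect_case {M V : Subgroup G} (hM : ⁅M, M⁆ = M) (hO : pPrimeCore 2 M = ⊥) (hV : IsSylowIn 2 V M)
    (hK : IsKleinFour V) : ∃ (F : Type) (_ : Field F) (_ : Fintype F), 3 < Fintype.card F ∧
      (Fintype.card F % 8 = 3 ∨ Fintype.card F % 8 = 5) ∧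
        Nonempty (M ≃* Matrix.ProjectiveSpecialLinearGroup (Fin 2) F) := by
  have : Fact (Nat.Prime 2) := ⟨Nat.prime_two⟩
  have := isPerfect_iff.2 hM
  obtain ⟨T, hT⟩ := hV.exists_sylow
  have e : (T : Subgroup M) ≃* V := hT ▸ subgroupOfEquivOfLe hV.le
  have e0 : M ≃* M ⧸ oddCore M := (QuotientGroup.quotientBot.symm).trans (QuotientGroup.quotientMulEquivOfEq hO.symm)
  have c := (T : Subgroup M).card_mul_index
  have ni := T.not_dvd_index
  rw [Nat.card_congr e.toEquiv, hK.card_four] at c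
  rcases Cfsg.Agent.S0483.result T 2 le_rfl ⟨e.trans IsKleinFour.nonempty_mulEquiv.some⟩ with
    ⟨F, _, _, ho, h3, ⟨e1⟩⟩ | ⟨⟨e1⟩⟩
  · refine ⟨F, inferInstance, inferInstance, h3, ?_, ⟨e0.trans e1⟩⟩
    have h := H10.card_PSL2 (F := F)
    rw [← Nat.card_congr (e0.trans e1).toEquiv, ← c] at h
    obtain ⟨k, hk⟩ := ho
    rw [hk, Nat.add_sub_cancel, Nat.gcd_eq_left (dvd_mul_right 2 k)] at h
    rw [hk]
    generalize (T : Subgroup M).index = i at *
    have h' : 2 * i = (2 * k + 1) * k * (k + 1) := by linarith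
    have h4 : ¬ 4 ∣ (2 * k + 1) * k * (k + 1) := by omega
    have : k % 4 = 1 ∨ k % 4 = 2 := by
      by_contra! e
      refine h4 ?_
      rcases (by omega : 4 ∣ k ∨ 4 ∣ k + 1) with e | e
      · exact (e.mul_left _).mul_right _
      · exact e.mul_left _
    omega
  · have := Nat.card_congr (e0.trans e1).toEquiv
    rw [nat_card_alternatingGroup] at this
    simp [Nat.factorial] at this
    omega

theorem struct (S : Sylow 2 G) (hO : pPrimeCore 2 G = ⊥) (hG : ¬ IsPGroup 2 G) (hB : (big (S : Subgroup G)).ncard ≤ 3) :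
    Nonempty (G ≃* alternatingGroup (Fin 4)) ∨ Nonempty (G ≃* Equiv.Perm (Fin 4)) ∨
    ∃ M : Subgroup G, M.Normal ∧ IsSimpleGroup M ∧ ¬ IsMulCommutative M ∧ centralizer (M : Set G) = ⊥ ∧
      ∃ (F : Type) (_ : Field F) (_ : Fintype F), 3 < Fintype.card F ∧
      (Fintype.card F % 8 = 3 ∨ Fintype.card F % 8 = 5) ∧
        Nonempty (M ≃* Matrix.ProjectiveSpecialLinearGroup (Fin 2) F) := by
  have : Fact (Nat.Prime 2) := ⟨Nat.prime_two⟩
  have odd : ∀ N : Subgroup G, N.Normal → ¬ 2 ∣ Nat.card N → N = ⊥ := fun N _ h =>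
    H1.eq_bot_of_pPrimeCore_eq_bot hO ((Nat.Prime.coprime_iff_not_dvd Nat.prime_two).2 h).symm
  have hn : ¬ HasNormalPComplement 2 G := fun h => by
    obtain ⟨N, _, h1, h2⟩ := hasNormalPComplement_iff_exists_normal.1 h
    obtain rfl := odd N inferInstance h1
    exact hG (h2.of_equiv QuotientGroup.quotientBot)
  obtain ⟨V, hV, hc, g, hg, ho, hgc⟩ : ∃ V ≤ (S : Subgroup G), (S : Subgroup G) ⊓ centralizer (V : Set G) ≤ V ∧
      ∃ g ∈ normalizer (V : Set G), (orderOf g).Coprime 2 ∧ g ∉ centralizer (V : Set G) := by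
    by_contra! e
    exact hn (frobenius_of_centric S fun D hD _ hc x hx hxp => e D hD hc x hx hxp)
  obtain ⟨h4, mem, conj⟩ := four S.2 hB hV hg ho hgc
  have sc : ∀ x ∈ V, ∀ y ∈ S, IsConj x y → y ∈ V := fun x hx y hy e => by
    rcases (mem x).1 hx with rfl | h
    · rw [isConj_one_right.1 e]; exact one_mem _
    · exact (mem y).2 (Or.inr ⟨hy, cs_eq (S := S) e ▸ h.2⟩)
  have hSV : (S : Subgroup G) ≤ normalizer (V : Set G) := le_normalizer_of_forall_conj_mem fun s hs x hx =>
    sc x hx _ (mul_mem (mul_mem hs (hV hx)) (inv_mem hs)) (isConj_iff.2 ⟨s, rfl⟩)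
  have sq : ∀ x ∈ V, x * x = 1 := fun x hx => by
    obtain ⟨z, hz, h2⟩ := H10.exists_mem_orderOf_eq V Nat.prime_two (by rw [h4]; norm_num)
    by_cases x1 : x = 1
    · simp [x1]
    obtain ⟨c, rfl⟩ := isConj_iff.1 (conj z hz x hx (by rintro rfl; simp at h2) x1)
    have : z * z = 1 := by rw [← pow_two, ← h2, pow_orderOf_eq_one]
    simp [mul_assoc, ← mul_assoc z, this]
  have hK : IsKleinFour V := ⟨h4, by
    have : Nontrivial V := Finite.one_lt_card_iff_nontrivial.1 (by omega)
    exact (Monoid.exponent_eq_prime_iff Nat.prime_two).2 fun x x1 => orderOf_eq_prime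
      (Subtype.ext (by simpa [pow_two] using sq x x.2)) x1⟩
  have comm : V ≤ centralizer (V : Set G) := le_centralizer_iff_isMulCommutative.2 IsKleinFour.isMulCommutative
  have hN : ∀ N : Subgroup G, N.Normal → N ≠ ⊥ → V ≤ N := fun N _ hN => by
    have h1 : (S : Subgroup G) ⊓ N ≠ ⊥ := fun e => hN (odd N inferInstance
      (not_dvd_card_of_inf_sylow_eq_bot S (by rwa [inf_comm])))
    have n1 : N.subgroupOf (S : Subgroup G) ≠ ⊥ := fun e => h1 (by
      rw [subgroupOf_eq_bot] at e; exact e.symm.eq_bot)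
    obtain ⟨z, hz, z1⟩ : ∃ z ∈ N.subgroupOf (S : Subgroup G) ⊓ center (S : Subgroup G), z ≠ 1 := by
      have := S.2.isNilpotent
      by_contra! e
      exact H1.normal_inf_center_ne_bot _ n1 ((eq_bot_iff_forall _).2 e)
    have zV : (z : G) ∈ V := hc ⟨z.2, mem_centralizer_iff.2 fun v hv =>
      congrArg Subtype.val (mem_center_iff.1 hz.2 ⟨v, hV hv⟩)⟩
    intro x hx
    by_cases x1 : x = 1
    · rw [x1]; exact one_mem _
    obtain ⟨c, rfl⟩ := isConj_iff.1 (conj z zV x hx (by simpa using z1) x1)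
    exact Normal.conj_mem ‹N.Normal› (z : G) hz.1 c
  have V1 : V ≠ ⊥ := by rintro rfl; simp at h4
  by_cases hVn : V.Normal
  · have hC : centralizer (V : Set G) = V := by
      have s1 := isSylowIn_inf_normal S (centralizer (V : Set G))
      rw [le_antisymm hc (le_inf hV comm)] at s1
      obtain ⟨T, hT⟩ := s1.exists_sylow
      have h := burnside_hasNormalPComplement T fun x _ => mem_centralizer_iff.2 fun y hy => Subtype.ext
        (mem_centralizer_iff.1 x.2 y (mem_subgroupOf.1 (hT.le hy)))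
      have e := odd _ (ConjAct.normal_of_characteristic_of_normal (H := centralizer (V : Set G))
        (K := pResidual 2 _)) (hasNormalPComplement_subgroup_iff_not_dvd.1 h)
      rw [Subgroup.map_eq_bot_iff_of_injective _ (subtype_injective _)] at e
      have := (isComplement'_pResidual T h).sup_eq_top
      rw [e, bot_sup_eq, hT, subgroupOf_eq_top] at this
      exact le_antisymm this comm
    rcases normal_case h4 hC hG hN with h | h
    · exact Or.inl h
    · exact Or.inr (Or.inl h)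
  set M := normalClosure (V : Set G)
  have VM : V ≤ M := le_normalClosure
  have hM : ⁅M, M⁆ = M := by
    refine le_antisymm (commutator_le_left _ _) (normalClosure_le_normal (hN _ inferInstance fun e => hVn ?_))
    rw [commutator_eq_bot_iff_le_centralizer] at e
    let E : Subgroup G :=
      { carrier := {x | x ∈ M ∧ x * x = 1}
        one_mem' := ⟨one_mem _, mul_one _⟩
        mul_mem' := fun {a b} ha hb => ⟨mul_mem ha.1 hb.1, by
          rw [mul_assoc, ← mul_assoc b, mem_centralizer_iff.1 (e ha.1) b hb.1, mul_assoc, hb.2, mul_one, ha.2]⟩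
        inv_mem' := fun {a} ha => ⟨inv_mem ha.1, by rw [← mul_inv_rev, ha.2, inv_one]⟩ }
    have : E.Normal := ⟨fun a ha c => ⟨Normal.conj_mem inferInstance a ha.1 c, by
      simp [mul_assoc, ← mul_assoc a, ha.2]⟩⟩
    have ME : M ≤ E := normalClosure_le_normal fun x hx => ⟨VM hx, sq x hx⟩
    have M2 : IsPGroup 2 M := isPGroup_iff_forall_mem.2 fun x hx => ⟨1, by simpa [pow_two] using (ME hx).2⟩
    have : M = V := le_antisymm ((le_inf (M2.le_sylow_of_normal S) (e.trans (centralizer_le VM))).trans hc) VM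
    rw [← this]; infer_instance
  have i2 : ∀ x ∈ S, ∀ y ∈ S, x ∉ V → y ∉ V → x * y ∈ V := fun x hx y hy xV yV => by
    have e1 : (centralizer (V : Set G)).relIndex S ∣ 6 := by
      have key := card_dvd_of_injective _ (QuotientGroup.kerLift_injective
        (V.normalizerMonoidHom.comp (inclusion hSV)))
      rw [← MonoidHom.comap_ker, normalizerMonoidHom_ker, ← index] at key
      exact key.trans (card_aut h4)
    rw [← inf_relIndex_right, inf_comm, le_antisymm hc (le_inf hV comm)] at e1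
    obtain ⟨k, hk⟩ := S.2.index (V.subgroupOf S)
    have e2 : (V.subgroupOf S).index = 2 := by
      have n1 : (V.subgroupOf S).index ≠ 1 := fun e => xV (mem_subgroupOf.1 (index_eq_one.1 e ▸ mem_top (⟨x, hx⟩ : S)))
      rw [relIndex, hk] at e1
      rw [hk] at n1 ⊢
      rcases k with _ | _ | k
      · simp at n1
      · rfl
      · exact absurd ((Dvd.intro_left _ (by ring : 2 ^ k * 4 = 2 ^ (k + 1 + 1))).trans e1) (by norm_num)
    exact mem_subgroupOf.1 ((mul_mem_iff_of_index_two e2 (a := ⟨x, hx⟩) (b := ⟨y, hy⟩)).2 (iff_of_false xV yV))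
  have foc : commutator G ⊓ S ≤ V := by
    rw [commutator_inf_eq_focalSubgroup, focalSubgroup_def, closure_le]
    rintro _ ⟨h, x, hx, u, rfl⟩
    have m : u * x⁻¹ * u⁻¹ ∈ S := by
      have := mul_mem (inv_mem hx) h
      rwa [commutatorElement_def, ← mul_assoc, ← mul_assoc, ← mul_assoc, inv_mul_cancel, one_mul] at this
    rw [commutatorElement_def, mul_assoc x, mul_assoc x]
    by_cases xV : x ∈ V
    · exact mul_mem xV (sc _ (inv_mem xV) _ m (isConj_iff.2 ⟨u, rfl⟩))
    · exact i2 x hx _ m xV fun e => xV (inv_mem_iff.1 (sc _ e _ (inv_mem hx) (isConj_iff.2 ⟨u⁻¹, by group⟩)))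
  have s1 := isSylowIn_inf_normal S M
  have e : (S : Subgroup G) ⊓ M = V := le_antisymm (le_trans (by
    rw [inf_comm, ← hM]; exact inf_le_inf_right _ (commutator_mono le_top le_top)) foc) (le_inf hV VM)
  rw [e] at s1
  have hO' : pPrimeCore 2 M = ⊥ := by
    rw [← Subgroup.map_eq_bot_iff_of_injective _ (subtype_injective M), H1.map_pPrimeCore_eq_inf, hO, bot_inf_eq]
  obtain ⟨F, _, _, h3, h8, ⟨e1⟩⟩ := perfect_case hM hO' s1 hK
  have hs := Matrix.ProjectiveSpecialLinearGroup.rank_two_simple (F := F) (by rw [Nat.card_eq_fintype_card]; omega)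
  have hs' := e1.isSimpleGroup
  have := isPerfect_iff.2 hM
  have na : ¬ IsMulCommutative M := Group.IsPerfect.not_isMulCommutative M
  refine Or.inr (Or.inr ⟨M, inferInstance, hs', na, ?_, F, _, _, h3, h8, ⟨e1⟩⟩)
  by_contra e
  exact na (le_centralizer_iff_isMulCommutative.1 (normalClosure_le_normal (hN _ inferInstance e)))

theorem count (P : Sylow 2 G) (hO : pPrimeCore 2 G = ⊥)
    (hk : 2 * Nat.card {c : ConjClasses G // ∀ x ∈ c.carrier, ∃ k : ℕ, orderOf x = 2 ^ k} = Nat.card (P : Subgroup G)) :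
    (big (P : Subgroup G)).ncard ≤ 3 * Nat.card (center G) := by
  classical
  have : Fact (Nat.Prime 2) := ⟨Nat.prime_two⟩
  set 𝒞 := {c : ConjClasses G // ∀ x ∈ c.carrier, ∃ k : ℕ, orderOf x = 2 ^ k}
  have := Fintype.ofFinite 𝒞
  have := Fintype.ofFinite (P : Subgroup G)
  let f : ↥(P : Subgroup G) → 𝒞 := fun x => ⟨ConjClasses.mk (x : G), fun y hy => by
    obtain ⟨k, hk⟩ := IsPGroup.iff_orderOf.1 P.2 x
    obtain ⟨c, rfl⟩ := isConj_iff.1 (ConjClasses.mk_eq_mk_iff_isConj.1 (ConjClasses.mem_carrier_iff_mk_eq.1 hy).symm)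
    exact ⟨k, by rw [← hk, ← orderOf_coe x]; exact orderOf_injective (MulAut.conj c).toMonoidHom (MulAut.conj c).injective _⟩⟩
  have fib : ∀ x : (P : Subgroup G), (Finset.univ.filter fun y => f y = f x).card = (cs (P : Subgroup G) (x : G)).ncard := fun x => by
    rw [← Set.ncard_coe_finset, ← Set.ncard_image_of_injective _ Subtype.val_injective]
    congr 1
    ext y
    simp only [Set.mem_image, Finset.coe_filter, Finset.mem_univ, true_and, Set.mem_ofPred_eq, cs]
    exact ⟨fun ⟨z, h, e⟩ => e ▸ ⟨z.2, (ConjClasses.mk_eq_mk_iff_isConj.1 (congrArg Subtype.val h)).symm⟩,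
      fun h => ⟨⟨y, h.1⟩, Subtype.ext (ConjClasses.mk_eq_mk_iff_isConj.2 h.2.symm), rfl⟩⟩
  have pos : ∀ x : (P : Subgroup G), 0 < (cs (P : Subgroup G) (x : G)).ncard := fun x => (Set.ncard_pos).2 ⟨x, x.2, IsConj.refl _⟩
  have surj : Function.Surjective f := fun c => by
    obtain ⟨y, hy⟩ := ConjClasses.exists_rep c.1
    obtain ⟨k, hk⟩ := c.2 y (ConjClasses.mem_carrier_iff_mk_eq.2 hy)
    obtain ⟨g, hg⟩ := exists_conj_mem_sylow' P (Q := zpowers y) (IsPGroup.of_card (by rw [Nat.card_zpowers, hk]))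
    exact ⟨⟨_, hg y (mem_zpowers y)⟩, Subtype.ext ((ConjClasses.mk_eq_mk_iff_isConj.2
      (isConj_iff.2 ⟨g, rfl⟩)).symm.trans hy)⟩
  have s1 : ∑ x : (P : Subgroup G), (1 / (cs (P : Subgroup G) (x : G)).ncard : ℚ) = Nat.card 𝒞 := by
    rw [← Finset.sum_fiberwise Finset.univ f, Nat.card_eq_fintype_card, ← Finset.card_univ, Finset.card_eq_sum_ones,
      Nat.cast_sum]
    refine Finset.sum_congr rfl fun c _ => ?_
    obtain ⟨x, rfl⟩ := surj c
    rw [Finset.sum_congr rfl (g := fun _ => (1 / (cs (P : Subgroup G) (x : G)).ncard : ℚ)) fun y hy => by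
      rw [← fib, ← fib, (Finset.mem_filter.1 hy).2], Finset.sum_const, fib, nsmul_eq_mul]
    have := (pos x).ne'
    field_simp
    simp
  have pt : ∀ x : (P : Subgroup G), (if (x : G) ∈ big (P : Subgroup G) then (1 : ℚ) else 0) / 3 - (if (x : G) ∈ center G then 1 else 0) ≤
      1 - 2 * (1 / (cs (P : Subgroup G) (x : G)).ncard) := fun x => by
    have p0 := pos x
    by_cases h3 : 3 ≤ (cs (P : Subgroup G) (x : G)).ncard
    · have : (3 : ℚ) ≤ (cs (P : Subgroup G) (x : G)).ncard := by exact_mod_cast h3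
      have := one_div_le_one_div_of_le (by norm_num) this
      split_ifs <;> linarith
    rw [if_neg fun h => h3 h.2]
    rcases (by omega : (cs (P : Subgroup G) (x : G)).ncard = 1 ∨ (cs (P : Subgroup G) (x : G)).ncard = 2) with e | e
    · obtain ⟨k, hk⟩ := P.2 x
      obtain ⟨a, ha⟩ := Set.ncard_eq_one.1 e
      have u : ∀ y ∈ cs (P : Subgroup G) (x : G), y = a := fun y hy => by rwa [ha] at hy
      rw [if_pos (H9.zstar_two_center (H9.iso_of_sylow P x.2 fun g hg => (u _ ⟨hg, isConj_iff.2 ⟨g, rfl⟩⟩).trans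
        (u _ ⟨x.2, IsConj.refl _⟩).symm) (k := k) (congrArg Subtype.val hk) hO), e]
      norm_num
    · rw [e]; split_ifs <;> norm_num
  have s2 := Finset.sum_le_sum fun x (_ : x ∈ Finset.univ) => pt x
  rw [Finset.sum_sub_distrib, Finset.sum_sub_distrib, ← Finset.sum_div, ← Finset.mul_sum, s1, Finset.sum_boole,
    Finset.sum_boole, Finset.sum_const, Finset.card_univ, ← Nat.card_eq_fintype_card, ← hk] at s2
  have c1 : (big (P : Subgroup G)).ncard = (Finset.univ.filter fun x : (P : Subgroup G) => (x : G) ∈ big (P : Subgroup G)).card := by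
    rw [← Set.ncard_coe_finset, ← Set.ncard_image_of_injective _ Subtype.val_injective]
    congr 1
    ext y
    simp only [Set.mem_image, Finset.coe_filter, Finset.mem_univ, true_and, Set.mem_ofPred_eq]
    exact ⟨fun h => ⟨⟨y, h.1⟩, h, rfl⟩, fun ⟨z, h, e⟩ => e ▸ h⟩
  have c2 : (Finset.univ.filter fun x : (P : Subgroup G) => (x : G) ∈ center G).card ≤ Nat.card (center G) := by
    rw [← Set.ncard_coe_finset, ← Set.ncard_image_of_injective _ Subtype.val_injective]
    exact Set.ncard_le_ncard (t := (center G : Set G)) (by rintro _ ⟨z, h, rfl⟩; simpa using h)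
  rw [← c1] at s2
  have c3 : ((Finset.univ.filter fun x : (P : Subgroup G) => (x : G) ∈ center G).card : ℚ) ≤ Nat.card (center G) := by exact_mod_cast c2
  have : ((big (P : Subgroup G)).ncard : ℚ) ≤ 3 * Nat.card (center G) := by
    push_cast [nsmul_eq_mul] at s2; linarith
  exact_mod_cast this

theorem big_quot {P Z : Subgroup G} [Z.Normal] (hZ : Z ≤ P) :
    Nat.card Z * (big (P.map (QuotientGroup.mk' Z))).ncard ≤ (big P).ncard := by
  have m : ∀ x : G, (x : G ⧸ Z) ∈ P.map (QuotientGroup.mk' Z) → x ∈ P := fun x hx => by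
    have : x ∈ (P.map (QuotientGroup.mk' Z)).comap (QuotientGroup.mk' Z) := hx
    rwa [comap_map_eq, QuotientGroup.ker_mk', sup_eq_left.2 hZ] at this
  rw [← Nat.card_coe_set_eq, ← QuotientGroup.card_preimage_mk, Nat.card_coe_set_eq]
  refine Set.ncard_le_ncard fun x hx => ⟨m x hx.1, hx.2.trans (le_trans (Set.ncard_le_ncard ?_)
    (Set.ncard_image_le (f := QuotientGroup.mk)))⟩
  rintro y ⟨hy, e⟩
  obtain ⟨c, rfl⟩ := isConj_iff.1 e
  obtain ⟨c, rfl⟩ := QuotientGroup.mk_surjective c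
  exact ⟨c * x * c⁻¹, ⟨m _ hy, isConj_iff.2 ⟨c, rfl⟩⟩, rfl⟩

theorem center_two (hO : pPrimeCore 2 G = ⊥) : IsPGroup 2 (center G) := by
  have : Fact (Nat.Prime 2) := ⟨Nat.prime_two⟩
  refine isPGroup_iff_forall_mem.2 fun x hx => ?_
  obtain ⟨k, m, hm, e⟩ := Nat.exists_eq_two_pow_mul_odd (orderOf_pos x).ne'
  have : (zpowers (x ^ 2 ^ k)).Normal := ⟨fun a ha c => by
    rwa [mem_center_iff.1 (zpowers_le.2 (pow_mem hx _) ha) c, mul_inv_cancel_right]⟩
  have h := H1.eq_bot_of_pPrimeCore_eq_bot hO (N := zpowers (x ^ 2 ^ k)) (by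
    rw [Nat.card_zpowers, orderOf_pow_of_dvd (by positivity) ⟨m, e⟩, e, Nat.mul_div_cancel_left _ (by positivity)]
    exact Nat.coprime_two_right.2 hm)
  exact ⟨k, zpowers_eq_bot.1 h⟩

theorem main (P : Sylow 2 G) (hO : pPrimeCore 2 G = ⊥)
    (hk : 2 * Nat.card {c : ConjClasses G // ∀ x ∈ c.carrier, ∃ k : ℕ, orderOf x = 2 ^ k} = Nat.card (P : Subgroup G)) :
    pPrimeCore 2 (G ⧸ center G) = ⊥ ∧ ¬ IsPGroup 2 (G ⧸ center G) ∧
      ∃ S : Sylow 2 (G ⧸ center G), (big (S : Subgroup (G ⧸ center G))).ncard ≤ 3 := by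
  have : Fact (Nat.Prime 2) := ⟨Nat.prime_two⟩
  have hZ := center_two hO
  refine ⟨H9.pPrimeCore_quotient_central_eq_bot hO _ le_rfl hZ, fun h => ?_,
    P.mapSurjective (QuotientGroup.mk'_surjective _), ?_⟩
  · have hG : IsPGroup 2 G := by
      obtain ⟨a, ha⟩ := IsPGroup.iff_card.1 h
      obtain ⟨b, hb⟩ := IsPGroup.iff_card.1 hZ
      exact IsPGroup.of_card (n := a + b) (by rw [card_eq_card_quotient_mul_card_subgroup (center G), ha, hb, pow_add])
    have e : (P : Subgroup G) = ⊤ := (P.3 (hG.to_subgroup ⊤) le_top).symm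
    have h3 := mod_three (G := G) fun x hx => by
      obtain ⟨k, hk⟩ := hG x
      have := pow_gcd_eq_one.2 ⟨hx, hk⟩
      rwa [Nat.Coprime.gcd_eq_one (Nat.Coprime.pow_right k (by norm_num)), pow_one] at this
    rw [Nat.card_congr (Equiv.subtypeUnivEquiv fun c x _ => IsPGroup.iff_orderOf.1 hG x),
      e, card_top] at hk
    rw [← hk] at h3
    unfold Nat.ModEq at h3
    generalize Nat.card (ConjClasses G) = c at h3
    rcases (by omega : c % 3 = 0 ∨ c % 3 = 1 ∨ c % 3 = 2) with e | e | e <;> simp [Nat.mul_mod, e] at h3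
  · have h := (big_quot (hZ.le_sylow_of_normal P)).trans (count P hO hk)
    rw [mul_comm 3] at h
    exact Nat.le_of_mul_le_mul_left h Nat.card_pos

end H3.Half
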