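import Cfsg.Agent.H3.MaxCl3
import Cfsg.Agent.H3.Br

/-! Generators of unipotent groups (Patterson): a group stabilizing a flag of length `r` with cyclic steps is generated,
modulo its derived group and the kernel, by `r²/4` elements (`Pat.gen`, by a weight filtration and Turán's theorem);
`p`-central groups (`Pat.pcentral`); the bound `k(k+4)/4` for odd `p` (`Pat.main`). -/

set_option autoImplicit false

namespace H3.Pat

open Subgroup
open scoped commutatorElement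

section
variable {V : Type*} [AddCommGroup V] {B : ℕ → AddSubgroup V} {r s t u x y : ℕ} {f g : AddMonoid.End V} {v : V}

/-- Endomorphisms lowering the weight by `t`. -/
def M (B : ℕ → AddSubgroup V) (t : ℕ) : AddSubgroup (AddMonoid.End V) where
  carrier := {f | ∀ x, ∀ v ∈ B (x + t), f v ∈ B x}
  zero_mem' x _ _ := (B x).zero_mem
  add_mem' h k x v hv := (B x).add_mem (h x v hv) (k x v hv)
  neg_mem' h x v hv := (B x).neg_mem (h x v hv)

theorem M_mul (hf : f ∈ M B s) (hg : g ∈ M B t) : f * g ∈ M B (s + t) :=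
  fun x v hv => hf x _ (hg (x + s) v (by rwa [add_assoc]))

/-- A flag of length at most `r` with cyclic steps at the weights `2 ^ i`. -/
structure Fl (B : ℕ → AddSubgroup V) (r : ℕ) : Prop where
  succ : ∀ x, B x ≤ B (x + 1)
  jump : ∀ x, B x ≠ B (x + 1) → ∃ i < r, x + 1 = 2 ^ i
  step : ∀ x, ∀ v ∈ B (x + 1), v ∉ B x → ∀ u ∈ B (x + 1), ∃ m : ℕ, u - m • v ∈ B x

theorem uniq {i j k l : ℕ} (h1 : 2 ^ j = 2 ^ i + t) (h2 : 2 ^ l = 2 ^ k + t) (ht : 1 ≤ t) : 2 ^ i = 2 ^ k := by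
  have a : ∀ {a b : ℕ}, 2 ^ a < 2 ^ b → 2 * 2 ^ a ≤ 2 ^ b := fun h => by
    rw [← pow_succ']; exact Nat.pow_le_pow_right two_pos ((Nat.pow_lt_pow_iff_right one_lt_two).1 h)
  have b1 := a (a := i) (b := j) (by omega)
  have b2 := a (a := k) (b := l) (by omega)
  have := Nat.two_pow_pos i
  have := Nat.two_pow_pos k
  rcases lt_trichotomy (2 ^ j) (2 ^ l) with h | h | h
  · have := a h; omega
  · omega
  · have := a h; omega

theorem Fl.anti (h : Fl B r) (hs : s ≤ t) : M B t ≤ M B s :=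
  fun _ hf x v hv => hf x v (monotone_nat_of_le_succ h.succ (by omega) hv)

theorem Fl.pos (h : Fl B r) (hf : f ∈ M B t) (hv : v ∈ B (x + (t + 1))) (hn : f v ∉ B x) :
    f v ∈ B (x + 1) ∧ v ∉ B (x + t) ∧ ∃ i < r, ∃ j < r, x + 1 = 2 ^ i ∧ 2 ^ j = 2 ^ i + t := by
  have h1 : f v ∈ B (x + 1) := hf _ _ (by rwa [add_right_comm])
  have h2 : v ∉ B (x + t) := fun e => hn (hf _ _ e)
  obtain ⟨i, hi, e1⟩ := h.jump x fun e => hn (e ▸ h1)
  obtain ⟨j, hj, e2⟩ := h.jump (x + t) fun e => h2 (e ▸ hv)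
  exact ⟨h1, h2, i, hi, j, hj, e1, by omega⟩

theorem exists_of_not_mem (hn : f ∉ M B t) : ∃ x, ∃ v ∈ B (x + t), f v ∉ B x := by
  by_contra! h; exact hn h

theorem Fl.mem_of (h : Fl B r) (hf : f ∈ M B t) (hv : v ∈ B (x + t + 1)) (hn : v ∉ B (x + t)) (e : f v ∈ B x)
    {w : V} (hw : w ∈ B (x + t + 1)) : f w ∈ B x := by
  obtain ⟨m, hm⟩ := h.step _ v hv hn w hw
  simpa using (B x).add_mem (hf _ _ hm) ((B x).nsmul_mem e m)

theorem Fl.k1 (h : Fl B r) (ht : 1 ≤ t) (hg : g ∈ M B t) (hn : g ∉ M B (t + 1)) (hf : f ∈ M B t) :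
    ∃ n : ℕ, f - n • g ∈ M B (t + 1) := by
  obtain ⟨x, v, hv, hn⟩ := exists_of_not_mem hn
  obtain ⟨h1, h2, i, -, j, -, e1, e2⟩ := h.pos hg hv hn
  obtain ⟨n, e⟩ := h.step x _ h1 hn (f v) (hf _ _ (by rwa [add_right_comm]))
  refine ⟨n, by_contra fun k => ?_⟩
  have k1 := sub_mem hf ((M B t).nsmul_mem hg n)
  obtain ⟨y, w, hw, k⟩ := exists_of_not_mem k
  obtain ⟨-, -, i', -, j', -, e3, e4⟩ := h.pos k1 hw k
  obtain rfl : x = y := by have := uniq e2 e4 ht; omega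
  exact k (h.mem_of k1 hv h2 e hw)

theorem Fl.k2 (h : Fl B r) (hs : 1 ≤ s) (ht : 1 ≤ t) {i j l : ℕ} (e1 : 2 ^ j = 2 ^ i + s) (e2 : 2 ^ l = 2 ^ j + t)
    (hf : f ∈ M B s) (nf : f ∉ M B (s + 1)) (hg : g ∈ M B t) (ng : g ∉ M B (t + 1)) :
    f * g - g * f ∉ M B (s + t + 1) := by
  obtain ⟨x, v, hv, nf⟩ := exists_of_not_mem nf
  obtain ⟨y, w, hw, ng⟩ := exists_of_not_mem ng
  obtain ⟨-, -, i1, -, j1, -, a1, a2⟩ := h.pos hf hv nf
  obtain ⟨b1, -, i2, -, j2, -, b3, b4⟩ := h.pos hg hw ng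
  obtain rfl : y = x + s := by have := uniq e1 a2 hs; have := uniq e2 b4 ht; omega
  have c1 : g (f w) ∈ B x := by_contra fun k => by
    obtain ⟨-, -, i3, -, j3, -, c2, c3⟩ := h.pos hg (hf _ w (by rwa [add_right_comm])) k
    have := uniq b4 c3 ht; omega
  intro k
  have c2 : f (g w) - g (f w) ∈ B x := k x w (by rwa [add_assoc s, ← add_assoc])
  exact nf (h.mem_of hf b1 ng (by simpa using (B x).add_mem c2 c1) hv)

variable {G : Type*} [Group G] {ρ : G →* AddMonoid.End V}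

theorem Fl.zero (h : Fl B r) (a : ∀ g, ρ g - 1 ∈ M B 1) (g : G) : ρ g ∈ M B 0 := by
  simpa using add_mem (h.anti zero_le_one (a g)) (show (1 : AddMonoid.End V) ∈ M B 0 from fun _ _ hv => hv)

/-- The weight filtration of the group. -/
def Fl.F (h : Fl B r) (a : ∀ g, ρ g - 1 ∈ M B 1) (t : ℕ) : Subgroup G where
  carrier := {g | ρ g - 1 ∈ M B t}
  one_mem' := by simp
  mul_mem' {b c} hb hc := by
    have := add_mem (M_mul hb (h.zero a c)) hc
    rwa [sub_mul, one_mul, sub_add_sub_cancel, ← map_mul] at this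
  inv_mem' {b} hb := by
    have := neg_mem (M_mul hb (h.zero a b⁻¹))
    rwa [sub_mul, one_mul, ← map_mul, mul_inv_cancel, map_one, neg_sub] at this

theorem Fl.le_sup (h : Fl B r) (a : ∀ g, ρ g - 1 ∈ M B 1) (ht : 1 ≤ t) {c : G} (hc : c ∈ h.F a t)
    (hn : c ∉ h.F a (t + 1)) : h.F a t ≤ zpowers c ⊔ h.F a (t + 1) := fun f hf => by
  obtain ⟨n, e⟩ := h.k1 ht hc hn hf
  have k : ∀ n : ℕ, ρ (c ^ n) - 1 - n • (ρ c - 1) ∈ M B (t + 1) := fun n => by
    induction n with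
    | zero => simp
    | succ n ih =>
      convert add_mem ih (h.anti (by omega) (M_mul (pow_mem hc n) hc)) using 1
      rw [pow_succ, map_mul, succ_nsmul]; noncomm_ring
  have k2 := M_mul (h.zero a (c ^ n)⁻¹) (sub_mem e (k n))
  rw [sub_sub_sub_cancel_right, sub_sub_sub_cancel_right, mul_sub, ← map_mul, ← map_mul, inv_mul_cancel, map_one,
    zero_add] at k2
  simpa using mul_mem_sup (pow_mem (mem_zpowers c) n) (show (c ^ n)⁻¹ * f ∈ h.F a (t + 1) from k2)

theorem Fl.gen (h : Fl B r) (a : ∀ g, ρ g - 1 ∈ M B 1) {K : Subgroup G} (hK : ∀ b c : G, ⁅b, c⁆ ∈ K) (N : ℕ) :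
    ∃ T : Finset G, T.card ≤ r ^ 2 / 4 ∧ closure (T : Set G) ⊔ K ⊔ h.F a N = ⊤ := by
  classical
  let bad : ℕ → Prop := fun t => 1 ≤ t ∧ ¬ h.F a t ≤ K ⊔ h.F a (t + 1)
  have b1 : ∀ t, ∃ c, bad t → c ∈ h.F a t ∧ c ∉ h.F a (t + 1) := fun t => by
    by_cases e : bad t
    · obtain ⟨c, h1, h2⟩ := SetLike.not_le_iff_exists.1 e.2
      exact ⟨c, fun _ => ⟨h1, fun k => h2 (mem_sup_right k)⟩⟩
    · exact ⟨1, fun k => (e k).elim⟩
  choose c hc using b1
  have tri : ∀ i j l s t u : ℕ, bad s → bad t → bad u → 2 ^ j = 2 ^ i + s → 2 ^ l = 2 ^ j + t →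
      2 ^ l = 2 ^ i + u → False := fun i j l s t u hs ht hu e1 e2 e3 => by
    obtain rfl : u = s + t := by omega
    have k1 := h.k2 hs.1 ht.1 e1 e2 (hc s hs).1 (hc s hs).2 (hc t ht).1 (hc t ht).2
    have k2 := sub_mem (M_mul (hc s hs).1 (hc t ht).1) (add_comm t s ▸ M_mul (hc t ht).1 (hc s hs).1)
    have k3 : (ρ (c s) - 1) * (ρ (c t) - 1) - (ρ (c t) - 1) * (ρ (c s) - 1) =
        (ρ ⁅c s, c t⁆ - 1) * ρ (c t * c s) := by
      rw [sub_mul (ρ ⁅c s, c t⁆), ← map_mul, show ⁅c s, c t⁆ * (c t * c s) = c s * c t by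
        rw [commutatorElement_def]; group, map_mul, map_mul]; noncomm_ring
    rw [k3] at k1 k2
    have k4 := M_mul k2 (h.zero a (c t * c s)⁻¹)
    rw [mul_assoc, ← map_mul, mul_inv_cancel, map_one, mul_one] at k4
    exact hu.2 ((h.le_sup a hu.1 k4 fun k => k1 (M_mul (s := s + t + 1) k (h.zero a _))).trans
      (sup_le_sup_right (zpowers_le.2 (hK _ _)) _))
  let Γ : SimpleGraph (Fin r) := ⟨fun i j => ∃ t, bad t ∧ (2 ^ (j : ℕ) = 2 ^ (i : ℕ) + t ∨ 2 ^ (i : ℕ) = 2 ^ (j : ℕ) + t),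
    ⟨fun i j ⟨t, h1, h2⟩ => ⟨t, h1, h2.symm⟩⟩, ⟨fun i ⟨t, h1, h2⟩ => by have := h1.1; omega⟩⟩
  have g1 : Γ.CliqueFree (2 + 1) := fun S hS => by
    obtain ⟨i, j, l, ⟨s, hs, e1⟩, ⟨t, ht, e2⟩, ⟨u, hu, e3⟩, -⟩ := SimpleGraph.is3Clique_iff.1 hS
    have := hs.1; have := ht.1; have := hu.1
    rcases e1 with e1 | e1 <;> rcases e2 with e2 | e2 <;> rcases e3 with e3 | e3
    · exact tri _ _ _ _ _ _ hs hu ht e1 e3 e2
    · exact tri _ _ _ _ _ _ ht hu hs e2 e3 e1
    · omega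
    · exact tri _ _ _ _ _ _ ht hs hu e2 e1 e3
    · exact tri _ _ _ _ _ _ hs ht hu e1 e2 e3
    · omega
    · exact tri _ _ _ _ _ _ hu ht hs e3 e2 e1
    · exact tri _ _ _ _ _ _ hu hs ht e3 e1 e2
  have g2 := g1.card_edgeFinset_le
  have g3 : ((Finset.range N).filter bad).card ≤ Γ.edgeFinset.card := by
    refine Finset.card_le_card_of_surjOn (Sym2.lift ⟨fun i j : Fin r => Nat.dist (2 ^ (i : ℕ)) (2 ^ (j : ℕ)),
      fun _ _ => Nat.dist_comm _ _⟩) fun t ht => ?_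
    have hb : bad t := (Finset.mem_filter.1 ht).2
    obtain ⟨x, v, hv, k⟩ := exists_of_not_mem (hc t hb).2
    obtain ⟨-, -, i, hi, j, hj, -, e⟩ := h.pos (hc t hb).1 hv k
    refine ⟨s(⟨i, hi⟩, ⟨j, hj⟩), by simpa using ⟨t, hb, Or.inl e⟩, ?_⟩
    simp [e, Nat.dist]
  refine ⟨((Finset.range N).filter bad).image c, Finset.card_image_le.trans (g3.trans (g2.trans ?_)), ?_⟩
  · have : (r % 2).choose 2 = 0 := Nat.choose_eq_zero_of_lt (Nat.mod_lt _ two_pos)
    simp only [Fintype.card_fin, this, add_zero]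
    exact Nat.div_le_div_right (by omega)
  set L := closure ((((Finset.range N).filter bad).image c : Finset G) : Set G) ⊔ K ⊔ h.F a N
  have k : ∀ d t, t + d = N → 1 ≤ t → h.F a t ≤ L := fun d => by
    induction d with
    | zero => rintro t rfl -; exact le_sup_right
    | succ d ih =>
      intro t e ht
      have k1 := ih (t + 1) (by omega) (by omega)
      by_cases hb : bad t
      · refine (h.le_sup a ht (hc t hb).1 (hc t hb).2).trans (sup_le (zpowers_le.2 (mem_sup_left (mem_sup_left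
          (subset_closure ?_)))) k1)
        simp only [Finset.coe_image]
        exact ⟨t, by simpa using ⟨by omega, hb⟩, rfl⟩
      · exact (not_not.1 fun e => hb ⟨ht, e⟩).trans (sup_le (le_sup_of_le_left le_sup_right) k1)
  refine top_le_iff.1 fun g _ => ?_
  obtain _ | N := N
  · exact mem_sup_right (h.anti zero_le_one (a g))
  · exact k N 1 (add_comm _ _) le_rfl (a g)

end

open H18 H3 Cfsg

universe u

variable {p : ℕ}

theorem chain {G : Type*} [Group G] [Finite G] {R : Subgroup G} (hp : p.Prime) (hR : PiGrp {p} R) (n : ℕ) :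
    ∀ {V : Subgroup G}, V ⊴ R → Nat.card V = p ^ n → ∃ B : ℕ → Subgroup G, B 0 = ⊥ ∧
      (∀ x, 2 ^ n ≤ x + 1 → B x = V) ∧ ∀ x, B x ≤ B (x + 1) ∧ (B x ≠ B (x + 1) → ∃ i < n, x + 1 = 2 ^ i) ∧
      ⁅B (x + 1), R⁆ ≤ B x ∧ ∀ v ∈ B (x + 1), v ∉ B x → ∀ w ∈ B (x + 1), ∃ m : ℕ, w * (v ^ m)⁻¹ ∈ B x := by
  induction n with
  | zero =>
    intro V _ h
    obtain rfl := card_eq_one.1 h
    exact ⟨fun _ => ⊥, rfl, fun _ _ => rfl, fun _ => ⟨le_rfl, fun h => (h rfl).elim, by simp, fun _ h k => (k h).elim⟩⟩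
  | succ n ih =>
    intro V hV h
    obtain ⟨W, -, w2, w3, w4⟩ := exists_nml_below hp hR .bot hV (bot_lt_iff_ne_bot.2 (ne_bot_of_prime_dvd hp
      (h ▸ dvd_pow_self p n.succ_ne_zero)))
    obtain ⟨B, b0, b1, b2⟩ := ih w3 (Nat.eq_of_mul_eq_mul_right hp.pos (by rw [← w4, h, pow_succ]))
    have := Nat.two_pow_pos n
    refine ⟨fun x => if x < 2 ^ n then B x else V, by simp [b0], fun x hx => if_neg (by omega), fun x => ?_⟩
    rcases lt_trichotomy (x + 1) (2 ^ n) with e | e | e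
    · simp only [if_pos e, if_pos (show x < 2 ^ n by omega)]
      obtain ⟨c1, c2, c3⟩ := b2 x
      exact ⟨c1, fun k => (c2 k).imp fun i hi => ⟨by omega, hi.2⟩, c3⟩
    · simp only [if_neg e.not_lt, if_pos (show x < 2 ^ n by omega), b1 x e.ge]
      refine ⟨w2, fun _ => ⟨n, by omega, e⟩, comm_le_of_card_mul hR w3.norm hV w2 w4.le, fun v h1 h2 w hw => ?_⟩
      rw [← sup_zpowers_eq_of_prime (relIndex_eq_of_mul w2 w4 ▸ hp) w2 h1 h2] at hw
      obtain ⟨a, ha, b, hb, rfl⟩ := (mem_sup_of_norm' ((zpowers_le.2 (hV.le h1)).trans w3.norm)).1 hw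
      obtain ⟨m, rfl⟩ := (mem_powers_iff_mem_zpowers.2 hb :)
      exact ⟨m, by simpa using ha⟩
    · simp only [if_neg e.not_gt, if_neg (show ¬ x < 2 ^ n by omega)]
      exact ⟨le_rfl, fun k => (k rfl).elim, (hV.comm_le_inf .rfl).trans inf_le_left, fun _ h k => (k h).elim⟩

theorem pcentral (hp : p.Prime) (h2 : p ≠ 2) (n : ℕ) : ∀ {G : Type u} [Group G] [Finite G], Nat.card G = n →
    IsPGroup p G → ∀ A K : Subgroup G, A ≤ center G → (∀ x : G, x ∈ A ↔ x ^ p = 1) → (∀ x : G, x ^ p ∈ K) →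
      K.index ≤ Nat.card A := by
  induction n using Nat.strong_induction_on with | _ n ih =>
  intro G _ _ hn hG A K hA eA hK
  have := Fact.mk hp
  by_cases a0 : A = ⊥
  · have : Subsingleton G := by
      by_contra k
      have := not_subsingleton_iff_nontrivial.1 k
      obtain ⟨m, h1, hm⟩ := hG.nontrivial_iff_card.1 this
      obtain ⟨x, hx⟩ := exists_prime_orderOf_dvd_card' (G := G) p (hm ▸ dvd_pow_self p h1.ne')
      have := (eA x).2 (hx ▸ pow_orderOf_eq_one x)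
      rw [a0, mem_bot] at this
      simp [this] at hx; exact hp.ne_one hx.symm
    rw [Subsingleton.elim K ⊤, index_top]; exact Nat.card_pos
  have : A.Normal := ⟨fun a ha g => by rw [mem_center_iff.1 (hA ha) g]; simpa using ha⟩
  let π := QuotientGroup.mk' A
  have hπ : Function.Surjective π := QuotientGroup.mk'_surjective A
  have kπ : ∀ x, π x = 1 ↔ x ^ p = 1 := fun x => (QuotientGroup.eq_one_iff x).trans (eA x)
  have hQ := hG.to_quotient A
  obtain ⟨E, ⟨e1, e2, e3⟩, e4⟩ := exists_maximal_of_wellFoundedGT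
    (fun E : Subgroup (G ⧸ A) => E ⊴ ⊤ ∧ Abel E ∧ ∀ x ∈ E, x ^ p ^ 1 = 1) ⟨⊥, .bot, abel_bot, by simp⟩
  have d1 : ⁅E.comap π, E.comap π⁆ ≤ A := commutator_le.2 fun a ha b hb => by
    rw [← QuotientGroup.eq_one_iff, ← QuotientGroup.mk'_apply, map_commutatorElement,
      commutatorElement_eq_one_iff_mul_comm]
    exact e2 hb _ ha
  have d2 : ∀ a ∈ E.comap π, ∀ b ∈ E.comap π, (a * b) ^ p = a ^ p * b ^ p := fun a ha b hb =>
    (reg_of_class_two hp h2 (eq_bot_iff.2 ((commutator_mono (d1.trans hA) le_top).trans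
      (commutator_le.2 fun a ha g _ => commutatorElement_eq_one_iff_mul_comm.2
        (mem_center_iff.1 ha g).symm))) : Reg p (E.comap π)).mul_pow
      (fun c hc => (eA c).1 (d1 hc)) ha hb
  have d3 : ∀ a ∈ E.comap π, a ^ p ∈ A := fun a ha => by
    rw [← QuotientGroup.eq_one_iff, ← QuotientGroup.mk'_apply, map_pow]; simpa only [pow_one] using e3 _ ha
  have d4 : E ≤ center (G ⧸ A) := fun x hx => mem_center_iff.2 fun g => by
    obtain ⟨x, rfl⟩ := hπ x
    obtain ⟨g, rfl⟩ := hπ g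
    have h1 : g * x * g⁻¹ ∈ E.comap π := (e1.normal.comap π).conj_mem x hx g
    rw [← commutatorElement_eq_one_iff_mul_comm, ← map_commutatorElement, kπ, commutatorElement_def,
      d2 _ h1 _ (inv_mem hx), conj_pow, mem_center_iff.1 (hA (d3 x hx)) g]
    simp
  have d5 : ∀ x, x ∈ E ↔ x ^ p = 1 := fun x => ⟨fun h => by simpa using e3 x h, fun h =>
    alperin_cent_max_abel hp (piTop hp hQ) (n := 1) (by simpa using h2) e1 e2 e3
      (fun B b1 b2 b3 b4 => le_antisymm (e4 ⟨b1, b2, b3⟩ b4) b4) (mem_top x)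
      (fun a ha => (mem_center_iff.1 (d4 ha) x).symm) (by simpa using h)⟩
  have i1 := ih _ (by
    rw [← hn, card_eq_card_quotient_mul_card_subgroup A]
    exact lt_mul_of_one_lt_right Nat.card_pos (one_lt_card_iff_ne_bot A |>.2 a0)) rfl hQ E (K.map π) d4 d5
    fun x => by obtain ⟨x, rfl⟩ := hπ x; exact ⟨_, hK x, map_pow π x p⟩
  have i2 : Nat.card E ≤ Nat.card (K ⊓ A : Subgroup G) := by
    choose σ hσ using hπ
    have m : ∀ x : E, σ x ∈ E.comap π := fun x => by rw [mem_comap, hσ]; exact x.2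
    refine Nat.card_le_card_of_injective (fun x => ⟨σ x ^ p, hK _, d3 _ (m x)⟩) fun x y e => Subtype.ext ?_
    have e : σ x ^ p = σ y ^ p := congrArg Subtype.val e
    rw [← hσ x, ← hσ y, ← mul_inv_eq_one, ← map_inv, ← map_mul, kπ, d2 _ (m x) _ (inv_mem (m y)), e]
    simp
  rw [index_map, QuotientGroup.ker_mk', QuotientGroup.range_mk', index_top, mul_one] at i1
  rw [← relIndex_mul_index (le_sup_left : K ≤ K ⊔ A), ← card_mul_relIndex' (A := K) (B := A), mul_comm, sup_comm K,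
    relIndex_sup_of_norm (hA.trans (center_le_normalizer (K : Set G))), sup_comm A]
  exact Nat.mul_le_mul_right _ (i1.trans i2)

theorem card_closure_le {G : Type*} [Group G] [Finite G] (hp : p.Prime) {A : Subgroup G} (hA : Abel A)
    (eA : ∀ a ∈ A, a ^ p = 1) (S : Finset G) : closure (S : Set G) ≤ A → Nat.card (closure (S : Set G)) ≤ p ^ S.card := by
  classical
  induction S using Finset.induction_on with
  | empty => simp
  | insert a S ha ih =>
    rw [Finset.coe_insert, Set.insert_eq, Subgroup.closure_union, ← zpowers_eq_closure, Finset.card_insert_of_notMem ha, pow_succ]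
    intro h
    have h1 := le_sup_left.trans h
    have h2 := le_sup_right.trans h
    rw [← card_mul_relIndex le_sup_right, relIndex_sup_of_norm (h1.trans (hA.norm h2))]
    refine Nat.mul_le_mul (ih h2) ((Nat.le_of_dvd Nat.card_pos relIndex_dvd).trans ?_)
    rw [Nat.card_zpowers]
    exact Nat.le_of_dvd hp.pos (orderOf_dvd_of_pow_eq_one (eA a (h1 (mem_zpowers a))))

open scoped IsMulCommutative in
theorem gen_mod {G : Type*} [Group G] [Finite G] (hp : p.Prime) (hG : PiGrp {p} (⊤ : Subgroup G)) {A : Subgroup G}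
    (nA : A ⊴ ⊤) (hA : Abel A) {r : ℕ} (hr : Nat.card A = p ^ r) (H : Subgroup G) :
    ∃ T : Finset G, T.card ≤ r ^ 2 / 4 ∧ closure (T : Set G) ≤ H ∧ H ≤ closure (T : Set G) ⊔ ⁅H, H⁆ ⊔ H ⊓ C(A) := by
  classical
  have := nA.normal
  have := hA.comm
  obtain ⟨B, b0, b1, b2⟩ := chain hp hG r nA hr
  let ρ : H →* AddMonoid.End (Additive A) :=
    { toFun := fun g => MonoidHom.toAdditive (MulAut.conjNormal (g : G)).toMonoidHom
      map_one' := by ext; simp; rfl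
      map_mul' := fun _ _ => by ext; simp; rfl }
  let B' : ℕ → AddSubgroup (Additive A) := fun x => ((B x).subgroupOf A).toAddSubgroup
  have m : ∀ x v, v ∈ B' x ↔ (v.toMul : G) ∈ B x := fun _ _ => Iff.rfl
  have e : ∀ g v, (((ρ g - 1) v).toMul : G) = ⁅(v.toMul : G), (g : G)⁆⁻¹ := fun g v => by
    change (g : G) * (v.toMul : A) * (g : G)⁻¹ / (v.toMul : A) = _
    rw [commutatorElement_inv, commutatorElement_def, div_eq_mul_inv]
  have f : Fl B' r := ⟨fun x v hv => (b2 x).1 hv, fun x h => (b2 x).2.1 fun k => h (by simp only [B', k]),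
    fun x v h1 h2 w hw => ((b2 x).2.2.2 _ h1 h2 _ hw).imp fun n h => by simpa [m, div_eq_mul_inv] using h⟩
  have a : ∀ g, ρ g - 1 ∈ M B' 1 := fun g x v hv => by
    rw [m, e]; exact inv_mem ((b2 x).2.2.1 (commutator_mem_commutator hv (mem_top _)))
  obtain ⟨T, t1, t2⟩ := f.gen a (K := (⁅H, H⁆ : Subgroup G).subgroupOf H)
    (fun b c => commutator_mem_commutator b.2 c.2) (2 ^ r)
  have t3 := congrArg (map H.subtype) t2
  rw [Subgroup.map_sup, Subgroup.map_sup, ← MonoidHom.range_eq_map, range_subtype, MonoidHom.map_closure] at t3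
  refine ⟨T.image H.subtype, Finset.card_image_le.trans t1, ?_, t3.ge.trans (sup_le_sup (sup_le_sup
    (by rw [Finset.coe_image]) (map_le_iff_le_comap.2 le_rfl)) ?_)⟩
  · rw [Finset.coe_image, ← MonoidHom.map_closure]; exact map_subtype_le _
  rintro _ ⟨g, hg, rfl⟩
  refine ⟨g.2, fun v hv => ?_⟩
  have := hg 0 (Additive.ofMul ⟨v, hv⟩) (by rw [m, b1 _ (by omega)]; exact hv)
  rwa [m, e, b0, mem_bot, inv_eq_one, commutatorElement_eq_one_iff_mul_comm] at this

theorem main {G : Type u} [Group G] [Finite G] (hp : p.Prime) (h2 : p ≠ 2) (hG : IsPGroup p G) {k : ℕ}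
    (hab : ∀ A : Subgroup G, A ⊴ ⊤ → Abel A → ∃ S : Finset G, S.card ≤ k ∧ closure (S : Set G) = A) (H : Subgroup G) :
    ∃ S : Finset G, S.card ≤ k * (k + 4) / 4 ∧ closure (S : Set G) = H := by
  classical
  have hP := piTop hp hG
  obtain ⟨A, ⟨e1, e2, e3⟩, e4⟩ := exists_maximal_of_wellFoundedGT
    (fun E : Subgroup G => E ⊴ ⊤ ∧ Abel E ∧ ∀ x ∈ E, x ^ p ^ 1 = 1) ⟨⊥, .bot, abel_bot, by simp⟩
  have d5 : ∀ x ∈ C(A), x ^ p = 1 → x ∈ A := fun x hx h =>
    alperin_cent_max_abel hp hP (n := 1) (by simpa using h2) e1 e2 e3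
      (fun B b1 b2 b3 b4 => le_antisymm (e4 ⟨b1, b2, b3⟩ b4) b4) (mem_top x) hx (by simpa using h)
  simp only [pow_one] at e3
  obtain ⟨S, s1, s2⟩ := hab A e1 e2
  have c1 : Nat.card A ≤ p ^ k := (s2 ▸ card_closure_le hp e2 e3 S s2.le).trans (Nat.pow_le_pow_right hp.pos s1)
  obtain ⟨r, hr⟩ := (hP.of_le (le_top (a := A))).eq_pow card_pos'.ne'
  obtain ⟨T, t1, t2, t3⟩ := gen_mod hp hP e1 e2 hr H
  have c2 := pcentral hp h2 _ rfl (hG.to_subgroup (H ⊓ C(A))) (A.subgroupOf _) (Φ(H).subgroupOf _)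
    (fun a ha => mem_center_iff.2 fun g => Subtype.ext (g.2.2 a ha).symm)
    (fun x => ⟨fun h => Subtype.ext (e3 _ h), fun h => d5 _ x.2.2 (congrArg Subtype.val h)⟩)
    fun x => pow_mem_phi hp (hP.of_le le_top) x.2.1
  obtain ⟨U, u1, u2, u3⟩ := exists_gen_of_relIndex hp (hP.of_le (le_top (a := H ⊓ C(A)))) k (H ⊓ C(A) ⊓ Φ(H))
    inf_le_left (by
      rw [relIndex_inf_left]
      refine c2.trans (le_trans ?_ c1)
      rw [← card_map_of_injective (H ⊓ C(A)).subtype_injective, subgroupOf_map_subtype]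
      exact card_le inf_le_left)
  refine ⟨T ∪ U, (Finset.card_union_le _ _).trans ?_, ?_⟩
  · have : r ≤ k := (Nat.pow_le_pow_iff_right hp.one_lt).1 (hr ▸ c1)
    have := Nat.div_le_div_right (c := 4) (Nat.pow_le_pow_left this 2)
    rw [mul_add, ← sq]; omega
  rw [Finset.coe_union, Subgroup.closure_union]
  refine eq_of_le_sup_phi (sup_le t2 (u2.trans inf_le_left)) (t3.trans (sup_le (sup_le_sup le_sup_left
    (der_le_phi hp (hP.of_le le_top))) (u3.trans (sup_le_sup le_sup_right inf_le_right))))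

end H3.Pat
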