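import Cfsg.Agent.H3.AbFix
import Cfsg.Agent.H5.Tw3
import Cfsg.Agent.H1.BG3a

/-! Coprime action of an elementary abelian `r`-group `A` whose fixed points have odd order and normalize the
invariant Sylow subgroups (`HY`): local lemmas `xg`, `nz`, the rank two case `R2`, `ua A X a = [C_X(a), A]`,
and the bound on the Fitting height of `[N, A]` (`R2.fh`). -/

set_option autoImplicit false
set_option linter.unusedSectionVars false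
open Cfsg H18 H1 Subgroup
open scoped commutatorElement Pointwise

namespace H3.Pt
variable {G : Type*} [Group G] [Finite G] {A B D E H K L M N P Q R S T U V W X Y Z : Subgroup G} {a b c g z : G}
  {p q r s : ℕ} {π : Set ℕ}

theorem odd_of_pi (hq : q ≠ 2) (h : PiGrp {q} D) : Odd (Nat.card D) := by
  rw [← Nat.not_even_iff_odd, even_iff_two_dvd]
  exact fun e => hq (h 2 Nat.prime_two e).symm

theorem xg (hz : (Nat.card Z).Prime) (oz : Odd (Nat.card Z)) (hU : Nil U) (hq : PiGrp {q} D)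
    (hU' : PiGrp {q}ᶜ U) (cD : Cop Z D) (cU : Cop Z U) (nD : D ≤ N(U)) (h0 : U ⊓ C(Z) ≤ ⁅U, U⁆)
    (hc : q ≠ 2 ∨ D ⊓ C(Z) = ⊥) : ⁅D, Z⁆ ≤ C(U) := by
  have n1 : Z ≤ N(⁅U, U⁆) := norm_der cU.norm
  have n2 : D ≤ N(⁅U, U⁆) := norm_der nD
  have n3 : U ≤ N(⁅U, U⁆) := nml_der.norm
  have d1 : ⁅D, Z⁆ ≤ D := comm_le_left cD.norm
  have z1 : Nat.card ↥(Z ⫽ ⁅U, U⁆) = Nat.card Z :=
    card_quo_of_disj n1 (eq_bot_iff.2 (cU.inf_eq_bot ▸ inf_le_inf_left _ der_le))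
  have f := cU.quo_cent_eq_bot n1 n3 h0
  have k : ⁅D ⫽ ⁅U, U⁆, Z ⫽ ⁅U, U⁆⁆ ≤ C(U ⫽ ⁅U, U⁆) := by
    rcases hc with hc | hc
    · exact odd_prime_sdprod_cent1 cD.mim hq.solv.mim (z1 ▸ hz) (odd_of_pi hc hq.mim) (z1 ▸ oz) hU.solv.mim
        (mim_norm nD) cU.mim.norm (hU'.mim.coprime' hq.mim) cU.mim.cop.symm f
    · have := H23.thompson_prime (norm_sup cU.mim.norm cD.mim.norm) (z1 ▸ hz)
        (fpf_sup cD.mim cU.mim.norm (mim_norm nD) (cD.quo_cent_eq_bot n1 n2 (hc ▸ bot_le)) f)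
      exact (comm_le_left cD.mim.norm).trans (this.cent_pi le_sup_right le_sup_left hq.mim hU'.mim)
  rw [← mim_comm n2 n1, ← comm_le_iff_quo (d1.trans n2) n3, comm_comm] at k
  have c : Cop ⁅D, Z⁆ U := cop_of_pi (d1.trans nD) (hq.of_le d1) hU' (.inr hU.solv)
  have e := hU.eq_of_le_sup_der inf_le_left ((c.le_sup_of_comm_le k).trans (sup_comm _ _).le)
  exact cent_symm (e.ge.trans inf_le_right)

theorem comm_cent_le (c : Cop E V) : ⁅V, E⁆ ⊓ C(E) ≤ ⁅⁅V, E⁆, ⁅V, E⁆⁆ := c.comm.cent_le_of_comm_eq c.comm_comm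

theorem cent_of_comm (c : Cop E V) (h1 : D ≤ E) (h2 : D ≤ C(⁅V, E⁆)) : D ≤ C(V) := by
  rw [← c.comm_sup]
  exact cent_symm (sup_le (cent_symm h2) (inf_le_right.trans (C_anti h1)))

theorem nz (hz : (Nat.card Z).Prime) (oz : Odd (Nat.card Z)) (hV : Nil V) (hq : PiGrp {q} D)
    (hV' : PiGrp {q}ᶜ V) (cD : Cop Z D) (cV : Cop Z V) (nD : D ≤ N(V)) (h0 : V ⊓ C(Z) ≤ C(D))
    (hc : q ≠ 2 ∨ D ⊓ C(Z) = ⊥) : ⁅D, Z⁆ ≤ C(V) := by
  have c : Cop D V := cop_of_pi nD hq hV' (.inr hV.solv)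
  have u : ⁅V, D⁆ ≤ V := comm_le_left nD
  exact cent_of_comm c (comm_le_left cD.norm) (xg hz oz (hV.of_le u) hq (hV'.of_le u) cD
    (cV.sub u (norm_comm cV.norm cD.norm)) norm_comm_right
    ((le_inf inf_le_left ((inf_le_inf_right _ u).trans h0)).trans (comm_cent_le c)) hc)

/-- the fixed points have odd order and normalize the invariant Sylow subgroups -/
structure HY (r : ℕ) (A K : Subgroup G) : Prop where
  pr : r.Prime
  r2 : r ≠ 2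
  el : Elem r A
  cop : Cop A K
  odd : PiGrp {2}ᶜ (K ⊓ C(A))
  nor : ∀ p P, p.Prime → Hall {p} P K → A ≤ N(P) → K ⊓ C(A) ≤ N(P)

namespace HY

theorem le_syl (h : HY r A K) (hp : p.Prime) (hP : Hall {p} P K) (nP : A ≤ N(P)) (h1 : X ≤ K)
    (h2 : A ≤ N(X)) (h3 : PiGrp {p} X) : X ≤ P := by
  obtain ⟨S, a1, a2, a3⟩ := h.cop.exists_sylow_ge hp h1 h3 h2
  obtain ⟨g, hg, e⟩ := coprime_Sylow_trans h.cop hp hP a1 nP a3
  rw [cj_eq_self (h.nor p P hp hP nP hg)] at e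
  exact e ▸ a2

theorem hall_inf (h : HY r A K) (hp : p.Prime) (hP : Hall {p} P K) (nP : A ≤ N(P)) (h1 : H ≤ K)
    (h2 : A ≤ N(H)) : Hall {p} (P ⊓ H) H := by
  obtain ⟨S, a1, a3⟩ := (h.cop.sub h1 h2).exists_sylow hp
  exact a1.of_ge (le_inf (h.le_syl hp hP nP (a1.le.trans h1) a3 a1.pi) a1.le) inf_le_right hP.pi.inf_left

theorem sub (h : HY r A K) (h1 : W ≤ K) (h2 : A ≤ N(W)) : HY r A W := by
  refine ⟨h.pr, h.r2, h.el, h.cop.sub h1 h2, h.odd.of_le (inf_le_inf_right _ h1), fun p S hp hS nS => ?_⟩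
  obtain ⟨P, hP, nP⟩ := h.cop.exists_sylow hp
  rw [hS.eq_of_le' (h.hall_inf hp hP nP h1 h2) (le_inf (h.le_syl hp hP nP (hS.le.trans h1) nS hS.pi) hS.le)]
  exact norm_inf ((inf_le_inf_right _ h1).trans (h.nor p P hp hP nP)) (inf_le_left.trans le_N)

theorem cfix (h : HY r A K) (hp : p.Prime) (u1 : U ≤ K) (u2 : A ≤ N(U)) (u3 : PiGrp {p} U) (v1 : V ≤ K)
    (v2 : A ≤ N(V)) (v3 : PiGrp {p}ᶜ V) (hn : U ≤ N(V)) : V ⊓ C(A) ≤ C(U) := by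
  have k := (h.sub (sup_le v1 u1) (norm_sup v2 u2)).nor p U hp (hall_of_sup' u3 v3 (.inl hn)) u2
  have k' : V ⊓ C(A) ≤ N(U) := (inf_le_inf_right _ le_sup_left).trans k
  rw [← comm_eq_bot_iff, eq_bot_iff, ← u3.inf_eq_bot v3]
  exact le_inf (comm_le_right k') ((comm_mono inf_le_left le_rfl).trans (comm_le_left hn))

theorem two0 (h : HY r A K) (h1 : X ≤ K) (h2 : PiGrp {2} X) : X ⊓ C(A) = ⊥ :=
  eq_bot_iff.2 ((h2.inf_eq_bot h.odd) ▸ le_inf inf_le_left (inf_le_inf_right _ h1))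

theorem cz (h : HY r A K) (ha : a ∈ A) (a1 : a ≠ 1) : Nat.card (zpowers a) = r := by
  rw [card_zpowers', h.el.orderOf h.pr ha a1]

theorem pz (h : HY r A K) (ha : a ∈ A) (a1 : a ≠ 1) : (Nat.card (zpowers a)).Prime := by
  rw [h.cz ha a1]; exact h.pr

theorem oz (h : HY r A K) (ha : a ∈ A) (a1 : a ≠ 1) : Odd (Nat.card (zpowers a)) := by
  rw [h.cz ha a1]; exact h.pr.odd_of_ne_two h.r2

theorem ncent (h : HY r A K) (ha : a ∈ A) : A ≤ N(C1(a)) := norm_C1 (le_C1_iff.2 (h.el.abel ha))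

theorem nzp (h : HY r A K) (ha : a ∈ A) : A ≤ N(zpowers a) := (h.el.abel.nml ((zpowers_le).2 ha)).norm

theorem fit1 (h : HY r A K) (h1 : N ≤ K) (h2 : A ≤ N(N)) (hs : Solv N) (ha : a ∈ A) (a1 : a ≠ 1)
    (e : N ⊓ C1(a) ≤ C(A)) : ⁅N, zpowers a⁆ ≤ F(N) := by
  have z : zpowers a ≤ A := (zpowers_le).2 ha
  refine H5.comm_le_fit_of (h.cop.sub h1 h2) hs z fun s S hs s1 s2 s3 => ?_
  have v1 : O[{s}ᶜ](F(N)) ≤ N := pcore_le.trans fit_le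
  have v2 : A ≤ N(O[{s}ᶜ](F(N))) := norm_pcore (norm_fit h2)
  have v3 : S ≤ N(O[{s}ᶜ](F(N))) := s2.trans fit_nml.pcore.norm
  refine nz (h.pz ha a1) (h.oz ha a1) (fit_nil.of_le pcore_le) s1 pcore_pi ((h.cop.sub (s2.trans h1) s3).left z)
    ((h.cop.sub (v1.trans h1) v2).left z) v3 ?_ ?_
  · rw [C_zpowers]
    exact (le_inf inf_le_left ((inf_le_inf_right _ v1).trans e)).trans
      (h.cfix hs (s2.trans h1) s3 s1 (v1.trans h1) v2 pcore_pi v3)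
  · refine (ne_or_eq s 2).imp_right fun e' => ?_
    subst e'
    rw [C_zpowers, eq_bot_iff, ← h.two0 (s2.trans h1) s1]
    exact le_inf inf_le_left ((inf_le_inf_right _ s2).trans e)

end HY

/-- `[C_X(a), A]` -/
def ua (A X : Subgroup G) (a : G) : Subgroup G := ⁅X ⊓ C1(a), A⁆

theorem ua_mono (h : X ≤ Y) : ua A X a ≤ ua A Y a := comm_mono (inf_le_inf_right _ h) le_rfl
theorem ua_le_comm : ua A X a ≤ ⁅X, A⁆ := comm_mono inf_le_left le_rfl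
theorem norm_ua : A ≤ N(ua A X a) := norm_comm_right

/-- the rank two case -/
structure R2 (r : ℕ) (A K : Subgroup G) : Prop extends HY r A K where
  card : Nat.card A = r ^ 2
  nc : ¬ Cyc A
  sc : ∀ a ∈ A, a ≠ 1 → Solv (K ⊓ C1(a))

namespace R2

theorem ua_le (h : R2 r A K) (h2 : A ≤ N(X)) (ha : a ∈ A) : ua A X a ≤ X ⊓ C1(a) :=
  comm_le_left (norm_inf h2 (h.ncent ha))

theorem ua_le' (h : R2 r A K) (h2 : A ≤ N(X)) (ha : a ∈ A) : ua A X a ≤ X := (h.ua_le h2 ha).trans inf_le_left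

theorem ua_comm (h : R2 r A K) (h1 : X ≤ K) (h2 : A ≤ N(X)) (ha : a ∈ A) : ⁅ua A X a, A⁆ = ua A X a :=
  (h.cop.sub (inf_le_left.trans h1) (norm_inf h2 (h.ncent ha))).comm_comm

theorem ua_sup (h : R2 r A K) (h1 : X ≤ K) (h2 : A ≤ N(X)) (ha : a ∈ A) :
    X ⊓ C1(a) ≤ ua A X a ⊔ X ⊓ C(A) :=
  (h.cop.sub (inf_le_left.trans h1) (norm_inf h2 (h.ncent ha))).comm_sup.ge.trans
    (sup_le_sup_left (inf_le_inf_right _ inf_le_left) _)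

theorem sup_z (h : R2 r A K) (ha : a ∈ A) (a1 : a ≠ 1) (hb : b ∈ A) (hab : b ∉ zpowers a) :
    zpowers a ⊔ zpowers b = A := by
  have h1 : zpowers a ≤ A := (zpowers_le).2 ha
  have h2 : (zpowers a).relIndex A = r := relIndex_eq_of_mul h1 (by rw [h.card, h.cz ha a1, sq])
  rcases eq_or_eq_of_prime_relIndex (B := zpowers a ⊔ zpowers b) (h2 ▸ h.pr) le_sup_left
    (sup_le h1 ((zpowers_le).2 hb)) with e | e
  · exact absurd (e ▸ (le_sup_right : zpowers b ≤ _) (mem_zpowers b)) hab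
  · exact e

theorem two (h : R2 r A K) (ha : a ∈ A) (a1 : a ≠ 1) (hb : b ∈ A) (hab : b ∉ zpowers a) :
    C1(b) ⊓ C1(a) = C(A) := by
  rw [← h.sup_z ha a1 hb hab, C_sup, C_zpowers, C_zpowers, inf_comm]

theorem exb (h : R2 r A K) (ha : a ∈ A) : ∃ b ∈ A, b ∉ zpowers a := by
  by_contra e
  push Not at e
  exact h.nc (le_antisymm e ((zpowers_le).2 ha) ▸ cyc_zpowers)

theorem ne1 (hab : b ∉ zpowers a) : b ≠ 1 := fun e => hab (e ▸ one_mem _)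

theorem c1 (h : R2 r A K) (ha : a ∈ A) (a1 : a ≠ 1) (hb : b ∈ zpowers a) (b1 : b ≠ 1) : C1(b) = C1(a) := by
  rw [C1_eq_of_prime (h.pz ha a1) hb b1, C_zpowers]

theorem gen (h : R2 r A K) (h1 : X ≤ K) (h2 : A ≤ N(X)) (e : ∀ b ∈ A, b ≠ 1 → X ⊓ C1(b) ≤ Y) : X ≤ Y :=
  coprime_abelian_gen_cent1 h.el.abel h.nc h2 (h.cop.sub h1 h2).cop e

theorem gen2 (h : R2 r A K) (h1 : X ≤ K) (h2 : A ≤ N(X)) (ha : a ∈ A) (a1 : a ≠ 1) (e1 : X ⊓ C1(a) ≤ Y)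
    (e : ∀ b ∈ A, b ∉ zpowers a → X ⊓ C1(b) ≤ Y) : X ≤ Y := h.gen h1 h2 fun b hb b1 => by
  by_cases hba : b ∈ zpowers a
  · rwa [h.c1 ha a1 hba b1]
  · exact e b hb hba

theorem gen0 (h : R2 r A K) (h1 : X ≤ K) (h2 : A ≤ N(X)) (e0 : X ⊓ C(A) ≤ Y)
    (e : ∀ b ∈ A, b ≠ 1 → ua A X b ≤ Y) : X ≤ Y :=
  h.gen h1 h2 fun b hb b1 => (h.ua_sup h1 h2 hb).trans (sup_le (e b hb b1) e0)

theorem gen1 (h : R2 r A K) (h1 : X ≤ K) (h2 : A ≤ N(X)) (hX : Nil X) (e0 : ⁅X, A⁆ = X)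
    (e : ∀ b ∈ A, b ≠ 1 → ua A X b ≤ Y) : X ≤ Y :=
  (hX.eq_of_le_sup_der inf_le_left (h.gen0 h1 h2 (le_sup_of_le_right ((h.cop.sub h1 h2).cent_le_of_comm_eq e0))
    fun b hb b1 => le_sup_of_le_left (le_inf (h.ua_le' h2 hb) (e b hb b1)))).ge.trans inf_le_right

theorem ua_z (h : R2 r A K) (h2 : A ≤ N(X)) (ha : a ∈ A) (a1 : a ≠ 1) (hb : b ∈ A) (hab : b ∉ zpowers a) :
    ua A X b ≤ ⁅X ⊓ C1(b), zpowers a⁆ := by
  have n := norm_inf h2 (h.ncent hb)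
  have n' : A ≤ N(⁅X ⊓ C1(b), zpowers a⁆) := norm_comm n (h.nzp ha)
  rw [ua]
  conv_lhs => rw [← h.sup_z ha a1 hb hab]
  refine comm_sup_le' le_rfl ?_ (((zpowers_le).2 ha).trans n') (((zpowers_le).2 hb).trans n')
  rw [comm_eq_bot_iff.2 (by rw [C_zpowers]; exact inf_le_right)]; exact bot_le

theorem fitc (h : R2 r A K) (ha : a ∈ A) (a1 : a ≠ 1) : ua A K a ≤ F(K ⊓ C1(a)) := by
  obtain ⟨b, hb, hab⟩ := h.exb ha
  have b1 := ne1 hab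
  have hba : a ∉ zpowers b := fun e => hab (by rw [zpowers_eq_of_prime (h.pz hb b1) e a1]; exact mem_zpowers b)
  refine (h.ua_z h.cop.norm hb b1 ha hba).trans (h.fit1 inf_le_left (norm_inf h.cop.norm (h.ncent ha))
    (h.sc a ha a1) hb b1 ?_)
  rw [inf_assoc, h.two hb b1 ha hba]; exact inf_le_right

theorem cc (h : R2 r A K) (ha : a ∈ A) (a1 : a ≠ 1) (x1 : X ≤ K) (x2 : A ≤ N(X)) (x3 : PiGrp π X) (y1 : Y ≤ K)
    (y2 : A ≤ N(Y)) (y3 : PiGrp πᶜ Y) : ua A X a ≤ C(ua A Y a) :=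
  fit_nil.cent_pi ((ua_mono x1).trans (h.fitc ha a1)) ((ua_mono y1).trans (h.fitc ha a1))
    (x3.of_le (h.ua_le' x2 ha)) (y3.of_le (h.ua_le' y2 ha))

theorem cc2 (h : R2 r A K) (hp : p.Prime) (ha : a ∈ A) (a1 : a ≠ 1) (x1 : X ≤ K) (x2 : A ≤ N(X))
    (x3 : PiGrp {p} X) (y1 : Y ≤ K) (y2 : A ≤ N(Y)) (y3 : PiGrp {p}ᶜ Y) (n : ua A X a ≤ N(Y)) :
    Y ⊓ C1(a) ≤ C(ua A X a) :=
  (h.ua_sup y1 y2 ha).trans (sup_le (cent_symm (h.cc ha a1 x1 x2 x3 y1 y2 y3))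
    (h.cfix hp ((h.ua_le' x2 ha).trans x1) norm_ua (x3.of_le (h.ua_le' x2 ha)) y1 y2 y3 n))

theorem xg2 (h : R2 r A K) (ha : a ∈ A) (a1 : a ≠ 1) (hU : Nil U) (u1 : U ≤ K) (u2 : A ≤ N(U))
    (u3 : PiGrp {q}ᶜ U) (d1 : D ≤ K) (d2 : A ≤ N(D)) (d3 : PiGrp {q} D) (n : D ≤ N(U))
    (h0 : U ⊓ C1(a) ≤ ⁅U, U⁆) : ⁅D, zpowers a⁆ ≤ C(U) := by
  have z : zpowers a ≤ A := (zpowers_le).2 ha
  have cU := (h.cop.sub u1 u2).left z
  rw [← C_zpowers] at h0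
  by_cases q2 : q = 2
  swap
  · exact xg (h.pz ha a1) (h.oz ha a1) hU d3 u3 ((h.cop.sub d1 d2).left z) cU n h0 (.inl q2)
  subst q2
  have k : D ≤ D ⊓ C(U) ⊔ D ⊓ C1(a) := h.gen2 d1 d2 ha a1 le_sup_right fun b hb hab => by
    have c := (h.cop.sub (inf_le_left.trans d1) (norm_inf d2 (h.ncent hb))).left z
    have e : D ⊓ C1(b) ⊓ C(zpowers a) = ⊥ := by rw [C_zpowers, inf_assoc, h.two ha a1 hb hab, h.two0 d1 d3]
    refine le_sup_of_le_left (le_inf inf_le_left ?_)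
    rw [← c.comm_eq_of_cent e]
    exact xg (h.pz ha a1) (h.oz ha a1) hU d3.inf_left u3 c cU (inf_le_left.trans n) h0 (.inr e)
  refine (comm_mono k le_rfl).trans (comm_sup_le ?_ ?_ (inf_le_right.trans le_N)
    (inf_le_left.trans (norm_C n)))
  · exact (comm_mono inf_le_right le_rfl).trans (comm_le_left (z.trans (norm_C u2)))
  · rw [comm_eq_bot_iff.2 (by rw [C_zpowers]; exact inf_le_right)]; exact bot_le

theorem nz2 (h : R2 r A K) (ha : a ∈ A) (a1 : a ≠ 1) (hV : Nil V) (v1 : V ≤ K) (v2 : A ≤ N(V))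
    (v3 : PiGrp {q}ᶜ V) (d1 : D ≤ K) (d2 : A ≤ N(D)) (d3 : PiGrp {q} D) (n : D ≤ N(V))
    (h0 : V ⊓ C1(a) ≤ C(D)) : ⁅D, zpowers a⁆ ≤ C(V) := by
  have c : Cop D V := cop_of_pi n d3 v3 (.inr hV.solv)
  have u : ⁅V, D⁆ ≤ V := comm_le_left n
  exact cent_of_comm c (comm_le_left (((zpowers_le).2 ha).trans d2)) (h.xg2 ha a1 (hV.of_le u) (u.trans v1)
    (norm_comm v2 d2) (v3.of_le u) d1 d2 d3 norm_comm_right
    ((le_inf inf_le_left ((inf_le_inf_right _ u).trans h0)).trans (comm_cent_le c)))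

end R2

section tower
open H5 H19
variable {χ φ ψ : G → ℂ}

theorem mk_char [Fintype G] (h : MK Q V K) (hs : Solv V) (hL : L ≤ N(V)) (hc : (Nat.card V).Coprime (Nat.card L))
    (hQ : Q ≤ L) (hA : A ≤ L) (h0 : V ⊓ C(A) ≤ C(L)) :
    ∃ χ ∈ irr L, ∃ φ ∈ irr Q, ip Q φ χ ≠ 0 ∧ ∑ x ∈ els A, χ x = 0 ∧ cfker Q φ = K := by
  obtain ⟨ξ, hξ, e1, e2⟩ := exists_lift_fx hs hL hc h.nml.le hQ h.nc
  have hr := res_mem_chars hQ hξ
  obtain ⟨φ, hφ, a1, a2⟩ := exists_irr_fx_ne (X := K) (Y := Q) (cf_of_chars hr) (by rwa [fx_res h.nml.le, fx_res le_rfl])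
  have a3 : fx Q φ = 0 := by
    by_contra e
    have := (fx_ne_zero_iff hφ Nml.rfl).1 e
    exact a2 (by rw [fx_of_le_ker this, fx_of_le_ker (h.nml.le.trans this)])
  have hn := cfker_nml (cf_of_irr hφ)
  have a4 : cfker Q φ = K := h.max _ hn ((fx_ne_zero_iff hφ h.nml).1 (a3 ▸ a2)) fun e => by
    have b1 := e2 _ (cfker_le.trans hQ) _ hQ (le_antisymm (le_inf inf_le_left e) (inf_le_inf_left _ (C_anti cfker_le)))
    have b2 := fx_eq_of_sub (chars_of_irr hφ) (chars_sub_irr hr hφ a1) hn.le le_rfl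
      (by rwa [fx_res hn.le, fx_res le_rfl])
    rw [a3, fx_of_le_ker le_rfl] at b2
    exact irr_apply_one_ne_zero hφ b2
  have a5 : ip L (ind Q L φ) ξ ≠ 0 := by
    rw [ip_ind_left _ _ fun g hg => cf_conj (cf_of_chars hξ) hg, ← ip_res_right (irr_supp hφ)]
    exact ip_ne_zero_comm.1 a1
  obtain ⟨χ, hχ, b1, b2⟩ := exists_common_constituent (ind_mem_cf' hQ (cf_of_irr hφ)) a5
  rw [ip_ind_left _ _ fun g hg => cf_conj (cf_of_irr hχ) hg] at b1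
  refine ⟨χ, hχ, φ, hφ, b1, ?_, a4⟩
  have b3 : fx A ξ = fx L ξ := e2 _ hA _ le_rfl (le_antisymm (le_inf inf_le_left h0) (inf_le_inf_left _ (C_anti hA)))
  have b4 := fx_eq_of_sub (chars_of_irr hχ) (chars_sub_irr hξ hχ (ip_ne_zero_comm.1 b2)) hA le_rfl b3
  rw [← fx_eq_zero, b4]
  by_contra e
  exact h.not_le (a4 ▸ le_cfker_of_under hQ hφ (chars_of_irr hχ) b1 le_rfl (hQ.trans ((fx_ne_zero_iff hχ Nml.rfl).1 e)))

theorem exists_cj_le (hp : p.Prime) (hP : PiGrp {p} P) (hA : PiGrp {p}ᶜ A) (sA : Solv A) (n : A ≤ N(P)) (hg : g ∈ P)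
    (h1 : X ≤ T) (h2 : cj g⁻¹ Y ≤ T) (e : X ⊔ Y = A) : ∃ c ∈ P ⊔ A, cj c A ≤ T := by
  set T' := (P ⊔ A) ⊓ T with hT
  have hn : P ⊔ A ≤ N(P) := sup_le le_N n
  have a1 : P ⊔ T' = P ⊔ A := by
    refine le_antisymm (sup_le le_sup_left inf_le_left) (sup_le le_sup_left (e.ge.trans (sup_le ?_ ?_)))
    · exact le_sup_of_le_right (le_inf ((le_sup_left.trans e.le).trans le_sup_right) h1)
    · rw [← cj_cj_inv (g := g) (H := Y)]
      exact cj_le_of_mem (le_sup_of_le_right (le_inf (cj_le_of_mem ((le_sup_right.trans e.le).trans le_sup_right)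
        (inv_mem (mem_sup_left hg))) h2)) (mem_sup_left hg)
  have hs : Solv (P ⊔ A) := Solv.sup hP.solv sA (Or.inr n)
  have cb : ∀ X : Subgroup G, Cop ⊥ X := fun X => ⟨bot_le, by simp, Or.inl solv_bot⟩
  obtain ⟨H, hH, -⟩ := coprime_Hall_exists {p}ᶜ (cb T') solv_bot (hs.of_le inf_le_left)
  have a2 : Hall {p}ᶜ H (P ⊔ A) := hH.of_idx inf_le_left (by
    rw [← a1, Nrm2.relIndex_sup (Or.inr (inf_le_left.trans hn))]; exact hP.relIndex.compl_compl)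
  obtain ⟨c, hc, rfl⟩ := coprime_Hall_trans (cb _) hs (hall_of_sup' hA hP.compl_compl (Or.inl n)) a2 bot_le bot_le
  exact ⟨c, hc.1, hH.le.trans inf_le_right⟩

theorem MK.le_of (h : MK Q V L) (d : L ⊔ D ⊴ Q) (u1 : U ≤ V ⊓ C(L)) (u2 : U ≤ C(D)) (u3 : ¬ U ≤ C(Q)) : D ≤ L :=
  le_sup_right.trans (h.max _ d le_sup_left fun e => u3 (le_trans (le_inf (u1.trans inf_le_left)
    (cent_sup (u1.trans inf_le_right) u2)) e)).le

namespace R2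

theorem ty1 (h : R2 r A K) (hq : q.Prime) (q1 : Q ≤ K) (q2 : A ≤ N(Q)) (q3 : PiGrp {q} Q) (hV : Nil V) (v1 : V ≤ K)
    (v2 : A ≤ N(V)) (v3 : PiGrp {q}ᶜ V) (n : Q ≤ N(V)) (e : ⁅Q, A⁆ = Q) (d : ⁅⁅Q, Q⁆, Q⁆ ≤ C(V)) (hL : MK Q V L)
    (hT : A ≤ TK Q L) : ∃ z ∈ A, z ≠ 1 ∧ ⁅Q, zpowers z⁆ ≤ L := by
  by_contra hc
  push Not at hc
  have nL : A ≤ N(L) := hT.trans TK_le
  have nQ : Q ≤ N(L) := hL.nml.norm
  have w2 : A ≤ N(V ⊓ C(L)) := norm_inf v2 (norm_C nL)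
  have w3 : Q ≤ N(V ⊓ C(L)) := norm_inf n (norm_C nQ)
  have dL : ⁅Q, Q⁆ ≤ cm Q Q L := le_cm nQ nQ der_le
    ((le_inf (comm_le_of_le der_le le_rfl) d).trans (hL.cent_le n))
  have nm : ∀ D, D ≤ cm Q Q L → L ⊔ D ⊴ Q := fun D hD => ⟨sup_le hL.nml.le (hD.trans cm_le),
    norm_of_comm_le (comm_sup_le' (le_sup_of_le_left (comm_le_right nQ)) (le_sup_of_le_left
      ((comm_mono le_rfl hD).trans (comm_cm_le' nQ nQ))) (le_norm le_sup_left) (le_norm le_sup_right))⟩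
  have t3 : ∀ X Y Z : Subgroup G, X ≤ Q → Y ≤ Q → Z ≤ A → Y ≤ C(Z) → ⁅⁅X, Z⁆, Y⁆ ≤ L := fun X Y Z x y z c =>
    three_mod (x.trans nQ) (z.trans nL) (y.trans nQ) (by
      rw [comm_eq_bot_iff.2 (cent_symm c), commutator_bot_left]; exact bot_le)
      ((comm_mono ((comm_le_der y x).trans dL) (z.trans hT)).trans (comm_TK hL.nml))
  refine hL.not_le (h.gen1 q1 q2 q3.nil e fun z hz z1 => ?_)
  have z0 : zpowers z ≤ A := (zpowers_le).2 hz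
  have u0 : ¬ V ⊓ C(L) ⊓ C1(z) ≤ C(Q) := fun u => hc z hz z1 (MK.le_of hL
    (hL.nml.sup ⟨comm_le_left (z0.trans q2), norm_comm_left⟩) le_rfl (cent_symm (h.nz2 hz z1 (hV.of_le inf_le_left)
      (inf_le_left.trans v1) w2 v3.inf_left q1 q2 q3 w3 u)) hL.nc)
  have u1 : V ⊓ C(L) ⊓ C1(z) ≤ C(ua A Q z) := (inf_le_inf_right _ inf_le_left).trans
    (h.cc2 hq hz z1 q1 q2 q3 v1 v2 v3 ((h.ua_le' q2 hz).trans n))
  have y1 := h.ua_le' q2 hz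
  have d1 : ⁅ua A Q z, ua A Q z⁆ ≤ L := MK.le_of hL (nm _ ((der_mono y1).trans dL)) inf_le_left
    (u1.trans (C_anti der_le)) u0
  refine MK.le_of hL (nm _ (le_cm nQ nQ y1 ?_)) inf_le_left u1 u0
  rw [comm_comm]
  refine (le_cm_iff nQ (y1.trans nQ)).1 (h.gen2 q1 q2 hz z1 ((h.ua_sup q1 q2 hz).trans (sup_le
    (le_cm nQ (y1.trans nQ) y1 d1) (le_cm nQ (y1.trans nQ) inf_le_left ?_))) fun b hb hab =>
    le_cm nQ (y1.trans nQ) inf_le_left ?_) |>.2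
  · rw [comm_comm]; exact t3 _ _ _ inf_le_left inf_le_left le_rfl inf_le_right
  · have b1 := ne1 hab
    have hba : z ∉ zpowers b := fun e => hab (by rw [zpowers_eq_of_prime (h.pz hb b1) e z1]; exact mem_zpowers b)
    rw [comm_comm]
    exact (comm_mono (h.ua_z q2 hb b1 hz hba) le_rfl).trans (t3 _ _ _ inf_le_left inf_le_left ((zpowers_le).2 hb)
      (by rw [C_zpowers]; exact inf_le_right))

theorem ty (h : R2 r A K) (hq : q.Prime) (q1 : Q ≤ K) (q2 : A ≤ N(Q)) (q3 : PiGrp {q} Q) (hV : Nil V) (v1 : V ≤ K)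
    (v2 : A ≤ N(V)) (v3 : PiGrp {q}ᶜ V) (n : Q ≤ N(V)) (e : ⁅Q, A⁆ = Q) (d : ⁅⁅Q, Q⁆, Q⁆ ≤ C(V)) (hL : MK Q V L) :
    ∃ z ∈ A, z ≠ 1 ∧ ⁅Q, zpowers z⁆ ≤ L := by
  have := Fintype.ofFinite G
  have cQ := h.cop.sub q1 q2
  have cV := h.cop.sub v1 v2
  obtain ⟨χ, hχ, φ, hφ, a1, a2, rfl⟩ := mk_char hL hV.solv (sup_le n v2) (((v3.coprime' q3).mul_right
    cV.cop.symm).coprime_dvd_right (Nrm2.card_sup_dvd (Or.inr q2))) le_sup_left le_sup_right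
    (cent_sup (h.cfix hq q1 q2 q3 v1 v2 v3 n) inf_le_right)
  by_cases hB : A ≤ inertia Q φ
  · exact h.ty1 hq q1 q2 q3 hV v1 v2 v3 n e d hL (hB.trans (inertia_le_TK hφ))
  obtain ⟨b1, ψ, hψ, rfl, b2⟩ := cliff' (sd_sup q2 cQ.inf_eq_bot') cQ.cop.symm hχ hφ a1 rfl
    (h.el.abel.mono inf_le_left) a2
  set B := A ⊓ inertia Q (res Q ψ)
  have y : Ty A Q _ B ψ := ⟨lt_of_le_of_ne inf_le_left fun e => hB (e.ge.trans inf_le_right), b1, hψ, hφ, rfl, b2⟩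
  have h2 := h.card
  rw [pow_two] at h2
  have hBp := sub_pq h.pr h.pr h2 y.lt y.ne
  obtain ⟨z, hz, z1⟩ := exists_mem_ne_one' b1
  have zB := zpowers_eq_of_prime hBp hz z1
  have hBq : Nat.card B = r := zB ▸ h.cz hz.1 z1
  refine ⟨z, hz.1, z1, ?_⟩
  rw [zB]
  by_cases q0 : q = 2
  swap
  · refine y.le_ker (comm_le_left (y.lt.le.trans q2)) (corePrime hBp (chars_of_irr hψ) le_sup_right b2 le_sup_left q3
      (cQ.left y.lt.le) fun e he e' => ?_)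
    have := (h.pr.odd_of_ne_two h.r2)
    rw [← hBq, ← e'] at this
    exact (Nat.not_even_iff_odd.2 this) ((hq.odd_of_ne_two q0).pow.add_one)
  subst q0
  have n1 := hL.nml.norm
  have n2 : B ≤ N(cfker Q (res Q ψ)) := (y.le_TK q2).trans TK_le
  refine (comm_mono (h.gen2 q1 q2 hz.1 z1 ?_ fun a ha haz => ?_) le_rfl).trans (comm_cm_le n1 n2)
  · rw [← C_zpowers, zB]; exact cent_le_cm n1 n2
  have c1 : Cop B (Q ⊓ C1(a)) := cQ.mono y.lt.le inf_le_left (y.lt.le.trans (norm_inf q2 (h.ncent ha)))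
  refine le_cm n1 n2 inf_le_left (y.le_ker ((comm_le_left c1.norm).trans inf_le_left) (coreA h.pr
    (piGrp_of_prime h.pr hBq) (abel_of_prime hBp) (.inl h.r2) le_rfl (fun x hx hx1 => (zpowers_eq_of_prime hBp hx hx1).ge)
    (chars_of_irr y.irr) le_sup_right y.sum _ (inf_le_left.trans le_sup_left) q3.inf_left c1 ?_))
  rw [← zB, C_zpowers, inf_assoc, h.two hz.1 z1 ha haz, h.two0 q1 q3]

theorem tw0 (h : R2 r A K) (hp : p.Prime) (hq : q.Prime) (ne : p ≠ q) (x1 : X ≤ K) (x3 : PiGrp {p} X)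
    (x4 : ⁅X, A⁆ = X) (q1 : Q ≤ K) (q2 : A ≤ N(Q)) (q3 : PiGrp {q} Q) (hV : Nil V) (v1 : V ≤ K)
    (v2 : A ≤ N(V)) (v3 : PiGrp {q}ᶜ V) (n : Q ≤ N(V)) (n1 : X ≤ N(Q)) (n2 : X ≤ N(V)) (e : ⁅Q, X⁆ = Q)
    (d : ⁅⁅Q, Q⁆, Q⁆ ≤ C(V)) : Q ≤ C(V) := by
  by_contra hne
  obtain ⟨L, hL⟩ := exists_MK hne
  have x2 : A ≤ N(X) := x4 ▸ norm_comm_right
  have q4 : PiGrp {p}ᶜ Q := q3.p'_of_ne ne.symm
  have cX : Cop X Q := cop_of_pi n1 x3 q4 (.inl x3.solv)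
  have cQ := h.cop.sub q1 q2
  have eA : ⁅Q, A⁆ = Q := q3.nil.eq_of_le_sup_der (comm_le_left q2) (cQ.comm_sup.ge.trans (sup_le_sup_left
    ((le_inf inf_le_left (h.cfix hp x1 x2 x3 q1 q2 q4 n1)).trans (cX.cent_le_of_comm_eq e)) _))
  obtain ⟨z, hz, z1, e1⟩ := h.ty hq q1 q2 q3 hV v1 v2 v3 n eA d hL
  have nQ := hL.nml.norm
  have t0 : ∀ Y : Subgroup G, ⁅Q, Y⁆ ≤ L → Y ≤ cm N(L) Q L := fun Y hY =>
    le_cm le_rfl nQ (norm_of_comm_le_of_le hY hL.nml.le) (comm_comm.le.trans hY)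
  have k : ∀ g ∈ X, ⁅Q, zpowers z⁆ ≤ cj g L := fun g hg => by
    obtain ⟨w, hw, w1, e2⟩ := h.ty hq q1 q2 q3 hV v1 v2 v3 n eA d (hL.cj (n1 hg) (n2 hg))
    by_cases hwz : w ∈ zpowers z
    · rwa [zpowers_eq_of_prime (h.pz hz z1) hwz w1] at e2
    by_cases x0 : X = ⊥
    · rw [eq_one_of_eq_bot x0 hg, cj_one]; exact e1
    have hA' : PiGrp {p}ᶜ A := (piNat_compl_iff hp).2 fun e =>
      hp.one_lt.ne' (Nat.eq_one_of_dvd_coprimes (h.cop.sub x1 x2).cop e (x3.dvd_card x0))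
    obtain ⟨c, hc, e3⟩ := exists_cj_le hp x3 hA' h.el.abel.solv x2 hg (t0 _ e1) (t0 _ (by
      rw [← cj_eq_self (inv_mem (n1 hg)), ← cj_comm, ← le_cj_iff]; exact e2)) (h.sup_z hz z1 hw hwz)
    have hc' : c ∈ N(Q) := sup_le n1 q2 hc
    have := (comm_mono le_rfl e3).trans (comm_cm_le' le_rfl nQ)
    rw [← cj_eq_self hc', ← cj_comm, eA, cj_eq_self hc'] at this
    exact absurd this hL.not_le
  obtain ⟨D, a1, a2, a3, a4⟩ := exists_core hL.nml n1 k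
  have a5 := comm_comm_le a1.norm a3 (norm_of_comm_le_of_le a4 a1.le) n1 a4
  have : X ≤ cm N(D) Q D := h.gen1 x1 x2 x3.nil x4 fun w hw w1 => by
    have y := h.ua_le' x2 hw
    refine le_cm le_rfl a1.norm (y.trans a3) ?_
    rw [comm_comm]
    by_cases hwz : w ∈ zpowers z
    · have b := (cQ.left ((zpowers_le).2 hz)).le_sup_of_comm_le a4
      rw [C_zpowers, ← h.c1 hz z1 hwz w1] at b
      exact (comm_mono b le_rfl).trans (comm_sup_le (comm_le_left (y.trans a3))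
        ((comm_eq_bot_iff.2 (h.cc2 hp hw w1 x1 x2 x3 q1 q2 q4 (y.trans n1))).le.trans bot_le) le_N
        (inf_le_left.trans a1.norm))
    · exact (comm_mono le_rfl ((h.ua_z x2 hz z1 hw hwz).trans (comm_mono inf_le_left le_rfl))).trans a5
  exact hL.not_le (e.ge.trans (((comm_mono le_rfl this).trans (comm_cm_le' le_rfl a1.norm)).trans a2))

theorem tw (h : R2 r A K) (hp : p.Prime) (hq : q.Prime) (ne : p ≠ q) (x1 : X ≤ K) (x3 : PiGrp {p} X)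
    (x4 : ⁅X, A⁆ = X) (hV : Nil V) (v1 : V ≤ K) (v2 : A ≤ N(V)) (v3 : PiGrp {q}ᶜ V) (n2 : X ≤ N(V))
    (Q : Subgroup G) : Q ≤ K → A ≤ N(Q) → PiGrp {q} Q → Q ≤ N(V) → X ≤ N(Q) → ⁅Q, X⁆ ≤ C(V) := by
  refine H18.card_induction (P := fun Q => Q ≤ K → A ≤ N(Q) → PiGrp {q} Q → Q ≤ N(V) → X ≤ N(Q) → ⁅Q, X⁆ ≤ C(V))
    (fun Q ih q1 q2 q3 n n1 => ?_) Q
  have x2 : A ≤ N(X) := x4 ▸ norm_comm_right
  have ih' : ∀ H < Q, A ≤ N(H) → X ≤ N(H) → ⁅H, X⁆ ≤ C(V) := fun H hH a b =>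
    ih H (card_lt hH) (hH.le.trans q1) a (q3.of_le hH.le) (hH.le.trans n) b
  have cX : Cop X Q := cop_of_pi n1 x3 (q3.p'_of_ne ne.symm) (.inl x3.solv)
  rcases (comm_le_left n1).lt_or_eq with e | e
  · rw [← cX.comm_comm]; exact ih' _ e (norm_comm q2 x2) norm_comm_right
  by_cases q0 : Q = ⊥
  · rw [e, q0]; exact bot_le
  rw [e]
  exact h.tw0 hp hq ne x1 x3 x4 q1 q2 q3 hV v1 v2 v3 n n1 n2 e (comm_le_of_comm_eq (norm_C n) (norm_C n2)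
    (der_le.trans (norm_C n)) e (comm_mono der_le le_rfl) (ih' _ (q3.solv.der_lt q0) (norm_der q2) (norm_der n1)))

theorem fh (h : R2 r A K) (k1 : N ≤ K) (k2 : A ≤ N(N)) (hs : Solv N) : ⁅N, A⁆ ⫽ F(N) ≤ F(N ⫽ F(N)) := by
  have hc := h.cop.sub k1 k2
  have hF : F(N) ⊴ N := fit_nml
  have hAF : A ≤ N(F(N)) := norm_fit hc.norm
  rw [mim_comm hF.norm hAF]
  refine comm_le_fit_of hc.mim hs.mim le_rfl fun p P' hr hP' hPK hn => ?_
  refine cent_symm ((fit_nil.of_le pcore_le).le_of_pcores fun q hq hd => ?_)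
  have hqr : q ≠ p := pcore_pi (π := {p}ᶜ) (H := F(N ⫽ F(N))) q hq hd
  refine (le_pcore_of_le_fit (pcore_le.trans pcore_le) pcore_pi).trans ?_
  have hT := qpre_pcore_nml (π := {q}) hF
  have hAT : A ≤ N(qpre F(N) O[{q}](N ⫽ F(N))) := norm_mpre hAF (norm_pcore (mim_norm hc.norm))
  obtain ⟨Q, hQ, hnQ⟩ := (hc.sub hT.le hAT).exists_sylow hq
  have e := (hQ.mim (f := coset F(N)) qpre_le).eq_self (by rw [quo_qpre]; exact pcore_pi)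
  rw [quo_qpre] at e
  have hQK := hQ.le.trans hT.le
  have a1 : (N ⊓ N(Q)) ⫽ F(N) = N ⫽ F(N) := by
    refine le_antisymm (mim_mono inf_le_left) ((quo_le_quo_iff hF.norm (inf_le_left.trans hF.norm)).2 ?_)
    refine (frattini_arg hq hT hQ).ge.trans (sup_le ?_ le_sup_left)
    rw [← e, qpre_quo (hQK.trans hF.norm)]
    exact sup_le_sup_right (le_inf hQK le_N) _
  have hM : N ⊓ N(Q) ⊓ qpre F(N) P' ≤ N := inf_le_left.trans inf_le_left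
  obtain ⟨P, hP, hnP⟩ := (hc.sub hM (norm_inf (norm_inf hc.norm (norm_N hnQ)) (norm_mpre hAF hn))).exists_sylow hr
  have e2 := mim_inf_mpre_of_le (a1 ▸ hPK : P' ≤ (N ⊓ N(Q)) ⫽ F(N))
  have e3 := (hP.mim (f := coset F(N)) (hM.trans hF.norm)).eq_self (by rw [e2]; exact hP')
  rw [e2] at e3
  have hPK' := hP.le.trans hM
  have hV : O[{q}ᶜ](F(N)) ⊴ N := hF.pcore
  have hPQ : P ≤ N(Q) := hP.le.trans (inf_le_left.trans inf_le_right)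
  have a3 : ⁅P, A⁆ ≤ P := comm_le_left hnP
  have a2 := h.tw hr hq hqr.symm (a3.trans (hPK'.trans k1)) (hP.pi.of_le a3) (hc.sub hPK' hnP).comm_comm
    (fit_nil.of_le pcore_le) (hV.le.trans k1) (norm_pcore hAF) pcore_pi (a3.trans (hPK'.trans hV.norm)) Q
    (hQK.trans k1) hnQ hQ.pi (hQK.trans hV.norm) (a3.trans hPQ)
  have a4 : ⁅Q, ⁅P, A⁆⁆ ≤ Q := comm_le_left (a3.trans hPQ)
  rw [← e, ← e3, ← mim_comm (hPK'.trans hF.norm) hAF,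
    ← comm_le_iff_quo (hQK.trans hF.norm) ((a3.trans hPK').trans hF.norm)]
  exact le_fit_of_cent (a4.trans hQK) (hQ.pi.of_le a4) ((mim_mono a4).trans (e.le.trans pcore_le_fit)) a2

end R2
end tower
end H3.Pt
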