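import Cfsg.Agent.H3.Ptt1
import Cfsg.Agent.H1.Solv2
import Cfsg.Agent.S0620

/-! Pettet's theorem, part two: consequences of the Fitting height bound, minimal counterexamples `MC2` and the
maximal invariant `{p, q}`-subgroups (`PQ2`). -/

set_option autoImplicit false
set_option linter.unusedSectionVars false
open Cfsg H18 H1 Subgroup
open scoped commutatorElement Pointwise

namespace H3.Pt
variable {G : Type*} [Group G] [Finite G] {A B D E H K L M N P Q R S T U V W X Y Z : Subgroup G} {a b c g z : G}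
  {p q r s : ℕ} {π : Set ℕ}

theorem tfgen (hp : p.Prime) (hr : r.Prime) (hA : Elem r A) (hn : A ≤ N(H)) (hd : ¬ r ∣ Nat.card H) (hs : Solv H)
    (h0 : O[{p}ᶜ](H) = ⊥) (hS : Hall {p} S H) (s0 : S ≠ ⊥) (hC : H ⊓ C(A) ≤ Y)
    (hW : ∀ W, W ≤ S → W ≠ ⊥ → N(S) ≤ N(W) → H ⊓ N(W) ≤ Y) : H ≤ Y := by
  have := Fact.mk hp
  have := Fact.mk hr
  obtain ⟨S', rfl⟩ := hS.exists_sylow hp
  have k := Cfsg.Agent.S0620.result H A hn hA.isElem hd (H4.isPSolvable_subgroup_iff.2 (H4.pSol_of_solvable hs))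
    ((map_eq_bot_iff_of_injective _ H.subtype_injective).1 ((pPrimeCore_map hp).trans h0)) S'
  rw [eq_top_iff, ← map_le_map_iff_of_injective H.subtype_injective, H17.map_subtype_top, Subgroup.map_sup,
    Subgroup.map_sup, H26.map_subtype_normalizer, H26.map_subtype_centralizer, H4.map_thompsonOf H.subtype_injective,
    H26.map_omegaOne H.subtype_injective, H26.map_inf_centralizer H.subtype_injective, subgroupOf_map_subtype] at k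
  set S := (S' : Subgroup H).map H.subtype
  obtain ⟨x, hx, hx'⟩ := cauchy hp (hS.pi.inf_left.dvd_card (hS.pi.nil.Z_ne_bot s0))
  have x1 : x ≠ 1 := by rintro rfl; rw [orderOf_one] at hx'; exact hp.one_lt.ne hx'
  have x2 : x ^ p = 1 := hx' ▸ pow_orderOf_eq_one x
  refine k.trans (sup_le (sup_le (hW _ (H4.thompsonOf_le _ _) (H4.thompsonOf_ne_bot hx.1 x1 x2)
    (H4.normalizer_le_normalizer_thompsonOf _ _)) (le_trans (inf_le_inf_left _ C_le_N) (hW _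
    ((H26.omegaOne_le _ _).trans inf_le_left) (fun e => x1 ?_) (H26.le_normalizer_omegaOne_center le_rfl))))
    ((inf_comm _ _).le.trans hC))
  exact mem_bot.1 (e ▸ H26.mem_omegaOne hx x2)

namespace R2

theorem le_pc (h : R2 r A K) (k1 : N ≤ K) (k2 : A ≤ N(N)) (hs : Solv N) (d1 : D ≤ ⁅N, A⁆) (d3 : PiGrp {s} D)
    (e : D ≤ C(O[{s}ᶜ](F(N)))) : D ≤ O[{s}](N) :=
  le_pcore_of_le_fit (H5.le_fit_of_cent (d1.trans (comm_le_left k2)) d3 ((mim_mono d1).trans (h.fh k1 k2 hs)) e) d3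

theorem c4 (h : R2 r A K) (hq : q.Prime) (ne : s ≠ q) (k1 : N ≤ K) (k2 : A ≤ N(N)) (hs : Solv N) (hS : Hall {s} S N)
    (nS : A ≤ N(S)) (q1 : Q ≤ N) (q2 : A ≤ N(Q)) (q3 : PiGrp {q} Q) (e0 : N ≤ S ⊔ Q)
    (e : ⁅S, A⁆ ≤ C(O[{s}ᶜ](F(N)))) : N ≤ N(⁅S, A⁆) := by
  have y := h.le_pc k1 k2 hs (comm_mono hS.le le_rfl) (hS.pi.of_le (comm_le_left nS)) e
  have v2 : A ≤ N(O[{s}](N)) := norm_pcore k2
  have v3 : PiGrp {q}ᶜ O[{s}](N) := pcore_pi.p'_of_ne ne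
  have n : Q ≤ N(O[{s}](N)) := q1.trans pcore_nml.norm
  have c : Cop Q O[{s}](N) := cop_of_pi n q3 v3 (.inl q3.solv)
  have u : ⁅O[{s}](N), Q⁆ ≤ O[{s}](N) := comm_le_left n
  have w1 := u.trans (pcore_le.trans k1)
  have w2 := norm_comm v2 q2
  have cW := h.cop.sub w1 w2
  have w : ⁅⁅O[{s}](N), Q⁆, A⁆ = ⁅O[{s}](N), Q⁆ := ((pcore_pi (π := {s})).nil.of_le u).eq_of_le_sup_der
    (comm_le_left w2) (cW.comm_sup.ge.trans (sup_le_sup_left ((le_inf inf_le_left (h.cfix hq (q1.trans k1) q2 q3 w1 w2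
      (v3.of_le u) norm_comm_right)).trans (comm_cent_le c)) _))
  refine e0.trans (sup_le norm_comm_left (norm_iff_comm_le'.2 ((comm_mono y le_rfl).trans ?_)))
  rw [← w]; exact comm_mono (u.trans hS.pcore_le) le_rfl

theorem cen (h : R2 r A K) (hp : s.Prime) (k1 : N ≤ K) (k2 : A ≤ N(N)) (hS : Hall {s} S N) (nS : A ≤ N(S))
    (hb : b ∈ A) (b1 : b ≠ 1) (e : O[{s}ᶜ](F(N)) ≤ C1(b)) : ⁅S, A⁆ ≤ C(O[{s}ᶜ](F(N))) := by
  have y : ⁅S, A⁆ ≤ S := comm_le_left nS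
  have y1 := y.trans (hS.le.trans k1)
  have y2 : A ≤ N(⁅S, A⁆) := norm_comm_right
  have n : ⁅S, A⁆ ≤ N(O[{s}ᶜ](F(N))) := y.trans (hS.le.trans fit_nml.pcore.norm)
  refine h.gen1 y1 y2 (hS.pi.of_le y).nil (h.cop.sub (hS.le.trans k1) nS).comm_comm fun c hc c1 => ?_
  by_cases hcb : c ∈ zpowers b
  · refine cent_symm (le_trans (le_inf le_rfl (h.c1 hb b1 hcb c1 ▸ e)) (h.cc2 hp hc c1 y1 y2 (hS.pi.of_le y)
      (pcore_le.trans (fit_le.trans k1)) (norm_pcore (norm_fit k2)) pcore_pi ((h.ua_le' y2 hc).trans n)))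
  · exact (h.ua_z y2 hb b1 hc hcb).trans (comm_cent_of_cent (inf_le_left.trans n) (zpowers_le_C_iff.2 e))

theorem tt (h : R2 r A K) (t1 : T ≤ K) (t2 : A ≤ N(T)) (t3 : PiGrp {2} T) : ⁅T, A⁆ = T :=
  (h.cop.sub t1 t2).comm_eq_of_cent (h.two0 t1 t3)

theorem c3 (h : R2 r A K) (k1 : N ≤ K) (k2 : A ≤ N(N)) (hs : Solv N) (hT : Hall {2} T N) (nT : A ≤ N(T)) :
    T ⊔ F(N) ⊴ N := by
  refine nml_of_quo fit_nml.norm (sup_le hT.le fit_le) le_sup_right ?_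
  rw [quo_sup_self (hT.le.trans fit_nml.norm)]
  have k := hT.mim (f := coset F(N)) fit_nml.norm
  have e : T ⫽ F(N) ≤ O[{2}](N ⫽ F(N)) := le_pcore_of_le_fit ((mim_mono ((h.tt (hT.le.trans k1) nT hT.pi).ge.trans
    (comm_mono hT.le le_rfl))).trans (h.fh k1 k2 hs)) k.pi
  rw [le_antisymm e k.pcore_le]; exact pcore_nml

theorem c3a (h : R2 r A K) (k1 : N ≤ K) (k2 : A ≤ N(N)) (hs : Solv N) (hT : Hall {2} T N) (nT : A ≤ N(T))
    (p2 : p ≠ 2) (y1 : Y ≤ N) (y3 : PiGrp {p} Y) (n : T ≤ N(Y)) : ⁅Y, T⁆ ≤ O[{p}](N) := by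
  have l := h.c3 k1 k2 hs hT nT
  have v : O[{2}ᶜ](F(N)) ⊴ N := fit_nml.pcore
  have e : T ⊔ F(N) = O[{2}ᶜ](F(N)) ⊔ T := by
    refine le_antisymm (sup_le le_sup_right ?_) (sup_le (pcore_le.trans le_sup_right) le_sup_left)
    conv_lhs => rw [← (fit_nil (H := N)).pcore_sup (π := {2})]
    exact sup_le (le_sup_of_le_right (pcore_fit_le.trans hT.pcore_le)) le_sup_left
  have d := (y3.of_le (comm_le_left n))
  have k : Hall {2}ᶜ O[{2}ᶜ](F(N)) (O[{2}ᶜ](F(N)) ⊔ T) := hall_of_sup pcore_pi hT.pi.compl_compl (.inr (hT.le.trans v.norm))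
  refine le_pcore_of_le_fit ((k.le_of_nml (sup_le le_N (hT.le.trans v.norm)) ?_ (d.p'_of_ne p2)).trans pcore_le) d
  rw [← e]
  exact (comm_mono le_rfl le_sup_left).trans (comm_le_right (y1.trans l.norm))

theorem c3b (h : R2 r A K) (k1 : N ≤ K) (k2 : A ≤ N(N)) (hs : Solv N) (hT : Hall {2} T N) (nT : A ≤ N(T)) :
    N ≤ N(⁅O[{p}](N), T⁆) := by
  have l := h.c3 k1 k2 hs hT nT
  refine (frattini_arg Nat.prime_two l (hT.of_le le_sup_left l.le)).ge.trans (sup_le (sup_le norm_comm_right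
    (fit_le_of_pcores fun s _ _ => ?_)) (norm_comm (inf_le_left.trans pcore_nml.norm) inf_le_right))
  by_cases e : s = p
  · rw [e]; exact norm_comm_left
  · exact cent_norm ((pcore_cent_nml pcore_nml (pcore_pi.p'_of_ne (Ne.symm e))).trans
      (C_anti (comm_le_left (hT.le.trans pcore_nml.norm))))

theorem piA (h : R2 r A K) (hp : p.Prime) (hd : p ∣ Nat.card K) : PiGrp {p}ᶜ A := (piNat_compl_iff hp).2 fun e =>
  hp.one_lt.ne' (Nat.eq_one_of_dvd_coprimes h.cop.cop e hd)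

theorem cN (h : R2 r A K) (hp : p.Prime) (hP : Hall {p} P K) (nP : A ≤ N(P)) : K ⊓ C(A) ≤ N(⁅P, A⁆) :=
  norm_comm (h.nor p P hp hP nP) (inf_le_right.trans C_le_N)

theorem join0 (h : R2 r A K) (k1 : N ≤ K) (k2 : A ≤ N(N)) (hs : Solv N) (hX : IV A K π X) (hY : IV A K π Y)
    (n1 : X ≤ N) (n2 : Y ≤ N) : IV A K π (X ⊔ Y) := by
  have c := h.cop.sub k1 k2
  obtain ⟨H1, a1, a2, a3⟩ := coprime_Hall_subset c h.el.abel.solv hs n1 hX.pi hX.nm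
  obtain ⟨H2, b1, b2, b3⟩ := coprime_Hall_subset c h.el.abel.solv hs n2 hY.pi hY.nm
  refine hX.sup hY (a1.pi.of_le (sup_le a2 (b2.trans (le_of_sylows fun s hs hd => ?_))))
  obtain ⟨S, s1, s2⟩ := (c.sub b1.le b3).exists_sylow hs
  obtain ⟨S', s1', s2'⟩ := (c.sub a1.le a3).exists_sylow hs
  exact ⟨S, s1, ((h.toHY.sub k1 k2).le_syl hs (s1'.trans_p a1 (b1.pi s hs hd)) s2' (s1.le.trans b1.le) s2
    s1.pi).trans s1'.le⟩

end R2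

/-- a minimal counterexample of rank two -/
structure MC2 (r : ℕ) (A K : Subgroup G) : Prop extends R2 r A K where
  slv : ∀ W, W < K → A ≤ N(W) → Solv W
  simp : ∀ W, W ⊴ K → A ≤ N(W) → W = ⊥ ∨ W = K
  ns : ¬ Solv K

theorem MC2.snorm (h : MC2 r A K) (h0 : D ≠ ⊥) (h1 : D ≤ K) (h2 : A ≤ N(D)) (hs : Solv D) : Solv (K ⊓ N(D)) := by
  refine h.slv _ (inf_lt_left.2 fun e => ?_) (norm_inf h.cop.norm (norm_N h2))
  rcases h.simp D ⟨h1, e⟩ h2 with e' | e'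
  · exact h0 e'
  · exact h.ns (e' ▸ hs)

theorem MC2.join (h : MC2 r A K) (h0 : D ≠ ⊥) (h1 : D ≤ K) (h2 : A ≤ N(D)) (hs : Solv D) (hX : IV A K π X)
    (hY : IV A K π Y) (n1 : X ≤ N(D)) (n2 : Y ≤ N(D)) : IV A K π (X ⊔ Y) :=
  h.join0 inf_le_left (norm_inf h.cop.norm (norm_N h2)) (h.snorm h0 h1 h2 hs) hX hY (le_inf hX.le n1) (le_inf hY.le n2)

/-- `P` is centralized by a nontrivial operator -/
def Cen (A P : Subgroup G) : Prop := ∃ b ∈ A, b ≠ 1 ∧ P ≤ C1(b)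

/-- two invariant Sylow subgroups that do not generate a `{p, q}`-group -/
structure PQ2 (r p q : ℕ) (π : Set ℕ) (A K P Q : Subgroup G) : Prop extends MC2 r A K where
  hp : p.Prime
  hq : q.Prime
  ne : p ≠ q
  hπ : ∀ s, s ∈ π ↔ s = p ∨ s = q
  sP : Hall {p} P K
  sQ : Hall {q} Q K
  nP : A ≤ N(P)
  nQ : A ≤ N(Q)
  no : ¬ PiGrp π (P ⊔ Q)

namespace PQ2

theorem symm (h : PQ2 r p q π A K P Q) : PQ2 r q p π A K Q P :=
  ⟨h.toMC2, h.hq, h.hp, h.ne.symm, fun s => (h.hπ s).trans or_comm, h.sQ, h.sP, h.nQ, h.nP, sup_comm P Q ▸ h.no⟩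

theorem ivP (h : PQ2 r p q π A K P Q) : IV A K π P := ⟨h.sP.le, h.nP, h.sP.pi.of_p ((h.hπ p).2 (.inl rfl))⟩

theorem ne0 (h : PQ2 r p q π A K P Q) : P ≠ ⊥ := fun e => h.no (by
  rw [e, bot_sup_eq]; exact h.symm.ivP.pi)

theorem sv (h : PQ2 r p q π A K P Q) (hL : IV A K π L) : Solv L :=
  h.slv L (lt_of_le_of_ne hL.le fun e => h.no ((e ▸ hL.pi : PiGrp π K).of_le (sup_le h.sP.le h.sQ.le))) hL.nm

theorem pc (h : PQ2 r p q π A K P Q) (hL : PiGrp π L) : O[{p}ᶜ](L) = O[{q}](L) :=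
  pcore_congr' fun s hs hd => by
    rcases (h.hπ s).1 (hL s hs hd) with e | e <;> simp [e, h.ne, h.ne.symm]

theorem pcf (h : PQ2 r p q π A K P Q) (hL : PiGrp π L) : O[{p}ᶜ](F(L)) ≤ O[{q}](L) := pcore_fit_le.trans (h.pc hL).le

theorem qp' (h : PQ2 r p q π A K P Q) (hL : PiGrp {q} L) : PiGrp {p}ᶜ L := hL.p'_of_ne h.ne.symm

theorem inf0 (h : PQ2 r p q π A K P Q) : P ⊓ Q = ⊥ := h.sP.pi.inf_eq_bot (h.qp' h.sQ.pi)

theorem hl (h : PQ2 r p q π A K P Q) (hL : IV A K π L) : Hall {p} (P ⊓ L) L := h.hall_inf h.hp h.sP h.nP hL.le hL.nm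

theorem hl' (h : PQ2 r p q π A K P Q) (hL : IV A K π L) : Hall {p}ᶜ (Q ⊓ L) L :=
  (h.symm.hl hL).congr fun s hs hd => by
    rcases (h.hπ s).1 (hL.pi s hs hd) with e | e <;> simp [e, h.ne, h.ne.symm]

theorem spl (h : PQ2 r p q π A K P Q) (hL : IV A K π L) : L ≤ P ⊓ L ⊔ Q ⊓ L := ((h.hl hL).sup_compl (h.hl' hL)).ge

theorem mx_le' (h : PQ2 r p q π A K P Q) (hH : MXI A K π H) (d : IV A K π D) (d0 : D ≠ ⊥) (d1 : H ≤ N(D))
    (hL : IV A K π L) (n : L ≤ N(D)) : L ≤ H :=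
  hH.2 _ (h.join d0 d.le d.nm (h.sv d) hH.1 hL d1 n) le_sup_left ▸ le_sup_right

theorem mx_le (h : PQ2 r p q π A K P Q) (hH : MXI A K π H) (d1 : D ⊴ H) (d0 : D ≠ ⊥) (d2 : A ≤ N(D))
    (hL : IV A K π L) (n : L ≤ N(D)) : L ≤ H := h.mx_le' hH (hH.1.sub d1.le d2) d0 d1.norm hL n

theorem b1 (h : PQ2 r p q π A K P Q) (hH : MXI A K π H) (d1 : D ⊴ H) (d0 : D ≠ ⊥) (d2 : A ≤ N(D))
    (d3 : PiGrp {p} D) (hL : IV A K π L) (d4 : D ≤ L) (e1 : E ≤ O[{q}](H)) (e2 : E ≤ L) : E ≤ O[{q}](L) := by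
  have k : L ⊓ N(D) ≤ H := h.mx_le hH d1 d0 d2 (hL.inf (norm_N d2)) inf_le_right
  have := p'core_norm_pgroup (h.sv hL) d4 d3
  rw [h.pc hL.pi, h.pc hL.pi.inf_left] at this
  exact (le_inf (le_inf e2 ((e1.trans pcore_le).trans d1.norm)) e1).trans ((inf_pcore_le k).trans this)

theorem cpq (h : PQ2 r p q π A K P Q) : O[{p}](L) ≤ C(O[{q}](L)) :=
  pcore_cent_nml pcore_nml (h.qp' pcore_pi)

theorem b2 (h : PQ2 r p q π A K P Q) (hH : MXI A K π H) (hL : MXI A K π L) (h1 : O[{p}](H) ≠ ⊥)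
    (h2 : O[{q}](H) ≠ ⊥) (z1 : Z(O[{p}](H)) ≤ L) (z2 : O[{q}](H) ≤ L) : L = H := by
  have np : A ≤ N(O[{p}](H)) := norm_pcore hH.1.nm
  have nq : A ≤ N(O[{q}](H)) := norm_pcore hH.1.nm
  have z0 : Z(O[{p}](H)) ≠ ⊥ := (pcore_pi (π := {p})).nil.Z_ne_bot h1
  have a1 : O[{q}](H) ≤ O[{q}](L) :=
    h.b1 hH pcore_nml.Z z0 (norm_Z np) pcore_pi.inf_left hL.1 z1 le_rfl z2
  have a2 : Z(O[{p}](H)) ≤ O[{p}](L) := h.symm.b1 hH pcore_nml h2 nq pcore_pi hL.1 z2 inf_le_left z1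
  have a3 : O[{p}](L) ≤ H := h.mx_le hH pcore_nml h2 nq (hL.1.sub pcore_le (norm_pcore hL.1.nm))
    (cent_norm (h.cpq.trans (C_anti a1)))
  have a4 : O[{q}](L) ≤ H := h.mx_le hH pcore_nml.Z z0 (norm_Z np) (hL.1.sub pcore_le (norm_pcore hL.1.nm))
    (cent_norm (h.symm.cpq.trans (C_anti a2)))
  have a5 : O[{q}](L) ≤ O[{q}](H) := h.b1 hL pcore_nml (fun e => z0 (eq_bot_iff.2 (e ▸ a2)))
    (norm_pcore hL.1.nm) pcore_pi hH.1 a3 le_rfl a4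
  exact (hL.2 H hH.1 (h.mx_le hH pcore_nml h2 nq hL.1 (le_antisymm a1 a5 ▸ pcore_nml.norm))).symm

theorem uq (h : PQ2 r p q π A K P Q) (hH : MXI A K π H) (h1 : O[{p}](H) ≠ ⊥) (h2 : O[{q}](H) ≠ ⊥)
    (m1 : M ≤ O[{p}](H)) (m0 : M ≠ ⊥) (m2 : A ≤ N(M)) (hL : IV A K π L) (n : L ≤ N(M)) : L ≤ H := by
  have hX : IV A K π (Z(O[{p}](H)) ⊔ O[{q}](H)) := hH.1.sub (sup_le (inf_le_left.trans pcore_le) pcore_le)
    (norm_sup (norm_Z (norm_pcore hH.1.nm)) (norm_pcore hH.1.nm))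
  obtain ⟨L', a1, a2⟩ := (h.join m0 (m1.trans (pcore_le.trans hH.1.le)) m2 (pcore_pi.of_le m1).solv hL hX n
    (cent_norm (sup_le (inf_le_right.trans (C_anti m1)) (h.symm.cpq.trans (C_anti m1))))).exists_mx
  exact h.b2 hH a2 h1 h2 (le_sup_left.trans (le_sup_right.trans a1))
    (le_sup_right.trans (le_sup_right.trans a1)) ▸ le_sup_left.trans a1

theorem top (h : PQ2 r p q π A K P Q) (e : P ⊓ N(P ⊓ H) ≤ H) : P ≤ H :=
  h.sP.pi.nil.eq_of_norm_le inf_le_left (le_inf inf_le_left e) ▸ inf_le_right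

theorem r1 (h : PQ2 r p q π A K P Q) (hH : MXI A K π H) (h1 : O[{p}](H) ≠ ⊥) (h2 : O[{q}](H) ≠ ⊥)
    (w1 : W ≤ Q) (w2 : A ≤ N(W)) (w3 : P ⊓ H ≤ N(W)) : W ≤ O[{q}](H) := by
  have nq : A ≤ N(O[{q}](H)) := norm_pcore hH.1.nm
  have s := h.hl hH.1
  have f : O[{q}](H) ≤ Q := (h.symm.hl hH.1).pcore_le.trans inf_le_left
  have n : P ⊓ H ≤ N(O[{q}](H)) := inf_le_right.trans pcore_nml.norm
  have i1 := h.symm.ivP.sub (sup_le f w1) (norm_sup nq w2)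
  have i2 := h.ivP.inf hH.1.nm
  obtain ⟨L, a1, a2⟩ := (i1.sup i2 (i1.pi.sup_norm' i2.pi (norm_sup n w3))).exists_mx
  have e := h.b2 hH a2 h1 h2 ((inf_le_left.trans s.pcore_le).trans (le_sup_right.trans a1))
    (le_sup_left.trans (le_sup_left.trans a1))
  have w4 : W ≤ H := (le_sup_right.trans (le_sup_left.trans a1)).trans e.le
  refine le_ncl.trans (le_pcore (ncl_nml w4) (h.sQ.pi.of_le (ncl_le_iff.2 fun g hg => ?_)))
  obtain ⟨a, ha, b, hb, rfl⟩ := (h.symm.hl hH.1).exists_mul (h.symm.hl' hH.1) hg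
  rw [← cj_cj, cj_eq_self (w3 hb)]
  exact cj_le_of_mem w1 ha.1

theorem norm_cj_of {x : G} (h1 : x ∈ N(A)) (h2 : A ≤ N(V)) : A ≤ N(cj x V) := by
  have := (cj_norm_iff (g := x)).2 h2
  rwa [cj_eq_self h1] at this

theorem r0 (h : PQ2 r p q π A K P Q) (hH : MXI A K π H) (h1 : O[{p}](H) ≠ ⊥) (h2 : O[{q}](H) ≠ ⊥) :
    P ⊓ N(P ⊓ H) ⊓ C(A) ≤ H := by
  have nq : A ≤ N(O[{q}](H)) := norm_pcore hH.1.nm
  have f : O[{q}](H) ≤ Q := (h.symm.hl hH.1).pcore_le.trans inf_le_left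
  have n : P ⊓ H ≤ N(O[{q}](H)) := inf_le_right.trans pcore_nml.norm
  have k : P ⊓ N(P ⊓ H) ⊓ C(A) ≤ N(O[{q}](H)) := fun x hx => by
    have x1 : x ∈ N(Q) := h.nor q Q h.hq h.sQ h.nQ ⟨h.sP.le hx.1.1, hx.2⟩
    have x2 : x ∈ N(A) := C_le_N hx.2
    have x3 : x ∈ N(P ⊓ H) := hx.1.2
    exact mem_N_of_cj_le (h.r1 hH h1 h2 (cj_le_of_mem_N f x1) (norm_cj_of x2 nq) (norm_cj_of x3 n))
  exact h.mx_le hH pcore_nml h2 nq ((h.ivP.inf (norm_N (norm_inf h.nP hH.1.nm))).inf (norm_C le_N)) k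

theorem step1 (h : PQ2 r p q π A K P Q) (hH : MXI A K π H) (h1 : O[{p}](H) ≠ ⊥) (h2 : O[{q}](H) ≠ ⊥) :
    P ≤ H ∨ Cen A P := by
  have i2 := h.ivP.inf hH.1.nm
  have iR := h.ivP.inf (norm_N i2.nm)
  by_cases c : ∀ b ∈ A, b ≠ 1 → ua A (P ⊓ N(P ⊓ H)) b ≤ H
  · exact .inl (h.top (h.gen0 iR.le iR.nm (h.r0 hH h1 h2) c))
  push Not at c
  obtain ⟨b, hb, b1, c⟩ := c
  have z : zpowers b ≤ A := (zpowers_le).2 hb
  have iU := iR.sub (h.ua_le' iR.nm hb) norm_ua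
  have f1 : O[{q}](H) ≤ K := pcore_le.trans hH.1.le
  have nq : A ≤ N(O[{q}](H)) := norm_pcore hH.1.nm
  have n : P ⊓ H ≤ N(O[{q}](H)) := inf_le_right.trans pcore_nml.norm
  have e1 : ua A O[{q}](H) b = ⊥ := by_contra fun e => c (h.symm.uq hH h2 h1 (h.ua_le' nq hb) e norm_ua iU
    (cent_norm (h.cc hb b1 iR.le iR.nm h.sP.pi.inf_left f1 nq (h.qp' pcore_pi))))
  have e2 := h.nz2 hb b1 (pcore_pi (π := {q})).nil f1 nq (h.qp' pcore_pi) i2.le i2.nm h.sP.pi.inf_left n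
    ((h.ua_sup f1 nq hb).trans (by
      rw [e1, bot_sup_eq]; exact h.cfix h.hp i2.le i2.nm h.sP.pi.inf_left f1 nq (h.qp' pcore_pi) n))
  have e3 := h.le_pc hH.1.le hH.1.nm (h.sv hH.1) (comm_mono inf_le_right z)
    (h.sP.pi.inf_left.of_le (comm_le_left (z.trans i2.nm))) (e2.trans (C_anti (h.pcf hH.1.pi)))
  have e4 : ⁅P ⊓ H, zpowers b⁆ = ⊥ := by_contra fun e => c (h.uq hH h1 h2 e3 e (norm_comm i2.nm (h.nzp hb)) iU
    (norm_comm ((h.ua_le' iR.nm hb).trans inf_le_right) (((h.ua_le iR.nm hb).trans inf_le_right).trans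
      C1_le_N_zpowers)))
  rw [comm_eq_bot_iff] at e4
  refine .inr ⟨b, hb, b1, zpowers_le_C_iff.1 (PxQ h.sP.pi.inf_left ((h.piA h.hp ((h.sP.pi.dvd_card h.ne0).trans
    (card_dvd h.sP.le))).of_le z) h.sP.pi e4 (inf_le_left.trans le_N) (z.trans h.nP)
    ((le_inf inf_le_left ?_).trans e4))⟩
  exact h.mx_le hH pcore_nml h1 (norm_pcore hH.1.nm) (h.ivP.inf (norm_C i2.nm))
    (cent_norm (inf_le_right.trans (C_anti (h.hl hH.1).pcore_le)))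

theorem c4' (h : PQ2 r p q π A K P Q) (hL : IV A K π L) (e : ⁅P ⊓ L, A⁆ ≤ C(O[{p}ᶜ](F(L)))) : L ≤ N(⁅P ⊓ L, A⁆) :=
  h.c4 h.hq h.ne hL.le hL.nm (h.sv hL) (h.hl hL) (norm_inf h.nP hL.nm) inf_le_right (norm_inf h.nQ hL.nm)
    h.sQ.pi.inf_left (h.spl hL) e

theorem cenN (h : PQ2 r p q π A K P Q) (hc : Cen A Q) (hL : IV A K π L) : L ≤ N(⁅P ⊓ L, A⁆) := by
  obtain ⟨b, hb, b1, e⟩ := hc
  exact h.c4' hL (h.cen h.hp hL.le hL.nm (h.hl hL) (norm_inf h.nP hL.nm) hb b1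
    (((h.pcf hL.pi).trans ((h.symm.hl hL).pcore_le.trans inf_le_left)).trans e))

theorem ctop (h : PQ2 r p q π A K P Q) (hL : IV A K π L) (h2 : O[{q}](L) = ⊥) : C(O[{p}ᶜ](F(L))) = ⊤ := by
  rw [eq_bot_iff.2 ((h.pcf hL.pi).trans h2.le), C_bot]

theorem csub (h : PQ2 r p q π A K P Q) (hL : IV A K π L) (h2 : O[{q}](L) = ⊥) (d1 : D ≤ L) (d2 : D ≤ Q)
    (d3 : D ≤ C(O[{p}](L))) : D = ⊥ :=
  eq_bot_iff.2 (h.inf0 ▸ le_inf ((le_inf d1 d3).trans ((cent_sub_pcore (h.sv hL) ((h.pc hL.pi).trans h2)).trans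
    ((h.hl hL).pcore_le.trans inf_le_left))) d2)

theorem tf (h : PQ2 r p q π A K P Q)
    (hm : ∀ H, MXI A K π H → O[{p}](H) ≠ ⊥ → O[{q}](H) ≠ ⊥ → H ≤ N(⁅P, A⁆)) (n : ℕ) :
    ∀ H, Nat.card P - Nat.card ↥(P ⊓ H) = n → MXI A K π H → O[{q}](H) = ⊥ → H ≤ N(⁅P, A⁆) := by
  induction n using Nat.strong_induction_on with
  | _ n ih =>
  intro H hn hH h2
  by_cases e : P ≤ H
  · have := h.c4' hH.1 (by rw [h.ctop hH.1 h2]; exact le_top)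
    rwa [inf_eq_left.2 e] at this
  have s := h.hl hH.1
  have i2 := h.ivP.inf hH.1.nm
  have iR := h.ivP.inf (norm_N i2.nm)
  have s0 : P ⊓ H ≠ ⊥ := fun e1 => by
    rw [e1] at s
    have e2 : H = ⊥ := by rw [← pcore_eq_self s.compl_of_eq_bot, h.pc hH.1.pi, h2]
    exact h.ne0 ((hH.2 P h.ivP (e2 ▸ bot_le)).trans e2)
  have lt := h.sP.pi.nil.lt_norm (inf_lt_left.2 e)
  refine tfgen h.hp h.pr h.el hH.1.nm (fun e => h.pr.one_lt.ne' (Nat.eq_one_of_dvd_coprimes h.cop.cop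
    (h.card ▸ dvd_pow_self r two_ne_zero) (e.trans (card_dvd hH.1.le)))) (h.sv hH.1) ((h.pc hH.1.pi).trans h2) s s0
    ((inf_le_inf_right _ hH.1.le).trans (h.cN h.hp h.sP h.nP)) fun W w1 w0 w2 => ?_
  have w3 : A ≤ N(W) := i2.nm.trans w2
  have iN := hH.1.inf (norm_N w3)
  obtain ⟨H1, a1, a2⟩ := (h.join w0 (w1.trans i2.le) w3 (h.sP.pi.inf_left.of_le w1).solv iN iR inf_le_right
    (inf_le_right.trans w2)).exists_mx
  have a3 := le_sup_left.trans a1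
  by_cases c1 : O[{q}](H1) = ⊥
  · refine a3.trans (ih _ ?_ H1 rfl a2 c1)
    have k1 := card_lt (lt.trans_le (le_inf inf_le_left (le_sup_right.trans a1)) : P ⊓ H < P ⊓ H1)
    have k2 := card_le_of_le (inf_le_left : P ⊓ H1 ≤ P)
    omega
  by_cases c2 : O[{p}](H1) = ⊥
  swap
  · exact a3.trans (hm H1 a2 c2 c1)
  have iQ := h.symm.ivP.inf iN.nm
  have d1 : ⁅Q ⊓ (H ⊓ N(W)), A⁆ ≤ Q ⊓ (H ⊓ N(W)) := comm_le_left iQ.nm
  have d2 := h.le_pc a2.1.le a2.1.nm (h.sv a2.1) (comm_mono (inf_le_right.trans a3) le_rfl)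
    (h.sQ.pi.inf_left.of_le d1) (by rw [h.symm.ctop a2.1 c2]; exact le_top)
  have v1 : O[{p}](H) ≤ H1 := s.pcore_le.trans ((le_inf inf_le_right (le_N.trans w2)).trans a3)
  have d3 := h.csub hH.1 h2 (d1.trans (inf_le_right.trans inf_le_left)) (d1.trans inf_le_left) (by
    rw [← comm_eq_bot_iff, eq_bot_iff, ← (pcore_pi (π := {p}) (H := H)).inf_eq_bot (h.qp' (pcore_pi (H := H1)))]
    exact le_inf (comm_le_right ((d1.trans (inf_le_right.trans inf_le_left)).trans pcore_nml.norm))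
      ((comm_mono d2 le_rfl).trans (comm_le_left (v1.trans pcore_nml.norm))))
  exact (h.spl iN).trans (sup_le (inf_le_left.trans norm_comm_left) ((le_inf iQ.le (comm_eq_bot_iff.1 d3)).trans
    (h.cN h.hp h.sP h.nP)))

theorem ivS (h : PQ2 r p q π A K P Q) : IV A K π ⁅P, A⁆ := h.ivP.sub (comm_le_left h.nP) norm_comm_right

theorem s0 (h : PQ2 r p q π A K P Q) (c : ¬ Cen A P) : ⁅P, A⁆ ≠ ⊥ := fun e => by
  obtain ⟨b, hb, b1⟩ := h.exb A.one_mem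
  exact c ⟨b, hb, R2.ne1 b1, (comm_eq_bot_iff.1 e).trans (C_le_C1 hb)⟩

theorem nn (h : PQ2 r p q π A K P Q) (c : ¬ Cen A P) : ¬ Q ≤ N(⁅P, A⁆) := fun e =>
  h.no (h.join (h.s0 c) h.ivS.le h.ivS.nm (h.sv h.ivS) h.ivP h.symm.ivP norm_comm_left e).pi

theorem dich0 (h : PQ2 r p q π A K P Q) (c : ¬ Cen A P) (c' : ¬ Cen A Q) (hH : MXI A K π H) :
    O[{q}](H) = ⊥ ∨ O[{p}](H) = ⊥ := by
  by_contra e
  push Not at e
  exact h.no (hH.1.pi.of_le (sup_le ((h.step1 hH e.2 e.1).resolve_right c) ((h.symm.step1 hH e.1 e.2).resolve_right c')))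

theorem tf' (h : PQ2 r p q π A K P Q) (c : ¬ Cen A P) (c' : ¬ Cen A Q) (hH : MXI A K π H) (h2 : O[{q}](H) = ⊥) :
    H ≤ N(⁅P, A⁆) := h.tf (fun _ a b1 b2 => ((h.dich0 c c' a).elim b2 b1).elim) _ H rfl hH h2

theorem dich (h : PQ2 r p q π A K P Q) (c : ¬ Cen A P) (c' : ¬ Cen A Q) (hL : IV A K π L) :
    L ≤ N(⁅P, A⁆) ∨ L ≤ N(⁅Q, A⁆) := by
  obtain ⟨H, a1, a2⟩ := hL.exists_mx
  exact (h.dich0 c c' a2).imp (fun e => a1.trans (h.tf' c c' a2 e)) fun e => a1.trans (h.symm.tf' c' c a2 e)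

theorem dc (h : PQ2 r p q π A K P Q) (c : ¬ Cen A P) (c' : ¬ Cen A Q) (ha : a ∈ A) (a1 : a ≠ 1) :
    ua A Q a ≤ N(⁅P, A⁆) ∨ ua A P a ≤ N(⁅Q, A⁆) := by
  have i1 := h.ivP.sub (h.ua_le' h.nP ha) norm_ua
  have i2 := h.symm.ivP.sub (h.ua_le' h.nQ ha) norm_ua
  exact (h.dich c c' (i1.sup i2 (i1.pi.sup_norm i2.pi (cent_norm (h.cc ha a1 h.sP.le h.nP h.sP.pi h.sQ.le h.nQ
    (h.qp' h.sQ.pi)))))).imp le_sup_right.trans le_sup_left.trans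

theorem key (h : PQ2 r p q π A K P Q) (c : ¬ Cen A P) (c' : ¬ Cen A Q) (ha : a ∈ A) (a1 : a ≠ 1)
    (e : ¬ ua A Q a ≤ N(⁅P, A⁆)) : ⁅Q ⊓ N(⁅P, A⁆), A⁆ ≤ C1(a) := by
  have e1 := (h.dc c c' ha a1).resolve_left e
  have i1 := h.symm.ivP.inf (norm_N h.ivS.nm)
  obtain ⟨H, b1, b2⟩ := (h.join (h.s0 c) h.ivS.le h.ivS.nm (h.sv h.ivS) h.ivP i1 norm_comm_left inf_le_right).exists_mx
  have h2 : O[{q}](H) = ⊥ := (h.dich0 c c' b2).resolve_right fun e =>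
    h.symm.nn c' ((le_sup_left.trans b1).trans (h.symm.tf' c' c b2 e))
  have d1 : ⁅Q ⊓ N(⁅P, A⁆), A⁆ ≤ Q ⊓ N(⁅P, A⁆) := comm_le_left i1.nm
  have iD := i1.sub d1 norm_comm_right
  have d2 := d1.trans (le_sup_right.trans b1)
  have d3 := h.sQ.pi.inf_left.of_le d1
  have v0 : O[{p}](H) ≤ P := (h.hl b2.1).pcore_le.trans inf_le_left
  have v1 := v0.trans h.sP.le
  have v2 : A ≤ N(O[{p}](H)) := norm_pcore b2.1.nm
  have v3 : PiGrp {q}ᶜ O[{p}](H) := h.symm.qp' pcore_pi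
  have n := d2.trans (pcore_nml (π := {p})).norm
  have xy : ua A O[{p}](H) a ≤ C(⁅Q ⊓ N(⁅P, A⁆), A⁆) := by
    rw [← comm_eq_bot_iff, eq_bot_iff, ← h.inf0]
    exact le_inf (((comm_mono (ua_le_comm.trans (comm_mono v0 le_rfl)) le_rfl).trans (comm_le_left
      (d1.trans inf_le_right))).trans (comm_le_left h.nP)) (((comm_mono le_rfl (comm_mono inf_le_left le_rfl)).trans
      (comm_le_right ((ua_mono v0).trans e1))).trans (comm_le_left h.nQ))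
  have k := h.nz2 ha a1 (pcore_pi (π := {p})).nil v1 v2 v3 iD.le iD.nm d3 n ((h.ua_sup v1 v2 ha).trans
    (sup_le xy (h.cfix h.hq iD.le iD.nm d3 v1 v2 v3 n)))
  have k1 := comm_le_left (((zpowers_le).2 ha).trans iD.nm)
  have := comm_eq_bot_iff.1 (h.csub b2.1 h2 (k1.trans d2) (k1.trans (d1.trans inf_le_left)) k)
  rwa [C_zpowers] at this

theorem exB (h : PQ2 r p q π A K P Q) (c : ¬ Cen A P) : ∃ a ∈ A, a ≠ 1 ∧ ¬ ua A Q a ≤ N(⁅P, A⁆) := by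
  by_contra e
  push Not at e
  exact h.nn c (h.gen0 h.sQ.le h.nQ ((inf_le_inf_right _ h.sQ.le).trans (h.cN h.hp h.sP h.nP)) e)

theorem lemN1 (h : PQ2 r p q π A K P Q) (c : ¬ Cen A P) (c' : ¬ Cen A Q) (hb : b ∈ A) (b1 : b ≠ 1)
    (e : ua A Q b ≤ N(⁅P, A⁆)) : ua A Q b = ⊥ := by
  obtain ⟨a, ha, a1, e'⟩ := h.exB c
  have hba : b ∉ zpowers a := fun k => e' (by rwa [ua, ← h.c1 ha a1 k b1])
  rw [← h.ua_comm h.sQ.le h.nQ hb, comm_eq_bot_iff, ← h.two ha a1 hb hba]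
  refine le_inf ((h.ua_le h.nQ hb).trans inf_le_right) ?_
  rw [← h.ua_comm h.sQ.le h.nQ hb]
  exact (comm_mono (le_inf (h.ua_le' h.nQ hb) e) le_rfl).trans (h.key c c' ha a1 e')

theorem lemN2 (h : PQ2 r p q π A K P Q) (c : ¬ Cen A P) (c' : ¬ Cen A Q) (hb : b ∈ A) (b1 : b ≠ 1) :
    ua A Q b = ⊥ ∨ ua A P b = ⊥ :=
  (h.dc c c' hb b1).imp (h.lemN1 c c' hb b1) (h.symm.lemN1 c' c hb b1)

theorem _root_.H3.Pt.R2.ex2 (h : R2 r A K) (q1 : Q ≤ K) (q2 : A ≤ N(Q)) (c' : ¬ Cen A Q) (ha : a ∈ A) (a1 : a ≠ 1) :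
    ∃ b ∈ A, b ∉ zpowers a ∧ ua A Q b ≠ ⊥ := by
  by_contra e
  push Not at e
  refine c' ⟨a, ha, a1, h.gen2 q1 q2 ha a1 inf_le_right fun b hb hab => (h.ua_sup q1 q2 hb).trans ?_⟩
  rw [e b hb hab, bot_sup_eq]
  exact inf_le_right.trans (C_le_C1 ha)

theorem lemN3 (h : PQ2 r p q π A K P Q) (c : ¬ Cen A P) (c' : ¬ Cen A Q) : Q ⊓ N(⁅P, A⁆) ≤ C(A) := by
  obtain ⟨a, ha, a1, e⟩ := h.exB c
  obtain ⟨b, hb, hab, e'⟩ := h.ex2 h.sQ.le h.nQ c' ha a1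
  have i1 := h.symm.ivP.inf (norm_N h.ivS.nm)
  refine (h.cop.sub i1.le i1.nm).cent_of_comm_cent ?_
  rw [← h.two ha a1 hb hab]
  exact le_inf (h.key c c' hb (R2.ne1 hab) fun k => e' (h.lemN1 c c' hb (R2.ne1 hab) k)) (h.key c c' ha a1 e)

theorem beta (h : PQ2 r 2 q π A K T Q) (c : ¬ Cen A T) (hL : IV A K π L) (e : T ⊓ L ≠ ⊥) : L ≤ N(T) := by
  have t := h.tt h.sP.le h.nP h.sP.pi
  by_cases c' : Cen A Q
  · obtain ⟨H, a1, a2⟩ := hL.exists_mx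
    have i := h.ivP.inf a2.1.nm
    have k := h.cenN c' a2.1
    rw [h.tt i.le i.nm h.sP.pi.inf_left] at k
    have k2 := h.top (h.mx_le' a2 i (fun e' => e (eq_bot_iff.2 (e' ▸ inf_le_inf_left _ a1))) k
      (h.ivP.inf (norm_N i.nm)) inf_le_right)
    rw [inf_eq_left.2 k2] at k
    exact a1.trans k
  rcases h.dich c c' hL with k | k
  · rwa [t] at k
  · exact absurd (eq_bot_iff.2 (h.two0 h.sP.le h.sP.pi ▸ le_inf inf_le_left
      ((inf_le_inf_left _ k).trans (h.symm.lemN3 c' c)))) e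

theorem alpha (h : PQ2 r p q π A K P Q) (c : ¬ Cen A P) (hb : b ∈ A) (b1 : b ≠ 1) (e : Q ≤ C1(b)) :
    ua A P b = ⊥ := by
  by_contra e0
  have c' : Cen A Q := ⟨b, hb, b1, e⟩
  have i1 := h.ivP.sub (h.ua_le' h.nP hb) norm_ua
  have n : Q ≤ N(ua A P b) := (le_inf le_rfl e).trans ((h.ua_sup h.sQ.le h.nQ hb).trans (sup_le
    (cent_norm (h.cc hb b1 h.sQ.le h.nQ h.sQ.pi h.sP.le h.nP (h.symm.qp' h.sP.pi)))
    (norm_comm (norm_inf ((inf_le_inf_right _ h.sQ.le).trans (h.nor p P h.hp h.sP h.nP))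
      (norm_C1 (inf_le_right.trans (C_le_C1 hb)))) (inf_le_right.trans C_le_N))))
  obtain ⟨H, a1, a2⟩ := (i1.sup h.symm.ivP (i1.pi.sup_norm' h.symm.ivP.pi n)).exists_mx
  have i2 := h.ivP.inf a2.1.nm
  have y : ⁅P ⊓ H, A⁆ ≤ P ⊓ H := comm_le_left i2.nm
  have h1 : O[{p}](H) ≠ ⊥ := fun e' => e0 (eq_bot_iff.2 (e' ▸ ((h.ua_comm h.sP.le h.nP hb).ge.trans (comm_mono
    (le_inf (h.ua_le' h.nP hb) (le_sup_left.trans a1)) le_rfl)).trans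
    (le_pcore ⟨y.trans inf_le_right, h.cenN c' a2.1⟩ (h.sP.pi.inf_left.of_le y))))
  have hm : ∀ H, MXI A K π H → O[{p}](H) ≠ ⊥ → O[{q}](H) ≠ ⊥ → H ≤ N(⁅P, A⁆) := fun H k k1 k2 => by
    have := h.cenN c' k.1
    rwa [inf_eq_left.2 ((h.step1 k k1 k2).resolve_right c)] at this
  refine h.nn c ((le_sup_right.trans a1).trans ?_)
  by_cases h2 : O[{q}](H) = ⊥
  exacts [h.tf hm _ H rfl a2 h2, hm H a2 h1 h2]

end PQ2
end H3.Pt
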